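import Mathlib

set_option autoImplicit false

/-!
Recognition of small alternating and symmetric groups through actions.
-/

namespace CfsgH9.Recog

open scoped Nat

theorem perm_of_inj {H : Type*} [Group H] [Finite H] {n : ℕ} (f : H →* Equiv.Perm (Fin n)) (hf : Function.Injective f)
    (hc : Nat.card H = n !) : Nonempty (H ≃* Equiv.Perm (Fin n)) := by
  have h1 : Nat.card (Equiv.Perm (Fin n)) = n ! := by
    rw [Nat.card_eq_fintype_card, Fintype.card_perm, Fintype.card_fin]
  have h2 : Function.Bijective f := by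
    rw [Nat.bijective_iff_injective_and_card]
    exact ⟨hf, by rw [hc, h1]⟩
  exact ⟨MulEquiv.ofBijective f h2⟩

theorem alt_of_inj {H : Type*} [Group H] [Finite H] {n : ℕ} (f : H →* Equiv.Perm (Fin n)) (hf : Function.Injective f)
    (hc : 2 * Nat.card H = n !) : Nonempty (H ≃* alternatingGroup (Fin n)) := by
  have h1 : Nat.card (Equiv.Perm (Fin n)) = n ! := by
    rw [Nat.card_eq_fintype_card, Fintype.card_perm, Fintype.card_fin]
  have h2 : Nat.card f.range = Nat.card H := Nat.card_congr (MonoidHom.ofInjective hf).symm.toEquiv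
  have h3 : f.range.index = 2 := by
    have h4 := Subgroup.card_mul_index f.range
    rw [h1, h2, ← hc, mul_comm] at h4
    exact Nat.eq_of_mul_eq_mul_right Nat.card_pos h4
  have h5 := Equiv.Perm.eq_alternatingGroup_of_index_eq_two h3
  rw [← h5]
  exact ⟨MonoidHom.ofInjective hf⟩

theorem inj_of_faithful {H : Type*} [Group H] {α : Type*} [Finite α] [MulAction H α] {n : ℕ} (hα : Nat.card α = n)
    (hfa : ∀ g : H, (∀ a : α, g • a = a) → g = 1) : ∃ f : H →* Equiv.Perm (Fin n), Function.Injective f := by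
  have e : α ≃ Fin n := Finite.equivFinOfCardEq hα
  refine ⟨(e.permCongrHom.toMonoidHom).comp (MulAction.toPermHom H α), ?_⟩
  apply e.permCongrHom.injective.comp
  rw [injective_iff_map_eq_one]
  intro g hg
  apply hfa
  intro a
  exact congrArg (fun s : Equiv.Perm α => s a) hg

theorem perm_of_faithful {H : Type*} [Group H] [Finite H] {α : Type*} [Finite α] [MulAction H α] {n : ℕ} (hα : Nat.card α = n)
    (hfa : ∀ g : H, (∀ a : α, g • a = a) → g = 1) (hc : Nat.card H = n !) : Nonempty (H ≃* Equiv.Perm (Fin n)) := by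
  obtain ⟨f, hf⟩ := inj_of_faithful hα hfa
  exact perm_of_inj f hf hc

theorem alt_of_faithful {H : Type*} [Group H] [Finite H] {α : Type*} [Finite α] [MulAction H α] {n : ℕ} (hα : Nat.card α = n)
    (hfa : ∀ g : H, (∀ a : α, g • a = a) → g = 1) (hc : 2 * Nat.card H = n !) : Nonempty (H ≃* alternatingGroup (Fin n)) := by
  obtain ⟨f, hf⟩ := inj_of_faithful hα hfa
  exact alt_of_inj f hf hc

theorem core_of_faithful {H : Type*} [Group H] {T : Subgroup H} (hT : T.normalCore = ⊥) (g : H) (hg : ∀ a : H ⧸ T, g • a = a) : g = 1 := by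
  have h1 : g ∈ T.normalCore := by
    intro b
    have h2 := hg (QuotientGroup.mk b⁻¹)
    have h3 : ((g * b⁻¹ : H) : H ⧸ T) = (b⁻¹ : H) := h2
    rw [eq_comm, QuotientGroup.eq, inv_inv] at h3
    rw [mul_assoc]; exact h3
  rw [hT] at h1
  exact h1

theorem perm_of_core {H : Type*} [Group H] [Finite H] {n : ℕ} (T : Subgroup H) (hi : T.index = n) (hT : T.normalCore = ⊥)
    (hc : Nat.card H = n !) : Nonempty (H ≃* Equiv.Perm (Fin n)) :=
  perm_of_faithful (α := H ⧸ T) hi (core_of_faithful hT) hc

theorem alt_of_core {H : Type*} [Group H] [Finite H] {n : ℕ} (T : Subgroup H) (hi : T.index = n) (hT : T.normalCore = ⊥)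
    (hc : 2 * Nat.card H = n !) : Nonempty (H ≃* alternatingGroup (Fin n)) :=
  alt_of_faithful (α := H ⧸ T) hi (core_of_faithful hT) hc

end CfsgH9.Recog
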