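import Cfsg.Agent.H9.SLt4
import Cfsg.Agent.H9.Recog

set_option autoImplicit false

/-!
Building `A₅` from a four-group, an element of order three and an involution.
-/

namespace CfsgH9.A5b

section
variable {G : Type*} [Group G] [Finite G]

omit [Finite G] in
theorem mem1 {S : Subgroup G} {g : G} (h : g = 1) : g ∈ S := by rw [h]; exact one_mem S

omit [Finite G] in
theorem meme {S : Subgroup G} {g h : G} (e : g = h) (hh : h ∈ S) : g ∈ S := by rw [e]; exact hh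

structure Dat (x y ρ t : G) : Prop where
  hx : x * x = 1
  hy : y * y = 1
  hxy : x * y = y * x
  hx1 : x ≠ 1
  hy1 : y ≠ 1
  hne : x ≠ y
  r1 : ρ * x * ρ⁻¹ = y
  r2 : ρ * y * ρ⁻¹ = x * y
  r3 : ρ ^ 3 = 1
  ht : t * t = 1
  trt : t * ρ * t = ρ⁻¹
  txt : t * x * t = x * t * x

variable {x y ρ t : G} (D : Dat x y ρ t)

include D

omit [Finite G] in
theorem t1 : t ≠ 1 := by
  intro h
  have e1 := D.txt
  rw [h] at e1
  simp only [one_mul, mul_one] at e1
  rw [D.hx] at e1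
  exact D.hx1 e1

/-- the four-group -/
abbrev V : Subgroup G := SLt.kf x y D.hx D.hy D.hxy

omit [Finite G] in
theorem mV {v : G} : v ∈ V D ↔ v = 1 ∨ v = x ∨ v = y ∨ v = x * y := SLt.mem_kf

omit [Finite G] in
theorem xV : x ∈ V D := (mV D).2 (by simp)
omit [Finite G] in
theorem yV : y ∈ V D := (mV D).2 (by simp)

omit [Finite G] in
theorem Vc (a : G) (ha : a ∈ V D) (b : G) (hb : b ∈ V D) : a * b = b * a := by
  have hsq : ∀ a ∈ V D, a * a = 1 := by
    intro a ha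
    rcases (mV D).1 ha with h | h | h | h
    · rw [h, one_mul]
    · rw [h, D.hx]
    · rw [h, D.hy]
    · rw [h]
      nth_rewrite 2 [D.hxy]
      rw [mul_assoc, ← mul_assoc y y x, D.hy, one_mul, D.hx]
  have e1 : a⁻¹ = a := inv_eq_of_mul_eq_one_left (hsq a ha)
  have e2 : b⁻¹ = b := inv_eq_of_mul_eq_one_left (hsq b hb)
  have e3 : (a * b)⁻¹ = a * b := inv_eq_of_mul_eq_one_left (hsq _ (mul_mem ha hb))
  rw [mul_inv_rev, e1, e2] at e3
  exact e3.symm

omit [Finite G] in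
theorem r4 : ρ * (x * y) * ρ⁻¹ = x := by
  have : ρ * (x * y) * ρ⁻¹ = (ρ * x * ρ⁻¹) * (ρ * y * ρ⁻¹) := by group
  rw [this, D.r1, D.r2, D.hxy, ← mul_assoc, D.hy, one_mul]

omit [Finite G] in
theorem rV {v : G} (hv : v ∈ V D) : ρ * v * ρ⁻¹ ∈ V D := by
  rcases (mV D).1 hv with h | h | h | h
  · rw [h]; simpa using one_mem _
  · rw [h, D.r1]; exact yV D
  · rw [h, D.r2]; exact mul_mem (xV D) (yV D)
  · rw [h, r4 D]; exact xV D

omit [Finite G] in
theorem rkV (k : ℕ) {v : G} (hv : v ∈ V D) : ρ ^ k * v * (ρ ^ k)⁻¹ ∈ V D := by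
  induction k with
  | zero => simpa using hv
  | succ k ih =>
    have : ρ ^ (k + 1) * v * (ρ ^ (k + 1))⁻¹ = ρ * (ρ ^ k * v * (ρ ^ k)⁻¹) * ρ⁻¹ := by rw [pow_succ']; group
    rw [this]
    exact rV D ih

omit [Finite G] in
theorem rkinv (k : ℕ) : (ρ ^ k)⁻¹ = ρ ^ (2 * k) := by
  apply inv_eq_of_mul_eq_one_right
  rw [← pow_add]
  have : k + 2 * k = 3 * k := by ring
  rw [this, pow_mul, D.r3, one_pow]

omit [Finite G] in
theorem rkV' (k : ℕ) {v : G} (hv : v ∈ V D) : (ρ ^ k)⁻¹ * v * ρ ^ k ∈ V D := by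
  have h := rkV D (2 * k) hv
  rw [← rkinv D k, inv_inv] at h
  exact h

omit [Finite G] in
theorem xk {v : G} (hv : v ∈ V D) (h1 : v ≠ 1) : ∃ k : ℕ, v = ρ ^ k * x * (ρ ^ k)⁻¹ := by
  rcases (mV D).1 hv with h | h | h | h
  · exact absurd h h1
  · exact ⟨0, by rw [h]; simp⟩
  · exact ⟨1, by rw [h, pow_one, D.r1]⟩
  · refine ⟨2, ?_⟩
    have : ρ ^ 2 * x * (ρ ^ 2)⁻¹ = ρ * (ρ * x * ρ⁻¹) * ρ⁻¹ := by rw [pow_two]; group
    rw [this, D.r1, D.r2, h]

omit [Finite G] in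
theorem rnV : ρ ∉ V D := by
  intro h
  have h1 := Vc D ρ h x (xV D)
  have h2 := D.r1
  rw [h1, mul_inv_cancel_right] at h2
  exact D.hne h2

omit [Finite G] in
theorem rkmem {k : ℕ} (h : ρ ^ k ∈ V D) : ρ ^ k = 1 := by
  have e : ρ ^ k = ρ ^ (k % 3) := by
    conv_lhs => rw [← Nat.div_add_mod k 3, pow_add, pow_mul, D.r3, one_pow, one_mul]
  rw [e] at h ⊢
  have : k % 3 < 3 := Nat.mod_lt _ (by norm_num)
  interval_cases k % 3
  · exact pow_zero _
  · exfalso; rw [pow_one] at h; exact rnV D h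
  · exfalso
    have h2 := mul_mem h h
    have h3 : ρ ^ 2 * ρ ^ 2 = ρ := by
      rw [← pow_add, show 2 + 2 = 3 + 1 by norm_num, pow_add, D.r3, pow_one, one_mul]
    rw [h3] at h2
    exact rnV D h2

/-- the subgroup `A₄` -/
def A : Subgroup G where
  carrier := {g | ∃ v ∈ V D, ∃ k : ℕ, g = v * ρ ^ k}
  one_mem' := ⟨1, one_mem _, 0, by simp⟩
  mul_mem' := by
    rintro a b ⟨v, hv, k, rfl⟩ ⟨w, hw, l, rfl⟩
    refine ⟨v * (ρ ^ k * w * (ρ ^ k)⁻¹), mul_mem hv (rkV D k hw), k + l, ?_⟩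
    rw [pow_add]; group
  inv_mem' := by
    rintro a ⟨v, hv, k, rfl⟩
    refine ⟨(ρ ^ k)⁻¹ * v⁻¹ * ρ ^ k, rkV' D k (inv_mem hv), 2 * k, ?_⟩
    rw [← rkinv D k]; group

omit [Finite G] in
theorem mA {g : G} : g ∈ A D ↔ ∃ v ∈ V D, ∃ k : ℕ, g = v * ρ ^ k := Iff.rfl

omit [Finite G] in
theorem VA {v : G} (hv : v ∈ V D) : v ∈ A D := ⟨v, hv, 0, by simp⟩
omit [Finite G] in
theorem rA (k : ℕ) : ρ ^ k ∈ A D := ⟨1, one_mem _, k, by simp⟩

omit [Finite G] in
theorem trk (k : ℕ) : t * ρ ^ k * t = (ρ ^ k)⁻¹ := by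
  induction k with
  | zero => simpa using D.ht
  | succ k ih =>
    calc t * ρ ^ (k + 1) * t = (t * ρ ^ k * t) * (t⁻¹ * t⁻¹) * (t * ρ * t) := by rw [pow_succ]; group
      _ = _ := by
        have : t⁻¹ * t⁻¹ = 1 := by rw [← mul_inv_rev, D.ht, inv_one]
        rw [this, ih, D.trt, pow_succ']; group

omit [Finite G] in
theorem tnA : t ∉ A D := by
  rintro ⟨v, hv, k, h⟩
  have e1 := D.trt
  have e2 : t * ρ * t⁻¹ = v * ρ * v⁻¹ := by rw [h]; group
  have e3 : t⁻¹ = t := inv_eq_of_mul_eq_one_left D.ht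
  rw [e3, e1] at e2
  -- ρ⁻¹ = v ρ v⁻¹
  have e4 : ρ ^ 2 ∈ V D := by
    have : ρ ^ 2 = ((v * (ρ * v⁻¹ * ρ⁻¹)))⁻¹ := by
      have h5 : v * (ρ * v⁻¹ * ρ⁻¹) = ρ⁻¹ * ρ⁻¹ := by
        calc v * (ρ * v⁻¹ * ρ⁻¹) = (v * ρ * v⁻¹) * ρ⁻¹ := by group
          _ = _ := by rw [← e2]
      rw [h5, pow_two, mul_inv_rev, inv_inv]
    rw [this]
    exact inv_mem (mul_mem hv (rV D (inv_mem hv)))
  have e5 := rkmem D e4
  have e6 : ρ = 1 := by
    have := D.r3
    rw [pow_succ, e5, one_mul] at this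
    exact this
  exact rnV D (mem1 e6)

omit [Finite G] in
/-- `t v t` for a nontrivial `v` -/
theorem tvt {v : G} (hv : v ∈ V D) (h1 : v ≠ 1) : ∃ w ∈ V D, ∃ a ∈ A D, t * v * t = w * t * a := by
  obtain ⟨k, hk⟩ := xk D hv h1
  refine ⟨(ρ ^ k)⁻¹ * x * ρ ^ k, rkV' D k (xV D), ρ ^ k * (x * ρ ^ k), mul_mem (rA D k) (mul_mem (VA D (xV D)) (rA D k)), ?_⟩
  have e1 := trk D k
  have ht' : t⁻¹ = t := inv_eq_of_mul_eq_one_left D.ht
  have e2 : t * ρ ^ k = (ρ ^ k)⁻¹ * t := by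
    rw [← e1, mul_assoc, D.ht, mul_one]
  have e3 : (ρ ^ k)⁻¹ * t = t * ρ ^ k := e2.symm
  have e4 : ρ ^ k * t = t * (ρ ^ k)⁻¹ := by
    rw [← e1, ← mul_assoc, ← mul_assoc, D.ht, one_mul]
  calc t * v * t = (t * ρ ^ k) * x * ((ρ ^ k)⁻¹ * t) := by rw [hk]; group
    _ = ((ρ ^ k)⁻¹ * t) * x * (t * ρ ^ k) := by rw [e2]
    _ = (ρ ^ k)⁻¹ * (t * x * t) * ρ ^ k := by group
    _ = (ρ ^ k)⁻¹ * x * t * x * ρ ^ k := by rw [D.txt]; group
    _ = (ρ ^ k)⁻¹ * x * (ρ ^ k * ((ρ ^ k)⁻¹ * t)) * x * ρ ^ k := by group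
    _ = (ρ ^ k)⁻¹ * x * (ρ ^ k * (t * ρ ^ k)) * x * ρ ^ k := by rw [e3]
    _ = _ := by group

omit [Finite G] in
theorem tvt_not {v : G} (hv : v ∈ V D) (h1 : v ≠ 1) : t * v * t ∉ A D := by
  intro h
  obtain ⟨w, hw, a, ha, e⟩ := tvt D hv h1
  rw [e] at h
  apply tnA D
  have : t = w⁻¹ * (w * t * a) * a⁻¹ := by group
  exact meme this (mul_mem (mul_mem (inv_mem (VA D hw)) h) (inv_mem ha))

/-- the big subgroup -/
def T : Subgroup G where
  carrier := {g | g ∈ A D ∨ ∃ v ∈ V D, ∃ a ∈ A D, g = v * t * a}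
  one_mem' := Or.inl (one_mem _)
  mul_mem' := by
    -- a * (v t a')
    have hA : ∀ a ∈ A D, ∀ g : G, (∃ v ∈ V D, ∃ a ∈ A D, g = v * t * a) → ∃ v ∈ V D, ∃ a' ∈ A D, a * g = v * t * a' := by
      rintro _ ⟨w, hw, k, rfl⟩ _ ⟨v, hv, a', ha', rfl⟩
      refine ⟨w * (ρ ^ k * v * (ρ ^ k)⁻¹), mul_mem hw (rkV D k hv), (ρ ^ k)⁻¹ * a', mul_mem (inv_mem (rA D k)) ha', ?_⟩
      have e4 : ρ ^ k * t = t * (ρ ^ k)⁻¹ := by
        rw [← trk D k, ← mul_assoc, ← mul_assoc, D.ht, one_mul]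
      calc w * ρ ^ k * (v * t * a') = w * (ρ ^ k * v * (ρ ^ k)⁻¹) * (ρ ^ k * t) * a' := by group
        _ = _ := by rw [e4]; group
    rintro g h (hg | ⟨v, hv, a, ha, rfl⟩) hh
    · rcases hh with hh | hh
      · exact Or.inl (mul_mem hg hh)
      · exact Or.inr (hA g hg h hh)
    · rcases hh with hh | ⟨w, hw, b, hb, rfl⟩
      · exact Or.inr ⟨v, hv, a * h, mul_mem ha hh, by group⟩
      · -- v t (a w) t b
        obtain ⟨u, hu, k, e⟩ := mul_mem ha (VA D hw)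
        have e5 : v * t * a * (w * t * b) = v * (t * u * t) * ((t⁻¹ * ρ ^ k * t) * b) := by
          calc v * t * a * (w * t * b) = v * t * (a * w) * t * b := by group
            _ = v * t * (u * ρ ^ k) * t * b := by rw [e]
            _ = _ := by group
        have ht' : t⁻¹ = t := inv_eq_of_mul_eq_one_left D.ht
        rw [ht', trk D k] at e5
        rw [e5]
        by_cases hu1 : u = 1
        · left
          rw [hu1, mul_one, D.ht, mul_one]
          exact mul_mem (VA D hv) (mul_mem (inv_mem (rA D k)) hb)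
        · right
          obtain ⟨w', hw', a', ha', e6⟩ := tvt D hu hu1
          refine ⟨v * w', mul_mem hv hw', a' * ((ρ ^ k)⁻¹ * b), mul_mem ha' (mul_mem (inv_mem (rA D k)) hb), ?_⟩
          rw [e6]; group
  inv_mem' := by
    have hA : ∀ a ∈ A D, ∀ b ∈ A D, ∃ v ∈ V D, ∃ a' ∈ A D, a * t * b = v * t * a' := by
      rintro _ ⟨w, hw, k, rfl⟩ b hb
      refine ⟨w, hw, (ρ ^ k)⁻¹ * b, mul_mem (inv_mem (rA D k)) hb, ?_⟩
      have e4 : ρ ^ k * t = t * (ρ ^ k)⁻¹ := by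
        rw [← trk D k, ← mul_assoc, ← mul_assoc, D.ht, one_mul]
      calc w * ρ ^ k * t * b = w * (ρ ^ k * t) * b := by group
        _ = _ := by rw [e4]; group
    rintro g (hg | ⟨v, hv, a, ha, rfl⟩)
    · exact Or.inl (inv_mem hg)
    · right
      have ht' : t⁻¹ = t := inv_eq_of_mul_eq_one_left D.ht
      have e : (v * t * a)⁻¹ = a⁻¹ * t * v⁻¹ := by
        rw [mul_inv_rev, mul_inv_rev, ht']; group
      change ∃ v_1 ∈ V D, ∃ a_1 ∈ A D, (v * t * a)⁻¹ = v_1 * t * a_1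
      rw [e]
      exact hA _ (inv_mem ha) _ (inv_mem (VA D hv))

omit [Finite G] in
theorem mT {g : G} : g ∈ T D ↔ g ∈ A D ∨ ∃ v ∈ V D, ∃ a ∈ A D, g = v * t * a := Iff.rfl

theorem cardA : Nat.card (A D) = 12 := by
  have hV : Nat.card (V D) = 4 := SLt.card_kf D.hx D.hy D.hxy D.hx1 D.hy1 D.hne
  have hb : Function.Bijective (fun p : V D × Fin 3 => (⟨(p.1 : G) * ρ ^ (p.2 : ℕ), ⟨p.1, p.1.2, p.2, rfl⟩⟩ : A D)) := by
    constructor
    · rintro ⟨v, i⟩ ⟨w, j⟩ h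
      have h' : (v : G) * ρ ^ (i : ℕ) = w * ρ ^ (j : ℕ) := congrArg Subtype.val h
      have key : ∀ (v w : V D) (i j : Fin 3), (i : ℕ) ≤ j → (v : G) * ρ ^ (i : ℕ) = w * ρ ^ (j : ℕ) → (v, i) = (w, j) := by
        intro v w i j hij h
        obtain ⟨k, hk⟩ := Nat.exists_eq_add_of_le hij
        have h1 : ρ ^ k ∈ V D := by
          have : ρ ^ k = (w : G)⁻¹ * v := by
            rw [hk, pow_add] at h
            have h2 : (v : G) * ρ ^ (i : ℕ) = w * ρ ^ k * ρ ^ (i : ℕ) := by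
              rw [h, mul_assoc, ← pow_add, ← pow_add, add_comm]
            rw [eq_inv_mul_iff_mul_eq]
            exact (mul_right_cancel h2).symm
          rw [this]
          exact mul_mem (inv_mem w.2) v.2
        have h2 := rkmem D h1
        have h3 : k = 0 := by
          have hk3 : k < 3 := by have := j.2; omega
          interval_cases k
          · rfl
          · exfalso; rw [pow_one] at h2; exact rnV D (mem1 h2)
          · exfalso
            have := D.r3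
            rw [pow_succ, h2, one_mul] at this
            exact rnV D (mem1 this)
        have h4 : i = j := Fin.ext (by omega)
        subst h4
        have h5 : v = w := Subtype.ext (mul_right_cancel h)
        rw [h5]
      rcases le_total (i : ℕ) j with h1 | h1
      · exact key v w i j h1 h'
      · exact (key w v j i h1 h'.symm).symm
    · rintro ⟨g, v, hv, k, hg⟩
      refine ⟨⟨⟨v, hv⟩, ⟨k % 3, Nat.mod_lt _ (by norm_num)⟩⟩, ?_⟩
      apply Subtype.ext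
      change v * ρ ^ (k % 3) = g
      rw [hg]
      congr 1
      conv_rhs => rw [← Nat.div_add_mod k 3, pow_add, pow_mul, D.r3, one_pow, one_mul]
  rw [← Nat.card_congr (Equiv.ofBijective _ hb), Nat.card_prod, hV, Nat.card_eq_fintype_card, Fintype.card_fin]

theorem main : Nonempty (T D ≃* alternatingGroup (Fin 5)) := by
  classical
  have hAT : A D ≤ T D := fun g hg => Or.inl hg
  have htT : t ∈ T D := Or.inr ⟨1, one_mem _, 1, one_mem _, by simp⟩
  have hV : Nat.card (V D) = 4 := SLt.card_kf D.hx D.hy D.hxy D.hx1 D.hy1 D.hne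
  have ht' : t⁻¹ = t := inv_eq_of_mul_eq_one_left D.ht
  set B := (A D).subgroupOf (T D) with hB
  have hBc : Nat.card B = 12 := by
    rw [hB, Nat.card_congr (Subgroup.subgroupOfEquivOfLe hAT).toEquiv, cardA D]
  -- the cosets
  let s : Option (V D) → T D := fun o => match o with
    | none => 1
    | some v => ⟨v * t, Or.inr ⟨v, v.2, 1, one_mem _, by simp⟩⟩
  have hb : Function.Bijective (fun o => (QuotientGroup.mk (s o) : T D ⧸ B)) := by
    constructor
    · intro o o' h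
      have h1 : (s o)⁻¹ * s o' ∈ B := QuotientGroup.eq.1 h
      rw [hB, Subgroup.mem_subgroupOf] at h1
      rcases o with _ | v <;> rcases o' with _ | w
      · rfl
      · exfalso
        have h2 : (w : G) * t ∈ A D := by simpa [s] using h1
        exact tnA D (((A D).mul_mem_cancel_left (VA D w.2)).1 h2)
      · exfalso
        have h2 : ((v : G) * t)⁻¹ ∈ A D := by simpa [s] using h1
        exact tnA D (((A D).mul_mem_cancel_left (VA D v.2)).1 ((A D).inv_mem_iff.1 h2))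
      · have h2 : ((v : G) * t)⁻¹ * (w * t) ∈ A D := h1
        have h3 : ((v : G) * t)⁻¹ * (w * t) = t * ((v : G)⁻¹ * w) * t := by
          rw [mul_inv_rev, ht']; group
        rw [h3] at h2
        by_contra hne
        refine tvt_not D (mul_mem (inv_mem v.2) w.2) ?_ h2
        intro h4
        apply hne
        congr 1
        exact Subtype.ext (inv_mul_eq_one.1 h4)
    · intro q
      induction q using QuotientGroup.induction_on with | H g =>
      obtain ⟨g, hg⟩ := g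
      rcases hg with hg | ⟨v, hv, a, ha, rfl⟩
      · refine ⟨none, ?_⟩
        rw [QuotientGroup.eq, hB, Subgroup.mem_subgroupOf]
        simpa [s] using hg
      · refine ⟨some ⟨v, hv⟩, ?_⟩
        rw [QuotientGroup.eq, hB, Subgroup.mem_subgroupOf]
        change (v * t)⁻¹ * (v * t * a) ∈ A D
        rw [inv_mul_cancel_left]
        exact ha
  have hidx : B.index = 5 := by
    rw [Subgroup.index, ← Nat.card_congr (Equiv.ofBijective _ hb), Finite.card_option, hV]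
  have hTc : Nat.card (T D) = 60 := by
    rw [← Subgroup.card_mul_index B, hBc, hidx]
  refine Recog.alt_of_core B hidx ?_ (by rw [hTc]; rfl)
  rw [eq_bot_iff]
  intro g hg
  have hn : B.normalCore.Normal := Subgroup.normalCore_normal B
  -- elements of the core are powers of ρ
  have hpow : ∀ g ∈ B.normalCore, ∃ k : ℕ, (g : G) = ρ ^ k := by
    intro g hg
    have h1 := Subgroup.normalCore_le B hg
    rw [hB, Subgroup.mem_subgroupOf] at h1
    obtain ⟨v, hv, k, e⟩ := h1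
    have h2 := Subgroup.normalCore_le B (hn.conj_mem g hg ⟨t, htT⟩)
    rw [hB, Subgroup.mem_subgroupOf] at h2
    have h3 : t * (g : G) * t⁻¹ ∈ A D := h2
    rw [ht', e] at h3
    have h4 : t * (v * ρ ^ k) * t = (t * v * t) * (ρ ^ k)⁻¹ := by
      rw [← trk D k]
      calc t * (v * ρ ^ k) * t = t * v * (t * t) * ρ ^ k * t := by rw [D.ht]; group
        _ = _ := by group
    rw [h4] at h3
    have h5 : t * v * t ∈ A D := ((A D).mul_mem_cancel_right (inv_mem (rA D k))).1 h3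
    have h6 : v = 1 := by
      by_contra hv1
      exact tvt_not D hv hv1 h5
    exact ⟨k, by rw [e, h6, one_mul]⟩
  obtain ⟨k, hk⟩ := hpow g hg
  obtain ⟨l, hl⟩ := hpow _ (hn.conj_mem g hg ⟨x, hAT (VA D (xV D))⟩)
  have hl' : x * ρ ^ k * x⁻¹ = ρ ^ l := by rw [← hl, ← hk]; rfl
  -- x commutes with ρ^k
  have h7 : x * (ρ ^ k * x⁻¹ * (ρ ^ k)⁻¹) = ρ ^ l * (ρ ^ k)⁻¹ := by rw [← hl']; group
  have h8 : ρ ^ (l + 2 * k) ∈ V D := by
    rw [pow_add, ← rkinv D k, ← h7]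
    exact mul_mem (xV D) (rkV D k (inv_mem (xV D)))
  have h9 := rkmem D h8
  rw [pow_add, ← rkinv D k, ← h7] at h9
  have h10 : ρ ^ k * x * (ρ ^ k)⁻¹ = x := by
    have h11 : (ρ ^ k * x⁻¹ * (ρ ^ k)⁻¹) = x⁻¹ := (inv_eq_of_mul_eq_one_right h9).symm
    have h12 := congrArg Inv.inv h11
    rw [inv_inv] at h12
    calc ρ ^ k * x * (ρ ^ k)⁻¹ = (ρ ^ k * x⁻¹ * (ρ ^ k)⁻¹)⁻¹ := by group
      _ = x := h12
  have h13 : ρ ^ k = 1 := by
    have e : ρ ^ k = ρ ^ (k % 3) := by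
      conv_lhs => rw [← Nat.div_add_mod k 3, pow_add, pow_mul, D.r3, one_pow, one_mul]
    rw [e] at h10 ⊢
    have : k % 3 < 3 := Nat.mod_lt _ (by norm_num)
    interval_cases k % 3
    · exact pow_zero _
    · exfalso
      rw [pow_one, D.r1] at h10
      exact D.hne h10.symm
    · exfalso
      have : ρ ^ 2 * x * (ρ ^ 2)⁻¹ = ρ * (ρ * x * ρ⁻¹) * ρ⁻¹ := by rw [pow_two]; group
      rw [this, D.r1, D.r2] at h10
      exact D.hy1 (mul_eq_left.1 h10)
  rw [Subgroup.mem_bot]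
  apply Subtype.ext
  rw [hk, h13]
  rfl

end

end CfsgH9.A5b
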