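import Mathlib

set_option autoImplicit false

/-! The affine structure on eight points. -/

namespace CfsgH9.A8

/-- four labels with zero sum in the Klein group -/
def P4 (i j k l : Fin 4) : Prop :=
  (i = j ∧ k = l) ∨ (i = k ∧ j = l) ∨ (i = l ∧ j = k) ∨ (i ≠ j ∧ i ≠ k ∧ i ≠ l ∧ j ≠ k ∧ j ≠ l ∧ k ≠ l)

instance (i j k l : Fin 4) : Decidable (P4 i j k l) := by unfold P4; infer_instance

lemma P4_map (τ : Fin 4 → Fin 4) (hτ : Function.Injective τ) (i j k l : Fin 4) : P4 (τ i) (τ j) (τ k) (τ l) ↔ P4 i j k l := by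
  unfold P4
  simp only [hτ.eq_iff, ne_eq]

/-- the planes -/
def R (a b c d : Fin 4 × Bool) : Prop := P4 a.1 b.1 c.1 d.1 ∧ (xor (xor a.2 b.2) (xor c.2 d.2)) = false

instance (a b c d : Fin 4 × Bool) : Decidable (R a b c d) := by unfold R; infer_instance

lemma eps_sum : ∀ (ε : Fin 4 → Bool), (xor (xor (ε 0) (ε 1)) (xor (ε 2) (ε 3))) = false →
    ∀ i j k l, P4 i j k l → (xor (xor (ε i) (ε j)) (xor (ε k) (ε l))) = false := by
  decide +kernel

/-- the subgroup preserving the planes -/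
def K : Subgroup (Equiv.Perm (Fin 4 × Bool)) where
  carrier := {g | ∀ a b c d, R (g a) (g b) (g c) (g d) ↔ R a b c d}
  mul_mem' {g h} hg hh := by
    intro a b c d
    rw [Equiv.Perm.mul_apply, Equiv.Perm.mul_apply, Equiv.Perm.mul_apply, Equiv.Perm.mul_apply]
    exact (hg _ _ _ _).trans (hh _ _ _ _)
  one_mem' := fun a b c d => Iff.rfl
  inv_mem' {g} hg := by
    intro a b c d
    have := hg (g⁻¹ a) (g⁻¹ b) (g⁻¹ c) (g⁻¹ d)
    have e : ∀ x, g (g⁻¹ x) = x := fun x => by
      show (g * g⁻¹) x = x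
      rw [mul_inv_cancel]; rfl
    rw [e, e, e, e] at this
    exact this.symm

/-- the swap or the identity -/
def fl (b : Bool) : Equiv.Perm Bool := if b then Equiv.swap false true else 1

lemma fl_apply (b c : Bool) : fl b c = xor c b := by
  cases b <;> cases c <;> rfl

lemma sign_fl (b : Bool) : Equiv.Perm.sign (fl b) = if b then -1 else 1 := by
  cases b
  · rfl
  · show Equiv.Perm.sign (Equiv.swap false true) = -1
    rw [Equiv.Perm.sign_swap (by decide)]

theorem mem_K {g : Equiv.Perm (Fin 4 × Bool)} (hg : ∀ x y, x.1 = y.1 ↔ (g x).1 = (g y).1) (hs : Equiv.Perm.sign g = 1) : g ∈ K := by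
  let τ : Fin 4 → Fin 4 := fun i => (g (i, false)).1
  have hτ : ∀ x, (g x).1 = τ x.1 := fun x => (hg x (x.1, false)).1 rfl
  have hinj : Function.Injective τ := fun i j hij => (hg (i, false) (j, false)).2 hij
  let ε : Fin 4 → Bool := fun i => (g (i, false)).2
  have hε : ∀ i b, (g (i, b)).2 = xor b (ε i) := by
    intro i b
    cases b
    · show (g (i, false)).2 = xor false (g (i, false)).2
      simp
    · have h1 : (g (i, true)).2 ≠ (g (i, false)).2 := by
        intro h
        have h2 : g (i, true) = g (i, false) := Prod.ext ((hg _ _).1 rfl) h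
        have h3 := g.injective h2
        simp at h3
      show (g (i, true)).2 = xor true (g (i, false)).2
      revert h1
      cases (g (i, true)).2 <;> cases (g (i, false)).2 <;> simp
  let τ' : Equiv.Perm (Fin 4) := Equiv.ofBijective τ (Finite.injective_iff_bijective.1 hinj)
  have hgp : g = (Equiv.prodCongrLeft (fun _ : Bool => τ')) * (Equiv.prodCongrRight (fun i => fl (ε i))) := by
    ext x
    · rw [hτ]; rfl
    · obtain ⟨i, b⟩ := x
      rw [hε]
      show _ = (fl (ε i) b)
      rw [fl_apply]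
  have hsum : (xor (xor (ε 0) (ε 1)) (xor (ε 2) (ε 3))) = false := by
    rw [hgp, Equiv.Perm.sign_mul, Equiv.Perm.sign_prodCongrLeft, Equiv.Perm.sign_prodCongrRight, Fintype.prod_bool, Fin.prod_univ_four] at hs
    simp only [sign_fl] at hs
    have h1 : (Equiv.Perm.sign τ' * Equiv.Perm.sign τ') = 1 := Int.units_mul_self _
    rw [h1, one_mul] at hs
    revert hs
    cases ε 0 <;> cases ε 1 <;> cases ε 2 <;> cases ε 3 <;> simp
  rintro ⟨a, a'⟩ ⟨b, b'⟩ ⟨c, c'⟩ ⟨d, d'⟩
  unfold R
  rw [hτ, hτ, hτ, hτ, P4_map τ hinj, hε, hε, hε, hε]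
  show P4 a b c d ∧ _ ↔ P4 a b c d ∧ _
  refine and_congr_right (fun hP => ?_)
  have h1 := eps_sum ε hsum a b c d hP
  show (xor (xor (xor a' (ε a)) (xor b' (ε b))) (xor (xor c' (ε c)) (xor d' (ε d)))) = false ↔ (xor (xor a' b') (xor c' d')) = false
  revert h1
  generalize ε a = e1
  generalize ε b = e2
  generalize ε c = e3
  generalize ε d = e4
  revert a' b' c' d' e1 e2 e3 e4
  decide

/-- a transvection -/
def g0 : Equiv.Perm (Fin 4 × Bool) :=
  Equiv.prodCongrLeft (fun b : Bool => if b then Equiv.swap (0 : Fin 4) 1 * Equiv.swap 2 3 else 1)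

lemma g0_mem : g0 ∈ K := by
  have h : ∀ a b c d : Fin 4 × Bool, R (g0 a) (g0 b) (g0 c) (g0 d) ↔ R a b c d := by decide +kernel
  exact h

lemma g0_sign : Equiv.Perm.sign g0 = 1 := by
  rw [g0, Equiv.Perm.sign_prodCongrLeft, Fintype.prod_bool]
  simp only [if_true, Bool.false_eq_true, if_false, Equiv.Perm.sign_one, mul_one]
  rw [Equiv.Perm.sign_mul, Equiv.Perm.sign_swap (by decide), Equiv.Perm.sign_swap (by decide)]
  rfl

lemma g0_not : ¬ ∀ x y : Fin 4 × Bool, x.1 = y.1 ↔ (g0 x).1 = (g0 y).1 := by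
  intro h
  have h1 := (h (0, false) (0, true)).1 rfl
  revert h1
  decide

/-- a three-cycle -/
def g1 : Equiv.Perm (Fin 4 × Bool) := Equiv.swap (0, false) (0, true) * Equiv.swap (0, true) (1, false)

lemma g1_sign : Equiv.Perm.sign g1 = 1 := by
  rw [g1, Equiv.Perm.sign_mul, Equiv.Perm.sign_swap (by decide), Equiv.Perm.sign_swap (by decide)]
  rfl

lemma g1_not : g1 ∉ K := by
  intro h
  have h1 := (h (0, false) (0, true) (2, false) (2, true)).2 (by decide)
  revert h1
  decide

end CfsgH9.A8
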