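import Mathlib

set_option autoImplicit false

namespace CfsgH9.AbGL

section
variable {F : Type*} [Field F] {V : Type*} [AddCommGroup V] [Module F V]

theorem unit_inj (g : (Module.End F V)ˣ) : Function.Injective (g : Module.End F V) := by
  intro x y h
  have h1 : ∀ z, ((g⁻¹ : (Module.End F V)ˣ) : Module.End F V) ((g : Module.End F V) z) = z := fun z => by
    rw [← Module.End.mul_apply, Units.inv_mul]; rfl
  rw [← h1 x, h, h1]

/-- restriction of a group of units to an invariant subspace -/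
def resW (H : Subgroup (Module.End F V)ˣ) (W : Submodule F V) (hW : ∀ h ∈ H, ∀ w ∈ W, (h : Module.End F V) w ∈ W) :
    H →* (Module.End F W)ˣ :=
  MonoidHom.toHomUnits
    { toFun := fun h => ((h : (Module.End F V)ˣ) : Module.End F V).restrict (hW h.1 h.2)
      map_one' := LinearMap.ext fun w => Subtype.ext rfl
      map_mul' := fun a b => LinearMap.ext fun w => Subtype.ext rfl }

theorem resW_apply (H : Subgroup (Module.End F V)ˣ) (W : Submodule F V) (hW : ∀ h ∈ H, ∀ w ∈ W, (h : Module.End F V) w ∈ W)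
    (h : H) (w : W) : (((resW H W hW h : (Module.End F W)ˣ) : Module.End F W) w : V) = ((h : (Module.End F V)ˣ) : Module.End F V) w := rfl

/-- action on the quotient -/
def resQ (H : Subgroup (Module.End F V)ˣ) (W : Submodule F V) (hW : ∀ h ∈ H, ∀ w ∈ W, (h : Module.End F V) w ∈ W) :
    H →* (Module.End F (V ⧸ W))ˣ :=
  MonoidHom.toHomUnits
    { toFun := fun h => W.mapQ W ((h : (Module.End F V)ˣ) : Module.End F V) (fun w hw => hW h.1 h.2 w hw)
      map_one' := LinearMap.ext fun w => by
        obtain ⟨v, rfl⟩ := W.mkQ_surjective w; rfl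
      map_mul' := fun a b => LinearMap.ext fun w => by
        obtain ⟨v, rfl⟩ := W.mkQ_surjective w; rfl }

theorem resQ_apply (H : Subgroup (Module.End F V)ˣ) (W : Submodule F V) (hW : ∀ h ∈ H, ∀ w ∈ W, (h : Module.End F V) w ∈ W)
    (h : H) (v : V) : ((resQ H W hW h : (Module.End F (V ⧸ W))ˣ) : Module.End F (V ⧸ W)) (W.mkQ v) = W.mkQ (((h : (Module.End F V)ˣ) : Module.End F V) v) := rfl

/-- in characteristic `p` an element acting trivially on `W` and `V/W` has order dividing `p` -/
theorem pow_char (p : ℕ) [hp : Fact p.Prime] [CharP F p] (W : Submodule F V) (h : (Module.End F V)ˣ)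
    (h1 : ∀ w ∈ W, (h : Module.End F V) w = w) (h2 : ∀ v, (h : Module.End F V) v - v ∈ W) : h ^ p = 1 := by
  have key : ∀ (n : ℕ) (v : V), ((h ^ n : (Module.End F V)ˣ) : Module.End F V) v = v + n • ((h : Module.End F V) v - v) := by
    intro n
    induction n with
    | zero => intro v; simp
    | succ n ih =>
      intro v
      rw [pow_succ', Units.val_mul, Module.End.mul_apply, ih, map_add, map_nsmul, h1 _ (h2 v), succ_nsmul]
      abel
  apply Units.ext
  apply LinearMap.ext
  intro v
  rw [key]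
  have : (p : ℕ) • ((h : Module.End F V) v - v) = ((p : F)) • ((h : Module.End F V) v - v) := by
    rw [Nat.cast_smul_eq_nsmul]
  rw [this, CharP.cast_eq_zero, zero_smul, add_zero]; rfl

end

section card
variable {F : Type*} [Field F] [Fintype F]

theorem card_adjoin_of_irr {V : Type*} [AddCommGroup V] [Module F V] [Module.Finite F V] (H : Subgroup (Module.End F V)ˣ)
    (hcomm : ∀ a ∈ H, ∀ b ∈ H, a * b = b * a)
    (hirr : ∀ W : Submodule F V, (∀ h ∈ H, ∀ w ∈ W, (h : Module.End F V) w ∈ W) → W = ⊥ ∨ W = ⊤)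
    {v : V} (hv : v ≠ 0) :
    (∀ a ∈ Algebra.adjoin F (Units.val '' (H : Set (Module.End F V)ˣ)), a v = 0 → a = 0) ∧
    (∀ x : V, ∃ a ∈ Algebra.adjoin F (Units.val '' (H : Set (Module.End F V)ˣ)), a v = x) ∧
    (∀ a ∈ Algebra.adjoin F (Units.val '' (H : Set (Module.End F V)ˣ)), ∀ b ∈ Algebra.adjoin F (Units.val '' (H : Set (Module.End F V)ˣ)), a * b = b * a) := by
  set A := Algebra.adjoin F (Units.val '' (H : Set (Module.End F V)ˣ)) with hA
  have hAc : ∀ a ∈ A, ∀ b ∈ A, a * b = b * a := by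
    have h0 : ∀ a ∈ Units.val '' (H : Set (Module.End F V)ˣ), ∀ b ∈ Units.val '' (H : Set (Module.End F V)ˣ), a * b = b * a := by
      rintro _ ⟨a, ha, rfl⟩ _ ⟨b, hb, rfl⟩
      rw [← Units.val_mul, hcomm a ha b hb, Units.val_mul]
    intro a ha b hb
    letI := Algebra.adjoinCommRingOfComm F h0
    have := mul_comm (⟨a, ha⟩ : A) ⟨b, hb⟩
    exact congrArg Subtype.val this
  have hHA : ∀ h ∈ H, (h : Module.End F V) ∈ A := fun h hh => Algebra.subset_adjoin ⟨h, hh, rfl⟩
  -- orbit
  let O : Submodule F V := (Subalgebra.toSubmodule A).map (LinearMap.applyₗ v : (V →ₗ[F] V) →ₗ[F] V)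
  have hO : O = ⊤ := by
    rcases hirr O (by
      rintro h hh _ ⟨a, ha, rfl⟩
      exact ⟨(h : Module.End F V) * a, A.mul_mem (hHA h hh) ha, rfl⟩) with h | h
    · exfalso
      have : v ∈ O := ⟨1, A.one_mem, rfl⟩
      rw [h, Submodule.mem_bot] at this
      exact hv this
    · exact h
  have hsurj : ∀ x : V, ∃ a ∈ A, a v = x := by
    intro x
    have : x ∈ O := by rw [hO]; trivial
    obtain ⟨a, ha, hax⟩ := this
    exact ⟨a, ha, hax⟩
  refine ⟨fun a ha hav => ?_, hsurj, hAc⟩
  apply LinearMap.ext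
  intro x
  obtain ⟨b, hb, rfl⟩ := hsurj x
  rw [← Module.End.mul_apply, hAc a ha b hb, Module.End.mul_apply, hav, map_zero]; rfl

theorem mul_lt_pow {q a b : ℕ} (hq : 1 < q) (ha : 0 < a) (hb : 0 < b) : (q ^ a - 1) * (q ^ b - 1) < q ^ (a + b) - 1 := by
  obtain ⟨x, hx⟩ : ∃ x, q ^ a = x + 2 := ⟨q ^ a - 2, by have := Nat.one_lt_pow ha.ne' hq; omega⟩
  obtain ⟨y, hy⟩ : ∃ y, q ^ b = y + 2 := ⟨q ^ b - 2, by have := Nat.one_lt_pow hb.ne' hq; omega⟩
  rw [pow_add, hx, hy]
  have h1 : (x + 2 - 1) * (y + 2 - 1) = (x + 1) * (y + 1) := rfl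
  rw [h1]
  have : (x + 1) * (y + 1) + 1 < (x + 2) * (y + 2) := by nlinarith
  omega

theorem finite_units (V : Type*) [AddCommGroup V] [Module F V] [Module.Finite F V] : Finite (Module.End F V)ˣ := by
  haveI : Finite V := Module.finite_of_finite F
  exact Finite.of_injective (fun g : (Module.End F V)ˣ => ((g : Module.End F V) : V → V)) (fun a b h =>
    Units.ext (LinearMap.ext fun x => congrFun h x))

theorem card_irr {V : Type*} [AddCommGroup V] [Module F V] [Module.Finite F V] (H : Subgroup (Module.End F V)ˣ)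
    (hn : 0 < Module.finrank F V)
    (hcomm : ∀ a ∈ H, ∀ b ∈ H, a * b = b * a)
    (hirr : ∀ W : Submodule F V, (∀ h ∈ H, ∀ w ∈ W, (h : Module.End F V) w ∈ W) → W = ⊥ ∨ W = ⊤) :
    Nat.card H ≤ Fintype.card F ^ Module.finrank F V - 1 := by
  classical
  haveI : Finite V := Module.finite_of_finite F
  haveI : Nontrivial V := Module.nontrivial_of_finrank_pos hn
  obtain ⟨v, hv⟩ := exists_ne (0 : V)
  obtain ⟨h1, h2, h3⟩ := card_adjoin_of_irr H hcomm hirr hv
  have hcV : Nat.card V = Fintype.card F ^ Module.finrank F V := by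
    rw [Module.natCard_eq_pow_finrank (K := F) (V := V), Nat.card_eq_fintype_card]
  let f : H → {x : V // x ≠ 0} := fun h => ⟨((h : (Module.End F V)ˣ) : Module.End F V) v, fun h0 =>
    hv (unit_inj (h : (Module.End F V)ˣ) (by rw [h0, map_zero]))⟩
  have hf : Function.Injective f := by
    intro a b hab
    have hab' : ((a : (Module.End F V)ˣ) : Module.End F V) v = ((b : (Module.End F V)ˣ) : Module.End F V) v := congrArg Subtype.val hab
    have h4 := h1 (((a : (Module.End F V)ˣ) : Module.End F V) - ((b : (Module.End F V)ˣ) : Module.End F V))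
      (Subalgebra.sub_mem _ (Algebra.subset_adjoin ⟨a, a.2, rfl⟩) (Algebra.subset_adjoin ⟨b, b.2, rfl⟩))
      (by rw [LinearMap.sub_apply, hab', sub_self])
    exact Subtype.ext (Units.ext (sub_eq_zero.1 h4))
  have h5 := Nat.card_le_card_of_injective f hf
  refine h5.trans (le_of_eq ?_)
  rw [← hcV]
  cases nonempty_fintype V
  rw [Nat.card_eq_fintype_card, Nat.card_eq_fintype_card]
  change Fintype.card {x : V // ¬ x = 0} = _
  rw [Fintype.card_subtype_compl, Fintype.card_subtype_eq]

universe v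

/-- reducible step -/
theorem card_red (p : ℕ) [hp : Fact p.Prime] [CharP F p] {V : Type v} [AddCommGroup V] [Module F V] [Module.Finite F V]
    (ih : ∀ (V' : Type v) [AddCommGroup V'] [Module F V'] [Module.Finite F V'] (H : Subgroup (Module.End F V')ˣ),
      Module.finrank F V' < Module.finrank F V → 0 < Module.finrank F V' → (∀ a ∈ H, ∀ b ∈ H, a * b = b * a) → ¬ p ∣ Nat.card H →
      Nat.card H ≤ Fintype.card F ^ Module.finrank F V' - 1)
    (H : Subgroup (Module.End F V)ˣ) (hcomm : ∀ a ∈ H, ∀ b ∈ H, a * b = b * a) (hpH : ¬ p ∣ Nat.card H)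
    (W : Submodule F V) (hW : ∀ h ∈ H, ∀ w ∈ W, (h : Module.End F V) w ∈ W) (hW0 : W ≠ ⊥) (hW1 : W ≠ ⊤) :
    Nat.card H < Fintype.card F ^ Module.finrank F V - 1 := by
  classical
  haveI := finite_units (F := F) V
  haveI := finite_units (F := F) W
  haveI := finite_units (F := F) (V ⧸ W)
  have hsum := W.finrank_quotient_add_finrank
  have ha : 0 < Module.finrank F W := by
    rw [Nat.pos_iff_ne_zero]
    intro h; exact hW0 (Submodule.finrank_eq_zero.1 h)
  have hb : 0 < Module.finrank F (V ⧸ W) := by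
    rw [Nat.pos_iff_ne_zero]
    intro h
    rw [h, zero_add] at hsum
    exact hW1 (Submodule.eq_top_of_finrank_eq hsum)
  set K := (resW H W hW).ker with hK
  have hc1 := ih W (resW H W hW).range (by omega) ha (by
    rintro _ ⟨a, rfl⟩ _ ⟨b, rfl⟩
    rw [← map_mul, ← map_mul]
    congr 1
    exact Subtype.ext (hcomm a a.2 b b.2)) (fun h => hpH (h.trans (by
      have := Subgroup.card_range_dvd (resW H W hW)
      exact this)))
  have hinj : Function.Injective ((resQ H W hW).comp K.subtype) := by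
    rw [injective_iff_map_eq_one]
    intro h hh
    have h1 : ∀ w ∈ W, (((h : H) : (Module.End F V)ˣ) : Module.End F V) w = w := by
      intro w hw
      have h2 : resW H W hW h = 1 := h.2
      have h3 := congrArg (fun g : (Module.End F W)ˣ => (((g : Module.End F W) ⟨w, hw⟩ : W) : V)) h2
      exact h3
    have h2 : ∀ x, (((h : H) : (Module.End F V)ˣ) : Module.End F V) x - x ∈ W := by
      intro x
      have h3 : resQ H W hW h = 1 := hh
      have h4 := congrArg (fun g : (Module.End F (V ⧸ W))ˣ => (g : Module.End F (V ⧸ W)) (W.mkQ x)) h3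
      simp only [resQ_apply] at h4
      have h5 : W.mkQ ((((h : H) : (Module.End F V)ˣ) : Module.End F V) x) = W.mkQ x := h4
      rw [← sub_eq_zero, ← map_sub, Submodule.mkQ_apply, Submodule.Quotient.mk_eq_zero] at h5
      exact h5
    have h3 := pow_char p W ((h : H) : (Module.End F V)ˣ) h1 h2
    have h4 : orderOf ((h : H) : (Module.End F V)ˣ) ∣ p := orderOf_dvd_of_pow_eq_one h3
    have h5 : orderOf ((h : H) : (Module.End F V)ˣ) ∣ Nat.card H := by
      rw [Subgroup.orderOf_coe]; exact orderOf_dvd_natCard _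
    rcases (Nat.dvd_prime hp.out).1 h4 with h6 | h6
    · rw [orderOf_eq_one_iff] at h6
      exact Subtype.ext (Subtype.ext h6)
    · rw [h6] at h5; exact absurd h5 hpH
  have hc2 := ih (V ⧸ W) ((resQ H W hW).comp K.subtype).range (by omega) hb (by
    rintro _ ⟨a, rfl⟩ _ ⟨b, rfl⟩
    rw [← map_mul, ← map_mul]
    congr 1
    exact Subtype.ext (Subtype.ext (hcomm a a.1.2 b b.1.2))) (fun h => hpH (h.trans (by
      have h1 := Subgroup.card_range_dvd ((resQ H W hW).comp K.subtype)
      exact h1.trans K.card_subgroup_dvd_card)))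
  have hcK : Nat.card K = Nat.card ((resQ H W hW).comp K.subtype).range :=
    Nat.card_congr (MonoidHom.ofInjective hinj).toEquiv
  have hcH : Nat.card K * Nat.card (resW H W hW).range = Nat.card H := by
    rw [← Subgroup.card_mul_index K, hK, Subgroup.index_ker]
  rw [← hcH, hcK, ← hsum]
  exact lt_of_le_of_lt (Nat.mul_le_mul hc2 hc1) (mul_lt_pow Fintype.one_lt_card hb ha)

/-- order of an abelian `p'`-group of matrices -/
theorem card_le (p : ℕ) [hp : Fact p.Prime] [CharP F p] (n : ℕ) : ∀ (V : Type v) [AddCommGroup V] [Module F V] [Module.Finite F V]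
    (H : Subgroup (Module.End F V)ˣ), Module.finrank F V = n → 0 < Module.finrank F V → (∀ a ∈ H, ∀ b ∈ H, a * b = b * a) → ¬ p ∣ Nat.card H →
    Nat.card H ≤ Fintype.card F ^ Module.finrank F V - 1 := by
  induction n using Nat.strong_induction_on with
  | _ n ih =>
    intro V _ _ _ H hV hpos hcomm hpH
    by_cases hirr : ∀ W : Submodule F V, (∀ h ∈ H, ∀ w ∈ W, (h : Module.End F V) w ∈ W) → W = ⊥ ∨ W = ⊤
    · exact card_irr H hpos hcomm hirr
    · push Not at hirr
      obtain ⟨W, hW, hW0, hW1⟩ := hirr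
      exact (card_red p (fun V' _ _ _ H' h1 h2 h3 h4 => ih (Module.finrank F V') (by omega) V' H' rfl h2 h3 h4)
        H hcomm hpH W hW hW0 hW1).le

/-- an abelian subgroup of order `q^n - 1` is irreducible -/
theorem irr_of_card (p : ℕ) [hp : Fact p.Prime] [CharP F p] {V : Type v} [AddCommGroup V] [Module F V] [Module.Finite F V]
    (H : Subgroup (Module.End F V)ˣ) (hpos : 0 < Module.finrank F V) (hcomm : ∀ a ∈ H, ∀ b ∈ H, a * b = b * a)
    (hcard : Nat.card H = Fintype.card F ^ Module.finrank F V - 1) :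
    ∀ W : Submodule F V, (∀ h ∈ H, ∀ w ∈ W, (h : Module.End F V) w ∈ W) → W = ⊥ ∨ W = ⊤ := by
  intro W hW
  by_contra hcon
  rw [not_or] at hcon
  have hpH : ¬ p ∣ Nat.card H := by
    intro hdvd
    have h1 : p ∣ Fintype.card F := by
      have h2 : ((Fintype.card F : ℕ) : F) = 0 := FiniteField.cast_card_eq_zero F
      exact (CharP.cast_eq_zero_iff F p _).1 h2
    have h2 : p ∣ Fintype.card F ^ Module.finrank F V := h1.trans (dvd_pow_self _ hpos.ne')
    rw [hcard] at hdvd
    have h3 : 1 ≤ Fintype.card F ^ Module.finrank F V := Nat.one_le_pow _ _ Fintype.card_pos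
    have h4 := (Nat.dvd_sub h2 hdvd)
    have h5 : Fintype.card F ^ Module.finrank F V - (Fintype.card F ^ Module.finrank F V - 1) = 1 := by omega
    rw [h5] at h4
    exact hp.out.one_lt.ne' (Nat.dvd_one.1 h4)
  have := card_red p (fun V' _ _ _ H' h1 h2 h3 h4 => card_le p (Module.finrank F V') V' H' rfl h2 h3 h4)
    H hcomm hpH W hW hcon.1 hcon.2
  omega

end card

end CfsgH9.AbGL
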