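import Mathlib

set_option autoImplicit false

open Matrix MulAction

namespace CfsgH9.Dk

open scoped Classical in
section
variable {K : Type*} [Field K]

/-- `PGL₂(K)` -/
abbrev PG (K : Type*) [Field K] := Matrix.ProjGenLinGroup (Fin 2) K

/-- the projective line -/
abbrev PL (K : Type*) := OnePoint K

open scoped Classical in
theorem scalar_smul (u : Kˣ) (a : PL K) : GeneralLinearGroup.scalar (Fin 2) u • a = a := by
  induction a using OnePoint.rec with
  | infty =>
    rw [OnePoint.smul_infty_eq_self_iff]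
    simp
  | coe k =>
    rw [OnePoint.smul_some_eq_ite]
    have h10 : (GeneralLinearGroup.scalar (Fin 2) u : GL (Fin 2) K) 1 0 = 0 := by simp
    have h01 : (GeneralLinearGroup.scalar (Fin 2) u : GL (Fin 2) K) 0 1 = 0 := by simp
    have h00 : (GeneralLinearGroup.scalar (Fin 2) u : GL (Fin 2) K) 0 0 = u := by simp
    have h11 : (GeneralLinearGroup.scalar (Fin 2) u : GL (Fin 2) K) 1 1 = u := by simp
    rw [h10, h01, h00, h11]
    simp

open scoped Classical in
noncomputable instance actPG : MulAction (PG K) (PL K) := ProjGenLinGroup.mulActionOfGL scalar_smul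

open scoped Classical in
theorem mk_smul (g : GL (Fin 2) K) (a : PL K) : (ProjGenLinGroup.mk g : PG K) • a = g • a := rfl

open scoped Classical in
theorem mk_infty (g : GL (Fin 2) K) : (ProjGenLinGroup.mk g : PG K) • (OnePoint.infty : PL K) =
    if g 1 0 = 0 then OnePoint.infty else ((g 0 0 / g 1 0 : K) : PL K) := by
  rw [mk_smul, OnePoint.smul_infty_eq_ite]

open scoped Classical in
theorem mk_coe (g : GL (Fin 2) K) (k : K) : (ProjGenLinGroup.mk g : PG K) • (k : PL K) =
    if g 1 0 * k + g 1 1 = 0 then OnePoint.infty else (((g 0 0 * k + g 0 1) / (g 1 0 * k + g 1 1) : K) : PL K) := by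
  rw [mk_smul, OnePoint.smul_some_eq_ite]

theorem gl_det_ne (g : GL (Fin 2) K) : g 0 0 * g 1 1 - g 0 1 * g 1 0 ≠ 0 := by
  have := g.det_ne_zero
  rwa [Matrix.det_fin_two] at this

theorem mk_eq_of_smul {g h : GL (Fin 2) K} {c : K} (hc : c ≠ 0) (h00 : h 0 0 = c * g 0 0) (h01 : h 0 1 = c * g 0 1)
    (h10 : h 1 0 = c * g 1 0) (h11 : h 1 1 = c * g 1 1) : (ProjGenLinGroup.mk g : PG K) = ProjGenLinGroup.mk h := by
  rw [ProjGenLinGroup.mk_eq_mk_iff]
  refine ⟨Units.mk0 c hc, ?_⟩
  ext i j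
  fin_cases i <;> fin_cases j <;> simp [Matrix.mul_apply, Fin.sum_univ_two, h00, h01, h10, h11, mul_comm]

/-- affine maps -/
noncomputable def affGL (a : Kˣ) (b : K) : GL (Fin 2) K :=
  GeneralLinearGroup.mkOfDetNeZero !![(a : K), b; 0, 1] (by rw [Matrix.det_fin_two_of]; simp)

theorem aff00 (a : Kˣ) (b : K) : affGL a b 0 0 = a := rfl
theorem aff01 (a : Kˣ) (b : K) : affGL a b 0 1 = b := rfl
theorem aff10 (a : Kˣ) (b : K) : affGL a b 1 0 = 0 := rfl
theorem aff11 (a : Kˣ) (b : K) : affGL a b 1 1 = 1 := rfl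

noncomputable def aff (a : Kˣ) (b : K) : PG K := ProjGenLinGroup.mk (affGL a b)

theorem aff_infty (a : Kˣ) (b : K) : aff a b • (OnePoint.infty : PL K) = OnePoint.infty := by
  classical
  rw [aff, mk_infty, if_pos (aff10 a b)]

theorem aff_coe (a : Kˣ) (b k : K) : aff a b • (k : PL K) = ((a * k + b : K) : PL K) := by
  classical
  rw [aff, mk_coe, aff00, aff01, aff10, aff11]
  simp

theorem aff_mul (a a' : Kˣ) (b b' : K) : aff a b * aff a' b' = aff (a * a') (a * b' + b) := by
  rw [aff, aff, aff, ← map_mul]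
  congr 1
  ext i j
  fin_cases i <;> fin_cases j <;> simp [affGL, GeneralLinearGroup.mkOfDetNeZero, Matrix.mul_apply, Fin.sum_univ_two]

theorem aff_one : aff (1 : Kˣ) (0 : K) = 1 := by
  rw [aff, ← ProjGenLinGroup.mk_one]
  congr 1
  ext i j
  fin_cases i <;> fin_cases j <;> simp [affGL, GeneralLinearGroup.mkOfDetNeZero]

theorem aff_inj {a a' : Kˣ} {b b' : K} (h : aff a b = aff a' b') : a = a' ∧ b = b' := by
  have h1 : aff a b • ((0 : K) : PL K) = aff a' b' • ((0 : K) : PL K) := by rw [h]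
  have h2 : aff a b • ((1 : K) : PL K) = aff a' b' • ((1 : K) : PL K) := by rw [h]
  rw [aff_coe, aff_coe, OnePoint.coe_eq_coe] at h1 h2
  simp only [mul_zero, zero_add, mul_one] at h1 h2
  subst h1
  exact ⟨Units.ext (by simpa using h2), rfl⟩

theorem stab_infty {g : PG K} (hg : g • (OnePoint.infty : PL K) = OnePoint.infty) : ∃ a b, g = aff a b := by
  classical
  induction g using ProjGenLinGroup.induction_on with | mk g =>
  have h10 : g 1 0 = 0 := by
    rw [mk_infty] at hg
    by_contra h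
    rw [if_neg h] at hg
    exact OnePoint.coe_ne_infty _ hg
  have hd := gl_det_ne g
  rw [h10, mul_zero, sub_zero] at hd
  have h00 : g 0 0 ≠ 0 := left_ne_zero_of_mul hd
  have h11 : g 1 1 ≠ 0 := right_ne_zero_of_mul hd
  refine ⟨Units.mk0 (g 0 0 / g 1 1) (div_ne_zero h00 h11), g 0 1 / g 1 1, ?_⟩
  symm
  refine mk_eq_of_smul h11 ?_ ?_ ?_ ?_
  · rw [aff00, Units.val_mk0]; field_simp
  · rw [aff01]; field_simp
  · rw [aff10, mul_zero, h10]
  · rw [aff11, mul_one]

/-- transitivity -/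
theorem to_infty (x : PL K) : ∃ g : PG K, g • x = OnePoint.infty := by
  classical
  induction x using OnePoint.rec with
  | infty => exact ⟨1, one_smul _ _⟩
  | coe c =>
    refine ⟨ProjGenLinGroup.mk (GeneralLinearGroup.mkOfDetNeZero !![(0 : K), 1; 1, -c] (by rw [Matrix.det_fin_two_of]; simp)), ?_⟩
    rw [mk_coe, if_pos]
    simp [GeneralLinearGroup.mkOfDetNeZero]

theorem to_three {x y z : PL K} (hxy : x ≠ y) (hxz : x ≠ z) (hyz : y ≠ z) :
    ∃ g : PG K, g • x = OnePoint.infty ∧ g • y = ((0 : K) : PL K) ∧ g • z = ((1 : K) : PL K) := by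
  classical
  obtain ⟨g, hg⟩ := to_infty x
  have hy : g • y ≠ OnePoint.infty := fun h => hxy (MulAction.injective g (hg.trans h.symm))
  have hz : g • z ≠ OnePoint.infty := fun h => hxz (MulAction.injective g (hg.trans h.symm))
  obtain ⟨b, hb⟩ := OnePoint.ne_infty_iff_exists.1 hy
  obtain ⟨c, hc⟩ := OnePoint.ne_infty_iff_exists.1 hz
  have hbc : c - b ≠ 0 := by
    intro h
    apply hyz
    apply MulAction.injective g
    change g • y = g • z
    rw [← hb, ← hc, sub_eq_zero.1 h]
  refine ⟨aff (Units.mk0 (c - b)⁻¹ (inv_ne_zero hbc)) (-((c - b)⁻¹ * b)) * g, ?_, ?_, ?_⟩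
  · rw [mul_smul, hg, aff_infty]
  · rw [mul_smul, ← hb, aff_coe, OnePoint.coe_eq_coe, Units.val_mk0]; ring
  · rw [mul_smul, ← hc, aff_coe, OnePoint.coe_eq_coe, Units.val_mk0]; field_simp; ring

theorem three_fix {g : PG K} {x y z : PL K} (hxy : x ≠ y) (hxz : x ≠ z) (hyz : y ≠ z) (hx : g • x = x) (hy : g • y = y)
    (hz : g • z = z) : g = 1 := by
  obtain ⟨k, k1, k2, k3⟩ := to_three hxy hxz hyz
  have e1 : (k * g * k⁻¹) • (OnePoint.infty : PL K) = OnePoint.infty := by
    rw [← k1, mul_smul, mul_smul, inv_smul_smul, hx]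
  have e2 : (k * g * k⁻¹) • ((0 : K) : PL K) = ((0 : K) : PL K) := by
    rw [← k2, mul_smul, mul_smul, inv_smul_smul, hy]
  have e3 : (k * g * k⁻¹) • ((1 : K) : PL K) = ((1 : K) : PL K) := by
    rw [← k3, mul_smul, mul_smul, inv_smul_smul, hz]
  obtain ⟨a, b, hab⟩ := stab_infty e1
  rw [hab, aff_coe, OnePoint.coe_eq_coe] at e2 e3
  rw [mul_zero, zero_add] at e2
  rw [e2, mul_one, add_zero] at e3
  have ha : a = 1 := Units.ext e3
  rw [ha, e2, aff_one] at hab
  have : g = k⁻¹ * (k * g * k⁻¹) * k := by group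
  rw [this, hab]; group

/-- an element swapping two points is an involution -/
theorem swap_sq {g : PG K} {x y : PL K} (hxy : x ≠ y) (hx : g • x = y) (hy : g • y = x) : g * g = 1 := by
  classical
  -- reduce to `∞, 0`
  obtain ⟨k, k1, k2⟩ : ∃ k : PG K, k • x = OnePoint.infty ∧ k • y = ((0 : K) : PL K) := by
    by_cases h : ∃ z, z ≠ x ∧ z ≠ y
    · obtain ⟨z, hz1, hz2⟩ := h
      obtain ⟨k, h1, h2, -⟩ := to_three hxy (Ne.symm hz1) (Ne.symm hz2)
      exact ⟨k, h1, h2⟩
    · exfalso
      push Not at h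
      have e1 := h OnePoint.infty
      have e2 := h ((0 : K) : PL K)
      have e3 := h ((1 : K) : PL K)
      have n1 : (OnePoint.infty : PL K) ≠ ((0 : K) : PL K) := OnePoint.infty_ne_coe _
      have n2 : (OnePoint.infty : PL K) ≠ ((1 : K) : PL K) := OnePoint.infty_ne_coe _
      have n3 : ((0 : K) : PL K) ≠ ((1 : K) : PL K) := by rw [Ne, OnePoint.coe_eq_coe]; exact zero_ne_one
      by_cases c1 : (OnePoint.infty : PL K) = x
      · have f2 := e2 (by rw [← c1]; exact n1.symm)
        have f3 := e3 (by rw [← c1]; exact n2.symm)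
        exact n3 (f2.trans f3.symm)
      · have f1 := e1 c1
        by_cases c2 : ((0 : K) : PL K) = x
        · have f3 := e3 (by rw [← c2]; exact n3.symm)
          exact n2 (f1.trans f3.symm)
        · exact n1 (f1.trans (e2 c2).symm)
  have e1 : (k * g * k⁻¹) • (OnePoint.infty : PL K) = ((0 : K) : PL K) := by
    rw [← k1, mul_smul, mul_smul, inv_smul_smul, hx, k2]
  have e2 : (k * g * k⁻¹) • ((0 : K) : PL K) = OnePoint.infty := by
    rw [← k2, mul_smul, mul_smul, inv_smul_smul, hy, k1]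
  have key : ∀ h : PG K, h • (OnePoint.infty : PL K) = ((0 : K) : PL K) → h • ((0 : K) : PL K) = OnePoint.infty → h * h = 1 := by
    intro h f1 f2
    induction h using ProjGenLinGroup.induction_on with | mk h =>
    rw [mk_infty] at f1
    rw [mk_coe] at f2
    have h10 : h 1 0 ≠ 0 := by
      intro h0
      rw [if_pos h0] at f1
      exact OnePoint.infty_ne_coe _ f1
    rw [if_neg h10, OnePoint.coe_eq_coe, div_eq_zero_iff] at f1
    have h00 : h 0 0 = 0 := f1.resolve_right h10
    have h11 : h 1 1 = 0 := by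
      by_contra h0
      rw [mul_zero, zero_add, if_neg h0] at f2
      exact OnePoint.coe_ne_infty _ f2
    rw [← map_mul, ← ProjGenLinGroup.mk_one]
    symm
    have hd := gl_det_ne h
    rw [h00, h11, mul_zero, zero_sub] at hd
    refine mk_eq_of_smul (c := h 0 1 * h 1 0) (neg_ne_zero.1 hd) ?_ ?_ ?_ ?_
    · simp [Matrix.mul_apply, Fin.sum_univ_two, h00]
    · simp [Matrix.mul_apply, Fin.sum_univ_two, h00, h11]
    · simp [Matrix.mul_apply, Fin.sum_univ_two, h00, h11]
    · simp [Matrix.mul_apply, Fin.sum_univ_two, h11, mul_comm]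
  have h3 := key _ e1 e2
  have : g * g = k⁻¹ * ((k * g * k⁻¹) * (k * g * k⁻¹)) * k := by group
  rw [this, h3]; group

end

end CfsgH9.Dk
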