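import Cfsg.Agent.H9.Dk9

set_option autoImplicit false

open MulAction Matrix

namespace CfsgH9.Dk

/-- involutions are conjugate if the order is not divisible by four -/
theorem conj_invol {G : Type*} [Group G] [Finite G] (h4 : ¬ 4 ∣ Nat.card G) {s t : G} (hs : s * s = 1) (ht : t * t = 1)
    (hs1 : s ≠ 1) (ht1 : t ≠ 1) : ∃ g, g * s * g⁻¹ = t := by
  classical
  haveI : Fact (Nat.Prime 2) := ⟨Nat.prime_two⟩
  have key : ∀ s : G, s * s = 1 → s ≠ 1 → ∃ S : Sylow 2 G, (S : Subgroup G) = Subgroup.zpowers s := by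
    intro s hs hs1
    have h1 : orderOf s = 2 := orderOf_eq_prime (by rw [pow_two, hs]) hs1
    have h2 : IsPGroup 2 (Subgroup.zpowers s) := by
      apply IsPGroup.of_card (n := 1)
      rw [Nat.card_zpowers, h1, pow_one]
    obtain ⟨S, hS⟩ := h2.exists_le_sylow
    refine ⟨S, ?_⟩
    symm
    apply Subgroup.eq_of_le_of_card_ge hS
    rw [Nat.card_zpowers, h1]
    have h3 := Sylow.card_eq_multiplicity S
    have h5 : (Nat.card G).factorization 2 ≤ 1 := by
      by_contra h
      apply h4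
      have : 2 ^ 2 ∣ Nat.card G := (Nat.prime_two.pow_dvd_iff_le_factorization Nat.card_pos.ne').2 (by omega)
      exact this
    change Nat.card S ≤ 2
    rw [h3]
    calc 2 ^ (Nat.card G).factorization 2 ≤ 2 ^ 1 := Nat.pow_le_pow_right (by norm_num) h5
      _ = 2 := by norm_num
  obtain ⟨S, hS⟩ := key s hs hs1
  obtain ⟨T, hT⟩ := key t ht ht1
  obtain ⟨g, hg⟩ := exists_smul_eq G S T
  refine ⟨g, ?_⟩
  have h1 : g * s * g⁻¹ ∈ (T : Subgroup G) := by
    rw [← hg]
    exact Subgroup.smul_mem_pointwise_smul s (MulAut.conj g) (S : Subgroup G) (by rw [hS]; exact Subgroup.mem_zpowers s)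
  rw [hT, ← mem_powers_iff_mem_zpowers, mem_powers_iff_mem_range_orderOf, orderOf_eq_prime (p := 2) (by rw [pow_two, ht]) ht1] at h1
  simp only [Finset.mem_image, Finset.mem_range] at h1
  obtain ⟨k, hk, hk'⟩ := h1
  interval_cases k
  · exfalso
    rw [pow_zero] at hk'
    exact hs1 (conj_eq_one_iff.1 hk'.symm)
  · rw [← hk', pow_one]

section
variable {K : Type*} [Field K]

/-- conjugate subgroup -/
noncomputable def cj (g : PG K) (H : Subgroup (PG K)) : Subgroup (PG K) := H.map (MulAut.conj g).toMonoidHom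

theorem mem_cj {g : PG K} {H : Subgroup (PG K)} {x : PG K} : x ∈ cj g H ↔ g⁻¹ * x * g ∈ H := by
  constructor
  · rintro ⟨y, hy, rfl⟩
    change g⁻¹ * (g * y * g⁻¹) * g ∈ H
    have : g⁻¹ * (g * y * g⁻¹) * g = y := by group
    rw [this]; exact hy
  · intro h
    refine ⟨_, h, ?_⟩
    change g * (g⁻¹ * x * g) * g⁻¹ = x
    group

noncomputable def cjEquiv (g : PG K) (H : Subgroup (PG K)) : H ≃* cj g H := H.equivMapOfInjective _ (MulAut.conj g).injective

theorem orb_cj {g : PG K} {H : Subgroup (PG K)} {y z : PL K} : z ∈ orbit (cj g H) y ↔ g⁻¹ • z ∈ orbit H (g⁻¹ • y) := by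
  constructor
  · rintro ⟨h, hh⟩
    have hh' : (h : PG K) • y = z := hh
    refine ⟨⟨_, mem_cj.1 h.2⟩, ?_⟩
    change (g⁻¹ * (h : PG K) * g) • (g⁻¹ • y) = g⁻¹ • z
    rw [mul_smul, mul_smul, smul_inv_smul, hh']
  · rintro ⟨h, hh⟩
    have hh' : (h : PG K) • (g⁻¹ • y) = g⁻¹ • z := hh
    refine ⟨⟨g * h * g⁻¹, ?_⟩, ?_⟩
    · rw [mem_cj]
      have : g⁻¹ * (g * h * g⁻¹) * g = (h : PG K) := by group
      rw [this]; exact h.2
    · change (g * (h : PG K) * g⁻¹) • y = z
      rw [mul_smul, mul_smul, hh', smul_inv_smul]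

theorem card_orb_cj {g : PG K} {H : Subgroup (PG K)} {y : PL K} : Nat.card (orbit (cj g H) y) = Nat.card (orbit H (g⁻¹ • y)) :=
  Nat.card_congr
    { toFun := fun z => ⟨g⁻¹ • (z : PL K), orb_cj.1 z.2⟩
      invFun := fun z => ⟨g • (z : PL K), orb_cj.2 (by rw [inv_smul_smul]; exact z.2)⟩
      left_inv := fun z => Subtype.ext (smul_inv_smul _ _)
      right_inv := fun z => Subtype.ext (inv_smul_smul _ _) }

end

section
variable (p : ℕ) [hp : Fact p.Prime] {K : Type*} [Field K] [Finite K] [CharP K p]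

omit [Finite K] in
theorem char_of_AA {H : Subgroup (PG K)} {n : ℕ} (h1 : aff 1 1 ∈ H) (hn : Nat.card (AA H) = n) (hnp : n.Prime) : p = n := by
  have h2 : (⟨1, h1⟩ : AA H) ∈ (⊤ : AddSubgroup (AA H)) := trivial
  have h3 : n • (⟨1, h1⟩ : AA H) = 0 := by rw [← hn]; exact card_nsmul_eq_zero'
  have h4 : n • (1 : K) = 0 := congrArg (fun z : AA H => (z : K)) h3
  rw [nsmul_eq_mul, mul_one, CharP.cast_eq_zero_iff K p] at h4
  exact (Nat.prime_dvd_prime_iff_eq hp.out hnp).1 h4

include p hp in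
theorem wild_A5 (H : Subgroup (PG K)) (hH : ∀ h ∈ H, ∃ x : PL K, h • x = x) (h1 : aff 1 1 ∈ H)
    (hN : Nat.card H = 60) (hQ : Nat.card (AA H) = 3) (hc : Nat.card (LL H) = 2)
    (hst : ∀ y : PL K, y ∉ orbit H (OnePoint.infty : PL K) → Nat.card (stabilizer H y) = 1 ∨ Nat.card (stabilizer H y) = 5) :
    Nonempty (H ≃* alternatingGroup (Fin 5)) := by
  classical
  haveI : Finite (PL K) := inferInstanceAs (Finite (Option K))
  haveI : Finite (PG K) := Finite.of_surjective _ Matrix.ProjGenLinGroup.mk_surjective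
  have hp3 : p = 3 := char_of_AA p h1 hQ Nat.prime_three
  subst hp3
  haveI : Fact (Nat.Prime 3) := ⟨Nat.prime_three⟩
  have hM := mob_of 3 H hH
  have h6 : ∀ y : PL K, y ∈ orbit H (OnePoint.infty : PL K) → Nat.card (stabilizer H y) = 6 := by
    intro y hy
    have e1 := orb_stab (H := H) y
    have e2 := orb_stab (H := H) (OnePoint.infty : PL K)
    rw [orbit_eq_iff.2 hy, ← e2, card_stab, hQ, hc] at e1
    have h0 : 0 < Nat.card (orbit H (OnePoint.infty : PL K)) := by
      haveI : Nonempty (orbit H (OnePoint.infty : PL K)) := ⟨⟨_, mem_orbit_self _⟩⟩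
      exact Nat.card_pos
    exact Nat.eq_of_mul_eq_mul_left h0 e1
  have hinv : ∀ t : H, t * t = 1 → t ≠ 1 → ∀ x : PL K, t • x = x → x ∈ orbit H (OnePoint.infty : PL K) := by
    intro t ht ht1 x hx
    by_contra hcon
    have h1 : orderOf t = 2 := orderOf_eq_prime (by rw [pow_two, ht]) ht1
    have h2 : orderOf (⟨t, hx⟩ : stabilizer H x) = 2 := (Subgroup.orderOf_mk t hx).trans h1
    have h3 : 2 ∣ Nat.card (stabilizer H x) := by
      have h4 := orderOf_dvd_natCard (⟨t, hx⟩ : stabilizer H x)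
      rwa [h2] at h4
    have := hst x hcon
    omega
  have hord : ∀ (t : H) (x : PL K), t • x = x → t ^ Nat.card (stabilizer H x) = 1 := by
    intro t x hx
    have : (⟨t, hx⟩ : stabilizer H x) ^ Nat.card (stabilizer H x) = 1 := pow_card_eq_one'
    exact congrArg Subtype.val this
  refine A5_rec hN ?_ ?_ ?_
  · intro s t hs ht hs1 ht1
    obtain ⟨x, hx⟩ := hM.fixpt s
    obtain ⟨y, hy⟩ := hM.fixpt t
    have hxo := hinv s hs hs1 x hx
    have hyo := hinv t ht ht1 y hy
    have hxy : y ∈ orbit H x := by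
      rw [orbit_eq_iff.2 hxo]; exact hyo
    obtain ⟨g, hg⟩ := hxy
    have hg' : g • x = y := hg
    have h3 : (g * s * g⁻¹) • y = y := by
      rw [← hg', mul_smul, mul_smul, inv_smul_smul, hx]
    obtain ⟨k, hk⟩ := conj_invol (G := stabilizer H y) (by rw [h6 y hyo]; norm_num) (s := ⟨g * s * g⁻¹, h3⟩) (t := ⟨t, hy⟩)
      (Subtype.ext (by change g * s * g⁻¹ * (g * s * g⁻¹) = 1
                       calc g * s * g⁻¹ * (g * s * g⁻¹) = g * (s * s) * g⁻¹ := by group
                         _ = 1 := by rw [hs]; group))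
      (Subtype.ext ht) (fun h => hs1 (conj_eq_one_iff.1 (congrArg Subtype.val h))) (fun h => ht1 (congrArg Subtype.val h))
    refine ⟨k * g, ?_⟩
    have hk' : (k : H) * (g * s * g⁻¹) * (k : H)⁻¹ = t := congrArg Subtype.val hk
    rw [← hk']; group
  · intro t ht ht1
    obtain ⟨x, hx⟩ := hM.fixpt t
    have hxo := hinv t ht ht1 x hx
    have h2 : ∃ y : PL K, y ≠ x ∧ t • y = y := by
      by_contra hcon
      push Not at hcon
      have h3 : t ∈ US H x := ⟨hx, fun y hy => by by_contra h; exact hcon y h hy⟩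
      have h4 := US_pow hM h3
      rw [pow_succ, pow_two, ht, one_mul] at h4
      exact ht1 h4
    refine cen_le hM ht1 hx (m := 2) ?_ h2
    intro y hyx _
    have h3 : Nat.card (stabilizer H x ⊓ stabilizer H y : Subgroup H) ∣ 6 := by
      rw [← h6 x hxo]
      exact Subgroup.card_dvd_of_le inf_le_left
    have h4 : ¬ 3 ∣ Nat.card (stabilizer H x ⊓ stabilizer H y : Subgroup H) := by
      intro h5
      obtain ⟨n, hn⟩ := exists_prime_orderOf_dvd_card' 3 h5
      have hn1 : (n : H) ≠ 1 := by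
        intro h
        have : n = 1 := Subtype.ext h
        rw [this, orderOf_one] at hn
        omega
      have h7 : (n : H) ^ 3 ^ 1 = 1 := by
        have := pow_orderOf_eq_one n
        rw [hn] at this
        exact congrArg Subtype.val this
      have h8 := ppow hM (x := x) n.2.1 h7 hn1
      exact hyx (h8.2 y n.2.2)
    have h5 := Nat.le_of_dvd (by norm_num) h3
    interval_cases h : Nat.card (stabilizer H x ⊓ stabilizer H y : Subgroup H) <;> first | omega | (revert h3 h4; norm_num)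
  · intro x hx
    obtain ⟨a, ha⟩ := hM.fixpt x
    have h1 := hord x a ha
    have h2 : orderOf x ∣ 4 := orderOf_dvd_of_pow_eq_one hx
    have h3 : orderOf x ∣ Nat.card (stabilizer H a) := orderOf_dvd_of_pow_eq_one h1
    have h4 : orderOf x ∣ 2 := by
      have h5 := Nat.dvd_gcd h2 h3
      by_cases hao : a ∈ orbit H (OnePoint.infty : PL K)
      · rw [h6 a hao] at h5; exact h5.trans (by norm_num)
      · rcases hst a hao with h | h <;> rw [h] at h5
        · exact h5.trans (by norm_num)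
        · exact h5.trans (by norm_num)
    rw [← pow_two]
    exact orderOf_dvd_iff_pow_eq_one.1 h4

/-- the wild case -/
theorem wild (H : Subgroup (PG K)) (hH : ∀ h ∈ H, ∃ x : PL K, h • x = x) (huni : (uni H (PL K)).Nonempty) :
    (∃ x : PL K, ∀ h ∈ H, h • x = x) ∨
    (∃ x : PL K, Nat.card (orbit H x) = 2 ∧ ¬ p ∣ Nat.card (stabilizer H x) ∧ IsCyclic (stabilizer H x) ∧
      Nonempty (H ≃* DihedralGroup (Nat.card (stabilizer H x)))) ∨
    (p = 3 ∧ Nonempty (H ≃* alternatingGroup (Fin 5))) ∨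
    (∃ k : Subfield K, Nonempty (H ≃* PG k) ∨ (Odd (Nat.card k) ∧ Nonempty (H ≃* ProjectiveSpecialLinearGroup (Fin 2) k))) := by
  classical
  haveI : Finite (PL K) := inferInstanceAs (Finite (Option K))
  haveI : Finite (PG K) := Finite.of_surjective _ Matrix.ProjGenLinGroup.mk_surjective
  have hX : 2 ≤ Nat.card (PL K) := by
    cases nonempty_fintype K
    change 2 ≤ Nat.card (Option K)
    rw [Nat.card_eq_fintype_card, Fintype.card_option]
    have : 1 < Fintype.card K := Fintype.one_lt_card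
    omega
  have hM := mob_of p H hH
  obtain ⟨u, x₀, hu⟩ := huni
  have huU : u ∈ US H x₀ := hu
  have hu1 : u ≠ 1 := US_ne hX huU
  by_cases hfix : ∀ h : H, h • x₀ = x₀
  · exact Or.inl ⟨x₀, fun h hh => hfix ⟨h, hh⟩⟩
  push Not at hfix
  obtain ⟨h₀, hh₀⟩ := hfix
  set y := h₀ • x₀ with hy
  have huy : u • y ≠ y := fun h => hh₀ (hu.2 y h)
  have huyx : u • y ≠ x₀ := by
    intro h
    apply hh₀
    apply MulAction.injective u
    change u • y = u • x₀
    rw [h, hu.1]
  obtain ⟨g, g1, g2, g3⟩ := to_three (K := K) (Ne.symm hh₀) (Ne.symm huyx) (Ne.symm huy)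
  have g1' : g⁻¹ • (OnePoint.infty : PL K) = x₀ := by rw [← g1, inv_smul_smul]
  set H₁ := cj g H with hH₁
  have hfixH₁ : ∀ h ∈ H₁, ∃ x : PL K, h • x = x := by
    intro h hh
    rw [hH₁, mem_cj] at hh
    obtain ⟨x, hx⟩ := hH _ hh
    refine ⟨g • x, ?_⟩
    rw [mul_smul, mul_smul, inv_smul_eq_iff] at hx
    exact hx
  have hu₁ : g * u * g⁻¹ ∈ H₁ := by
    rw [hH₁, mem_cj]
    have : g⁻¹ * (g * u * g⁻¹) * g = (u : PG K) := by group
    rw [this]; exact u.2
  have hu₁inf : (g * u * g⁻¹) • (OnePoint.infty : PL K) = OnePoint.infty := by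
    rw [mul_smul, mul_smul, g1']
    have : (u : PG K) • x₀ = x₀ := hu.1
    rw [this, g1]
  have hu₁0 : (g * u * g⁻¹) • ((0 : K) : PL K) = ((1 : K) : PL K) := by
    rw [← g2, mul_smul, mul_smul, inv_smul_smul]
    exact g3
  have hu₁U : ∀ z : PL K, (g * u * g⁻¹) • z = z → z = OnePoint.infty := by
    intro z hz
    rw [mul_smul, mul_smul, ← eq_inv_smul_iff] at hz
    have := hu.2 _ hz
    rw [← g1, ← this, smul_inv_smul]
  have haff : aff 1 1 ∈ H₁ := by
    obtain ⟨a, b, hab⟩ := stab_infty hu₁inf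
    rw [hab, aff_coe, mul_zero, zero_add, OnePoint.coe_eq_coe] at hu₁0
    subst hu₁0
    have ha : a = 1 := by
      by_contra ha
      have ha' : (1 : K) - a ≠ 0 := fun h => ha (Units.ext (sub_eq_zero.1 h).symm)
      have h3 := hu₁U ((1 / (1 - a) : K) : PL K) (by
        rw [hab, aff_coe, OnePoint.coe_eq_coe]
        field_simp
        ring)
      exact OnePoint.coe_ne_infty _ h3
    rw [← ha, ← hab]
    exact hu₁
  have huU₁ : (⟨g * u * g⁻¹, hu₁⟩ : H₁) ∈ US H₁ (OnePoint.infty : PL K) := ⟨hu₁inf, hu₁U⟩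
  have h0orb : ((0 : K) : PL K) ∈ orbit H₁ (OnePoint.infty : PL K) := by
    rw [hH₁, orb_cj, g1', ← g2, inv_smul_smul]
    exact ⟨h₀, rfl⟩
  right
  obtain ⟨m, hm, hN, hcases⟩ := wild_cases p H₁ hfixH₁ huU₁
  rcases hcases with hm0 | ⟨hQ, z, hz, hz2⟩ | ⟨hm1, hc⟩ | ⟨hQ, hm3, hc, hst⟩
  · exfalso
    rw [hm0, mul_zero, add_zero] at hm
    have h4 := (Nat.card_eq_one_iff_unique.1 hm).1
    have h5 : (⟨((0 : K) : PL K), h0orb⟩ : orbit H₁ (OnePoint.infty : PL K)) = ⟨OnePoint.infty, mem_orbit_self _⟩ := Subsingleton.elim _ _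
    exact OnePoint.coe_ne_infty _ (congrArg Subtype.val h5)
  · left
    rw [hH₁, card_orb_cj] at hz2
    rw [hH₁, orb_cj, g1'] at hz
    have hno : ∀ h : H, h • (g⁻¹ • z) = g⁻¹ • z → h ∉ US H (g⁻¹ • z) := fun h _ hU => hz (US_orbit hM hX huU hU)
    have hcyc : IsCyclic (stabilizer H (g⁻¹ • z)) := by
      apply stab_cyclic hM
      rintro h hh ⟨w, hw1, hw2⟩
      have : g⁻¹ • z = w := hw2 _ hh
      subst this
      exact hno h hh ⟨hw1, hw2⟩
    refine ⟨g⁻¹ • z, hz2, ?_, hcyc, dihedral_case hM hz2 hcyc⟩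
    intro hpd
    obtain ⟨n, hn⟩ := exists_prime_orderOf_dvd_card' p hpd
    have hn1 : (n : H) ≠ 1 := by
      intro h
      have : n = 1 := Subtype.ext h
      rw [this, orderOf_one] at hn
      exact hp.out.one_lt.ne hn
    have h7 : (n : H) ^ p ^ 1 = 1 := by
      have := pow_orderOf_eq_one n
      rw [hn] at this
      rw [pow_one]
      exact congrArg Subtype.val this
    exact hno n n.2 (ppow hM n.2 h7 hn1)
  · right; right
    subst hm1
    rw [mul_one] at hm hN
    obtain ⟨hcard, hle⟩ := ident H₁ haff h0orb hm hc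
    refine ⟨KF (AA H₁), ?_⟩
    set φ := (ProjGenLinGroup.map (KF (AA H₁)).subtype : PG (KF (AA H₁)) →* PG K) with hφ
    have hφi : Function.Injective φ := map_injective _
    set M := H₁.comap φ with hMd
    have hMmap : M.map φ = H₁ := Subgroup.map_comap_eq_self hle
    have e1 : M ≃* H₁ := (M.equivMapOfInjective φ hφi).trans (MulEquiv.subgroupCongr hMmap)
    have e2 : H ≃* M := (cjEquiv g H).trans e1.symm
    have hcM : Nat.card M = Nat.card H₁ := Nat.card_congr e1.toEquiv
    haveI := Fintype.ofFinite (KF (AA H₁))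
    haveI : Finite (PG (KF (AA H₁))) := Finite.of_surjective _ Matrix.ProjGenLinGroup.mk_surjective
    have hcPG := card_PG (F := KF (AA H₁))
    rw [← Nat.card_eq_fintype_card, hcard] at hcPG
    have hQ2 : 2 ≤ Nat.card (AA H₁) := by
      have : 1 < Nat.card (AA H₁) := by
        rw [Finite.one_lt_card_iff_nontrivial]
        exact ⟨⟨1, haff⟩, 0, fun h => one_ne_zero (congrArg Subtype.val h)⟩
      omega
    obtain ⟨Q, hQ⟩ : ∃ Q, Nat.card (AA H₁) = Q + 1 := ⟨Nat.card (AA H₁) - 1, by omega⟩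
    rw [hQ] at hcPG hN hc hcard
    simp only [Nat.add_sub_cancel] at hcPG hc
    rcases hc with hc | hc
    · left
      have htop : M = ⊤ := by
        apply Subgroup.eq_top_of_card_eq
        rw [hcM, hN, hcPG, hc]; ring
      exact ⟨e2.trans ((MulEquiv.subgroupCongr htop).trans Subgroup.topEquiv)⟩
    · right
      have hidx : M.index = 2 := by
        have h1 := Subgroup.card_mul_index M
        rw [hcM, hN, hcPG] at h1
        have h2 : 0 < (1 + (Q + 1)) * ((Q + 1) * Nat.card (LL H₁)) := by rw [← hN]; exact Nat.card_pos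
        apply Nat.eq_of_mul_eq_mul_left h2
        rw [h1]
        subst hc
        ring
      have hodd : Odd (Nat.card (KF (AA H₁))) := by rw [hcard, ← hc]; exact ⟨Nat.card (LL H₁), rfl⟩
      refine ⟨hodd, ?_⟩
      obtain ⟨e3⟩ := index_two (F := KF (AA H₁)) (SLt.two_ne_zero_of_card (by rw [← Nat.card_eq_fintype_card]; exact hodd)) M hidx
      exact ⟨e2.trans e3⟩
  · right; left
    rw [hQ, hm3, hc] at hN
    obtain ⟨e⟩ := wild_A5 p H₁ hfixH₁ haff hN hQ hc hst
    exact ⟨char_of_AA p haff hQ Nat.prime_three, ⟨(cjEquiv g H).trans e⟩⟩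

end

end CfsgH9.Dk
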