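import Cfsg.Agent.H9.Dk10
import Cfsg.Agent.H9.SLt4
import Cfsg.Agent.S0800

set_option autoImplicit false

open MulAction Matrix

namespace CfsgH9.Dk

section
variable {p : ℕ} {K : Type*} [Field K]

/-- restriction of `Mob` along an injective homomorphism -/
theorem Mob.comp {G G' X : Type*} [Group G] [Group G'] [MulAction G X] (hM : Mob p K G X) (f : G' →* G) (hf : Function.Injective f) :
    letI : MulAction G' X := MulAction.compHom X f
    Mob p K G' X := by
  letI : MulAction G' X := MulAction.compHom X f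
  have hs : ∀ (g : G') (x : X), g • x = f g • x := fun g x => rfl
  exact
    { three := fun h x y z hxy hxz hyz hx hy hz => hf (by rw [map_one]; exact hM.three (f h) x y z hxy hxz hyz hx hy hz)
      fixpt := fun h => hM.fixpt (f h)
      swap := fun h x y hxy hx hy => hf (by rw [map_one, map_mul]; exact hM.swap (f h) x y hxy hx hy)
      chi := fun x => by
        obtain ⟨φ, hφ⟩ := hM.chi x
        let i : stabilizer G' x →* stabilizer G x :=
          MonoidHom.mk' (fun h => ⟨f h, h.2⟩) (fun a b => Subtype.ext (map_mul f _ _))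
        refine ⟨φ.comp i, fun h => ?_⟩
        have h1 := hφ (i h)
        refine ⟨fun h2 => ?_, fun h2 => h1.2 h2⟩
        obtain ⟨h3, h4⟩ := h1.1 h2
        refine ⟨hf (by rw [map_pow, map_one]; exact h3), fun hne y hy => h4 ?_ y hy⟩
        intro h5
        apply hne
        apply Subtype.ext
        apply hf
        rw [Subgroup.coe_one, map_one]
        exact congrArg (fun z : stabilizer G x => (z : G)) h5 }

/-- the Borel case -/
theorem borel [hp : Fact p.Prime] [CharP K p] {G X : Type*} [Group G] [Finite G] [MulAction G X] [Finite X] (hM : Mob p K G X)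
    (hX : 2 ≤ Nat.card X) {x : X} {u : G} (hu : u ∈ US G x) :
    ∃ S : Sylow p G, ∀ g : G, g • x = x → g ∈ Subgroup.normalizer ((S : Subgroup G) : Set G) := by
  obtain ⟨S, huS, hS⟩ := sylow_fix hM hX hu
  refine ⟨S, ?_⟩
  obtain ⟨f, hf⟩ := hM.chi x
  have hchar : ∀ (g : G) (hg : g • x = x), f ⟨g, hg⟩ = 1 ↔ g ∈ (S : Subgroup G) := by
    intro g hg
    let P : Subgroup G := f.ker.map (stabilizer G x).subtype
    have hP : IsPGroup p P := by
      rintro ⟨_, ⟨k, hk, rfl⟩⟩
      refine ⟨1, ?_⟩
      apply Subtype.ext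
      rw [pow_one]
      exact ((hf k).1 hk).1
    have hSP : (S : Subgroup G) ≤ P := by
      intro s hs
      obtain ⟨h1, h2⟩ := hS s hs
      refine ⟨⟨s, h1⟩, ?_, rfl⟩
      rw [SetLike.mem_coe, MonoidHom.mem_ker]
      by_contra h3
      obtain ⟨y, hy, hy'⟩ := (hf _).2 h3
      by_cases hs1 : s = 1
      · subst hs1
        exact h3 (map_one f)
      · exact hy ((h2 hs1).2 y hy')
    have hPS : P = S := S.3 hP hSP
    constructor
    · intro h
      change g ∈ (S : Subgroup G)
      rw [← hPS]
      exact ⟨⟨g, hg⟩, h, rfl⟩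
    · intro h
      rw [← hPS] at h
      obtain ⟨k, hk, hk'⟩ := h
      have : k = ⟨g, hg⟩ := Subtype.ext hk'
      rw [← this]
      exact hk
  intro g hg
  rw [Subgroup.mem_normalizer_iff]
  have hginv : g⁻¹ • x = x := by rw [inv_smul_eq_iff, hg]
  have key : ∀ (g : G) (_ : g • x = x) (s : G), s ∈ (S : Subgroup G) → g * s * g⁻¹ ∈ (S : Subgroup G) := by
    intro g hg s hs
    have hsx := (hS s hs).1
    have h1 : (g * s * g⁻¹) • x = x := by
      rw [mul_smul, mul_smul, inv_smul_eq_iff.2 hg.symm, hsx, hg]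
    rw [← hchar _ h1]
    have h2 : (⟨g * s * g⁻¹, h1⟩ : stabilizer G x) = ⟨g, hg⟩ * ⟨s, hsx⟩ * ⟨g, hg⟩⁻¹ := rfl
    rw [h2, map_mul, map_mul, (hchar s hsx).2 hs, mul_one, map_inv, mul_inv_cancel]
  intro s
  constructor
  · exact key g hg s
  · intro h
    have := key g⁻¹ hginv _ h
    rw [inv_inv] at this
    have h3 : g⁻¹ * (g * s * g⁻¹) * g = s := by group
    rw [h3] at this
    exact this

end

section quad
variable (F : Type*) [Field F] [Fintype F] (p : ℕ) [hp : Fact p.Prime] [CharP F p]

/-- the quadratic extension -/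
abbrev QE : Type := FiniteField.Extension F p 2

theorem charP_QE : CharP (QE F p) p := charP_of_injective_algebraMap (algebraMap F (QE F p)).injective p

theorem quad_root (b c : F) : ∃ k : QE F p, k ^ 2 + algebraMap F (QE F p) b * k + algebraMap F (QE F p) c = 0 := by
  classical
  let f : Polynomial F := Polynomial.X ^ 2 + Polynomial.C b * Polynomial.X + Polynomial.C c
  have hf : f = Polynomial.C 1 * Polynomial.X ^ 2 + Polynomial.C b * Polynomial.X + Polynomial.C c := by simp [f]
  have hdeg : f.natDegree = 2 := by rw [hf]; exact Polynomial.natDegree_quadratic one_ne_zero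
  by_cases hroot : ∃ k : F, f.IsRoot k
  · obtain ⟨k, hk⟩ := hroot
    refine ⟨algebraMap F _ k, ?_⟩
    simp only [f, Polynomial.IsRoot, Polynomial.eval_add, Polynomial.eval_mul, Polynomial.eval_pow, Polynomial.eval_X,
      Polynomial.eval_C] at hk
    rw [← map_pow, ← map_mul, ← map_add, ← map_add, hk, map_zero]
  · push Not at hroot
    have hirr : Irreducible f := by
      rw [Polynomial.irreducible_iff_roots_eq_zero_of_degree_le_three (by omega) (by omega)]
      rw [Multiset.eq_zero_iff_forall_notMem]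
      intro k hk
      exact hroot k (Polynomial.isRoot_of_mem_roots hk)
    haveI : Fact (Irreducible f) := ⟨hirr⟩
    have hfr : Module.finrank F (AdjoinRoot f) = 2 := by
      rw [← hdeg]
      exact (AdjoinRoot.powerBasis hirr.ne_zero).finrank.trans (AdjoinRoot.powerBasis_dim _)
    obtain ⟨φ⟩ := FiniteField.nonempty_algHom_of_finrank_dvd (F := F) (K := AdjoinRoot f) (L := QE F p)
      (by rw [hfr, FiniteField.finrank_extension])
    refine ⟨φ (AdjoinRoot.root f), ?_⟩
    have h1 := AdjoinRoot.eval₂_root f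
    simp only [f, Polynomial.eval₂_add, Polynomial.eval₂_mul, Polynomial.eval₂_pow, Polynomial.eval₂_X,
      Polynomial.eval₂_C] at h1
    have h2 := congrArg φ h1
    rw [map_add, map_add, map_mul, map_pow, map_zero] at h2
    rw [← h2]
    congr 1
    · congr 1
      congr 1
      exact (φ.commutes b).symm
    · exact (φ.commutes c).symm

/-- `PGL₂(F)` inside `PGL₂` of the quadratic extension -/
noncomputable def emb : PG F →* PG (QE F p) := ProjGenLinGroup.map (algebraMap F (QE F p))

theorem emb_injective : Function.Injective (emb F p) := map_injective _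

theorem emb_fix (g : PG F) : ∃ x : PL (QE F p), emb F p g • x = x := by
  classical
  induction g using ProjGenLinGroup.induction_on with | mk g =>
  set i := algebraMap F (QE F p) with hi
  have he : emb F p (ProjGenLinGroup.mk g) = ProjGenLinGroup.mk (GeneralLinearGroup.map i g) := ProjGenLinGroup.map_mk _ _
  rw [he]
  have hent : ∀ a b, (GeneralLinearGroup.map i g : GL (Fin 2) (QE F p)) a b = i (g a b) := fun a b => rfl
  by_cases h10 : g 1 0 = 0
  · refine ⟨OnePoint.infty, ?_⟩
    rw [mk_infty, if_pos (by rw [hent, h10, map_zero])]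
  · obtain ⟨k, hk⟩ := quad_root F p ((g 1 1 - g 0 0) / g 1 0) (-(g 0 1) / g 1 0)
    have hi10 : i (g 1 0) ≠ 0 := fun h => h10 (i.injective (by rw [h, map_zero]))
    have hk' : i (g 0 0) * k + i (g 0 1) = k * (i (g 1 0) * k + i (g 1 1)) := by
      rw [← hi, map_div₀, map_sub, map_div₀, map_neg] at hk
      field_simp at hk
      linear_combination -hk
    have hd := gl_det_ne (GeneralLinearGroup.map i g : GL (Fin 2) (QE F p))
    rw [hent, hent, hent, hent] at hd
    have hne : i (g 1 0) * k + i (g 1 1) ≠ 0 := by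
      intro h
      apply hd
      rw [h, mul_zero] at hk'
      have e1 : i (g 1 1) = -(i (g 1 0) * k) := by linear_combination h
      have e2 : i (g 0 1) = -(i (g 0 0) * k) := by linear_combination hk'
      rw [e1, e2]; ring
    refine ⟨(k : PL (QE F p)), ?_⟩
    rw [mk_coe, hent, hent, hent, hent, if_neg hne, OnePoint.coe_eq_coe, hk', mul_div_assoc, div_self hne, mul_one]

theorem emb_range_fix : ∀ h ∈ (emb F p).range, ∃ x : PL (QE F p), h • x = x := by
  rintro _ ⟨g, rfl⟩
  exact emb_fix F p g

theorem card_PL (K : Type*) [Field K] [Finite K] : 2 ≤ Nat.card (PL K) := by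
  cases nonempty_fintype K
  change 2 ≤ Nat.card (Option K)
  rw [Nat.card_eq_fintype_card, Fintype.card_option]
  have : 1 < Fintype.card K := Fintype.one_lt_card
  omega

end quad

section ord
variable {F : Type*} [Field F] [Fintype F] {p : ℕ} [hp : Fact p.Prime] [CharP F p]

theorem ord_dvd (g : ProjectiveSpecialLinearGroup (Fin 2) F) (hg : ¬ p ∣ orderOf g) :
    orderOf g ∣ (Fintype.card F + 1) / Nat.gcd 2 (Fintype.card F - 1) ∨ orderOf g ∣ (Fintype.card F - 1) / Nat.gcd 2 (Fintype.card F - 1) := by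
  classical
  set q := Fintype.card F with hq
  have hq1 : 1 < q := Fintype.one_lt_card
  obtain ⟨x, rfl⟩ := SLt.pr_surjective g
  set k := orderOf (SLt.pr x) with hk
  have hk1 : SLt.pr (x ^ k) = 1 := by rw [map_pow, pow_orderOf_eq_one]
  rw [SLt.pr_eq_one] at hk1
  have hkd : k ∣ orderOf x := orderOf_map_dvd _ x
  by_cases h2 : (2 : F) = 0
  · -- characteristic two
    have hp2 : p = 2 := by
      have := (CharP.cast_eq_zero_iff F p 2).mp (by exact_mod_cast h2)
      exact (Nat.prime_dvd_prime_iff_eq hp.out Nat.prime_two).mp this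
    have hx1 : x ^ k = 1 := by
      rcases SLt.isPM_cases hk1 with h | h
      · exact h
      · rw [h]
        have h3 : (-1 : F) = 1 := by linear_combination -h2
        apply CfsgH7.sl2_ext
        · rw [SLt.m1_00, h3]; rfl
        · rfl
        · rfl
        · rw [SLt.m1_11, h3]; rfl
    have hko : orderOf x = k := Nat.dvd_antisymm (orderOf_dvd_of_pow_eq_one hx1) hkd
    have hcop : Nat.Coprime (orderOf x) p := by
      rw [hko, Nat.coprime_comm]
      exact (Nat.Prime.coprime_iff_not_dvd hp.out).2 hg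
    have hqe : q % 2 = 0 := by
      have h5 : (q : F) = 0 := Nat.cast_card_eq_zero F
      rw [CharP.cast_eq_zero_iff F p, hp2] at h5
      omega
    have hgcd : Nat.gcd 2 (q - 1) = 1 := by
      rw [← Nat.coprime_iff_gcd_eq_one, Nat.coprime_two_left]
      exact ⟨q / 2 - 1, by omega⟩
    rw [hgcd, Nat.div_one, Nat.div_one, ← hko]
    exact (Cfsg.Agent.S0800.result (F := F) rfl p x hcop).symm
  · have hqo : q % 2 = 1 := by
      apply FiniteField.odd_card_of_char_ne_two
      intro h5
      apply h2
      have := ringChar.Nat.cast_ringChar (R := F)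
      rw [h5] at this
      exact_mod_cast this
    have hgcd : Nat.gcd 2 (q - 1) = 2 := Nat.gcd_eq_left (by omega)
    have hp2 : p ≠ 2 := by
      rintro rfl
      exact h2 (by exact_mod_cast CharP.cast_eq_zero F 2)
    have hx2 : x ^ (k * 2) = 1 := by
      rw [pow_mul, pow_two]
      exact hk1.sq
    have hcop : Nat.Coprime (orderOf x) p := by
      have h3 := orderOf_dvd_of_pow_eq_one hx2
      rw [Nat.coprime_comm]
      refine (Nat.Prime.coprime_iff_not_dvd hp.out).2 (fun h => ?_)
      rcases (Nat.Prime.dvd_mul hp.out).1 (h.trans h3) with h4 | h4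
      · exact hg h4
      · exact hp2 ((Nat.prime_dvd_prime_iff_eq hp.out Nat.prime_two).1 h4)
    rw [hgcd]
    -- key: `k` divides `n / 2` when `orderOf x ∣ n`, `n` even
    have key : ∀ n : ℕ, n % 2 = 0 → orderOf x ∣ n → k ∣ n / 2 := by
      intro n hn hd
      rcases Nat.even_or_odd' (orderOf x) with ⟨t, ht | ht⟩
      · -- even order
        have ht0 : 0 < t := by
          have := orderOf_pos x
          omega
        have h6 : x ^ t * x ^ t = 1 := by rw [← pow_add, ← two_mul, ← ht, pow_orderOf_eq_one]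
        have h7 : SLt.pr x ^ t = 1 := by
          rw [← map_pow, SLt.pr_eq_one]
          exact CfsgH7.isPM_of_sq h2 h6
        have h8 := orderOf_dvd_of_pow_eq_one h7
        rw [ht] at hd
        obtain ⟨c, hc⟩ := hd
        refine h8.trans ⟨c, ?_⟩
        rw [hc, mul_assoc, Nat.mul_div_cancel_left _ (by norm_num)]
      · have h9 : k ∣ n := hkd.trans hd
        have h10 : Nat.Coprime k 2 := by
          rw [Nat.coprime_two_right]
          exact Odd.of_dvd_nat (by rw [ht]; exact ⟨t, rfl⟩) hkd
        have h11 : n = 2 * (n / 2) := by omega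
        rw [h11] at h9
        exact h10.dvd_of_dvd_mul_left h9
    rcases Cfsg.Agent.S0800.result (F := F) rfl p x hcop with h | h
    · right; exact key _ (by omega) h
    · left; exact key _ (by omega) h

/-- divisibility of the subfield order -/
theorem subfield_dvd {Q q : ℕ} {a f : ℕ} (hp' : p.Prime) (hQ : Q = p ^ a) (hq : q = p ^ f) (ha : 0 < a)
    (hd : Q * (Q - 1) * (Q + 1) ∣ q * (q - 1) * (q + 1)) : ∃ m, Q ^ m = q := by
  have hQ1 : 1 < Q := by rw [hQ]; exact Nat.one_lt_pow (by omega) hp'.one_lt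
  have hq0 : 0 < q := by rw [hq]; exact Nat.pow_pos hp'.pos
  have e1 : Q ^ 2 - 1 ∣ q ^ 2 - 1 := by
    have e2 : ∀ n : ℕ, 0 < n → (n - 1) * (n + 1) = n ^ 2 - 1 := by
      intro n hn
      obtain ⟨m, rfl⟩ : ∃ m, n = m + 1 := ⟨n - 1, by omega⟩
      rw [Nat.add_sub_cancel]
      have : (m + 1) ^ 2 = m * (m + 1 + 1) + 1 := by ring
      rw [this, Nat.add_sub_cancel]
    have h1 : Q ^ 2 - 1 ∣ q * (q ^ 2 - 1) := by
      rw [← e2 Q (by omega), ← e2 q hq0, ← mul_assoc]
      refine Dvd.dvd.trans ?_ hd
      rw [mul_assoc]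
      exact Dvd.intro_left _ rfl
    refine Nat.Coprime.dvd_of_dvd_mul_left ?_ h1
    rw [hq]
    apply Nat.Coprime.pow_right
    rw [Nat.coprime_comm]
    refine (Nat.Prime.coprime_iff_not_dvd hp').2 (fun h => ?_)
    have h3 : p ∣ Q ^ 2 := by rw [hQ, ← pow_mul]; exact dvd_pow_self p (by omega)
    have h4 : 1 ≤ Q ^ 2 := Nat.one_le_pow _ _ (by omega)
    have h5 : p ∣ 1 := by
      have := (Nat.dvd_sub_iff_right h4 h3).1 h
      exact this
    exact hp'.one_lt.ne' (Nat.dvd_one.1 h5)
  have hg := Nat.pow_sub_one_gcd_pow_sub_one p (a * 2) (f * 2)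
  rw [hQ, hq, ← pow_mul, ← pow_mul] at e1
  rw [Nat.gcd_eq_left e1] at hg
  have h6 : p ^ (a * 2) = p ^ (Nat.gcd (a * 2) (f * 2)) := by
    have h7 : 1 ≤ p ^ (a * 2) := Nat.one_le_pow _ _ hp'.pos
    have h8 : 1 ≤ p ^ (Nat.gcd (a * 2) (f * 2)) := Nat.one_le_pow _ _ hp'.pos
    omega
  have h9 := Nat.pow_right_injective hp'.two_le h6
  have h10 : a ∣ f := by
    have : a * 2 ∣ f * 2 := Nat.gcd_eq_left_iff_dvd.1 h9.symm
    exact Nat.dvd_of_mul_dvd_mul_right (by norm_num) this
  obtain ⟨m, rfl⟩ := h10
  exact ⟨m, by rw [hQ, hq, ← pow_mul]⟩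

end ord

end CfsgH9.Dk
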