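import Cfsg.Agent.H9.Dk11

set_option autoImplicit false

open MulAction Matrix

namespace CfsgH9.Dk

section general
variable (p : ℕ) [hp : Fact p.Prime] {K : Type*} [Field K] [Finite K] [CharP K p]

/-- Dickson's theorem inside `PGL₂(K)`, for subgroups all whose elements have fixed points -/
theorem dickson_pg (H : Subgroup (PG K)) (hH : ∀ h ∈ H, ∃ x : PL K, h • x = x) :
    (∃ x : PL K, (∀ h ∈ H, h • x = x) ∧ ((¬ p ∣ Nat.card H ∧ IsCyclic H) ∨ ∃ u : PG K, u ∈ H ∧ u • x = x ∧ ∀ y : PL K, u • y = y → y = x)) ∨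
    (∃ C : Subgroup H, IsCyclic C ∧ ¬ p ∣ Nat.card C ∧ Nonempty (H ≃* DihedralGroup (Nat.card C))) ∨
    (¬ p ∣ Nat.card H ∧ Nonempty (H ≃* alternatingGroup (Fin 4))) ∨ (¬ p ∣ Nat.card H ∧ Nonempty (H ≃* Equiv.Perm (Fin 4))) ∨
    ((¬ p ∣ Nat.card H ∨ p = 3) ∧ Nonempty (H ≃* alternatingGroup (Fin 5))) ∨
    (∃ k : Subfield K, Nonempty (H ≃* PG k) ∨ (Odd (Nat.card k) ∧ Nonempty (H ≃* ProjectiveSpecialLinearGroup (Fin 2) k))) := by
  classical
  haveI : Finite (PL K) := inferInstanceAs (Finite (Option K))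
  haveI : Finite (PG K) := Finite.of_surjective _ Matrix.ProjGenLinGroup.mk_surjective
  have hM := mob_of p H hH
  have hX := card_PL K
  by_cases huni : (uni H (PL K)).Nonempty
  · by_cases hfix : ∃ x : PL K, ∀ h ∈ H, h • x = x
    · left
      obtain ⟨x, hx⟩ := hfix
      refine ⟨x, hx, Or.inr ?_⟩
      obtain ⟨u, y, hu1, hu2⟩ := huni
      have hxy : x = y := hu2 x (hx u u.2)
      subst hxy
      exact ⟨u, u.2, hu1, hu2⟩
    rcases wild p H hH huni with h | ⟨x, h1, h2, h3, h4⟩ | ⟨h', h⟩ | h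
    · exact absurd h hfix
    · exact Or.inr (Or.inl ⟨stabilizer H x, h3, h2, h4⟩)
    · exact Or.inr (Or.inr (Or.inr (Or.inr (Or.inl ⟨Or.inr h', h⟩))))
    · exact Or.inr (Or.inr (Or.inr (Or.inr (Or.inr h))))
  · rw [Set.not_nonempty_iff_eq_empty] at huni
    have hpp : ¬ p ∣ Nat.card H := by
      intro hd
      obtain ⟨n, hn⟩ := exists_prime_orderOf_dvd_card' p hd
      have hn1 : n ≠ 1 := by
        rintro rfl
        rw [orderOf_one] at hn
        exact hp.out.one_lt.ne hn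
      obtain ⟨x, hx⟩ := hM.fixpt n
      have h7 : n ^ p ^ 1 = 1 := by
        rw [pow_one, ← hn]; exact pow_orderOf_eq_one n
      have h8 := ppow hM hx h7 hn1
      have h9 : n ∈ uni H (PL K) := ⟨x, h8⟩
      rw [huni] at h9
      exact h9
    rcases tame hM hX huni with ⟨h1, x, hx⟩ | ⟨x, h1, h2, h3⟩ | h | h | h
    · exact Or.inl ⟨x, fun h hh => hx ⟨h, hh⟩, Or.inl ⟨hpp, h1⟩⟩
    · refine Or.inr (Or.inl ⟨stabilizer H x, h2, fun hd => hpp (hd.trans (Subgroup.card_subgroup_dvd_card _)), h3⟩)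
    · exact Or.inr (Or.inr (Or.inl ⟨hpp, h⟩))
    · exact Or.inr (Or.inr (Or.inr (Or.inl ⟨hpp, h⟩)))
    · exact Or.inr (Or.inr (Or.inr (Or.inr (Or.inl ⟨Or.inl hpp, h⟩))))

/-- Dickson's theorem for a finite group embedded in `PGL₂(K)` so that all elements have fixed points -/
theorem dickson_emb {G : Type*} [Group G] [Finite G] (ψ : G →* PG K) (hψ : Function.Injective ψ) (hfix : ∀ g : G, ∃ x : PL K, ψ g • x = x)
    (H : Subgroup G) :
    (¬ p ∣ Nat.card H ∧ IsCyclic H) ∨ (∃ S : Sylow p G, H ≤ Subgroup.normalizer ((S : Subgroup G) : Set G) ∧ (S : Subgroup G) ≠ ⊥) ∨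
    (∃ C : Subgroup G, C ≤ H ∧ IsCyclic C ∧ ¬ p ∣ Nat.card C ∧ Nonempty (H ≃* DihedralGroup (Nat.card C))) ∨
    (¬ p ∣ Nat.card H ∧ Nonempty (H ≃* alternatingGroup (Fin 4))) ∨ (¬ p ∣ Nat.card H ∧ Nonempty (H ≃* Equiv.Perm (Fin 4))) ∨
    ((¬ p ∣ Nat.card H ∨ p = 3) ∧ Nonempty (H ≃* alternatingGroup (Fin 5))) ∨
    (∃ k : Subfield K, Nonempty (H ≃* PG k) ∨ (Odd (Nat.card k) ∧ Nonempty (H ≃* ProjectiveSpecialLinearGroup (Fin 2) k))) := by
  classical
  haveI : Finite (PL K) := inferInstanceAs (Finite (Option K))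
  haveI : Finite (PG K) := Finite.of_surjective _ Matrix.ProjGenLinGroup.mk_surjective
  have hX := card_PL K
  let e : H ≃* H.map ψ := H.equivMapOfInjective ψ hψ
  have hcard : Nat.card H = Nat.card (H.map ψ) := Nat.card_congr e.toEquiv
  have hH : ∀ h ∈ H.map ψ, ∃ x : PL K, h • x = x := by
    rintro _ ⟨g, -, rfl⟩
    exact hfix g
  rcases dickson_pg p (H.map ψ) hH with ⟨x, hx, h⟩ | ⟨C, h1, h2, ⟨h3⟩⟩ | ⟨h', ⟨h⟩⟩ | ⟨h', ⟨h⟩⟩ | ⟨h', ⟨h⟩⟩ | ⟨k, h⟩
  · rcases h with ⟨h1, h2⟩ | ⟨_, ⟨u, hu, rfl⟩, hux, huy⟩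
    · left
      exact ⟨by rw [hcard]; exact h1, (MulEquiv.isCyclic e).2 h2⟩
    · right; left
      letI : MulAction G (PL K) := MulAction.compHom (PL K) ψ
      -- `Mob` for `G`
      have hMr := mob_of p ψ.range (by rintro _ ⟨g, rfl⟩; exact hfix g)
      have hM : Mob p K G (PL K) := hMr.comp ψ.rangeRestrict (by
        intro a b hab
        exact hψ (congrArg Subtype.val hab))
      have huU : u ∈ US G x := ⟨hux, huy⟩
      obtain ⟨S, hS⟩ := borel hM hX huU
      refine ⟨S, fun h hh => hS h (hx _ ⟨h, hh, rfl⟩), ?_⟩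
      intro hbot
      have hu1 : u ≠ 1 := US_ne hX huU
      have hup : u ^ p = 1 := US_pow hM huU
      have hord : orderOf u = p := orderOf_eq_prime hup hu1
      have hdv : p ∣ Nat.card G := by rw [← hord]; exact orderOf_dvd_natCard u
      have := S.ne_bot_of_dvd_card hdv
      exact this hbot
  · right; right; left
    refine ⟨(C.map e.symm.toMonoidHom).map H.subtype, ?_, ?_, ?_, ?_⟩
    · exact Subgroup.map_subtype_le _
    · have e1 : C ≃* (C.map e.symm.toMonoidHom) := C.equivMapOfInjective _ e.symm.injective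
      have e2 := (C.map e.symm.toMonoidHom).equivMapOfInjective _ H.subtype_injective
      exact (MulEquiv.isCyclic (e1.trans e2)).1 h1
    · have e1 : C ≃* (C.map e.symm.toMonoidHom) := C.equivMapOfInjective _ e.symm.injective
      have e2 := (C.map e.symm.toMonoidHom).equivMapOfInjective _ H.subtype_injective
      rw [← Nat.card_congr (e1.trans e2).toEquiv]
      exact h2
    · have e1 : C ≃* (C.map e.symm.toMonoidHom) := C.equivMapOfInjective _ e.symm.injective
      have e2 := (C.map e.symm.toMonoidHom).equivMapOfInjective _ H.subtype_injective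
      rw [← Nat.card_congr (e1.trans e2).toEquiv]
      exact ⟨e.trans h3⟩
  · rw [← hcard] at h'
    exact Or.inr (Or.inr (Or.inr (Or.inl ⟨h', ⟨e.trans h⟩⟩)))
  · rw [← hcard] at h'
    exact Or.inr (Or.inr (Or.inr (Or.inr (Or.inl ⟨h', ⟨e.trans h⟩⟩))))
  · rw [← hcard] at h'
    exact Or.inr (Or.inr (Or.inr (Or.inr (Or.inr (Or.inl ⟨h', ⟨e.trans h⟩⟩)))))
  · refine Or.inr (Or.inr (Or.inr (Or.inr (Or.inr (Or.inr ⟨k, ?_⟩)))))
    rcases h with h | ⟨h1, ⟨h⟩⟩
    · obtain ⟨h⟩ := h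
      exact Or.inl ⟨e.trans h⟩
    · exact Or.inr ⟨h1, ⟨e.trans h⟩⟩

end general

section psl
variable {F : Type*} [Field F] [Fintype F] (p : ℕ) [hp : Fact p.Prime] [CharP F p]

/-- subfields in `Type` whose order is a root of `q` -/
theorem dickson_psl (H : Subgroup (ProjectiveSpecialLinearGroup (Fin 2) F)) :
    (¬ p ∣ Nat.card H ∧ IsCyclic H) ∨
    (∃ S : Sylow p (ProjectiveSpecialLinearGroup (Fin 2) F), H ≤ Subgroup.normalizer ((S : Subgroup (ProjectiveSpecialLinearGroup (Fin 2) F)) : Set (ProjectiveSpecialLinearGroup (Fin 2) F)) ∧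
      (S : Subgroup (ProjectiveSpecialLinearGroup (Fin 2) F)) ≠ ⊥) ∨
    (∃ C : Subgroup (ProjectiveSpecialLinearGroup (Fin 2) F), C ≤ H ∧ IsCyclic C ∧ ¬ p ∣ Nat.card C ∧ Nonempty (H ≃* DihedralGroup (Nat.card C))) ∨
    (¬ p ∣ Nat.card H ∧ Nonempty (H ≃* alternatingGroup (Fin 4))) ∨ (¬ p ∣ Nat.card H ∧ Nonempty (H ≃* Equiv.Perm (Fin 4))) ∨
    ((¬ p ∣ Nat.card H ∨ p = 3) ∧ Nonempty (H ≃* alternatingGroup (Fin 5))) ∨
    (∃ (k : Type) (_ : Field k) (_ : Fintype k) (m : ℕ), Fintype.card k ^ m = Fintype.card F ∧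
      (Nonempty (H ≃* PG k) ∨ (Odd (Fintype.card k) ∧ Nonempty (H ≃* ProjectiveSpecialLinearGroup (Fin 2) k)))) := by
  classical
  haveI := charP_QE F p
  haveI : Finite (ProjectiveSpecialLinearGroup (Fin 2) F) := Finite.of_surjective _ SLt.pr_surjective
  let ψ : ProjectiveSpecialLinearGroup (Fin 2) F →* PG (QE F p) := (emb F p).comp ProjectiveSpecialLinearGroup.toPGL
  have hψ : Function.Injective ψ := (emb_injective F p).comp ProjectiveSpecialLinearGroup.toPGL_injective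
  rcases dickson_emb p ψ hψ (fun g => emb_fix F p _) H with h | h | h | h | h | h | ⟨k, h⟩
  · exact Or.inl h
  · exact Or.inr (Or.inl h)
  · exact Or.inr (Or.inr (Or.inl h))
  · exact Or.inr (Or.inr (Or.inr (Or.inl h)))
  · exact Or.inr (Or.inr (Or.inr (Or.inr (Or.inl h))))
  · exact Or.inr (Or.inr (Or.inr (Or.inr (Or.inr (Or.inl h)))))
  · refine Or.inr (Or.inr (Or.inr (Or.inr (Or.inr (Or.inr ?_)))))
    haveI : Fintype k := Fintype.ofFinite k
    have hk : Nat.card k = Fintype.card k := Nat.card_eq_fintype_card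
    have hcardF : 2 * Nat.card (ProjectiveSpecialLinearGroup (Fin 2) F) = Fintype.card F * (Fintype.card F - 1) * (Fintype.card F + 1) ∨
        ((2 : F) = 0 ∧ Nat.card (ProjectiveSpecialLinearGroup (Fin 2) F) ∣ Fintype.card F * (Fintype.card F - 1) * (Fintype.card F + 1)) := by
      by_cases h2 : (2 : F) = 0
      · right
        refine ⟨h2, ?_⟩
        rw [← SLt.card_SL2]
        exact Subgroup.card_quotient_dvd_card _
      · left
        rw [← SLt.card_SL2]
        exact SLt.card_PSL2 h2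
    haveI : CharP k p := (RingHom.charP_iff_charP k.subtype p).2 inferInstance
    obtain ⟨a, ha⟩ := FiniteField.card k p
    obtain ⟨f, hf⟩ := FiniteField.card F p
    have hHd : Nat.card H ∣ Nat.card (ProjectiveSpecialLinearGroup (Fin 2) F) := Subgroup.card_subgroup_dvd_card _
    have hmain : Fintype.card k * (Fintype.card k - 1) * (Fintype.card k + 1) ∣ Fintype.card F * (Fintype.card F - 1) * (Fintype.card F + 1) := by
      rcases h with h | ⟨h1, ⟨h⟩⟩
      · obtain ⟨h⟩ := h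
        have h3 : Nat.card H = Fintype.card k * (Fintype.card k - 1) * (Fintype.card k + 1) := by
          rw [Nat.card_congr h.toEquiv, card_PG]
        rw [← h3]
        rcases hcardF with h4 | ⟨-, h4⟩
        · rw [← h4]; exact hHd.trans (Dvd.intro_left _ rfl)
        · exact hHd.trans h4
      · have h2k : (2 : k) ≠ 0 := SLt.two_ne_zero_of_card (by rw [← hk]; exact h1)
        have h3 : 2 * Nat.card H = Fintype.card k * (Fintype.card k - 1) * (Fintype.card k + 1) := by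
          rw [Nat.card_congr h.toEquiv, SLt.card_PSL2 h2k, SLt.card_SL2]
        rw [← h3]
        rcases hcardF with h4 | ⟨h5, -⟩
        · rw [← h4]; exact Nat.mul_dvd_mul_left _ hHd
        · exfalso
          apply h2k
          have hp2 : p = 2 := by
            have := (CharP.cast_eq_zero_iff F p 2).mp (by exact_mod_cast h5)
            exact (Nat.prime_dvd_prime_iff_eq hp.out Nat.prime_two).mp this
          subst hp2
          exact_mod_cast CharP.cast_eq_zero k 2
    obtain ⟨m, hm⟩ := subfield_dvd hp.out ha.2 hf.2 a.pos hmain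
    exact ⟨k, inferInstance, inferInstance, m, hm, by rw [← hk]; exact h⟩

end psl

end CfsgH9.Dk
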