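import Cfsg.Agent.H9.Dk12
import Cfsg.Agent.S0243

set_option autoImplicit false

open MulAction Matrix

namespace CfsgH9.Dk

/-- abbreviation -/
abbrev PS (F : Type*) [Field F] := ProjectiveSpecialLinearGroup (Fin 2) F

section
variable {F : Type*} [Field F]

instance finPS [Finite F] : Finite (PS F) := Finite.of_surjective _ SLt.pr_surjective

instance finPG [Finite F] : Finite (PG F) := Finite.of_surjective _ ProjGenLinGroup.mk_surjective

instance finPL [Finite F] : Finite (PL F) := inferInstanceAs (Finite (Option F))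

theorem card_psl [Fintype F] : Nat.gcd 2 (Fintype.card F - 1) * Nat.card (PS F) = Fintype.card F * (Fintype.card F - 1) * (Fintype.card F + 1) := by
  have h := Cfsg.Agent.S0243.result (F := F) rfl 2 le_rfl
  have hq : 1 < Fintype.card F := Fintype.one_lt_card
  rw [Fin.prod_univ_two] at h
  simp only [Fin.val_zero, Fin.val_one, pow_zero, pow_one] at h
  obtain ⟨r, hr⟩ : ∃ r, Fintype.card F = r + 1 := ⟨Fintype.card F - 1, by omega⟩
  rw [hr] at h ⊢
  simp only [Nat.add_sub_cancel] at h ⊢
  have e1 : (r + 1) ^ 2 - 1 = r * (r + 2) := by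
    have : (r + 1) ^ 2 = r * (r + 2) + 1 := by ring
    rw [this, Nat.add_sub_cancel]
  have e2 : (r + 1) ^ 2 - (r + 1) = r * (r + 1) := by
    have : (r + 1) ^ 2 = r * (r + 1) + (r + 1) := by ring
    rw [this, Nat.add_sub_cancel]
  rw [e1, e2] at h
  have hr0 : 0 < r := by omega
  apply Nat.eq_of_mul_eq_mul_left hr0
  calc r * (Nat.gcd 2 r * Nat.card (PS F)) = Nat.gcd 2 r * (r * Nat.card (PS F)) := by ring
    _ = r * (r + 2) * (r * (r + 1)) := h
    _ = _ := by ring

theorem card_PL_eq [Fintype F] : Nat.card (PL F) = Fintype.card F + 1 := by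
  change Nat.card (Option F) = _
  rw [Nat.card_eq_fintype_card, Fintype.card_option]

/-- `PSL₂` inside `PGL₂` of the quadratic extension -/
noncomputable def psi (F : Type*) [Field F] [Fintype F] (p : ℕ) [Fact p.Prime] [CharP F p] : PS F →* PG (QE F p) :=
  (emb F p).comp ProjectiveSpecialLinearGroup.toPGL

theorem psi_injective [Fintype F] (p : ℕ) [Fact p.Prime] [CharP F p] : Function.Injective (psi F p) :=
  (emb_injective F p).comp ProjectiveSpecialLinearGroup.toPGL_injective

/-- action on the rational projective line -/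
theorem toPGL_inf (g : PS F) [Fintype F] (p : ℕ) [Fact p.Prime] [CharP F p] :
    psi F p g • (OnePoint.infty : PL (QE F p)) = OnePoint.infty ↔ (ProjectiveSpecialLinearGroup.toPGL g : PG F) • (OnePoint.infty : PL F) = OnePoint.infty := by
  classical
  rw [psi, MonoidHom.comp_apply]
  generalize (ProjectiveSpecialLinearGroup.toPGL g : PG F) = x
  induction x using ProjGenLinGroup.induction_on with | mk g =>
  have he : emb F p (ProjGenLinGroup.mk g) = ProjGenLinGroup.mk (GeneralLinearGroup.map (algebraMap F (QE F p)) g) := ProjGenLinGroup.map_mk _ _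
  rw [he, mk_infty, mk_infty]
  have hent : (GeneralLinearGroup.map (algebraMap F (QE F p)) g : GL (Fin 2) (QE F p)) 1 0 = algebraMap F (QE F p) (g 1 0) := rfl
  rw [hent]
  by_cases h : g 1 0 = 0
  · rw [if_pos (by rw [h, map_zero]), if_pos h]; exact ⟨fun _ => rfl, fun _ => rfl⟩
  · rw [if_neg (fun h' => h ((algebraMap F (QE F p)).injective (by rw [h', map_zero]))), if_neg h]
    exact ⟨fun h => absurd h (OnePoint.coe_ne_infty _), fun h => absurd h (OnePoint.coe_ne_infty _)⟩

/-- the stabiliser of a point in `PSL₂(F)` -/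
noncomputable def BB (F : Type*) [Field F] : Subgroup (PS F) :=
  (stabilizer (PG F) (OnePoint.infty : PL F)).comap ProjectiveSpecialLinearGroup.toPGL

theorem BB_index [Fintype F] : (BB F).index = Fintype.card F + 1 := by
  classical
  letI : MulAction (PS F) (PL F) := MulAction.compHom (PL F) (ProjectiveSpecialLinearGroup.toPGL : PS F →* PG F)
  have h1 : BB F = stabilizer (PS F) (OnePoint.infty : PL F) := rfl
  have htr : ∀ x : PL F, x ∈ orbit (PS F) (OnePoint.infty : PL F) := by
    intro x
    induction x using OnePoint.rec with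
    | infty => exact mem_orbit_self _
    | coe k =>
      let m : SpecialLinearGroup (Fin 2) F := ⟨!![k, -1; 1, 0], by rw [Matrix.det_fin_two_of]; ring⟩
      refine ⟨SLt.pr m, ?_⟩
      change (ProjectiveSpecialLinearGroup.toPGL (SLt.pr m) : PG F) • (OnePoint.infty : PL F) = _
      have h2 : (ProjectiveSpecialLinearGroup.toPGL (SLt.pr m) : PG F) = ProjGenLinGroup.mk (SpecialLinearGroup.toGL m) :=
        ProjectiveSpecialLinearGroup.toPGL_mk m
      rw [h2, mk_infty]
      have h10 : (SpecialLinearGroup.toGL m : GL (Fin 2) F) 1 0 = 1 := rfl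
      have h00 : (SpecialLinearGroup.toGL m : GL (Fin 2) F) 0 0 = k := rfl
      rw [h10, h00, if_neg one_ne_zero, div_one]
  have h3 : orbit (PS F) (OnePoint.infty : PL F) = Set.univ := Set.eq_univ_of_forall htr
  have h4 := orb_stab (H := PS F) (OnePoint.infty : PL F)
  rw [h3, Nat.card_univ, card_PL_eq] at h4
  have h5 := Subgroup.card_mul_index (BB F)
  rw [← h4, mul_comm, h1] at h5
  exact Nat.eq_of_mul_eq_mul_right Nat.card_pos h5

/-- Mob structure on `PSL₂(F)` -/
theorem mobPS [Fintype F] (p : ℕ) [Fact p.Prime] [CharP F p] :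
    letI : MulAction (PS F) (PL (QE F p)) := MulAction.compHom (PL (QE F p)) (psi F p)
    Mob p (QE F p) (PS F) (PL (QE F p)) := by
  haveI := charP_QE F p
  letI : MulAction (PS F) (PL (QE F p)) := MulAction.compHom (PL (QE F p)) (psi F p)
  have hMr := mob_of p (psi F p).range (by rintro _ ⟨g, rfl⟩; exact emb_fix F p _)
  exact hMr.comp (psi F p).rangeRestrict (by
    intro a b hab
    exact psi_injective p (congrArg Subtype.val hab))

/-- the normaliser of a Sylow `p`-subgroup -/
theorem norm_sylow_index [Fintype F] (p : ℕ) [hp : Fact p.Prime] [CharP F p] (S : Sylow p (PS F)) :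
    (Subgroup.normalizer ((S : Subgroup (PS F)) : Set (PS F))).index = Fintype.card F + 1 := by
  classical
  haveI := charP_QE F p
  letI : MulAction (PS F) (PL (QE F p)) := MulAction.compHom (PL (QE F p)) (psi F p)
  have hM : Mob p (QE F p) (PS F) (PL (QE F p)) := mobPS p
  have hX := card_PL (QE F p)
  -- the translation
  let m : SpecialLinearGroup (Fin 2) F := ⟨!![1, 1; 0, 1], by rw [Matrix.det_fin_two_of]; ring⟩
  have hm : psi F p (SLt.pr m) = aff 1 1 := by
    have h2 : (ProjectiveSpecialLinearGroup.toPGL (SLt.pr m) : PG F) = ProjGenLinGroup.mk (SpecialLinearGroup.toGL m) :=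
      ProjectiveSpecialLinearGroup.toPGL_mk m
    rw [psi, MonoidHom.comp_apply, h2, aff]
    change ProjGenLinGroup.map _ _ = _
    rw [ProjGenLinGroup.map_mk]
    congr 1
    ext i j
    fin_cases i <;> fin_cases j
    · exact map_one (algebraMap F (QE F p))
    · exact map_one (algebraMap F (QE F p))
    · exact map_zero (algebraMap F (QE F p))
    · exact map_one (algebraMap F (QE F p))
  have hu : SLt.pr m ∈ US (PS F) (OnePoint.infty : PL (QE F p)) := by
    refine ⟨?_, ?_⟩
    · change psi F p (SLt.pr m) • (OnePoint.infty : PL (QE F p)) = OnePoint.infty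
      rw [hm, aff_infty]
    · intro y hy
      change psi F p (SLt.pr m) • y = y at hy
      rw [hm] at hy
      exact trans_fix one_ne_zero hy
  obtain ⟨S₀, hS₀⟩ := borel hM hX hu
  obtain ⟨S₁, hu₁, hS₁⟩ := sylow_fix hM hX hu
  -- some element of S₀
  have hne : (S₀ : Subgroup (PS F)) ≠ ⊥ := by
    have hu1 : SLt.pr m ≠ 1 := US_ne hX hu
    have hord : orderOf (SLt.pr m) = p := orderOf_eq_prime (US_pow hM hu) hu1
    have hdv : p ∣ Nat.card (PS F) := by rw [← hord]; exact orderOf_dvd_natCard _
    exact S₀.ne_bot_of_dvd_card hdv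
  have hfin : Fintype.card F + 1 = (BB F).index := BB_index.symm
  have key : ∀ T : Sylow p (PS F), (Subgroup.normalizer ((T : Subgroup (PS F)) : Set (PS F))).index =
      (Subgroup.normalizer ((S₁ : Subgroup (PS F)) : Set (PS F))).index := by
    intro T
    exact (Sylow.card_eq_index_normalizer T).symm.trans (Sylow.card_eq_index_normalizer S₁)
  rw [key S, hfin]
  have hle1 : BB F ≤ Subgroup.normalizer ((S₀ : Subgroup (PS F)) : Set (PS F)) := by
    intro g hg
    exact hS₀ g ((toPGL_inf g p).2 hg)
  have hle2 : Subgroup.normalizer ((S₁ : Subgroup (PS F)) : Set (PS F)) ≤ BB F := by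
    intro g hg
    apply (toPGL_inf g p).1
    rw [Subgroup.mem_normalizer_iff] at hg
    have h1 := (hg (SLt.pr m)).1 hu₁
    have h2 := US_conj g hu
    have hu1 : SLt.pr m ≠ 1 := US_ne hX hu
    have h3 := (hS₁ _ h1).2 (fun h => hu1 (conj_eq_one_iff.1 h))
    exact h3.2 _ h2.1
  apply Nat.dvd_antisymm
  · rw [← key S₀]
    exact Subgroup.index_dvd_of_le hle1
  · exact Subgroup.index_dvd_of_le hle2

end

end CfsgH9.Dk
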