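import Cfsg.Agent.H9.Dk13

set_option autoImplicit false

open MulAction Matrix

namespace CfsgH9.Dk

theorem cA4 : Nat.card (alternatingGroup (Fin 4)) = 12 := by
  have h := two_mul_nat_card_alternatingGroup (α := Fin 4)
  rw [Nat.card_perm, Nat.card_eq_fintype_card (α := Fin 4), Fintype.card_fin] at h
  have : Nat.factorial 4 = 24 := rfl
  omega

theorem cA5 : Nat.card (alternatingGroup (Fin 5)) = 60 := by
  have h := two_mul_nat_card_alternatingGroup (α := Fin 5)
  rw [Nat.card_perm, Nat.card_eq_fintype_card (α := Fin 5), Fintype.card_fin] at h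
  have : Nat.factorial 5 = 120 := rfl
  omega

theorem cS4 : Nat.card (Equiv.Perm (Fin 4)) = 24 := by
  rw [Nat.card_perm, Nat.card_eq_fintype_card (α := Fin 4), Fintype.card_fin]; rfl

section
variable {F : Type*} [Field F] [Fintype F] (p : ℕ) [hp : Fact p.Prime] [CharP F p]

/-- a cyclic `p'`-subgroup -/
theorem cyc_dvd (C : Subgroup (PS F)) (hC : IsCyclic C) (hpC : ¬ p ∣ Nat.card C) :
    Nat.card C ∣ (Fintype.card F + 1) / Nat.gcd 2 (Fintype.card F - 1) ∨ Nat.card C ∣ (Fintype.card F - 1) / Nat.gcd 2 (Fintype.card F - 1) := by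
  obtain ⟨c, hc⟩ := hC.exists_generator
  have h1 : orderOf (c : PS F) = Nat.card C := by
    rw [Subgroup.orderOf_coe, orderOf_eq_card_of_forall_mem_zpowers hc]
  rw [← h1] at hpC ⊢
  exact ord_dvd (p := p) _ hpC

theorem d_facts : 0 < Nat.gcd 2 (Fintype.card F - 1) ∧ Nat.gcd 2 (Fintype.card F - 1) ≤ 2 ∧
    Nat.gcd 2 (Fintype.card F - 1) ∣ Fintype.card F - 1 ∧ Nat.gcd 2 (Fintype.card F - 1) ∣ Fintype.card F + 1 := by
  have hq : 1 < Fintype.card F := Fintype.one_lt_card
  refine ⟨Nat.gcd_pos_of_pos_left _ (by norm_num), Nat.gcd_le_left _ (by norm_num), Nat.gcd_dvd_right _ _, ?_⟩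
  have h1 := Nat.gcd_dvd_right 2 (Fintype.card F - 1)
  have h2 := Nat.gcd_dvd_left 2 (Fintype.card F - 1)
  have h3 : Fintype.card F + 1 = (Fintype.card F - 1) + 2 := by omega
  rw [h3]
  exact dvd_add h1 h2

omit hp [CharP F p] in
theorem d_odd (h : Odd (Fintype.card F)) : Nat.gcd 2 (Fintype.card F - 1) = 2 := by
  refine Nat.gcd_eq_left ?_
  obtain ⟨t, ht⟩ := h
  exact ⟨t, by omega⟩

omit hp [CharP F p] in
theorem d_even (h : Even (Fintype.card F)) : Nat.gcd 2 (Fintype.card F - 1) = 1 := by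
  have hq : 1 < Fintype.card F := Fintype.one_lt_card
  rw [← Nat.coprime_iff_gcd_eq_one, Nat.coprime_two_left]
  obtain ⟨t, ht⟩ := h
  exact ⟨t - 1, by omega⟩

theorem cyc_le (C : Subgroup (PS F)) (hC : IsCyclic C) (hpC : ¬ p ∣ Nat.card C) :
    Nat.gcd 2 (Fintype.card F - 1) * Nat.card C ≤ Fintype.card F + 1 := by
  have hq : 1 < Fintype.card F := Fintype.one_lt_card
  obtain ⟨hd, hd2, hd3, hd4⟩ := d_facts (F := F)
  have key : ∀ n : ℕ, 0 < n / Nat.gcd 2 (Fintype.card F - 1) → Nat.card C ∣ n / Nat.gcd 2 (Fintype.card F - 1) →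
      Nat.gcd 2 (Fintype.card F - 1) * Nat.card C ≤ n := by
    intro n hn h
    have := Nat.le_of_dvd hn h
    calc _ ≤ Nat.gcd 2 (Fintype.card F - 1) * (n / Nat.gcd 2 (Fintype.card F - 1)) := Nat.mul_le_mul_left _ this
      _ ≤ n := Nat.mul_div_le _ _
  rcases cyc_dvd p C hC hpC with h | h
  · exact key _ (Nat.div_pos (by omega) hd) h
  · have h3 : Nat.gcd 2 (Fintype.card F - 1) ≤ Fintype.card F - 1 := Nat.le_of_dvd (by omega) hd3
    exact (key _ (Nat.div_pos h3 hd) h).trans (by omega)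

omit hp [CharP F p] in
/-- order of a subgroup of subfield type -/
theorem card_sub {H : Subgroup (PS F)} {k : Type} [Field k] [Fintype k]
    (h : Nonempty (H ≃* PG k) ∨ (Odd (Fintype.card k) ∧ Nonempty (H ≃* ProjectiveSpecialLinearGroup (Fin 2) k))) :
    Nat.card H = Fintype.card k * (Fintype.card k - 1) * (Fintype.card k + 1) ∨
      (Odd (Fintype.card k) ∧ 2 * Nat.card H = Fintype.card k * (Fintype.card k - 1) * (Fintype.card k + 1)) := by
  rcases h with h | ⟨h1, ⟨h⟩⟩
  · obtain ⟨h⟩ := h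
    left
    rw [Nat.card_congr h.toEquiv, card_PG]
  · right
    refine ⟨h1, ?_⟩
    rw [Nat.card_congr h.toEquiv, SLt.card_PSL2 (SLt.two_ne_zero_of_card h1), SLt.card_SL2]

omit hp [CharP F p] in
theorem sub_top {H : Subgroup (PS F)} {k : Type} [Field k] [Fintype k] (hk : Fintype.card k = Fintype.card F)
    (h : Nonempty (H ≃* PG k) ∨ (Odd (Fintype.card k) ∧ Nonempty (H ≃* ProjectiveSpecialLinearGroup (Fin 2) k))) : H = ⊤ := by
  have hcard : Nat.gcd 2 (Fintype.card F - 1) * Nat.card (PS F) = Fintype.card F * (Fintype.card F - 1) * (Fintype.card F + 1) := card_psl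
  have h1 := card_sub h
  rw [hk] at h1
  obtain ⟨hd, hd2, hd3, hd4⟩ := d_facts (F := F)
  have hleG : Nat.card H ≤ Nat.card (PS F) := Subgroup.card_le_card_group H
  have hposG : 0 < Nat.card (PS F) := Nat.card_pos
  apply Subgroup.eq_top_of_card_eq
  rcases h1 with h1 | ⟨ho, h1⟩
  · rw [← h1] at hcard
    have : Nat.gcd 2 (Fintype.card F - 1) = 1 := by
      by_contra hd1
      have hd2' : Nat.gcd 2 (Fintype.card F - 1) = 2 := by omega
      rw [hd2'] at hcard
      omega
    rw [this, one_mul] at hcard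
    exact hcard.symm
  · rw [← h1, d_odd ho] at hcard
    omega

end

end CfsgH9.Dk
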