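import Cfsg.Agent.H9.Dk14

set_option autoImplicit false

open MulAction Matrix

namespace CfsgH9.Dk

section
variable {F : Type*} [Field F]

/-- pulling back a subgroup of `PGL₂(F)` contained in `PSL₂(F)` -/
theorem sub_of {A : Type*} [Group A] (φ : A →* PG F) (hφ : Function.Injective φ)
    (hr : φ.range ≤ (ProjectiveSpecialLinearGroup.toPGL : PS F →* PG F).range) : ∃ H : Subgroup (PS F), Nonempty (H ≃* A) ∧
      H.map (ProjectiveSpecialLinearGroup.toPGL : PS F →* PG F) = φ.range := by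
  refine ⟨φ.range.comap ProjectiveSpecialLinearGroup.toPGL, ?_, Subgroup.map_comap_eq_self hr⟩
  have h1 : (φ.range.comap (ProjectiveSpecialLinearGroup.toPGL : PS F →* PG F)).map ProjectiveSpecialLinearGroup.toPGL = φ.range :=
    Subgroup.map_comap_eq_self hr
  exact ⟨((Subgroup.equivMapOfInjective _ _ ProjectiveSpecialLinearGroup.toPGL_injective).trans (MulEquiv.subgroupCongr h1)).trans
    (MonoidHom.ofInjective hφ).symm⟩

theorem mk_toGL (x : SpecialLinearGroup (Fin 2) F) : (ProjGenLinGroup.mk (SpecialLinearGroup.toGL x) : PG F) ∈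
    (ProjectiveSpecialLinearGroup.toPGL : PS F →* PG F).range :=
  ⟨SLt.pr x, ProjectiveSpecialLinearGroup.toPGL_mk x⟩

theorem mk_sq {g : GL (Fin 2) F} {c : F} (hc : c * c = g.det) : (ProjGenLinGroup.mk g : PG F) ∈
    (ProjectiveSpecialLinearGroup.toPGL : PS F →* PG F).range := by
  have hd0 : ((g.det : Fˣ) : F) ≠ 0 := (g.det : Fˣ).ne_zero
  have hc0 : c ≠ 0 := by
    rintro rfl
    rw [mul_zero] at hc
    exact hd0 hc.symm
  have hdet : (g : Matrix (Fin 2) (Fin 2) F) 0 0 * (g : Matrix (Fin 2) (Fin 2) F) 1 1 - (g : Matrix (Fin 2) (Fin 2) F) 0 1 * (g : Matrix (Fin 2) (Fin 2) F) 1 0 = c * c := by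
    rw [hc, GeneralLinearGroup.val_det_apply, Matrix.det_fin_two]
  let x : SpecialLinearGroup (Fin 2) F := ⟨!![g 0 0 / c, g 0 1 / c; g 1 0 / c, g 1 1 / c], by
    rw [Matrix.det_fin_two_of]
    field_simp
    linear_combination hdet⟩
  have h1 : (ProjGenLinGroup.mk g : PG F) = ProjGenLinGroup.mk (SpecialLinearGroup.toGL x) := by
    symm
    refine mk_eq_of_smul (c := c) hc0 ?_ ?_ ?_ ?_
    · change g 0 0 = c * (g 0 0 / c); field_simp
    · change g 0 1 = c * (g 0 1 / c); field_simp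
    · change g 1 0 = c * (g 1 0 / c); field_simp
    · change g 1 1 = c * (g 1 1 / c); field_simp
  rw [h1]
  exact mk_toGL x

theorem map_PS_le {k : Type*} [Field k] (f : k →+* F) :
    ((ProjGenLinGroup.map f : PG k →* PG F).comp (ProjectiveSpecialLinearGroup.toPGL : PS k →* PG k)).range ≤
      (ProjectiveSpecialLinearGroup.toPGL : PS F →* PG F).range := by
  rintro _ ⟨x, rfl⟩
  obtain ⟨x, rfl⟩ := SLt.pr_surjective x
  have h1 : (ProjectiveSpecialLinearGroup.toPGL (SLt.pr x) : PG k) = ProjGenLinGroup.mk (SpecialLinearGroup.toGL x) :=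
    ProjectiveSpecialLinearGroup.toPGL_mk x
  rw [MonoidHom.comp_apply, h1, ProjGenLinGroup.map_mk]
  have h2 : GeneralLinearGroup.map f (SpecialLinearGroup.toGL x) = SpecialLinearGroup.toGL (SpecialLinearGroup.map f x) := by
    ext i j; rfl
  rw [h2]
  exact mk_toGL _

theorem exists_PS {k : Type*} [Field k] (f : k →+* F) : ∃ H : Subgroup (PS F), Nonempty (H ≃* PS k) := by
  obtain ⟨H, hH, -⟩ := sub_of ((ProjGenLinGroup.map f : PG k →* PG F).comp (ProjectiveSpecialLinearGroup.toPGL : PS k →* PG k))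
    ((map_injective f).comp ProjectiveSpecialLinearGroup.toPGL_injective) (map_PS_le f)
  exact ⟨H, hH⟩

theorem exists_PG {k : Type*} [Field k] (f : k →+* F) (hsq : ∀ a : k, IsSquare (f a)) : ∃ H : Subgroup (PS F), Nonempty (H ≃* PG k) := by
  obtain ⟨H, hH, -⟩ := sub_of (ProjGenLinGroup.map f : PG k →* PG F) (map_injective f) (by
    rintro _ ⟨g, rfl⟩
    induction g using ProjGenLinGroup.induction_on with | mk g =>
    rw [ProjGenLinGroup.map_mk]
    obtain ⟨c, hc⟩ := hsq ((g.det : kˣ) : k)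
    refine mk_sq (c := c) ?_
    rw [← hc, GeneralLinearGroup.val_det_apply, GeneralLinearGroup.val_det_apply]
    exact RingHom.map_det f _)
  exact ⟨H, hH⟩

/-- existence of embeddings -/
theorem exists_hom {k : Type*} [Field k] [Fintype k] [Fintype F] {m : ℕ} (hm : Fintype.card k ^ m = Fintype.card F) : Nonempty (k →+* F) := by
  classical
  obtain ⟨p, hp⟩ := CharP.exists F
  haveI : Fact p.Prime := ⟨(CharP.char_is_prime_or_zero F p).resolve_right (CharP.char_ne_zero_of_finite F p)⟩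
  obtain ⟨p', hp'⟩ := CharP.exists k
  haveI : Fact p'.Prime := ⟨(CharP.char_is_prime_or_zero k p').resolve_right (CharP.char_ne_zero_of_finite k p')⟩
  obtain ⟨f, hf1, hf⟩ := FiniteField.card F p
  obtain ⟨a, ha1, ha⟩ := FiniteField.card k p'
  have hm0 : m ≠ 0 := by
    rintro rfl
    have : 1 < Fintype.card F := Fintype.one_lt_card
    rw [pow_zero] at hm
    omega
  have hpp : p' = p := by
    have h1 : p' ∣ p ^ (f : ℕ) := by
      rw [← hf, ← hm, ha, ← pow_mul]
      exact dvd_pow_self _ (Nat.mul_ne_zero a.pos.ne' hm0)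
    exact (Nat.prime_dvd_prime_iff_eq ha1 hf1).1 (ha1.dvd_of_dvd_pow h1)
  subst hpp
  letI := ZMod.algebra k p'
  letI := ZMod.algebra F p'
  have h1 : p' ^ Module.finrank (ZMod p') k = Fintype.card k := FiniteField.pow_finrank_eq_card p' k
  have h2 : p' ^ Module.finrank (ZMod p') F = Fintype.card F := FiniteField.pow_finrank_eq_card p' F
  have h3 : Module.finrank (ZMod p') k ∣ Module.finrank (ZMod p') F := by
    refine ⟨m, ?_⟩
    apply Nat.pow_right_injective ha1.two_le
    change p' ^ _ = p' ^ _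
    rw [h2, pow_mul, h1, hm]
  obtain ⟨φ⟩ := FiniteField.nonempty_algHom_of_finrank_dvd (F := ZMod p') (K := k) (L := F) h3
  exact ⟨φ.toRingHom⟩

/-- geometric sums modulo two -/
theorem geom_par (Y : ℕ) (hY : Even Y) (m : ℕ) : ∃ S, (Y + 1) ^ m = Y * S + 1 ∧ S % 2 = m % 2 := by
  induction m with
  | zero => exact ⟨0, by simp, rfl⟩
  | succ m ih =>
    obtain ⟨S, h1, h2⟩ := ih
    refine ⟨(Y + 1) * S + 1, ?_, ?_⟩
    · rw [pow_succ, h1]; ring
    · obtain ⟨t, ht⟩ := hY
      have : (Y + 1) * S + 1 = 2 * (t * S) + S + 1 := by rw [ht]; ring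
      omega

/-- elements of a subfield of even index are squares -/
theorem sq_of_even {k : Type*} [Field k] [Fintype k] [Fintype F] {m : ℕ} (hm : Fintype.card k ^ m = Fintype.card F) (he : Even m)
    (hodd : Odd (Fintype.card F)) (f : k →+* F) (a : k) : IsSquare (f a) := by
  by_cases ha : a = 0
  · rw [ha, map_zero]; exact ⟨0, by simp⟩
  have hch : ringChar F ≠ 2 := by
    intro h
    have := (FiniteField.even_card_iff_char_two).1 h
    rw [Nat.odd_iff] at hodd
    omega
  rw [FiniteField.isSquare_iff hch (by rwa [Ne, map_eq_zero])]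
  have hm0 : m ≠ 0 := by
    rintro rfl
    have : 1 < Fintype.card F := Fintype.one_lt_card
    rw [pow_zero] at hm
    omega
  have hQodd : Odd (Fintype.card k) := by
    rw [← hm] at hodd
    exact (Nat.odd_pow_iff hm0).1 hodd
  obtain ⟨t, ht⟩ := he
  have h2 : (Fintype.card k - 1) ∣ Fintype.card F / 2 := by
    have h3 : Fintype.card F / 2 * 2 + 1 = Fintype.card F := by
      obtain ⟨s, hs⟩ := hodd
      omega
    obtain ⟨s, hs⟩ := hQodd
    -- Q = 2s+1; q = Q^(2t) = (Q^2)^t
    have h4 : ∃ S, (Fintype.card k ^ 2) ^ t = (Fintype.card k ^ 2 - 1) * S + 1 := by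
      have h5 : Fintype.card k ^ 2 = (Fintype.card k ^ 2 - 1) + 1 := by
        have : 0 < Fintype.card k ^ 2 := Nat.pow_pos Fintype.card_pos
        omega
      obtain ⟨S, hS, -⟩ := geom_par (Fintype.card k ^ 2 - 1) (by
        refine ⟨2 * s * s + 2 * s, ?_⟩
        rw [hs]
        have : (2 * s + 1) ^ 2 = (2 * s * s + 2 * s + (2 * s * s + 2 * s)) + 1 := by ring
        rw [this, Nat.add_sub_cancel]) t
      exact ⟨S, by rw [← hS, ← h5]⟩
    obtain ⟨S, hS⟩ := h4
    rw [← pow_mul, show 2 * t = m by omega, hm] at hS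
    have h6 : Fintype.card k ^ 2 - 1 = (Fintype.card k - 1) * ((s + 1) * 2) := by
      rw [hs, Nat.add_sub_cancel]
      have : (2 * s + 1) ^ 2 = 2 * s * ((s + 1) * 2) + 1 := by ring
      rw [this, Nat.add_sub_cancel]
    rw [h6] at hS
    refine ⟨(s + 1) * S, ?_⟩
    have h7 : Fintype.card F / 2 * 2 = (Fintype.card k - 1) * ((s + 1) * S) * 2 := by
      have : (Fintype.card k - 1) * ((s + 1) * 2) * S = (Fintype.card k - 1) * ((s + 1) * S) * 2 := by ring
      omega
    omega
  obtain ⟨c, hc⟩ := h2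
  rw [hc, ← map_pow, pow_mul, FiniteField.pow_card_sub_one_eq_one a ha, one_pow, map_one]

end

end CfsgH9.Dk
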