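import Cfsg.Agent.H9.SLt4
import Cfsg.Agent.S0276

set_option autoImplicit false

/-!
Conjugacy of quaternion pairs in `SL₂(q)`.
-/

namespace CfsgH9.SLt

open CfsgH7 Matrix Subgroup
open scoped Pointwise

variable {F : Type*} [Field F]

/-- simultaneous conjugacy of pairs -/
def PC (p q : SL2 F × SL2 F) : Prop := ∃ g : SL2 F, q.1 = g * p.1 * g⁻¹ ∧ q.2 = g * p.2 * g⁻¹

theorem PC.refl (p : SL2 F × SL2 F) : PC p p := ⟨1, by simp, by simp⟩

theorem PC.symm {p q : SL2 F × SL2 F} (h : PC p q) : PC q p := by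
  obtain ⟨g, h1, h2⟩ := h
  refine ⟨g⁻¹, ?_, ?_⟩
  · rw [h1]; group
  · rw [h2]; group

theorem PC.trans {p q r : SL2 F × SL2 F} (h : PC p q) (h' : PC q r) : PC p r := by
  obtain ⟨g, h1, h2⟩ := h
  obtain ⟨g', h3, h4⟩ := h'
  refine ⟨g' * g, ?_, ?_⟩
  · rw [h3, h1]; group
  · rw [h4, h2]; group

theorem PC.qp {p q : SL2 F × SL2 F} (h : PC p q) (hp : QP p.1 p.2) : QP q.1 q.2 := by
  obtain ⟨g, h1, h2⟩ := h
  obtain ⟨a, b, c⟩ := hp
  have hm : g * m1 * g⁻¹ = m1 := by rw [← m1_comm]; group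
  rw [h1, h2]
  refine ⟨?_, ?_, ?_⟩
  · calc g * p.1 * g⁻¹ * (g * p.1 * g⁻¹) = g * (p.1 * p.1) * g⁻¹ := by group
      _ = _ := by rw [a, hm]
  · calc g * p.2 * g⁻¹ * (g * p.2 * g⁻¹) = g * (p.2 * p.2) * g⁻¹ := by group
      _ = _ := by rw [b, hm]
  · calc g * p.1 * g⁻¹ * (g * p.2 * g⁻¹) = g * (p.1 * p.2) * g⁻¹ := by group
      _ = g * (m1 * (p.2 * p.1)) * g⁻¹ := by rw [c]
      _ = m1 * (g * (p.2 * p.1) * g⁻¹) := by rw [← mul_assoc g m1, ← m1_comm]; group
      _ = _ := by group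

theorem pc_neg_left {x y : SL2 F} (h : QP x y) : PC (x, y) (m1 * x, y) := by
  refine ⟨y, ?_, by group⟩
  rw [h.conj_inv, inv_of_sq h.1]

theorem pc_neg_right {x y : SL2 F} (h : QP x y) : PC (x, y) (x, m1 * y) := by
  refine ⟨x, by group, ?_⟩
  rw [h.symm.conj_inv, inv_of_sq h.2.1]

theorem qp_mat {x y : SL2 F} (h : QP x y) : x.1 * x.1 = -1 ∧ y.1 * y.1 = -1 ∧ y.1 * x.1 = - (x.1 * y.1) := by
  have e : (m1 : SL2 F).1 = -1 := by
    ext i j; fin_cases i <;> fin_cases j <;> simp [m1]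
  refine ⟨?_, ?_, ?_⟩
  · have := congrArg Subtype.val h.1
    rw [e] at this; exact this
  · have := congrArg Subtype.val h.2.1
    rw [e] at this; exact this
  · have : (y * x).1 = (m1 * (x * y)).1 := congrArg Subtype.val h.symm.2.2
    have e2 : (m1 * (x * y) : SL2 F).1 = - (x.1 * y.1) := by
      change (m1 : SL2 F).1 * (x.1 * y.1) = _
      rw [e]; simp
    rw [e2] at this; exact this

theorem qp_ent {x y : SL2 F} (h : QP x y) : x.1 1 1 = - x.1 0 0 ∧ y.1 1 1 = - y.1 0 0 ∧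
    x.1 0 0 * x.1 0 0 + x.1 0 1 * x.1 1 0 = -1 ∧ y.1 0 0 * y.1 0 0 + y.1 0 1 * y.1 1 0 = -1 ∧
    2 * (x.1 0 0 * y.1 0 0) + x.1 0 1 * y.1 1 0 + x.1 1 0 * y.1 0 1 = 0 := by
  have a1 := sq_eq_m1_iff.mp h.1
  have a2 := sq_eq_m1_iff.mp h.2.1
  rw [tr2] at a1 a2
  have b1 : x.1 1 1 = - x.1 0 0 := by linear_combination a1
  have b2 : y.1 1 1 = - y.1 0 0 := by linear_combination a2
  have d1 := sl2_det x
  have d2 := sl2_det y
  rw [b1] at d1
  rw [b2] at d2
  have c := congrArg (fun z : SL2 F => z.1 0 0) h.2.2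
  simp only [m1_mul_apply] at c
  rw [sl2_mul_apply, sl2_mul_apply] at c
  exact ⟨b1, b2, by linear_combination -d1, by linear_combination -d2, by linear_combination c⟩

/-- the swap, when `2` is a square -/
theorem pc_swap {x y : SL2 F} (h : QP x y) {r : F} (hr : r * r = 2) (h2 : (2 : F) ≠ 0) : PC (x, y) (y, x) := by
  have hr0 : r ≠ 0 := by rintro rfl; rw [mul_zero] at hr; exact h2 hr.symm
  obtain ⟨b1, b2, d1, d2, c⟩ := qp_ent h
  have hdet : (x.1 0 0 + y.1 0 0) / r * (-(x.1 0 0 + y.1 0 0) / r) - (x.1 0 1 + y.1 0 1) / r * ((x.1 1 0 + y.1 1 0) / r) = 1 := by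
    field_simp
    linear_combination -d1 - d2 - c - hr
  let g : SL2 F := mk2 _ _ _ _ hdet
  refine ⟨g, ?_, ?_⟩
  · change y = g * x * g⁻¹
    rw [eq_mul_inv_iff_mul_eq]
    apply sl2_ext <;> rw [sl2_mul_apply, sl2_mul_apply] <;> simp only [g, mk2_00, mk2_01, mk2_10, mk2_11, b1, b2] <;> field_simp
    · linear_combination d2 - d1
    · ring
    · ring
    · linear_combination d2 - d1
  · change x = g * y * g⁻¹
    rw [eq_mul_inv_iff_mul_eq]
    apply sl2_ext <;> rw [sl2_mul_apply, sl2_mul_apply] <;> simp only [g, mk2_00, mk2_01, mk2_10, mk2_11, b1, b2] <;> field_simp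
    · linear_combination d1 - d2
    · ring
    · ring
    · linear_combination d1 - d2

theorem cayley2 (M : Matrix (Fin 2) (Fin 2) F) : M * M = M.trace • M - M.det • 1 := by
  ext i j
  rw [Matrix.trace_fin_two, Matrix.det_fin_two, Matrix.mul_apply, Fin.sum_univ_two]
  fin_cases i <;> fin_cases j <;> simp <;> ring

/-- the rotation -/
theorem pc_rot {x y : SL2 F} (h : QP x y) (h2 : (2 : F) ≠ 0) : PC (x, y) (y, x * y) := by
  obtain ⟨eX, eY, eYX⟩ := qp_mat h
  have tX := sq_eq_m1_iff.mp h.1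
  have tY := sq_eq_m1_iff.mp h.2.1
  have tP := sq_eq_m1_iff.mp h.mul.2.1
  set X := x.1 with hX
  set Y := y.1 with hY
  have hP : (x * y).1 = X * Y := rfl
  have f1 : X * Y * X = Y := by rw [mul_assoc, eYX, mul_neg, ← mul_assoc, eX]; simp
  have f2 : Y * (X * Y) = X := by rw [← mul_assoc, eYX, neg_mul, mul_assoc, eY]; simp
  have f3 : X * (X * Y) = -Y := by rw [← mul_assoc, eX]; simp
  have f4 : X * Y * Y = -X := by rw [mul_assoc, eY]; simp
  have f5 : X * Y * (X * Y) = -1 := by rw [← mul_assoc, f1, eY]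
  let N : Matrix (Fin 2) (Fin 2) F := 1 + X + Y + X * Y
  have hNN : N * N = (2 : F) • N - (4 : F) • 1 := by
    simp only [N, mul_add, add_mul, one_mul, mul_one, eX, eY, eYX, f1, f2, f3, f4, f5]
    module
  have hNX : N * X = Y * N := by
    simp only [N, mul_add, add_mul, one_mul, mul_one, eX, eY, eYX, f1, f2, f3, f4, f5]
    abel
  have hNY : N * Y = X * Y * N := by
    simp only [N, mul_add, add_mul, one_mul, mul_one, eX, eY, eYX, f1, f2, f3, f4, f5]
    abel
  have htr : N.trace = 2 := by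
    have t1 : X.trace = 0 := by rw [Matrix.trace_fin_two]; exact tX
    have t2 : Y.trace = 0 := by rw [Matrix.trace_fin_two]; exact tY
    have t3 : (X * Y).trace = 0 := by rw [← hP, Matrix.trace_fin_two]; exact tP
    simp only [N, Matrix.trace_add, t1, t2, t3, Matrix.trace_one]
    simp
  have hdet : N.det = 4 := by
    have h3 := cayley2 N
    rw [hNN, htr] at h3
    have h4 := congrFun (congrFun h3 0) 0
    simp at h4
    exact h4.symm
  let w : SL2 F := ⟨(1 / 2 : F) • N, by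
    rw [Matrix.det_smul, hdet, Fintype.card_fin]; field_simp; norm_num⟩
  refine ⟨w, ?_, ?_⟩
  · change y = w * x * w⁻¹
    rw [eq_mul_inv_iff_mul_eq]
    apply Subtype.ext
    change Y * ((1 / 2 : F) • N) = ((1 / 2 : F) • N) * X
    rw [Matrix.mul_smul, Matrix.smul_mul, hNX]
  · change x * y = w * y * w⁻¹
    rw [eq_mul_inv_iff_mul_eq]
    apply Subtype.ext
    change X * Y * ((1 / 2 : F) • N) = ((1 / 2 : F) • N) * Y
    rw [Matrix.mul_smul, Matrix.smul_mul, hNY]

/-- all the pairs in a Klein four-group are conjugate when `2` is a square -/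
theorem pc_klein {x y u v : SL2 F} (h : QP x y) (h' : QP u v) {r : F} (hr : r * r = 2) (h2 : (2 : F) ≠ 0)
    (hK : KV h = KV h') : PC (x, y) (u, v) := by
  have hu := left_mem_KV h'
  have hv := right_mem_KV h'
  rw [← hK] at hu hv
  have hu1 := h'.pr_ne_one h2
  have hv1 := h'.symm.pr_ne_one h2
  have hne := h'.pr_ne h2
  -- up to sign
  have key : ∀ a b : SL2 F, QP a b → pr u = pr a → pr v = pr b → PC (a, b) (u, v) := by
    intro a b hab e1 e2
    rcases pr_eq_iff.mp e1.symm with e3 | e3 <;> rcases pr_eq_iff.mp e2.symm with e4 | e4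
    · rw [e3, e4]; exact PC.refl _
    · rw [e3, e4]; exact pc_neg_right hab
    · rw [e3, e4]; exact pc_neg_left hab
    · rw [e3, e4]; exact (pc_neg_left hab).trans (pc_neg_right hab.neg_left)
  have s1 := pc_swap h hr h2
  have r1 := pc_rot h h2
  have q1 := h.mul
  have s2 := pc_swap q1 hr h2
  have r2 := pc_rot q1 h2
  have q2 := q1.mul
  have s3 := pc_swap q2 hr h2
  have epr : pr (y * (x * y)) = pr x := by
    rw [map_mul, map_mul, h.pr_comm, ← mul_assoc, h.symm.pr_sq, one_mul]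
  rcases mem_kf.mp hu with e1 | e1 | e1 | e1
  · exact absurd e1 hu1
  · rcases mem_kf.mp hv with e2 | e2 | e2 | e2
    · exact absurd e2 hv1
    · exact absurd (e1.trans e2.symm) hne
    · exact key x y h e1 e2
    · -- (x, xy)
      exact ((r1.trans r2).trans s3).trans (key _ _ q2.symm (by rw [epr]; exact e1) (by rw [map_mul]; exact e2))
  · rcases mem_kf.mp hv with e2 | e2 | e2 | e2
    · exact absurd e2 hv1
    · exact s1.trans (key y x h.symm e1 e2)
    · exact absurd (e1.trans e2.symm) hne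
    · exact r1.trans (key _ _ q1 e1 (by rw [map_mul]; exact e2))
  · rcases mem_kf.mp hv with e2 | e2 | e2 | e2
    · exact absurd e2 hv1
    · exact (r1.trans r2).trans (key _ _ q2 (by rw [map_mul]; exact e1) (by rw [epr]; exact e2))
    · exact (r1.trans s2).trans (key _ _ q1.symm (by rw [map_mul]; exact e1) e2)
    · exact absurd (e1.trans e2.symm) hne

/-- the size of an orbit on quaternion pairs -/
theorem card_PC [Fintype F] (h2 : (2 : F) ≠ 0) {x y : SL2 F} (h : QP x y) :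
    2 * Nat.card {p : SL2 F × SL2 F // PC (x, y) p} = Nat.card (SL2 F) := by
  symm
  apply card_of_fib (fun g : SL2 F => (⟨(g * x * g⁻¹, g * y * g⁻¹), ⟨g, rfl, rfl⟩⟩ : {p : SL2 F × SL2 F // PC (x, y) p}))
  rintro ⟨⟨u, v⟩, g, h3, h4⟩
  simp only at h3 h4
  have h50 : ∀ a : SL2 F, ((⟨(a * x * a⁻¹, a * y * a⁻¹), ⟨a, rfl, rfl⟩⟩ : {p : SL2 F × SL2 F // PC (x, y) p}) = ⟨(u, v), ⟨g, h3, h4⟩⟩) ↔
      (a * x * a⁻¹ = u ∧ a * y * a⁻¹ = v) := by
    intro a
    constructor
    · intro hh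
      exact ⟨congrArg (fun t : {p : SL2 F × SL2 F // PC (x, y) p} => t.1.1) hh, congrArg (fun t : {p : SL2 F × SL2 F // PC (x, y) p} => t.1.2) hh⟩
    · rintro ⟨hh1, hh2⟩
      exact Subtype.ext (Prod.ext hh1 hh2)
  have h5 : {a : SL2 F | (⟨(a * x * a⁻¹, a * y * a⁻¹), ⟨a, rfl, rfl⟩⟩ : {p : SL2 F × SL2 F // PC (x, y) p}) = ⟨(u, v), ⟨g, h3, h4⟩⟩} = {g, m1 * g} := by
    ext a
    rw [Set.mem_setOf_eq, h50, Set.mem_insert_iff, Set.mem_singleton_iff]
    constructor
    · rintro ⟨e1, e2⟩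
      have e3 : IsPM (g⁻¹ * a) := by
        apply h.central h2
        · rw [h3] at e1
          calc x * (g⁻¹ * a) = g⁻¹ * (g * x * g⁻¹) * a := by group
            _ = g⁻¹ * (a * x * a⁻¹) * a := by rw [e1]
            _ = _ := by group
        · rw [h4] at e2
          calc y * (g⁻¹ * a) = g⁻¹ * (g * y * g⁻¹) * a := by group
            _ = g⁻¹ * (a * y * a⁻¹) * a := by rw [e2]
            _ = _ := by group
      rcases isPM_cases e3 with e4 | e4
      · left; exact (inv_mul_eq_one.mp e4).symm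
      · right; rw [inv_mul_eq_iff_eq_mul.mp e4, m1_comm]
    · rintro (rfl | rfl)
      · exact ⟨h3.symm, h4.symm⟩
      · have : ∀ z : SL2 F, m1 * g * z * (m1 * g)⁻¹ = g * z * g⁻¹ := by
          intro z
          rw [_root_.mul_inv_rev, m1_inv]
          calc m1 * g * z * (g⁻¹ * m1) = m1 * (g * z * g⁻¹) * m1 := by group
            _ = g * z * g⁻¹ := by rw [m1_comm, mul_assoc, m1_mul_m1, mul_one]
        rw [this, this]
        exact ⟨h3.symm, h4.symm⟩
  change Nat.card ↥{a : SL2 F | (⟨(a * x * a⁻¹, a * y * a⁻¹), ⟨a, rfl, rfl⟩⟩ : {p : SL2 F × SL2 F // PC (x, y) p}) = ⟨(u, v), ⟨g, h3, h4⟩⟩} = 2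
  rw [h5]
  apply Set.ncard_pair
  intro h6
  exact m1_ne_one h2 (mul_eq_right.mp h6.symm)

/-- conjugate pairs give conjugate Klein four-groups -/
theorem KV_map {x y u v : SL2 F} (h : QP x y) (h' : QP u v) {g : SL2 F} (e1 : u = g * x * g⁻¹) (e2 : v = g * y * g⁻¹) :
    KV h' = (KV h).map (MulAut.conj (pr g)).toMonoidHom := by
  ext z
  rw [Subgroup.mem_map]
  have f1 : pr u = MulAut.conj (pr g) (pr x) := by rw [e1, map_mul, map_mul, map_inv]; rfl
  have f2 : pr v = MulAut.conj (pr g) (pr y) := by rw [e2, map_mul, map_mul, map_inv]; rfl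
  constructor
  · intro hz
    rcases mem_kf.mp hz with h3 | h3 | h3 | h3
    · exact ⟨1, one_mem _, by rw [h3]; exact map_one _⟩
    · exact ⟨pr x, left_mem_KV h, by rw [h3, f1]; rfl⟩
    · exact ⟨pr y, right_mem_KV h, by rw [h3, f2]; rfl⟩
    · exact ⟨pr x * pr y, mul_mem (left_mem_KV h) (right_mem_KV h), by rw [h3, f1, f2, map_mul]; rfl⟩
  · rintro ⟨w, hw, rfl⟩
    change MulAut.conj (pr g) w ∈ KV h'
    rcases mem_kf.mp hw with h3 | h3 | h3 | h3
    · rw [h3, map_one]; exact one_mem _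
    · rw [h3, ← f1]; exact left_mem_KV h'
    · rw [h3, ← f2]; exact right_mem_KV h'
    · rw [h3, map_mul, ← f1, ← f2]; exact mul_mem (left_mem_KV h') (right_mem_KV h')

end CfsgH9.SLt
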