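import Cfsg.Agent.H9.Dk15
import Cfsg.Agent.H9.SLt5

set_option autoImplicit false

open MulAction Matrix

namespace CfsgH9.Dk

section rec
variable {N : Type*} [Group N] [Finite N]

theorem not_normal3 (V : Subgroup N) (hVn : V.Normal) (hV : Nat.card V = 4) (hC : ∀ g : N, (∀ v ∈ V, g * v = v * g) → g ∈ V)
    {P : Subgroup N} (hP3 : Nat.card P = 3) : ¬ P.Normal := by
  intro hPn
  have hdis : Disjoint P V := by
    rw [disjoint_iff]
    apply Subgroup.inf_eq_bot_of_coprime
    rw [hP3, hV]; norm_num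
  have h1 : P ≤ V := by
    intro g hg
    apply hC
    intro v hv
    exact Subgroup.commute_of_normal_of_disjoint P V hPn hVn hdis g v hg hv
  have h2 := Subgroup.card_dvd_of_le h1
  rw [hP3, hV] at h2
  norm_num at h2

theorem sylow3_card (P : Sylow 3 N) {n : ℕ} (hn : Nat.card N = 3 * n) (h3 : ¬ 3 ∣ n) (hn0 : n ≠ 0) : Nat.card (P : Subgroup N) = 3 := by
  haveI : Fact (Nat.Prime 3) := ⟨Nat.prime_three⟩
  have := Sylow.card_eq_multiplicity P
  rw [hn] at this
  rw [this, Nat.factorization_mul (by norm_num) hn0]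
  simp only [Finsupp.coe_add, Pi.add_apply, Nat.Prime.factorization_self Nat.prime_three,
    Nat.factorization_eq_zero_of_not_dvd h3]
  norm_num

theorem A4_rec (V : Subgroup N) (hVn : V.Normal) (hV : Nat.card V = 4) (hC : ∀ g : N, (∀ v ∈ V, g * v = v * g) → g ∈ V)
    (hN : Nat.card N = 12) : Nonempty (N ≃* alternatingGroup (Fin 4)) := by
  haveI : Fact (Nat.Prime 3) := ⟨Nat.prime_three⟩
  obtain ⟨P⟩ : Nonempty (Sylow 3 N) := inferInstance
  have hP := sylow3_card P (n := 4) (by rw [hN]) (by norm_num) (by norm_num)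
  have hi : (P : Subgroup N).index = 4 := by
    have := Subgroup.card_mul_index (P : Subgroup N)
    rw [hP, hN] at this
    omega
  refine Recog.alt_of_core (P : Subgroup N) hi ?_ (by rw [hN]; rfl)
  have hle := Subgroup.normalCore_le (P : Subgroup N)
  have hd := Subgroup.card_dvd_of_le hle
  rw [hP, Nat.dvd_prime Nat.prime_three] at hd
  rcases hd with h | h
  · exact Subgroup.card_eq_one.1 h
  · exfalso
    have heq : (P : Subgroup N).normalCore = P := Subgroup.eq_of_le_of_card_ge hle (by rw [h, hP])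
    exact not_normal3 V hVn hV hC hP (by rw [← heq]; exact Subgroup.normalCore_normal _)

theorem S4_rec (V : Subgroup N) (hVn : V.Normal) (hV : Nat.card V = 4) (hC : ∀ g : N, (∀ v ∈ V, g * v = v * g) → g ∈ V)
    (hN : Nat.card N = 24) : Nonempty (N ≃* Equiv.Perm (Fin 4)) := by
  classical
  haveI : Fact (Nat.Prime 3) := ⟨Nat.prime_three⟩
  haveI : Fact (Nat.Prime 2) := ⟨Nat.prime_two⟩
  obtain ⟨P⟩ : Nonempty (Sylow 3 N) := inferInstance
  have hP := sylow3_card P (n := 8) (by rw [hN]) (by norm_num) (by norm_num)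
  set T : Subgroup N := Subgroup.normalizer ((P : Subgroup N) : Set N) with hT
  have hidx : T.index = Nat.card (Sylow 3 N) := (Sylow.card_eq_index_normalizer P).symm
  have hn4 : T.index = 4 := by
    have h1 : Nat.card (Sylow 3 N) ≡ 1 [MOD 3] := card_sylow_modEq_one 3 N
    rw [← hidx] at h1
    have h2 : T.index ∣ 8 := by
      have h3 : T.index ∣ (P : Subgroup N).index := Subgroup.index_dvd_of_le Subgroup.le_normalizer
      have h4 := Subgroup.card_mul_index (P : Subgroup N)
      rw [hP, hN] at h4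
      have h5 : (P : Subgroup N).index = 8 := by omega
      rwa [h5] at h3
    have h3 := Nat.le_of_dvd (by norm_num) h2
    have h4 : T.index ≠ 1 := by
      intro h
      exact not_normal3 V hVn hV hC hP (Subgroup.normalizer_eq_top_iff.1 (Subgroup.index_eq_one.1 h))
    unfold Nat.ModEq at h1
    interval_cases h : T.index <;> omega
  have hTc : Nat.card T = 6 := by
    have := Subgroup.card_mul_index T
    rw [hn4, hN] at this
    omega
  refine Recog.perm_of_core T hn4 ?_ (by rw [hN]; rfl)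
  set M := T.normalCore with hM
  have hMT : M ≤ T := Subgroup.normalCore_le T
  have hMn : M.Normal := Subgroup.normalCore_normal T
  have hMd : Nat.card M ∣ 6 := by rw [← hTc]; exact Subgroup.card_dvd_of_le hMT
  have hI : Nat.card (M ⊓ V : Subgroup N) ∣ 2 := by
    have h1 : Nat.card (M ⊓ V : Subgroup N) ∣ 6 := (Subgroup.card_dvd_of_le inf_le_left).trans hMd
    have h2 : Nat.card (M ⊓ V : Subgroup N) ∣ 4 := by rw [← hV]; exact Subgroup.card_dvd_of_le inf_le_right
    exact (Nat.dvd_gcd h1 h2).trans (by norm_num)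
  rw [Nat.dvd_prime Nat.prime_two] at hI
  rcases hI with h | h
  · have hb := Subgroup.card_eq_one.1 h
    have hMV : M ≤ V := by
      intro g hg
      apply hC
      intro v hv
      exact Subgroup.commute_of_normal_of_disjoint M V hMn hVn (disjoint_iff.2 hb) g v hg hv
    rw [inf_eq_left.2 hMV] at hb
    exact hb
  · exfalso
    -- a central involution
    obtain ⟨⟨v, hv⟩, hv1⟩ : ∃ v : (M ⊓ V : Subgroup N), v ≠ 1 := by
      have : 1 < Nat.card (M ⊓ V : Subgroup N) := by rw [h]; norm_num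
      haveI := Finite.one_lt_card_iff_nontrivial.1 this
      exact exists_ne 1
    have hv1' : v ≠ 1 := fun e => hv1 (Subtype.ext e)
    obtain ⟨a, b, hab, hh⟩ := Nat.card_eq_two_iff.1 h
    have h4 : ∀ u : (M ⊓ V : Subgroup N), u ≠ 1 → ∀ v : (M ⊓ V : Subgroup N), v ≠ 1 → u = v := by
      intro u hu v hv
      have hu' : u ∈ ({a, b} : Set (M ⊓ V : Subgroup N)) := by rw [hh]; trivial
      have hv' : v ∈ ({a, b} : Set (M ⊓ V : Subgroup N)) := by rw [hh]; trivial
      have h1' : (1 : (M ⊓ V : Subgroup N)) ∈ ({a, b} : Set (M ⊓ V : Subgroup N)) := by rw [hh]; trivial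
      simp only [Set.mem_insert_iff, Set.mem_singleton_iff] at hu' hv' h1'
      rcases h1' with h1' | h1' <;> rcases hu' with hu' | hu' <;> rcases hv' with hv' | hv'
      all_goals first
        | (exact hu'.trans hv'.symm)
        | (exact absurd (hu'.trans h1'.symm) hu)
        | (exact absurd (hv'.trans h1'.symm) hv)
    have hcen : ∀ g : N, g * v * g⁻¹ = v := by
      intro g
      have h5 := h4 ⟨g * v * g⁻¹, hMn.conj_mem _ hv.1 g, hVn.conj_mem _ hv.2 g⟩
        (fun e => hv1' (conj_eq_one_iff.1 (congrArg Subtype.val e))) ⟨v, hv⟩ hv1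
      exact congrArg Subtype.val h5
    -- P centralises V
    have hPV : (P : Subgroup N) ≤ V := by
      intro g hg
      apply hC
      intro w hw
      have hg3 : g ^ 3 = 1 := by
        have h0 : (⟨g, hg⟩ : (P : Subgroup N)) ^ Nat.card (P : Subgroup N) = 1 := pow_card_eq_one'
        have h0' : g ^ Nat.card (P : Subgroup N) = 1 := congrArg Subtype.val h0
        rwa [hP] at h0'
      by_cases hw1 : w = 1
      · rw [hw1]; simp
      by_cases hwv : w = v
      · rw [hwv]; exact mul_inv_eq_iff_eq_mul.1 (hcen g)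
      -- pigeonhole
      have hcardO : Nat.card {u : V // (u : N) ≠ 1 ∧ (u : N) ≠ v} ≤ 2 := by
        have e1 : Nat.card {u : V // (u : N) ≠ 1 ∧ (u : N) ≠ v} + 2 ≤ Nat.card V := by
          haveI := Fintype.ofFinite V
          rw [Nat.card_eq_fintype_card, Nat.card_eq_fintype_card, Fintype.card_subtype]
          have : (Finset.univ.filter (fun u : V => (u : N) ≠ 1 ∧ (u : N) ≠ v)) ⊆ (Finset.univ.erase (1 : V)).erase ⟨v, hv.2⟩ := by
            intro u hu
            simp only [Finset.mem_filter, Finset.mem_univ, true_and] at hu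
            simp only [Finset.mem_erase, Finset.mem_univ, and_true]
            exact ⟨fun e => hu.2 (congrArg Subtype.val e), fun e => hu.1 (congrArg Subtype.val e)⟩
          have h6 := Finset.card_le_card this
          rw [Finset.card_erase_of_mem (by
              simp only [Finset.mem_erase, Finset.mem_univ, and_true]
              exact fun e => hv1' (congrArg Subtype.val e)), Finset.card_erase_of_mem (Finset.mem_univ _), Finset.card_univ] at h6
          have h7 : 2 ≤ Fintype.card V := by rw [← Nat.card_eq_fintype_card, hV]; norm_num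
          omega
        rw [hV] at e1
        omega
      let F : Fin 3 → {u : V // (u : N) ≠ 1 ∧ (u : N) ≠ v} := fun i =>
        ⟨⟨g ^ (i : ℕ) * w * (g ^ (i : ℕ))⁻¹, hVn.conj_mem _ hw _⟩, fun e => hw1 (conj_eq_one_iff.1 e), fun e => hwv (by
          have h8 : g ^ (i : ℕ) * w * (g ^ (i : ℕ))⁻¹ = g ^ (i : ℕ) * v * (g ^ (i : ℕ))⁻¹ := e.trans (hcen _).symm
          exact mul_left_cancel (mul_right_cancel h8))⟩
      have hnotinj : ¬ Function.Injective F := by
        intro hi
        have := Nat.card_le_card_of_injective F hi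
        rw [Nat.card_eq_fintype_card (α := Fin 3), Fintype.card_fin] at this
        omega
      rw [Function.Injective] at hnotinj
      push Not at hnotinj
      obtain ⟨i, j, hij, hne⟩ := hnotinj
      have hij' : g ^ (i : ℕ) * w * (g ^ (i : ℕ))⁻¹ = g ^ (j : ℕ) * w * (g ^ (j : ℕ))⁻¹ := congrArg (fun z => ((z.1 : V) : N)) hij
      -- so some `g^k`, `k = 1, 2` commutes with w
      have key : ∀ a b : ℕ, a < b → b < 3 → g ^ a * w * (g ^ a)⁻¹ = g ^ b * w * (g ^ b)⁻¹ → g * w = w * g := by
        intro a b hab hb he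
        obtain ⟨k, rfl⟩ : ∃ k, b = a + k := ⟨b - a, by omega⟩
        rw [pow_add] at he
        have h9 : w = g ^ k * w * (g ^ k)⁻¹ := by
          have h10 : g ^ a * w * (g ^ a)⁻¹ = g ^ a * (g ^ k * w * (g ^ k)⁻¹) * (g ^ a)⁻¹ := by
            rw [he]; group
          exact mul_left_cancel (mul_right_cancel h10)
        have h11 : g ^ k * w = w * g ^ k := by
          rw [eq_mul_inv_iff_mul_eq] at h9
          exact h9.symm
        have hk : k = 1 ∨ k = 2 := by omega
        rcases hk with rfl | rfl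
        · rwa [pow_one] at h11
        · have h12 : g = (g ^ 2)⁻¹ := by
            rw [eq_inv_iff_mul_eq_one, ← pow_succ']
            exact hg3
          have h13 : Commute (g ^ 2) w := h11
          rw [h12]
          exact (h13.inv_left).eq
      rcases lt_trichotomy i j with h8 | h8 | h8
      · exact key i j h8 j.2 hij'
      · exact absurd h8 hne
      · exact key j i h8 i.2 hij'.symm
    have h2 := Subgroup.card_dvd_of_le hPV
    rw [hP, hV] at h2
    norm_num at h2

end rec

section klein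
variable {G : Type*} [Group G] [Finite G] {x y : G}

theorem klein_norm (hx : x * x = 1) (hy : y * y = 1) (hxy : x * y = y * x) (hx1 : x ≠ 1) (hy1 : y ≠ 1) (hne : x ≠ y)
    (hC : ∀ g : G, g * x = x * g → g * y = y * g → g ∈ SLt.kf x y hx hy hxy) {ρ : G} (h1 : ρ * x * ρ⁻¹ = y) (h2 : ρ * y * ρ⁻¹ = x * y) :
    (∃ H : Subgroup G, SLt.kf x y hx hy hxy ≤ H ∧ H ≤ Subgroup.normalizer (SLt.kf x y hx hy hxy : Set G) ∧ Nonempty (H ≃* alternatingGroup (Fin 4))) ∧
    (Nat.card (Subgroup.normalizer (SLt.kf x y hx hy hxy : Set G)) = 12 ∨ Nat.card (Subgroup.normalizer (SLt.kf x y hx hy hxy : Set G)) = 24) ∧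
    ((∃ σ : G, σ * x * σ⁻¹ = y ∧ σ * y * σ⁻¹ = x) → Nat.card (Subgroup.normalizer (SLt.kf x y hx hy hxy : Set G)) = 24) ∧
    (Nat.card (Subgroup.normalizer (SLt.kf x y hx hy hxy : Set G)) = 24 → Nonempty (Subgroup.normalizer (SLt.kf x y hx hy hxy : Set G) ≃* Equiv.Perm (Fin 4))) ∧
    (Nat.card (Subgroup.normalizer (SLt.kf x y hx hy hxy : Set G)) = 12 → Nonempty (Subgroup.normalizer (SLt.kf x y hx hy hxy : Set G) ≃* alternatingGroup (Fin 4))) := by
  classical
  set V := SLt.kf x y hx hy hxy with hVd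
  have hVc : Nat.card V = 4 := SLt.card_kf hx hy hxy hx1 hy1 hne
  have hmV : ∀ v, v ∈ V ↔ v = 1 ∨ v = x ∨ v = y ∨ v = x * y := fun v => SLt.mem_kf
  have hxV : x ∈ V := (hmV x).2 (by simp)
  have hyV : y ∈ V := (hmV y).2 (by simp)
  have hxy1 : x * y ≠ 1 := by
    intro h
    apply hne
    have : x * y * y = y := by rw [h, one_mul]
    rwa [mul_assoc, hy, mul_one] at this
  have hxyx : x * y ≠ x := fun h => hy1 (mul_eq_left.mp h)
  have hxyy : x * y ≠ y := fun h => hx1 (mul_eq_right.mp h)
  set N := Subgroup.normalizer (V : Set G) with hN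
  have hVN : V ≤ N := Subgroup.le_normalizer
  have hmN : ∀ g, g ∈ N ↔ ∀ v, v ∈ V ↔ g * v * g⁻¹ ∈ V := fun g => Subgroup.mem_normalizer_iff
  -- membership in N from generators
  have hinN : ∀ g : G, g * x * g⁻¹ ∈ V → g * y * g⁻¹ ∈ V → g ∈ N := by
    intro g e1 e2
    have hmap : V.map (MulAut.conj g).toMonoidHom ≤ V := by
      rintro _ ⟨v, hv, rfl⟩
      change g * v * g⁻¹ ∈ V
      rcases (hmV v).1 hv with rfl | rfl | rfl | rfl
      · simp
      · exact e1
      · exact e2
      · have : g * (x * y) * g⁻¹ = (g * x * g⁻¹) * (g * y * g⁻¹) := by group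
        rw [this]; exact mul_mem e1 e2
    have hmeq : V.map (MulAut.conj g).toMonoidHom = V := by
      apply Subgroup.eq_of_le_of_card_ge hmap
      rw [Subgroup.card_map_of_injective (MulAut.conj g).injective]
    rw [hmN]
    intro v
    constructor
    · intro hv
      exact hmap ⟨v, hv, rfl⟩
    · intro hv
      rw [← hmeq] at hv
      obtain ⟨w, hw, hw'⟩ := hv
      have hw'' : g * w * g⁻¹ = g * v * g⁻¹ := hw'
      rw [← mul_left_cancel (mul_right_cancel hw'')]
      exact hw
  let Ω := {v : G // v ∈ V ∧ v ≠ 1}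
  have hΩ : Nat.card Ω = 3 := by
    have e : Ω ≃ {v : V // v ≠ 1} :=
      { toFun := fun v => ⟨⟨v.1, v.2.1⟩, fun h => v.2.2 (congrArg Subtype.val h)⟩
        invFun := fun v => ⟨v.1.1, v.1.2, fun h => v.2 (Subtype.ext h)⟩
        left_inv := fun v => rfl
        right_inv := fun v => rfl }
    rw [Nat.card_congr e]
    haveI := Fintype.ofFinite V
    rw [Nat.card_eq_fintype_card, Fintype.card_subtype_compl, ← Nat.card_eq_fintype_card, hVc]
    simp
  haveI : Finite Ω := Nat.finite_of_card_ne_zero (by rw [hΩ]; norm_num)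
  letI act : MulAction N Ω :=
    { smul := fun g v => ⟨(g : G) * v * (g : G)⁻¹, ((hmN g).1 g.2 v).1 v.2.1, fun h => v.2.2 (conj_eq_one_iff.1 h)⟩
      one_smul := fun v => Subtype.ext (by change (1 : G) * v * (1 : G)⁻¹ = v; simp)
      mul_smul := fun g h v => Subtype.ext (by
        change (g * h : G) * v * (g * h : G)⁻¹ = (g : G) * ((h : G) * v * (h : G)⁻¹) * (g : G)⁻¹
        group) }
  have hsm : ∀ (g : N) (v : Ω), ((g • v : Ω) : G) = (g : G) * v * (g : G)⁻¹ := fun g v => rfl
  let f : N →* Equiv.Perm Ω := MulAction.toPermHom N Ω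
  have hf : ∀ (g : N) (v : Ω), ((f g v : Ω) : G) = (g : G) * v * (g : G)⁻¹ := fun g v => rfl
  have hker : ∀ g : N, g ∈ f.ker ↔ (g : G) ∈ V := by
    intro g
    rw [MonoidHom.mem_ker]
    constructor
    · intro h
      have e1 := hf g ⟨x, hxV, hx1⟩
      have e2 := hf g ⟨y, hyV, hy1⟩
      rw [h] at e1 e2
      exact hC g (mul_inv_eq_iff_eq_mul.1 e1.symm) (mul_inv_eq_iff_eq_mul.1 e2.symm)
    · intro h
      ext v
      rw [hf, Equiv.Perm.one_apply]
      rw [mul_inv_eq_iff_eq_mul]
      have hsq : ∀ a ∈ V, a * a = 1 := by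
        intro a ha
        rcases (hmV a).1 ha with h | h | h | h
        · rw [h, one_mul]
        · rw [h, hx]
        · rw [h, hy]
        · rw [h]
          nth_rewrite 2 [hxy]
          rw [mul_assoc, ← mul_assoc y y x, hy, one_mul, hx]
      have hab : ∀ a ∈ V, ∀ b ∈ V, a * b = b * a := by
        intro a ha b hb
        have e1 : a⁻¹ = a := inv_eq_of_mul_eq_one_left (hsq a ha)
        have e2 : b⁻¹ = b := inv_eq_of_mul_eq_one_left (hsq b hb)
        have e3 : (a * b)⁻¹ = a * b := inv_eq_of_mul_eq_one_left (hsq _ (mul_mem ha hb))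
        rw [_root_.mul_inv_rev, e1, e2] at e3
        exact e3.symm
      exact hab _ h _ v.2.1
  have hkc : Nat.card f.ker = 4 := by
    rw [← hVc]
    exact Nat.card_congr
      { toFun := fun g => ⟨(g : N), (hker _).1 g.2⟩
        invFun := fun v => ⟨⟨v, hVN v.2⟩, (hker _).2 v.2⟩
        left_inv := fun g => rfl
        right_inv := fun v => rfl }
  have hNc : Nat.card N = 4 * Nat.card f.range := by
    have := Subgroup.card_mul_index f.ker
    rw [Subgroup.index_ker, hkc] at this
    exact this.symm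
  have hperm : Nat.card (Equiv.Perm Ω) = 6 := by
    rw [Nat.card_perm, hΩ]; rfl
  have hr6 : Nat.card f.range ∣ 6 := by rw [← hperm]; exact Subgroup.card_subgroup_dvd_card _
  have hρN : ρ ∈ N := hinN ρ (by rw [h1]; exact hyV) (by rw [h2]; exact mul_mem hxV hyV)
  have hρ3 : orderOf (f ⟨ρ, hρN⟩) = 3 := by
    apply orderOf_eq_prime
    · have hval : ∀ v : Ω, (((f ⟨ρ, hρN⟩ ^ 3) v : Ω) : G) = ρ * (ρ * (ρ * v * ρ⁻¹) * ρ⁻¹) * ρ⁻¹ := by
        intro v
        rw [pow_succ, pow_two, Equiv.Perm.mul_apply, Equiv.Perm.mul_apply, hf, hf, hf]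
      have hxyc : ρ * (x * y) * ρ⁻¹ = x := by
        have : ρ * (x * y) * ρ⁻¹ = (ρ * x * ρ⁻¹) * (ρ * y * ρ⁻¹) := by group
        rw [this, h1, h2, hxy, ← mul_assoc, hy, one_mul]
      ext v
      rw [hval, Equiv.Perm.one_apply]
      rcases (hmV v).1 v.2.1 with h | h | h | h
      · exact absurd h v.2.2
      · rw [h, h1, h2, hxyc]
      · rw [h, h2, hxyc, h1]
      · rw [h, hxyc, h1, h2]
    · intro h
      have e1 := hf ⟨ρ, hρN⟩ ⟨x, hxV, hx1⟩
      rw [h, Equiv.Perm.one_apply] at e1
      exact hne (e1.trans h1)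
  have h3r : 3 ∣ Nat.card f.range := by
    have h0 : orderOf (⟨f ⟨ρ, hρN⟩, ⟨_, rfl⟩⟩ : f.range) = _ := (Subgroup.orderOf_coe _).symm.trans hρ3
    have := orderOf_dvd_natCard (⟨f ⟨ρ, hρN⟩, ⟨_, rfl⟩⟩ : f.range)
    rwa [h0] at this
  have hr36 : Nat.card f.range = 3 ∨ Nat.card f.range = 6 := by
    have := Nat.le_of_dvd (by norm_num) hr6
    interval_cases h : Nat.card f.range <;> omega
  -- normal V in N
  have hCN : ∀ (H : Subgroup G), H ≤ N → V ≤ H → ((V.subgroupOf H).Normal ∧ Nat.card (V.subgroupOf H) = 4 ∧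
      ∀ g : H, (∀ v ∈ V.subgroupOf H, g * v = v * g) → g ∈ V.subgroupOf H) := by
    intro H hHN hVH
    refine ⟨⟨fun v hv g => ?_⟩, ?_, ?_⟩
    · rw [Subgroup.mem_subgroupOf] at hv ⊢
      exact ((hmN g).1 (hHN g.2) v).1 hv
    · rw [Nat.card_congr (Subgroup.subgroupOfEquivOfLe hVH).toEquiv, hVc]
    · intro g hg
      rw [Subgroup.mem_subgroupOf]
      apply hC
      · exact congrArg Subtype.val (hg ⟨x, hVH hxV⟩ (Subgroup.mem_subgroupOf.2 hxV))
      · exact congrArg Subtype.val (hg ⟨y, hVH hyV⟩ (Subgroup.mem_subgroupOf.2 hyV))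
  refine ⟨?_, ?_, ?_, ?_, ?_⟩
  · let H' : Subgroup N := (Subgroup.zpowers (f ⟨ρ, hρN⟩)).comap f
    have hH'c : Nat.card H' = 12 := by
      have e1 : Nat.card H' = Nat.card (f.domRestrict H').ker * Nat.card (f.domRestrict H').range := by
        have := Subgroup.card_mul_index (f.domRestrict H').ker
        rw [Subgroup.index_ker] at this
        exact this.symm
      have e2 : (f.domRestrict H').range = Subgroup.zpowers (f ⟨ρ, hρN⟩) := by
        apply le_antisymm
        · rintro _ ⟨h, rfl⟩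
          exact h.2
        · rw [Subgroup.zpowers_le]
          exact ⟨⟨⟨ρ, hρN⟩, Subgroup.mem_zpowers _⟩, rfl⟩
      have e3 : Nat.card (f.domRestrict H').ker = 4 := by
        rw [← hkc]
        exact Nat.card_congr
          { toFun := fun g => ⟨((g : H') : N), g.2⟩
            invFun := fun g => ⟨⟨g, by
              change f (g : N) ∈ Subgroup.zpowers _
              rw [MonoidHom.mem_ker.1 g.2]; exact one_mem _⟩, g.2⟩
            left_inv := fun g => rfl
            right_inv := fun g => rfl }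
      rw [e1, e2, e3, Nat.card_zpowers, hρ3]
    have hle1 : V ≤ H'.map N.subtype := by
      intro v hv
      refine ⟨⟨v, hVN hv⟩, ?_, rfl⟩
      change f ⟨v, hVN hv⟩ ∈ Subgroup.zpowers _
      rw [MonoidHom.mem_ker.1 ((hker ⟨v, hVN hv⟩).2 hv)]
      exact one_mem _
    have hle2 : H'.map N.subtype ≤ N := Subgroup.map_subtype_le _
    refine ⟨H'.map N.subtype, hle1, hle2, ?_⟩
    obtain ⟨n1, n2, n3⟩ := hCN _ hle2 hle1
    refine A4_rec _ n1 n2 n3 ?_
    rw [Subgroup.card_map_of_injective N.subtype_injective, hH'c]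
  · rcases hr36 with h | h <;> rw [h] at hNc <;> omega
  · rintro ⟨σ, s1, s2⟩
    have hσN : σ ∈ N := hinN σ (by rw [s1]; exact hyV) (by rw [s2]; exact hxV)
    have hσ2 : orderOf (f ⟨σ, hσN⟩) = 2 := by
      apply orderOf_eq_prime
      · have hxyc : σ * (x * y) * σ⁻¹ = x * y := by
          have : σ * (x * y) * σ⁻¹ = (σ * x * σ⁻¹) * (σ * y * σ⁻¹) := by group
          rw [this, s1, s2, hxy]
        ext v
        rw [pow_two, Equiv.Perm.mul_apply, hf, hf, Equiv.Perm.one_apply]
        rcases (hmV v).1 v.2.1 with h | h | h | h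
        · exact absurd h v.2.2
        · rw [h, s1, s2]
        · rw [h, s2, s1]
        · rw [h, hxyc, hxyc]
      · intro h
        have e1 := hf ⟨σ, hσN⟩ ⟨x, hxV, hx1⟩
        rw [h, Equiv.Perm.one_apply] at e1
        exact hne (e1.trans s1)
    have h2r : 2 ∣ Nat.card f.range := by
      have h0 : orderOf (⟨f ⟨σ, hσN⟩, ⟨_, rfl⟩⟩ : f.range) = _ := (Subgroup.orderOf_coe _).symm.trans hσ2
      have := orderOf_dvd_natCard (⟨f ⟨σ, hσN⟩, ⟨_, rfl⟩⟩ : f.range)
      rwa [h0] at this
    omega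
  · intro h24
    obtain ⟨n1, n2, n3⟩ := hCN N le_rfl hVN
    exact S4_rec _ n1 n2 n3 h24
  · intro h12
    obtain ⟨n1, n2, n3⟩ := hCN N le_rfl hVN
    exact A4_rec _ n1 n2 n3 h12

end klein

end CfsgH9.Dk
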