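import Cfsg.Agent.H9.Dk16

set_option autoImplicit false

open MulAction Matrix

namespace CfsgH9.Dk

open CfsgH7 in
theorem KV_cent {F : Type*} [Field F] (h2 : (2 : F) ≠ 0) {x y : SL2 F} (h : SLt.QP x y) (g : PS F)
    (e1 : g * SLt.pr x = SLt.pr x * g) (e2 : g * SLt.pr y = SLt.pr y * g) : g ∈ SLt.KV h := by
  obtain ⟨γ, rfl⟩ := SLt.pr_surjective g
  rw [← map_mul, ← map_mul, SLt.pr_eq_iff] at e1 e2
  have hm1 : ∀ z : SL2 F, SLt.m1 * z = z * SLt.m1 := SLt.m1_comm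
  have hmm : (SLt.m1 * SLt.m1 : SL2 F) = 1 := SLt.m1_mul_m1
  have hxy : x * y = SLt.m1 * (y * x) := h.2.2
  have hyx : y * x = SLt.m1 * (x * y) := by rw [hxy, ← mul_assoc, hmm, one_mul]
  have fin : ∀ v : SL2 F, SLt.pr v ∈ SLt.KV h → x * (v * γ) = (v * γ) * x → y * (v * γ) = (v * γ) * y → SLt.pr γ ∈ SLt.KV h := by
    intro v hv f1 f2
    have h3 := SLt.QP.central h2 h f1 f2
    rw [← SLt.pr_eq_one, map_mul] at h3
    have h4 : SLt.pr γ = (SLt.pr v)⁻¹ := (inv_eq_of_mul_eq_one_right h3).symm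
    rw [h4]
    exact inv_mem hv
  have hxK := SLt.left_mem_KV h
  have hyK := SLt.right_mem_KV h
  rcases e1 with e1 | e1 <;> rcases e2 with e2 | e2
  · refine fin 1 (one_mem _) ?_ ?_
    · rw [one_mul, e1]
    · rw [one_mul, e2]
  · -- commutes with x, anticommutes with y
    refine fin x hxK ?_ ?_
    · rw [mul_assoc, ← e1]
    · calc y * (x * γ) = (y * x) * γ := by group
        _ = SLt.m1 * (x * (y * γ)) := by rw [hyx]; group
        _ = SLt.m1 * (x * (SLt.m1 * (γ * y))) := by rw [e2]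
        _ = (SLt.m1 * SLt.m1) * (x * (γ * y)) := by rw [← mul_assoc x, ← hm1]; group
        _ = x * γ * y := by rw [hmm]; group
  · refine fin y hyK ?_ ?_
    · calc x * (y * γ) = (x * y) * γ := by group
        _ = SLt.m1 * (y * (x * γ)) := by rw [hxy]; group
        _ = SLt.m1 * (y * (SLt.m1 * (γ * x))) := by rw [e1]
        _ = (SLt.m1 * SLt.m1) * (y * (γ * x)) := by rw [← mul_assoc y, ← hm1]; group
        _ = y * γ * x := by rw [hmm]; group
    · rw [mul_assoc, ← e2]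
  · refine fin (x * y) (by rw [map_mul]; exact mul_mem hxK hyK) ?_ ?_
    · calc x * (x * y * γ) = x * (x * y) * γ := by group
        _ = x * (SLt.m1 * (y * x)) * γ := by rw [← hxy]
        _ = SLt.m1 * (x * (y * (x * γ))) := by rw [← mul_assoc x, ← hm1]; group
        _ = SLt.m1 * (x * (y * (SLt.m1 * (γ * x)))) := by rw [e1]
        _ = SLt.m1 * ((x * y * SLt.m1) * (γ * x)) := by group
        _ = (SLt.m1 * SLt.m1) * (x * y * (γ * x)) := by rw [← hm1]; group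
        _ = x * y * γ * x := by rw [hmm]; group
    · calc y * (x * y * γ) = (y * x) * (y * γ) := by group
        _ = SLt.m1 * (x * y) * (SLt.m1 * (γ * y)) := by rw [hyx, e2]
        _ = SLt.m1 * ((x * y * SLt.m1) * (γ * y)) := by group
        _ = (SLt.m1 * SLt.m1) * (x * y * (γ * y)) := by rw [← hm1]; group
        _ = x * y * γ * y := by rw [hmm]; group

theorem psl_klein {F : Type*} [Field F] [Fintype F] (h2 : (2 : F) ≠ 0) {V : Subgroup (PS F)} (hV : IsKleinFour V) :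
    (∃ H : Subgroup (PS F), V ≤ H ∧ H ≤ Subgroup.normalizer (V : Set (PS F)) ∧ Nonempty (H ≃* alternatingGroup (Fin 4))) ∧
    (Nat.card (Subgroup.normalizer (V : Set (PS F))) = 12 ∨ Nat.card (Subgroup.normalizer (V : Set (PS F))) = 24) ∧
    (IsSquare (2 : F) → Nat.card (Subgroup.normalizer (V : Set (PS F))) = 24) ∧
    (Nat.card (Subgroup.normalizer (V : Set (PS F))) = 24 → Nonempty (Subgroup.normalizer (V : Set (PS F)) ≃* Equiv.Perm (Fin 4))) ∧
    (Nat.card (Subgroup.normalizer (V : Set (PS F))) = 12 → Nonempty (Subgroup.normalizer (V : Set (PS F)) ≃* alternatingGroup (Fin 4))) := by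
  obtain ⟨x, y, h, rfl⟩ := SLt.exists_QP h2 hV
  obtain ⟨g, g1, g2⟩ := SLt.pc_rot h h2
  have hρ1 : SLt.pr g * SLt.pr x * (SLt.pr g)⁻¹ = SLt.pr y := by
    rw [← map_mul, ← map_inv, ← map_mul]; exact congrArg _ g1.symm
  have hρ2 : SLt.pr g * SLt.pr y * (SLt.pr g)⁻¹ = SLt.pr x * SLt.pr y := by
    rw [← map_mul, ← map_inv, ← map_mul, ← map_mul]; exact congrArg _ g2.symm
  obtain ⟨k1, k2, k3, k4, k5⟩ := klein_norm h.pr_sq h.symm.pr_sq h.pr_comm (h.pr_ne_one h2) (h.symm.pr_ne_one h2) (h.pr_ne h2)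
    (fun g e1 e2 => KV_cent h2 h g e1 e2) hρ1 hρ2
  refine ⟨k1, k2, ?_, k4, k5⟩
  rintro ⟨r, hr⟩
  obtain ⟨g, g1, g2⟩ := SLt.pc_swap h (r := r) hr.symm h2
  apply k3
  refine ⟨SLt.pr g, ?_, ?_⟩
  · rw [← map_mul, ← map_inv, ← map_mul]; exact congrArg _ g1.symm
  · rw [← map_mul, ← map_inv, ← map_mul]; exact congrArg _ g2.symm

theorem exists_klein {F : Type*} [Field F] [Fintype F] (h2 : (2 : F) ≠ 0) : ∃ V : Subgroup (PS F), IsKleinFour V := by
  obtain ⟨i, j, hij⟩ := SLt.exists_q8 (F := F)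
  exact ⟨_, SLt.isKleinFour_KV h2 hij⟩

end CfsgH9.Dk
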