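import Cfsg.Agent.H9.Dk17
import Cfsg.Agent.S0252
import Cfsg.Agent.S0253

set_option autoImplicit false

open MulAction Matrix

namespace CfsgH9.Dk

theorem A4_in_A5 : ∃ H : Subgroup (alternatingGroup (Fin 5)), Nonempty (H ≃* alternatingGroup (Fin 4)) := by
  classical
  let e : Fin 4 ≃ {i : Fin 5 // (i : ℕ) < 4} :=
    { toFun := fun i => ⟨Fin.castSucc i, i.2⟩
      invFun := fun i => ⟨i.1, i.2⟩
      left_inv := fun i => rfl
      right_inv := fun i => rfl }
  let f : alternatingGroup (Fin 4) →* alternatingGroup (Fin 5) :=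
    { toFun := fun σ => ⟨Equiv.Perm.extendDomain (σ : Equiv.Perm (Fin 4)) e, by
        rw [Equiv.Perm.mem_alternatingGroup, Equiv.Perm.sign_extendDomain]
        exact Equiv.Perm.mem_alternatingGroup.1 σ.2⟩
      map_one' := Subtype.ext (Equiv.Perm.extendDomain_one e)
      map_mul' := fun a b => Subtype.ext (Equiv.Perm.extendDomain_mul e _ _).symm }
  have hf : Function.Injective f := by
    intro a b hab
    have h1 : Equiv.Perm.extendDomain (a : Equiv.Perm (Fin 4)) e = Equiv.Perm.extendDomain (b : Equiv.Perm (Fin 4)) e := congrArg Subtype.val hab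
    exact Subtype.ext (Equiv.Perm.extendDomainHom_injective e h1)
  exact ⟨f.range, ⟨(MonoidHom.ofInjective hf).symm⟩⟩

/-- transferring subgroups along an isomorphism with a subgroup -/
theorem sub_trans {G A B : Type*} [Group G] [Group A] [Group B] {H : Subgroup G} (e : H ≃* A) (h : ∃ K : Subgroup A, Nonempty (K ≃* B)) :
    ∃ L : Subgroup G, L ≤ H ∧ Nonempty (L ≃* B) := by
  obtain ⟨K, ⟨f⟩⟩ := h
  refine ⟨(K.map e.symm.toMonoidHom).map H.subtype, Subgroup.map_subtype_le _, ⟨?_⟩⟩
  exact (((K.equivMapOfInjective e.symm.toMonoidHom e.symm.injective).trans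
    ((K.map e.symm.toMonoidHom).equivMapOfInjective _ H.subtype_injective)).symm).trans f

/-- 2-elements in characteristic two are involutions -/
theorem char2_pow {F : Type*} [Field F] [Fintype F] [CharP F 2] {g : PS F} {k : ℕ} (hg : g ^ 2 ^ k = 1) : g ^ 2 = 1 := by
  classical
  haveI : Fact (Nat.Prime 2) := ⟨Nat.prime_two⟩
  haveI := charP_QE F 2
  letI : MulAction (PS F) (PL (QE F 2)) := MulAction.compHom (PL (QE F 2)) (psi F 2)
  have hM : Mob 2 (QE F 2) (PS F) (PL (QE F 2)) := mobPS 2
  by_cases h1 : g = 1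
  · rw [h1, one_pow]
  obtain ⟨x, hx⟩ := hM.fixpt g
  exact US_pow hM (ppow hM hx hg h1)

end CfsgH9.Dk
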