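import Cfsg.Agent.H9.Dk18
import Cfsg.Agent.H9.A5b

set_option autoImplicit false

open MulAction Matrix

namespace CfsgH9.Dk

open CfsgH7

section
variable {F : Type*} [Field F]

theorem cube_one {z : SL2 F} (h : tr2 z = -1) : z * z * z = 1 := by
  have hch := SLt.sl2_ch z
  have e : ∀ i j, (z * z).1 i j = - z.1 i j - (1 : SL2 F).1 i j := by
    intro i j; rw [hch, h]; ring
  have e2 : ∀ i j, (z * z * z).1 i j = (1 : SL2 F).1 i j := by
    intro i j
    have h1 : (z * z * z).1 = (z * z).1 * z.1 := rfl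
    have h2 : (z * z).1 = - z.1 - 1 := by
      ext i j
      rw [e]
      rfl
    have h3 : z.1 * z.1 = - z.1 - 1 := h2
    rw [h1, h2, sub_mul, neg_mul, h3, one_mul]
    have : -(-z.1 - 1) - z.1 = (1 : Matrix (Fin 2) (Fin 2) F) := by abel
    rw [this]
    rfl
  exact Subtype.ext (Matrix.ext e2)

theorem cube_m1 {z : SL2 F} (h : tr2 z = 1) : z * z * z = SLt.m1 := by
  have hch := SLt.sl2_ch z
  have h2 : (z * z).1 = z.1 - 1 := by
    ext i j
    rw [hch, h, one_mul]
    rfl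
  have h1 : (z * z * z).1 = (z * z).1 * z.1 := rfl
  have h3 : z.1 * z.1 = z.1 - 1 := h2
  apply Subtype.ext
  rw [h1, h2, sub_mul, h3, one_mul]
  have : z.1 - 1 - z.1 = (-1 : Matrix (Fin 2) (Fin 2) F) := by abel
  rw [this]
  ext i j
  fin_cases i <;> fin_cases j <;> simp [SLt.m1]

theorem exists_A5 [Fintype F] (h2 : (2 : F) ≠ 0) (h5 : IsSquare (5 : F)) : ∃ H : Subgroup (PS F), Nonempty (H ≃* alternatingGroup (Fin 5)) := by
  obtain ⟨s, hs⟩ := h5
  obtain ⟨p, hp⟩ := CharP.exists F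
  have hprime : Fact p.Prime := ⟨CharP.char_is_prime F p⟩
  have hnz : NeZero p := ⟨hprime.out.ne_zero⟩
  obtain ⟨a', b', hab⟩ := CharP.sq_add_sq F p (-1)
  have hab' : (a' : F) ^ 2 + (b' : F) ^ 2 = -1 := by simpa using hab
  generalize (a' : F) = a at hab'
  generalize (b' : F) = b at hab'
  have h4 : (4 : F) ≠ 0 := by
    have : (4 : F) = 2 * 2 := by norm_num
    rw [this]; exact mul_ne_zero h2 h2
  let X : SL2 F := SLt.mk2 0 1 (-1) 0 (by ring)
  let Y : SL2 F := SLt.mk2 a b b (-a) (by linear_combination -hab')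
  let R : SL2 F := SLt.mk2 ((1 + a + b) / 2) ((1 + b - a) / 2) ((-1 + b - a) / 2) ((1 - a - b) / 2) (by
    field_simp
    linear_combination -2 * hab')
  obtain ⟨β, γ, hβγ, hβγ2⟩ : ∃ β γ : F, β + γ = -1 / 2 ∧ β ^ 2 + γ ^ 2 = 3 / 4 := by
    refine ⟨(-1 + s) / 4, (-1 - s) / 4, ?_, ?_⟩
    · field_simp
      ring
    · field_simp
      linear_combination (-2 : F) * hs
  let t : SL2 F := SLt.mk2 (β * a + γ * b) (1 / 2 + β * b - γ * a) (-1 / 2 + β * b - γ * a) (-(β * a) - γ * b) (by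
    have : (1 / 2 : F) * (1 / 2) = 1 / 4 := by field_simp; norm_num
    have h34 : (3 / 4 : F) = 1 - 1 / 4 := by field_simp; norm_num
    rw [h34] at hβγ2
    linear_combination (-(β ^ 2 + γ ^ 2)) * hab' + hβγ2 + this)
  have hQ : SLt.QP X Y := by
    refine ⟨?_, ?_, ?_⟩
    · rw [SLt.sq_eq_m1_iff, tr2]; simp [X]
    · rw [SLt.sq_eq_m1_iff, tr2]; simp [Y]
    · apply sl2_ext <;> rw [SLt.m1_mul_apply, sl2_mul_apply, sl2_mul_apply] <;> simp [X, Y]
  have hR1 : R * X = Y * R := by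
    apply sl2_ext <;> rw [sl2_mul_apply, sl2_mul_apply] <;> simp only [X, Y, R, SLt.mk2_00, SLt.mk2_01, SLt.mk2_10, SLt.mk2_11] <;> field_simp
    · linear_combination -hab'
    · linear_combination hab'
    · linear_combination -hab'
    · linear_combination -hab'
  have hR2 : R * Y = X * Y * R := by
    have e : ∀ i j, (X * Y).1 i j = (SLt.mk2 b (-a) (-a) (-b) (by linear_combination -hab') : SL2 F).1 i j := by
      intro i j
      rw [sl2_mul_apply]
      fin_cases i <;> fin_cases j <;> simp [X, Y, SLt.mk2]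
    apply sl2_ext <;> rw [sl2_mul_apply, sl2_mul_apply, e, e] <;> simp only [Y, R, SLt.mk2_00, SLt.mk2_01, SLt.mk2_10, SLt.mk2_11] <;> field_simp <;> ring
  have hRtr : tr2 R = 1 := by
    rw [tr2]; simp only [R, SLt.mk2_00, SLt.mk2_11]; field_simp; ring
  have httr : tr2 t = 0 := by
    rw [tr2]; simp only [t, SLt.mk2_00, SLt.mk2_11]; ring
  have htR : tr2 (t * R) = 0 := by
    rw [tr2, sl2_mul_apply, sl2_mul_apply]; simp only [t, R, SLt.mk2_00, SLt.mk2_01, SLt.mk2_10, SLt.mk2_11]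
    have : (β + γ) * 2 = -1 := by rw [hβγ]; field_simp
    field_simp
    linear_combination (4 * (β + γ)) * hab' - 2 * this
  have htX : tr2 (t * X) = -1 := by
    rw [tr2, sl2_mul_apply, sl2_mul_apply]; simp only [t, X, SLt.mk2_00, SLt.mk2_01, SLt.mk2_10, SLt.mk2_11]
    field_simp
    ring
  have hprR : SLt.pr R ^ 3 = 1 := by
    rw [pow_succ, pow_two, ← map_mul, ← map_mul, cube_m1 hRtr, SLt.pr_m1]
  have hprt : SLt.pr t * SLt.pr t = 1 := by
    rw [← map_mul, SLt.sq_eq_m1_iff.2 httr, SLt.pr_m1]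
  have hprx : SLt.pr X * SLt.pr X = 1 := hQ.pr_sq
  have hti : (SLt.pr t)⁻¹ = SLt.pr t := inv_eq_of_mul_eq_one_left hprt
  have hxi : (SLt.pr X)⁻¹ = SLt.pr X := inv_eq_of_mul_eq_one_left hprx
  have D : A5b.Dat (SLt.pr X) (SLt.pr Y) (SLt.pr R) (SLt.pr t) :=
    { hx := hQ.pr_sq
      hy := hQ.symm.pr_sq
      hxy := hQ.pr_comm
      hx1 := hQ.pr_ne_one h2
      hy1 := hQ.symm.pr_ne_one h2
      hne := hQ.pr_ne h2
      r1 := by rw [mul_inv_eq_iff_eq_mul, ← map_mul, ← map_mul, hR1]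
      r2 := by rw [mul_inv_eq_iff_eq_mul, ← map_mul, ← map_mul, ← map_mul, hR2]
      r3 := hprR
      ht := hprt
      trt := by
        have h1 := SLt.sq_eq_m1_iff.2 htR
        have h3 := congrArg SLt.pr h1
        rw [SLt.pr_m1, map_mul, map_mul, ← mul_assoc] at h3
        exact eq_inv_of_mul_eq_one_left h3
      txt := by
        have h1 := congrArg SLt.pr (cube_one htX)
        simp only [map_mul, map_one] at h1
        have h3 : SLt.pr t * SLt.pr X * SLt.pr t * (SLt.pr X * SLt.pr t * SLt.pr X) = 1 := by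
          rw [← h1]; group
        have h4 : SLt.pr t * SLt.pr X * SLt.pr t = (SLt.pr X * SLt.pr t * SLt.pr X)⁻¹ := by
          apply eq_inv_of_mul_eq_one_left
          rw [← h1]; group
        rw [h4, _root_.mul_inv_rev, _root_.mul_inv_rev, hti, hxi, mul_assoc] }
  exact ⟨A5b.T D, A5b.main D⟩

end

end CfsgH9.Dk
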