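import Cfsg.Agent.H9.Dk1

set_option autoImplicit false

open MulAction

namespace CfsgH9.Dk

/-- abstract properties of a group of Möbius transformations -/
structure Mob (p : ℕ) (K : Type*) [Field K] (H X : Type*) [Group H] [MulAction H X] : Prop where
  three : ∀ (h : H) (x y z : X), x ≠ y → x ≠ z → y ≠ z → h • x = x → h • y = y → h • z = z → h = 1
  fixpt : ∀ h : H, ∃ x : X, h • x = x
  swap : ∀ (h : H) (x y : X), x ≠ y → h • x = y → h • y = x → h * h = 1
  chi : ∀ x : X, ∃ f : stabilizer H x →* Kˣ, ∀ h : stabilizer H x,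
    (f h = 1 → (h : H) ^ p = 1 ∧ (h ≠ 1 → ∀ y : X, (h : H) • y = y → y = x)) ∧ (f h ≠ 1 → ∃ y : X, y ≠ x ∧ (h : H) • y = y)

section count
variable {p : ℕ} {K : Type*} [Field K] {H X : Type*} [Group H] [Finite H] [MulAction H X] [Finite X]

/-- elements with exactly one fixed point -/
def uni (H X : Type*) [Group H] [MulAction H X] : Set H := {h | ∃ x : X, h • x = x ∧ ∀ y : X, h • y = y → y = x}

/-- size of an orbit -/
noncomputable def sz (ω : orbitRel.Quotient H X) : ℕ := Nat.card ω.orbit

open scoped Classical in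
omit [Finite H] in
theorem fix_card (hM : Mob p K H X) {h : H} (h1 : h ≠ 1) :
    Nat.card (fixedBy X h) = if h ∈ uni H X then 1 else 2 := by
  obtain ⟨x, hx⟩ := hM.fixpt h
  split_ifs with hu
  · obtain ⟨x, hx, hx'⟩ := hu
    rw [Nat.card_eq_one_iff_unique]
    exact ⟨⟨fun a b => Subtype.ext ((hx' a a.2).trans (hx' b b.2).symm)⟩, ⟨⟨x, hx⟩⟩⟩
  · have : ∃ y, h • y = y ∧ y ≠ x := by
      by_contra hcon
      push Not at hcon
      exact hu ⟨x, hx, hcon⟩
    obtain ⟨y, hy, hyx⟩ := this
    rw [Nat.card_eq_two_iff]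
    refine ⟨⟨x, hx⟩, ⟨y, hy⟩, fun e => hyx (congrArg Subtype.val e).symm, ?_⟩
    ext ⟨z, hz⟩
    simp only [Set.mem_insert_iff, Set.mem_singleton_iff, Set.mem_univ, iff_true]
    by_contra hcon
    rw [not_or] at hcon
    exact h1 (hM.three h x y z (Ne.symm hyx) (fun e => hcon.1 (Subtype.ext e.symm)) (fun e => hcon.2 (Subtype.ext e.symm)) hx hy hz)

open scoped Classical in
/-- the counting formula -/
theorem formula (hM : Mob p K H X) (hX : 2 ≤ Nat.card X) [Fintype (orbitRel.Quotient H X)] :
    ∑ ω : orbitRel.Quotient H X, (Nat.card H - sz ω) + Nat.card (uni H X) + 2 = 2 * Nat.card H := by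
  cases nonempty_fintype H
  cases nonempty_fintype X
  have h1 : ∑ g : H, Fintype.card (fixedBy X g) = Fintype.card (orbitRel.Quotient H X) * Fintype.card H :=
    sum_card_fixedBy_eq_card_orbits_mul_card_group H X
  have h2 : Nat.card X = ∑ ω : orbitRel.Quotient H X, sz ω := by
    rw [Nat.card_congr (selfEquivSigmaOrbits' H X), Nat.card_sigma]
    rfl
  have hsz : ∀ ω : orbitRel.Quotient H X, sz ω ≤ Nat.card H := by
    intro ω
    induction ω using Quotient.inductionOn' with | h x =>
    change Nat.card (orbit H x) ≤ Nat.card H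
    have : Nat.card (orbit H x) * Nat.card (stabilizer H x) = Nat.card H := by
      rw [Nat.card_eq_fintype_card, Nat.card_eq_fintype_card, Nat.card_eq_fintype_card, card_orbit_mul_card_stabilizer_eq_card_group]
    rw [← this]
    exact Nat.le_mul_of_pos_right _ Nat.card_pos
  -- uni as a finset
  have h1u : (1 : H) ∉ uni H X := by
    rintro ⟨x, -, hx⟩
    rw [Nat.card_eq_fintype_card] at hX
    obtain ⟨a, b, hab⟩ := Fintype.one_lt_card_iff.1 (by omega : 1 < Fintype.card X)
    exact hab ((hx a (one_smul _ _)).trans (hx b (one_smul _ _)).symm)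
  have h3 : ∀ h : H, Fintype.card (fixedBy X h) + (if h ∈ uni H X then 1 else 0) = (if h = 1 then Nat.card X - 2 else 0) + 2 := by
    intro h
    by_cases hh : h = 1
    · subst hh
      rw [if_neg h1u, if_pos rfl]
      have : Fintype.card (fixedBy X (1 : H)) = Nat.card X := by
        rw [← Nat.card_eq_fintype_card]
        exact Nat.card_congr (Equiv.subtypeUnivEquiv (fun x => one_smul _ x))
      rw [this]; omega
    · have := fix_card hM hh
      rw [Nat.card_eq_fintype_card] at this
      rw [this, if_neg hh]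
      split_ifs <;> rfl
  have h4 := Finset.sum_congr rfl (fun h (_ : h ∈ (Finset.univ : Finset H)) => h3 h)
  rw [Finset.sum_add_distrib, Finset.sum_add_distrib, h1, Finset.sum_const, Finset.sum_ite_eq' Finset.univ (1 : H),
    if_pos (Finset.mem_univ _)] at h4
  have h5 : ∑ h : H, (if h ∈ uni H X then 1 else 0) = Nat.card (uni H X) := by
    rw [Finset.sum_boole, Nat.card_eq_fintype_card, ← Set.toFinset_card]
    simp only [Nat.cast_id]
    congr 1
    ext h
    simp
  rw [h5, Finset.card_univ, smul_eq_mul] at h4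
  have h6 : ∑ ω : orbitRel.Quotient H X, (Nat.card H - sz ω) + ∑ ω : orbitRel.Quotient H X, sz ω =
      Fintype.card (orbitRel.Quotient H X) * Fintype.card H := by
    rw [← Finset.sum_add_distrib, Finset.sum_congr rfl (fun ω _ => Nat.sub_add_cancel (hsz ω)), Finset.sum_const,
      Finset.card_univ, smul_eq_mul, Nat.card_eq_fintype_card]
  rw [← h2] at h6
  have h7 : Nat.card H = Fintype.card H := Nat.card_eq_fintype_card
  rw [h7] at h6 ⊢
  omega

end count

end CfsgH9.Dk
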