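import Cfsg.Agent.H9.Dk19

set_option autoImplicit false

open MulAction Matrix

namespace CfsgH9.Dk

section dihlike
variable {G : Type*} [Group G] [Finite G]

/-- a subgroup of a group with a cyclic subgroup of index at most two -/
theorem dih_elt {H C M : Subgroup G} (hCH : C ≤ H) (hC : IsCyclic C) (hcard : Nat.card H ≤ 2 * Nat.card C) (hM : M ≤ H) :
    ∃ m ∈ M, m ∈ C ∧ Nat.card M ≤ 2 * orderOf m := by
  have hcyc : IsCyclic (M ⊓ C : Subgroup G) := by
    haveI := hC
    exact isCyclic_of_injective (Subgroup.inclusion (inf_le_right : M ⊓ C ≤ C)) (Subgroup.inclusion_injective _)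
  obtain ⟨m, hm⟩ := hcyc.exists_generator
  refine ⟨m, m.2.1, m.2.2, ?_⟩
  have h1 : orderOf (m : G) = Nat.card (M ⊓ C : Subgroup G) := by
    rw [Subgroup.orderOf_coe, orderOf_eq_card_of_forall_mem_zpowers hm]
  rw [h1]
  have h2 : Nat.card (C.subgroupOf M) = Nat.card (M ⊓ C : Subgroup G) := by
    rw [inf_comm]
    refine Nat.card_congr ⟨fun x => ⟨x.1, x.2, x.1.2⟩, fun x => ⟨⟨x.1, x.2.2⟩, x.2.1⟩, fun x => rfl, fun x => rfl⟩
  have h3 := Subgroup.card_mul_index (C.subgroupOf M)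
  have h4 : (C.subgroupOf M).index ≤ 2 := by
    have e1 : (C.subgroupOf M).index ≤ (C.subgroupOf H).index := by
      apply Subgroup.relIndex_le_of_le_right hM
      change (C.subgroupOf H).index ≠ 0
      exact Subgroup.index_ne_zero_of_finite
    have e2 := Subgroup.card_mul_index (C.subgroupOf H)
    rw [Nat.card_congr (Subgroup.subgroupOfEquivOfLe hCH).toEquiv] at e2
    have e3 : Nat.card C * (C.subgroupOf H).index ≤ Nat.card C * 2 := by rw [e2]; omega
    have e4 := Nat.le_of_mul_le_mul_left e3 Nat.card_pos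
    omega
  rw [← h3, h2, mul_comm]
  exact Nat.mul_le_mul_right _ h4

end dihlike

section
variable {F : Type*} [Field F] [Fintype F] (p : ℕ) [hp : Fact p.Prime] [CharP F p]

/-- commutators in the normaliser of a Sylow `p`-subgroup -/
theorem norm_comm (S : Sylow p (PS F)) {a b : PS F} (ha : a ∈ Subgroup.normalizer ((S : Subgroup (PS F)) : Set (PS F)))
    (hb : b ∈ Subgroup.normalizer ((S : Subgroup (PS F)) : Set (PS F))) : a * b * a⁻¹ * b⁻¹ ∈ (S : Subgroup (PS F)) := by
  classical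
  haveI := charP_QE F p
  letI : MulAction (PS F) (PL (QE F p)) := MulAction.compHom (PL (QE F p)) (psi F p)
  have hM : Mob p (QE F p) (PS F) (PL (QE F p)) := mobPS p
  have hX := card_PL (QE F p)
  -- a nonidentity element of S
  have hSne : (S : Subgroup (PS F)) ≠ ⊥ := by
    have h1 := norm_sylow_index p S
    intro h
    rw [h] at h1
    have h2 : Subgroup.normalizer ((⊥ : Subgroup (PS F)) : Set (PS F)) = ⊤ := Subgroup.normalizer_eq_top _
    rw [h2, Subgroup.index_top] at h1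
    have : 1 < Fintype.card F := Fintype.one_lt_card
    omega
  obtain ⟨u, huS, hu1⟩ := (Subgroup.ne_bot_iff_exists_ne_one.1 hSne : ∃ u : (S : Subgroup (PS F)), u ≠ 1) |>.imp (fun u hu => And.intro u.2 hu)
  have hu1' : (u : PS F) ≠ 1 := fun h => hu1 (Subtype.ext h)
  obtain ⟨x, hx⟩ := hM.fixpt (u : PS F)
  obtain ⟨k, hk⟩ := S.2 u
  have hk' : (u : PS F) ^ p ^ k = 1 := congrArg Subtype.val hk
  have huU := ppow hM hx hk' hu1'
  -- S has unique fixed point x
  have hSx : ∀ s ∈ (S : Subgroup (PS F)), s • x = x := by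
    obtain ⟨T, huT, hT⟩ := sylow_fix hM hX huU
    -- use the centre of S
    haveI : Nontrivial (S : Subgroup (PS F)) := ⟨⟨u, 1, hu1⟩⟩
    haveI := S.2.center_nontrivial
    obtain ⟨z, hz⟩ := exists_ne (1 : Subgroup.center (S : Subgroup (PS F)))
    have hz1 : ((z : (S : Subgroup (PS F))) : PS F) ≠ 1 := fun e => hz (Subtype.ext (Subtype.ext e))
    have hzc : ∀ s ∈ (S : Subgroup (PS F)), s * ((z : (S : Subgroup (PS F))) : PS F) = ((z : (S : Subgroup (PS F))) : PS F) * s := by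
      intro s hs
      have := Subgroup.mem_center_iff.1 z.2 ⟨s, hs⟩
      exact congrArg Subtype.val this
    have hzx : ((z : (S : Subgroup (PS F))) : PS F) • x = x := by
      apply huU.2
      rw [← mul_smul, hzc u u.2, mul_smul, huU.1]
    obtain ⟨k, hk⟩ := S.2 (z : (S : Subgroup (PS F)))
    have hzU := ppow hM hzx (k := k) (congrArg Subtype.val hk) hz1
    intro s hs
    apply hzU.2
    rw [← mul_smul, ← hzc s hs, mul_smul, hzx]
  have hN : ∀ g ∈ Subgroup.normalizer ((S : Subgroup (PS F)) : Set (PS F)), g • x = x := by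
    intro g hg
    have h1 : g⁻¹ * u * g ∈ (S : Subgroup (PS F)) := by
      have h2 := (Subgroup.mem_normalizer_iff.1 hg (g⁻¹ * u * g)).2
      apply h2
      have : g * (g⁻¹ * u * g) * g⁻¹ = (u : PS F) := by group
      rw [this]; exact u.2
    have h2 := hSx _ h1
    apply huU.2
    have : (u : PS F) • (g • x) = g • ((g⁻¹ * u * g) • x) := by
      rw [← mul_smul, ← mul_smul]
      congr 1; group
    rw [this, h2]
  -- the character
  obtain ⟨f, hf⟩ := hM.chi x
  have hax := hN a ha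
  have hbx := hN b hb
  have hc1 : (⟨a, hax⟩ * ⟨b, hbx⟩ * ⟨a, hax⟩⁻¹ * ⟨b, hbx⟩⁻¹ : stabilizer (PS F) x) ∈ f.ker := by
    rw [MonoidHom.mem_ker, map_mul, map_mul, map_mul, map_inv, map_inv]
    rw [mul_comm (f ⟨a, hax⟩) (f ⟨b, hbx⟩)]
    group
  -- kernel in S
  let P : Subgroup (PS F) := f.ker.map (stabilizer (PS F) x).subtype
  have hP : IsPGroup p P := by
    rintro ⟨_, ⟨k, hk, rfl⟩⟩
    refine ⟨1, ?_⟩
    apply Subtype.ext
    rw [pow_one]
    exact ((hf k).1 hk).1
  have hSP : (S : Subgroup (PS F)) ≤ P := by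
    intro s hs
    have h1 := hSx s hs
    refine ⟨⟨s, h1⟩, ?_, rfl⟩
    rw [SetLike.mem_coe, MonoidHom.mem_ker]
    by_contra h3
    obtain ⟨y, hy, hy'⟩ := (hf _).2 h3
    by_cases hs1 : s = 1
    · subst hs1
      exact h3 (map_one f)
    · obtain ⟨k, hk⟩ := S.2 ⟨s, hs⟩
      exact hy ((ppow hM h1 (k := k) (congrArg Subtype.val hk) hs1).2 y hy')
  have hPS : P = S := S.3 hP hSP
  rw [← hPS]
  exact ⟨_, hc1, rfl⟩

theorem comm_of_borel {M : Subgroup (PS F)} (S : Sylow p (PS F)) (hM : M ≤ Subgroup.normalizer ((S : Subgroup (PS F)) : Set (PS F)))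
    (hpM : ¬ p ∣ Nat.card M) : ∀ a ∈ M, ∀ b ∈ M, a * b = b * a := by
  intro a ha b hb
  have h1 := norm_comm p S (hM ha) (hM hb)
  have h2 : a * b * a⁻¹ * b⁻¹ ∈ M := mul_mem (mul_mem (mul_mem ha hb) (inv_mem ha)) (inv_mem hb)
  have h3 : a * b * a⁻¹ * b⁻¹ = 1 := by
    obtain ⟨k, hk⟩ := S.2 ⟨_, h1⟩
    have hk' : (a * b * a⁻¹ * b⁻¹) ^ p ^ k = 1 := congrArg Subtype.val hk
    have h4 : orderOf (a * b * a⁻¹ * b⁻¹) ∣ p ^ k := orderOf_dvd_of_pow_eq_one hk'
    have h5 : orderOf (a * b * a⁻¹ * b⁻¹) ∣ Nat.card M := by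
      have h6 := orderOf_dvd_natCard (⟨_, h2⟩ : M)
      rwa [Subgroup.orderOf_mk] at h6
    have h7 : Nat.Coprime (p ^ k) (Nat.card M) := Nat.Coprime.pow_left _ ((Nat.Prime.coprime_iff_not_dvd hp.out).2 hpM)
    exact orderOf_eq_one_iff.1 (Nat.eq_one_of_dvd_coprimes h7 h4 h5)
  have h8 : a * b = a * b * a⁻¹ * b⁻¹ * (b * a) := by group
  rw [h8, h3, one_mul]

theorem simple_not_borel {M : Subgroup (PS F)} (S : Sylow p (PS F)) (hM : M ≤ Subgroup.normalizer ((S : Subgroup (PS F)) : Set (PS F)))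
    [hs : IsSimpleGroup M] {a b : PS F} (ha : a ∈ M) (hb : b ∈ M) (hab : a * b ≠ b * a) {r : ℕ} (hr : r.Prime) (hrp : r ≠ p) (hrM : r ∣ Nat.card M) : False := by
  have hn : ((S : Subgroup (PS F)).subgroupOf M).Normal := by
    refine ⟨fun s hs g => ?_⟩
    rw [Subgroup.mem_subgroupOf] at hs ⊢
    exact (Subgroup.mem_normalizer_iff.1 (hM g.2) s).1 hs
  rcases hn.eq_bot_or_eq_top with h | h
  · have h1 := norm_comm p S (hM ha) (hM hb)
    have h2 : a * b * a⁻¹ * b⁻¹ ∈ M := mul_mem (mul_mem (mul_mem ha hb) (inv_mem ha)) (inv_mem hb)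
    have h3 : (⟨_, h2⟩ : M) ∈ (S : Subgroup (PS F)).subgroupOf M := Subgroup.mem_subgroupOf.2 h1
    rw [h, Subgroup.mem_bot] at h3
    have h4 : a * b * a⁻¹ * b⁻¹ = 1 := congrArg Subtype.val h3
    apply hab
    have h8 : a * b = a * b * a⁻¹ * b⁻¹ * (b * a) := by group
    rw [h8, h4, one_mul]
  · rw [Subgroup.subgroupOf_eq_top] at h
    haveI : Fact r.Prime := ⟨hr⟩
    obtain ⟨n, hn⟩ := exists_prime_orderOf_dvd_card' r hrM
    obtain ⟨k, hk⟩ := S.2 ⟨n, h n.2⟩
    have hk' : (n : PS F) ^ p ^ k = 1 := congrArg Subtype.val hk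
    have h4 : orderOf (n : PS F) ∣ p ^ k := orderOf_dvd_of_pow_eq_one hk'
    rw [Subgroup.orderOf_coe, hn] at h4
    exact hrp ((Nat.prime_dvd_prime_iff_eq hr hp.out).1 (hr.dvd_of_dvd_pow h4))

/-- elements of `M` when `M` is in a cyclic or dihedral subgroup -/
theorem order_norm (S : Sylow p (PS F)) : Nat.gcd 2 (Fintype.card F - 1) * Nat.card (Subgroup.normalizer ((S : Subgroup (PS F)) : Set (PS F))) =
    Fintype.card F * (Fintype.card F - 1) := by
  have h2 := norm_sylow_index p S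
  have h3 := Subgroup.card_mul_index (Subgroup.normalizer ((S : Subgroup (PS F)) : Set (PS F)))
  rw [h2] at h3
  have h4 : Nat.gcd 2 (Fintype.card F - 1) * Nat.card (PS F) = Fintype.card F * (Fintype.card F - 1) * (Fintype.card F + 1) := card_psl
  apply Nat.eq_of_mul_eq_mul_right (show 0 < Fintype.card F + 1 by omega)
  rw [mul_assoc, h3, h4]

end

section arith

theorem pow_sq_sub {p a b : ℕ} (hp : 1 < p) (h : p ^ (2 * a) - 1 ∣ p ^ (2 * b) - 1) : a ∣ b := by
  have hg := Nat.pow_sub_one_gcd_pow_sub_one p (2 * a) (2 * b)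
  rw [Nat.gcd_eq_left h] at hg
  have h7 : 1 ≤ p ^ (2 * a) := Nat.one_le_pow _ _ (by omega)
  have h8 : 1 ≤ p ^ (Nat.gcd (2 * a) (2 * b)) := Nat.one_le_pow _ _ (by omega)
  have h6 : p ^ (2 * a) = p ^ (Nat.gcd (2 * a) (2 * b)) := by omega
  have h9 := Nat.pow_right_injective (show 2 ≤ p by omega) h6
  have : 2 * a ∣ 2 * b := Nat.gcd_eq_left_iff_dvd.1 h9.symm
  exact Nat.dvd_of_mul_dvd_mul_left (by norm_num) this

/-- order considerations for subfields -/
theorem kappa {p a b m r : ℕ} (hp : p.Prime) (ha : 0 < a) (hr : r.Prime) (hbm : b * m = a * r) (hab : a ≤ b)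
    (hd : p ^ (2 * a) - 1 ∣ 2 * (p ^ (2 * b) - 1)) : b = a ∨ b = a * r := by
  have h1 : r ∣ b * m := by rw [hbm]; exact Dvd.intro_left _ rfl
  rcases hr.dvd_mul.1 h1 with h | h
  · obtain ⟨c, rfl⟩ := h
    have h2 : c * m = a := by
      apply Nat.eq_of_mul_eq_mul_right hr.pos
      rw [← hbm]; ring
    by_cases hm1 : m = 1
    · right; rw [hm1, mul_one] at h2; rw [h2, mul_comm]
    -- P = p ^ c
    by_cases hrm : r ∣ m
    · left
      obtain ⟨t, rfl⟩ := hrm
      have ht : 1 ≤ t := by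
        rcases Nat.eq_zero_or_pos t with h0 | h0
        · rw [h0, mul_zero, mul_zero] at h2; omega
        · exact h0
      have h3 : a = (r * c) * t := by rw [← h2]; ring
      have hc0 : 0 < r * c := by
        rcases Nat.eq_zero_or_pos (r * c) with h0 | h0
        · rw [h0, zero_mul] at h3; omega
        · exact h0
      have h4 : r * c * 1 ≤ r * c * t := Nat.mul_le_mul_left _ ht
      omega
    · exfalso
      have hc0 : 0 < c := by
        rcases Nat.eq_zero_or_pos c with h0 | h0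
        · rw [h0, zero_mul] at h2; omega
        · exact h0
      have hm2 : 2 ≤ m := by
        rcases Nat.eq_zero_or_pos m with h0 | h0
        · rw [h0, mul_zero] at h2; omega
        · omega
      have hg := Nat.pow_sub_one_gcd_pow_sub_one p (2 * a) (2 * (r * c))
      have hgcd : Nat.gcd (2 * a) (2 * (r * c)) = 2 * c := by
        rw [← h2, Nat.gcd_mul_left, mul_comm c m, Nat.gcd_mul_right]
        have : Nat.gcd m r = 1 := by
          rw [Nat.gcd_comm]
          exact (Nat.Prime.coprime_iff_not_dvd hr).2 hrm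
        rw [this, one_mul]
      rw [hgcd] at hg
      have h5 : p ^ (2 * a) - 1 ∣ 2 * (p ^ (2 * c) - 1) := by
        rw [← hg]
        rw [← Nat.gcd_mul_left]
        exact Nat.dvd_gcd (Dvd.intro_left _ rfl) hd
      have hp2 := hp.two_le
      have h6 : 1 < p ^ (2 * c) := Nat.one_lt_pow (by omega) hp.one_lt
      have h7 := Nat.le_of_dvd (by omega) h5
      have h8 : p ^ (2 * a) = (p ^ (2 * c)) ^ m := by rw [← pow_mul, ← h2]; congr 1; ring
      have h9 : (p ^ (2 * c)) ^ 2 ≤ (p ^ (2 * c)) ^ m := Nat.pow_le_pow_right (by omega) hm2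
      rw [h8] at h7
      have h10 : 4 ≤ p ^ (2 * c) := by
        calc 4 = 2 ^ 2 := by norm_num
          _ ≤ p ^ 2 := Nat.pow_le_pow_left hp2 2
          _ ≤ p ^ (2 * c) := Nat.pow_le_pow_right hp.pos (by omega)
      have h11 : 4 * p ^ (2 * c) ≤ (p ^ (2 * c)) ^ 2 := by rw [pow_two]; exact Nat.mul_le_mul_right _ h10
      omega
  · left
    obtain ⟨t, rfl⟩ := h
    have h2 : b * t = a := by
      apply Nat.eq_of_mul_eq_mul_right hr.pos
      rw [← hbm]; ring
    have ht : 1 ≤ t := by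
      rcases Nat.eq_zero_or_pos t with h0 | h0
      · rw [h0, mul_zero] at h2; omega
      · exact h0
    have h4 : b * 1 ≤ b * t := Nat.mul_le_mul_left _ ht
    omega

end arith

end CfsgH9.Dk
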