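import Cfsg.Agent.H9.Dk20

set_option autoImplicit false

open MulAction Matrix

namespace CfsgH9.Dk

section small

set_option maxRecDepth 100000 in
theorem ordS4 (σ : Equiv.Perm (Fin 4)) : orderOf σ = 1 ∨ orderOf σ = 2 ∨ orderOf σ = 3 ∨ orderOf σ = 4 := by
  have h : ∀ σ : Equiv.Perm (Fin 4), σ ^ 4 = 1 ∨ σ ^ 3 = 1 := by decide
  rcases h σ with h | h
  · have h1 := orderOf_dvd_of_pow_eq_one h
    have h2 := Nat.le_of_dvd (by norm_num) h1
    interval_cases h3 : orderOf σ <;> simp_all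
  · have h1 := orderOf_dvd_of_pow_eq_one h
    have h2 := Nat.le_of_dvd (by norm_num) h1
    interval_cases h3 : orderOf σ <;> simp_all

set_option maxRecDepth 100000 in
theorem ordA4 (σ : alternatingGroup (Fin 4)) : orderOf σ = 1 ∨ orderOf σ = 2 ∨ orderOf σ = 3 := by
  have h : ∀ σ : Equiv.Perm (Fin 4), Equiv.Perm.sign σ = 1 → σ ^ 2 = 1 ∨ σ ^ 3 = 1 := by decide
  rcases h σ (Equiv.Perm.mem_alternatingGroup.1 σ.2) with h | h
  · have h1 : orderOf σ ∣ 2 := by rw [← Subgroup.orderOf_coe]; exact orderOf_dvd_of_pow_eq_one h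
    have h2 := Nat.le_of_dvd (by norm_num) h1
    interval_cases h3 : orderOf σ <;> simp_all
  · have h1 : orderOf σ ∣ 3 := by rw [← Subgroup.orderOf_coe]; exact orderOf_dvd_of_pow_eq_one h
    have h2 := Nat.le_of_dvd (by norm_num) h1
    interval_cases h3 : orderOf σ <;> simp_all

set_option maxRecDepth 100000 in
theorem ordA5' : ∀ σ : Equiv.Perm (Fin 5), Equiv.Perm.sign σ = 1 → σ ^ 2 = 1 ∨ σ ^ 3 = 1 ∨ σ ^ 5 = 1 := by decide

theorem ordA5 (σ : alternatingGroup (Fin 5)) : orderOf σ = 1 ∨ orderOf σ = 2 ∨ orderOf σ = 3 ∨ orderOf σ = 5 := by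
  have key : ∀ r : ℕ, r.Prime → (σ : Equiv.Perm (Fin 5)) ^ r = 1 → orderOf σ = 1 ∨ orderOf σ = r := by
    intro r hr h
    have h1 : orderOf σ ∣ r := by rw [← Subgroup.orderOf_coe]; exact orderOf_dvd_of_pow_eq_one h
    exact (Nat.dvd_prime hr).1 h1
  rcases ordA5' σ (Equiv.Perm.mem_alternatingGroup.1 σ.2) with h | h | h
  · rcases key 2 Nat.prime_two h with h | h <;> simp [h]
  · rcases key 3 Nat.prime_three h with h | h <;> simp [h]
  · rcases key 5 (by norm_num) h with h | h <;> simp [h]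

theorem ncS4 : ∃ a b : Equiv.Perm (Fin 4), a * b ≠ b * a := ⟨Equiv.swap 0 1, Equiv.swap 1 2, by decide⟩

theorem ncA4 : ∃ a b : alternatingGroup (Fin 4), a * b ≠ b * a :=
  ⟨⟨Equiv.swap 0 1 * Equiv.swap 1 2, Equiv.Perm.mem_alternatingGroup.2 (by decide)⟩,
    ⟨Equiv.swap 0 1 * Equiv.swap 2 3, Equiv.Perm.mem_alternatingGroup.2 (by decide)⟩, by
    intro h
    exact absurd (congrArg Subtype.val h) (by decide)⟩

theorem ncA5 : ∃ a b : alternatingGroup (Fin 5), a * b ≠ b * a :=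
  ⟨⟨Equiv.swap 0 1 * Equiv.swap 1 2, Equiv.Perm.mem_alternatingGroup.2 (by decide)⟩,
    ⟨Equiv.swap 0 1 * Equiv.swap 2 3, Equiv.Perm.mem_alternatingGroup.2 (by decide)⟩, by
    intro h
    exact absurd (congrArg Subtype.val h) (by decide)⟩

end small

section overg
variable {F : Type*} [Field F] [Fintype F] (p : ℕ) [hp : Fact p.Prime] [CharP F p]

theorem nc_of {A : Type*} [Group A] {M : Subgroup (PS F)} (e : M ≃* A) (h : ∃ a b : A, a * b ≠ b * a) : ∃ a ∈ M, ∃ b ∈ M, a * b ≠ b * a := by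
  obtain ⟨a, b, hab⟩ := h
  refine ⟨e.symm a, (e.symm a).2, e.symm b, (e.symm b).2, fun h => hab ?_⟩
  apply e.symm.injective
  rw [map_mul, map_mul]
  exact Subtype.ext h

theorem ord_of {A : Type*} [Group A] {M : Subgroup (PS F)} (e : M ≃* A) {m : PS F} (hm : m ∈ M) : orderOf m = orderOf (e ⟨m, hm⟩) := by
  rw [MulEquiv.orderOf_eq e, Subgroup.orderOf_mk]

/-- overgroups -/
theorem overg {M H : Subgroup (PS F)} (hMH : M ≤ H) (hnc : ∃ a ∈ M, ∃ b ∈ M, a * b ≠ b * a)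
    (hord : ∀ m ∈ M, ¬ p ∣ orderOf m → 2 * orderOf m < Nat.card M)
    (hB : ∀ S : Sylow p (PS F), ¬ M ≤ Subgroup.normalizer ((S : Subgroup (PS F)) : Set (PS F))) :
    (¬ p ∣ Nat.card H ∧ Nonempty (H ≃* alternatingGroup (Fin 4))) ∨ (¬ p ∣ Nat.card H ∧ Nonempty (H ≃* Equiv.Perm (Fin 4))) ∨
    ((¬ p ∣ Nat.card H ∨ p = 3) ∧ Nonempty (H ≃* alternatingGroup (Fin 5))) ∨
    (∃ (k : Type) (_ : Field k) (_ : Fintype k) (m : ℕ), Fintype.card k ^ m = Fintype.card F ∧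
      (Nonempty (H ≃* PG k) ∨ (Odd (Fintype.card k) ∧ Nonempty (H ≃* ProjectiveSpecialLinearGroup (Fin 2) k)))) := by
  rcases dickson_psl p H with ⟨h1, h2⟩ | ⟨S, h1, -⟩ | ⟨C, h1, h2, h3, ⟨h4⟩⟩ | h | h | h | h
  · exfalso
    obtain ⟨a, ha, b, hb, hab⟩ := hnc
    apply hab
    letI := h2.commGroup
    exact congrArg Subtype.val (mul_comm (⟨a, hMH ha⟩ : H) ⟨b, hMH hb⟩)
  · exact absurd (hMH.trans h1) (hB S)
  · exfalso
    have h5 : Nat.card H = 2 * Nat.card C := by rw [Nat.card_congr h4.toEquiv, DihedralGroup.nat_card]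
    obtain ⟨m, hm1, hm2, hm3⟩ := dih_elt h1 h2 (le_of_eq h5) hMH
    have h6 : ¬ p ∣ orderOf m := by
      intro hd
      apply h3
      have h7 := orderOf_dvd_natCard (⟨m, hm2⟩ : C)
      rw [Subgroup.orderOf_mk] at h7
      exact hd.trans h7
    exact (not_le.2 (hord m hm1 h6)) hm3
  · exact Or.inl h
  · exact Or.inr (Or.inl h)
  · exact Or.inr (Or.inr (Or.inl h))
  · exact Or.inr (Or.inr (Or.inr h))

theorem coatom_of {M : Subgroup (PS F)} (hM : M ≠ ⊤) (h : ∀ H : Subgroup (PS F), M ≤ H → H ≠ ⊤ → Nat.card H ≤ Nat.card M) : IsCoatom M := by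
  refine ⟨hM, fun H hlt => ?_⟩
  by_contra hne
  have h1 := h H hlt.le hne
  exact hlt.ne (Subgroup.eq_of_le_of_card_ge hlt.le h1)

end overg

end CfsgH9.Dk
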