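import Cfsg.Agent.H9.Dk2
import Cfsg.Agent.H9.Dih
import Cfsg.Agent.H9.Recog

set_option autoImplicit false

open MulAction

namespace CfsgH9.Dk

section count
variable {p : ℕ} {K : Type*} [Field K] {H X : Type*} [Group H] [Finite H] [MulAction H X] [Finite X]

omit [Finite H] [Finite X] in
theorem sz_mk (x : X) : sz (Quotient.mk'' x : orbitRel.Quotient H X) = Nat.card (orbit H x) := rfl

omit [Finite X] in
theorem orb_stab (x : X) : Nat.card (orbit H x) * Nat.card (stabilizer H x) = Nat.card H := by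
  cases nonempty_fintype H
  haveI : Finite (orbit H x) := Finite.finite_mulAction_orbit x
  haveI := Fintype.ofFinite (orbit H x)
  haveI := Fintype.ofFinite (stabilizer H x)
  rw [Nat.card_eq_fintype_card, Nat.card_eq_fintype_card, Nat.card_eq_fintype_card, card_orbit_mul_card_stabilizer_eq_card_group]

theorem numeric {a b c n c₁ c₂ c₃ : ℕ} (hab : b ≤ a) (hbc : c ≤ b) (h1 : a * c₁ = n) (h2 : b * c₂ = n) (h3 : c * c₃ = n)
    (g1 : 2 ≤ c₁) (g2 : 2 ≤ c₂) (g3 : 2 ≤ c₃) (hsum : a + b + c = n + 2) (hc : 1 ≤ c) :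
    (c = 2) ∨ (n = 12 ∧ c₁ = 2 ∧ c₂ = 3 ∧ c₃ = 3) ∨ (n = 24 ∧ c₁ = 2 ∧ c₂ = 3 ∧ c₃ = 4) ∨ (n = 60 ∧ c₁ = 2 ∧ c₂ = 3 ∧ c₃ = 5) := by
  have e1 : c₁ = 2 := by
    by_contra h
    have : 3 ≤ c₁ := by omega
    have : a * 3 ≤ n := by rw [← h1]; exact Nat.mul_le_mul_left _ this
    omega
  subst e1
  have e2 : c₂ = 2 ∨ c₂ = 3 := by
    by_contra h
    have : 4 ≤ c₂ := by omega
    have : b * 4 ≤ n := by rw [← h2]; exact Nat.mul_le_mul_left _ this
    omega
  rcases e2 with rfl | rfl
  · left; omega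
  · right
    have h6 : 6 * c = c * c₃ + 12 := by omega
    have h7 : c₃ < 6 := by
      by_contra h
      have : 6 ≤ c₃ := by omega
      have : c * 6 ≤ c * c₃ := Nat.mul_le_mul_left _ this
      omega
    interval_cases c₃
    · omega
    · left; omega
    · right; left; omega
    · right; right; omega

/-- the orbit structure when every nonidentity element has two fixed points -/
theorem tame_cases (hM : Mob p K H X) (hX : 2 ≤ Nat.card X) (huni : uni H X = ∅) (hn : 2 ≤ Nat.card H) :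
    (∃ x : X, ∀ h : H, h • x = x) ∨ (∃ x : X, Nat.card (orbit H x) = 2) ∨ (Nat.card H = 12 ∧ ∃ x : X, Nat.card (orbit H x) = 4) ∨
    (Nat.card H = 24 ∧ ∀ x : X, Nat.card (stabilizer H x) = 1 ∨ Nat.card (stabilizer H x) = 2 ∨ Nat.card (stabilizer H x) = 3 ∨ Nat.card (stabilizer H x) = 4) ∨
    (Nat.card H = 60 ∧ (∀ x : X, Nat.card (stabilizer H x) = 1 ∨ Nat.card (stabilizer H x) = 2 ∨ Nat.card (stabilizer H x) = 3 ∨ Nat.card (stabilizer H x) = 5) ∧
      (∀ x y : X, Nat.card (stabilizer H x) = 2 → Nat.card (stabilizer H y) = 2 → x ∈ orbit H y)) := by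
  classical
  cases nonempty_fintype X
  letI : Fintype (orbitRel.Quotient H X) := Fintype.ofFinite _
  have hf := formula hM hX
  rw [huni] at hf
  simp only [Nat.card_of_isEmpty, add_zero] at hf
  set n := Nat.card H with hnd
  set T := Finset.univ.filter (fun ω : orbitRel.Quotient H X => sz ω < n) with hT
  have hmem : ∀ ω : orbitRel.Quotient H X, ω ∈ T ↔ sz ω < n := fun ω => by rw [hT]; simp
  have hex : ∀ ω : orbitRel.Quotient H X, ∃ x : X, sz ω = Nat.card (orbit H x) ∧ ω = Quotient.mk'' x := by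
    intro ω
    induction ω using Quotient.inductionOn' with | h x => exact ⟨x, rfl, rfl⟩
  have hpos : ∀ x : X, 1 ≤ Nat.card (orbit H x) := by
    intro x
    haveI : Finite (orbit H x) := Finite.finite_mulAction_orbit x
    haveI : Nonempty (orbit H x) := ⟨⟨x, mem_orbit_self x⟩⟩
    exact Nat.card_pos
  have hsum : ∑ ω ∈ T, (n - sz ω) + 2 = 2 * n := by
    rw [← hf]
    congr 1
    rw [hT, Finset.sum_filter]
    refine Finset.sum_congr rfl (fun ω _ => ?_)
    split_ifs with h
    · rfl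
    · omega
  have hhalf : ∀ ω ∈ T, n ≤ 2 * (n - sz ω) ∧ n - sz ω ≤ n - 1 := by
    intro ω hω
    obtain ⟨x, hx, -⟩ := hex ω
    rw [hmem] at hω
    have h1 := orb_stab (H := H) x
    rw [← hx] at h1
    have h2 : 2 ≤ Nat.card (stabilizer H x) := by
      by_contra h
      have h3 : 0 < Nat.card (stabilizer H x) := Nat.card_pos
      have h4 : Nat.card (stabilizer H x) = 1 := by omega
      rw [h4, mul_one] at h1
      omega
    have h3 : sz ω * 2 ≤ n := by rw [hnd, ← h1]; exact Nat.mul_le_mul_left _ h2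
    have := hpos x
    omega
  have hcard1 : T.card * n ≤ 2 * (∑ ω ∈ T, (n - sz ω)) := by
    rw [Finset.mul_sum, ← smul_eq_mul, ← Finset.sum_const]
    exact Finset.sum_le_sum (fun ω hω => (hhalf ω hω).1)
  have hcard2 : ∑ ω ∈ T, (n - sz ω) ≤ T.card * (n - 1) := by
    rw [← smul_eq_mul, ← Finset.sum_const]
    exact Finset.sum_le_sum (fun ω hω => (hhalf ω hω).2)
  have hT3 : T.card ≤ 3 := by
    by_contra h
    have : 4 * n ≤ T.card * n := Nat.mul_le_mul_right _ (by omega)
    omega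
  have hT2 : 2 ≤ T.card := by
    by_contra h
    have : T.card * (n - 1) ≤ 1 * (n - 1) := Nat.mul_le_mul_right _ (by omega)
    omega
  -- data for an orbit
  have hdat : ∀ ω ∈ T, ∃ x : X, ω = Quotient.mk'' x ∧ sz ω = Nat.card (orbit H x) ∧ sz ω * Nat.card (stabilizer H x) = n ∧
      2 ≤ Nat.card (stabilizer H x) ∧ 1 ≤ sz ω := by
    intro ω hω
    obtain ⟨x, hx, hωx⟩ := hex ω
    rw [hmem] at hω
    have h1 := orb_stab (H := H) x
    rw [← hx] at h1
    refine ⟨x, hωx, hx, h1, ?_, by rw [hx]; exact hpos x⟩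
    by_contra h
    have h3 : 0 < Nat.card (stabilizer H x) := Nat.card_pos
    have h4 : Nat.card (stabilizer H x) = 1 := by omega
    rw [h4, mul_one] at h1
    omega
  -- points with nontrivial stabiliser
  have hpt : ∀ x : X, Nat.card (stabilizer H x) ≠ 1 → (Quotient.mk'' x : orbitRel.Quotient H X) ∈ T := by
    intro x hx
    rw [hmem, sz_mk]
    have h1 := orb_stab (H := H) x
    have h3 : 0 < Nat.card (stabilizer H x) := Nat.card_pos
    have h4 : 2 ≤ Nat.card (stabilizer H x) := by omega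
    have h5 : Nat.card (orbit H x) * 2 ≤ n := by rw [hnd, ← h1]; exact Nat.mul_le_mul_left _ h4
    have := hpos x
    omega
  have hstabeq : ∀ x y : X, (Quotient.mk'' x : orbitRel.Quotient H X) = Quotient.mk'' y → Nat.card (stabilizer H x) = Nat.card (stabilizer H y) := by
    intro x y hxy
    have h1 := orb_stab (H := H) x
    have h2 := orb_stab (H := H) y
    rw [← sz_mk] at h1 h2
    rw [hxy] at h1
    rw [← h2] at h1
    have := hpos y
    rw [← sz_mk] at this
    exact Nat.eq_of_mul_eq_mul_left this h1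
  have hcases : T.card = 2 ∨ T.card = 3 := by omega
  rcases hcases with hT2 | hT3
  · left
    obtain ⟨ω₁, ω₂, hne, hTe⟩ := Finset.card_eq_two.1 hT2
    rw [hTe, Finset.sum_pair hne] at hsum
    obtain ⟨x, hx, hx1, hx2, hx3, hx4⟩ := hdat ω₁ (by rw [hTe]; simp)
    obtain ⟨y, hy, hy1, hy2, hy3, hy4⟩ := hdat ω₂ (by rw [hTe]; simp)
    have h1 := (hmem ω₁).1 (by rw [hTe]; simp)
    have h2 := (hmem ω₂).1 (by rw [hTe]; simp)
    have h3 : sz ω₁ = 1 := by omega
    refine ⟨x, fun h => ?_⟩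
    rw [h3] at hx1
    have h4 := (Nat.card_eq_one_iff_unique.1 hx1.symm).1
    have h5 : (⟨h • x, mem_orbit x h⟩ : orbit H x) = ⟨x, mem_orbit_self x⟩ := Subsingleton.elim _ _
    exact congrArg Subtype.val h5
  · right
    obtain ⟨ω₁, ω₂, ω₃, h12, h13, h23, hTe⟩ := Finset.card_eq_three.1 hT3
    rw [hTe, Finset.sum_insert (by simp [h12, h13]), Finset.sum_pair h23] at hsum
    -- sorted statement
    have main : ∀ ω₁ ω₂ ω₃ : orbitRel.Quotient H X, T = {ω₁, ω₂, ω₃} → sz ω₁ + sz ω₂ + sz ω₃ = n + 2 → sz ω₂ ≤ sz ω₁ → sz ω₃ ≤ sz ω₂ →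
      (∃ x : X, Nat.card (orbit H x) = 2) ∨ (n = 12 ∧ ∃ x : X, Nat.card (orbit H x) = 4) ∨
      (n = 24 ∧ ∀ x : X, Nat.card (stabilizer H x) = 1 ∨ Nat.card (stabilizer H x) = 2 ∨ Nat.card (stabilizer H x) = 3 ∨ Nat.card (stabilizer H x) = 4) ∨
      (n = 60 ∧ (∀ x : X, Nat.card (stabilizer H x) = 1 ∨ Nat.card (stabilizer H x) = 2 ∨ Nat.card (stabilizer H x) = 3 ∨ Nat.card (stabilizer H x) = 5) ∧
        (∀ x y : X, Nat.card (stabilizer H x) = 2 → Nat.card (stabilizer H y) = 2 → x ∈ orbit H y)) := by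
      intro ω₁ ω₂ ω₃ hTe hs h21 h32
      obtain ⟨x, hx, hx1, hx2, hx3, hx4⟩ := hdat ω₁ (by rw [hTe]; simp)
      obtain ⟨y, hy, hy1, hy2, hy3, hy4⟩ := hdat ω₂ (by rw [hTe]; simp)
      obtain ⟨z, hz, hz1, hz2, hz3, hz4⟩ := hdat ω₃ (by rw [hTe]; simp)
      have hall : ∀ w : X, Nat.card (stabilizer H w) = 1 ∨ Nat.card (stabilizer H w) = Nat.card (stabilizer H x) ∨
          Nat.card (stabilizer H w) = Nat.card (stabilizer H y) ∨ Nat.card (stabilizer H w) = Nat.card (stabilizer H z) := by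
        intro w
        by_cases hw : Nat.card (stabilizer H w) = 1
        · exact Or.inl hw
        right
        have h1 := hpt w hw
        rw [hTe] at h1
        simp only [Finset.mem_insert, Finset.mem_singleton] at h1
        rcases h1 with h1 | h1 | h1
        · left; exact hstabeq _ _ (h1.trans hx)
        · right; left; exact hstabeq _ _ (h1.trans hy)
        · right; right; exact hstabeq _ _ (h1.trans hz)
      rcases numeric h21 h32 hx2 hy2 hz2 hx3 hy3 hz3 hs hz4 with h | ⟨h, g1, g2, g3⟩ | ⟨h, g1, g2, g3⟩ | ⟨h, g1, g2, g3⟩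
      · left
        exact ⟨z, by rw [← hz1, h]⟩
      · right; left
        refine ⟨h, z, ?_⟩
        rw [g3, h] at hz2
        rw [← hz1]; omega
      · right; right; left
        refine ⟨h, fun w => ?_⟩
        rcases hall w with h1 | h1 | h1 | h1 <;> omega
      · right; right; right
        refine ⟨h, fun w => ?_, ?_⟩
        · rcases hall w with h1 | h1 | h1 | h1 <;> omega
        · have h2 : ∀ w : X, Nat.card (stabilizer H w) = 2 → (Quotient.mk'' w : orbitRel.Quotient H X) = ω₁ := by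
            intro w hw
            have h1 := hpt w (by omega)
            rw [hTe] at h1
            simp only [Finset.mem_insert, Finset.mem_singleton] at h1
            rcases h1 with h1 | h1 | h1
            · exact h1
            · exfalso
              have := hstabeq _ _ (h1.trans hy)
              omega
            · exfalso
              have := hstabeq _ _ (h1.trans hz)
              omega
          intro w w' hw hw'
          exact Quotient.eq''.1 ((h2 w hw).trans (h2 w' hw').symm)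
    have g1 := (hmem ω₁).1 (by rw [hTe]; simp)
    have g2 := (hmem ω₂).1 (by rw [hTe]; simp)
    have g3 := (hmem ω₃).1 (by rw [hTe]; simp)
    have hs : sz ω₁ + sz ω₂ + sz ω₃ = n + 2 := by omega
    have perm : ∀ a b c : orbitRel.Quotient H X, ({a, b, c} : Finset (orbitRel.Quotient H X)) = T →
        sz a + sz b + sz c = n + 2 → (sz b ≤ sz a ∧ sz c ≤ sz b) → _ := fun a b c h1 h2 h3 => main a b c h1.symm h2 h3.1 h3.2
    rcases le_total (sz ω₂) (sz ω₁) with a | a <;> rcases le_total (sz ω₃) (sz ω₂) with b | b <;> rcases le_total (sz ω₃) (sz ω₁) with c | c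
    · exact perm ω₁ ω₂ ω₃ hTe.symm hs ⟨a, b⟩
    · exact perm ω₁ ω₂ ω₃ hTe.symm hs ⟨a, b⟩
    · exact perm ω₁ ω₃ ω₂ (by rw [hTe]; ext w; simp; tauto) (by omega) ⟨c, b⟩
    · exact perm ω₃ ω₁ ω₂ (by rw [hTe]; ext w; simp; tauto) (by omega) ⟨c, a⟩
    · exact perm ω₂ ω₁ ω₃ (by rw [hTe]; ext w; simp; tauto) (by omega) ⟨a, c⟩
    · exact perm ω₂ ω₃ ω₁ (by rw [hTe]; ext w; simp; tauto) (by omega) ⟨b, c⟩
    · exact perm ω₃ ω₂ ω₁ (by rw [hTe]; ext w; simp; tauto) (by omega) ⟨b, a⟩
    · exact perm ω₃ ω₂ ω₁ (by rw [hTe]; ext w; simp; tauto) (by omega) ⟨b, a⟩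

end count

end CfsgH9.Dk
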