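import Cfsg.Agent.H9.Dk3

set_option autoImplicit false

open MulAction

namespace CfsgH9.Dk

/-- recognising `A₅` from its involutions -/
theorem A5_rec {H : Type*} [Group H] [Finite H] (h60 : Nat.card H = 60)
    (hconj : ∀ s t : H, s * s = 1 → t * t = 1 → s ≠ 1 → t ≠ 1 → ∃ g, g * s * g⁻¹ = t)
    (hcen : ∀ t : H, t * t = 1 → t ≠ 1 → Nat.card (Subgroup.centralizer ({t} : Set H)) ≤ 4)
    (h4 : ∀ x : H, x ^ 4 = 1 → x * x = 1) : Nonempty (H ≃* alternatingGroup (Fin 5)) := by
  classical
  haveI : Fact (Nat.Prime 2) := ⟨Nat.prime_two⟩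
  haveI : Fact (Nat.Prime 3) := ⟨Nat.prime_three⟩
  obtain ⟨S⟩ : Nonempty (Sylow 2 H) := inferInstance
  have hS : Nat.card S = 4 := by
    have := Sylow.card_eq_multiplicity S
    rw [h60] at this
    rw [this]
    have h60' : (60 : ℕ) = 2 ^ 2 * 15 := by norm_num
    rw [h60', Nat.factorization_mul (by norm_num) (by norm_num)]
    simp only [Finsupp.coe_add, Pi.add_apply, Nat.Prime.factorization_pow Nat.prime_two, Finsupp.single_eq_same,
      Nat.factorization_eq_zero_of_not_dvd (show ¬ 2 ∣ 15 by norm_num)]
    norm_num
  have hSsq : ∀ x ∈ (S : Subgroup H), x * x = 1 := by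
    intro x hx
    apply h4
    have : (⟨x, hx⟩ : (S : Subgroup H)) ^ 4 = 1 := by
      rw [← hS]; exact pow_card_eq_one'
    exact congrArg Subtype.val this
  have hScomm : ∀ x ∈ (S : Subgroup H), ∀ y ∈ (S : Subgroup H), x * y = y * x := by
    intro x hx y hy
    have h1 := hSsq _ (mul_mem hx hy)
    have h2 := hSsq x hx
    have h3 := hSsq y hy
    have e1 : x⁻¹ = x := inv_eq_of_mul_eq_one_left h2
    have e2 : y⁻¹ = y := inv_eq_of_mul_eq_one_left h3
    have e3 : (x * y)⁻¹ = x * y := inv_eq_of_mul_eq_one_left h1
    rw [mul_inv_rev, e1, e2] at e3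
    exact e3.symm
  have hcS : ∀ t ∈ (S : Subgroup H), t ≠ 1 → Subgroup.centralizer ({t} : Set H) = S := by
    intro t ht ht1
    symm
    apply Subgroup.eq_of_le_of_card_ge
    · intro x hx
      rw [Subgroup.mem_centralizer_singleton_iff]
      exact hScomm _ hx _ ht
    · rw [show Nat.card ((S : Subgroup H)) = 4 from hS]
      exact hcen t (hSsq t ht) ht1
  have hcS' : ∀ t ∈ (S : Subgroup H), t ≠ 1 → ∀ x : H, x ∈ (S : Subgroup H) ↔ x * t = t * x := by
    intro t ht ht1 x
    have h := hcS t ht ht1
    rw [← Subgroup.mem_centralizer_singleton_iff, h]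
  obtain ⟨t, htS, ht1'⟩ : ∃ t : H, t ∈ (S : Subgroup H) ∧ t ≠ 1 := by
    have : 1 < Nat.card (S : Subgroup H) := by rw [show Nat.card ((S : Subgroup H)) = 4 from hS]; norm_num
    haveI := Finite.one_lt_card_iff_nontrivial.1 this
    obtain ⟨t, ht⟩ := exists_ne (1 : (S : Subgroup H))
    exact ⟨t, t.2, fun h => ht (Subtype.ext h)⟩
  set T : Subgroup H := Subgroup.normalizer ((S : Subgroup H) : Set H) with hT
  -- the orbit of `t` under `T`
  letI : MulAction T H := MulAction.compHom H (MulAut.conj.comp T.subtype)
  have hact : ∀ (g : T) (x : H), g • x = (g : H) * x * (g : H)⁻¹ := fun g x => rfl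
  have horb : orbit T (t : H) = {x : H | x ∈ (S : Subgroup H) ∧ x ≠ 1} := by
    ext x
    constructor
    · rintro ⟨g, rfl⟩
      simp only [hact]
      refine ⟨(Subgroup.mem_normalizer_iff.1 g.2 _).1 htS, fun h => ht1' ?_⟩
      have : (t : H) = (g : H)⁻¹ * ((g : H) * t * (g : H)⁻¹) * (g : H) := by group
      rw [this, h]; group
    · rintro ⟨hx, hx1⟩
      obtain ⟨g, hg⟩ := hconj t x (hSsq _ htS) (hSsq _ hx) ht1' hx1
      have hgT : g ∈ T := by
        rw [hT, Subgroup.mem_normalizer_iff]
        intro s
        rw [hcS' t htS ht1', hcS' x hx hx1, ← hg]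
        constructor
        · intro h
          calc g * s * g⁻¹ * (g * t * g⁻¹) = g * (s * t) * g⁻¹ := by group
            _ = g * (t * s) * g⁻¹ := by rw [h]
            _ = g * t * g⁻¹ * (g * s * g⁻¹) := by group
        · intro h
          have h' : g * (s * t) * g⁻¹ = g * (t * s) * g⁻¹ := by
            calc g * (s * t) * g⁻¹ = g * s * g⁻¹ * (g * t * g⁻¹) := by group
              _ = g * t * g⁻¹ * (g * s * g⁻¹) := h
              _ = _ := by group
          exact mul_left_cancel (mul_right_cancel h')
      exact ⟨⟨g, hgT⟩, hg⟩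
  have hocard : Nat.card (orbit T (t : H)) = 3 := by
    rw [horb]
    have e : {x : H | x ∈ (S : Subgroup H) ∧ x ≠ 1} ≃ {x : (S : Subgroup H) // x ≠ 1} :=
      { toFun := fun x => ⟨⟨x.1, x.2.1⟩, fun h => x.2.2 (congrArg Subtype.val h)⟩
        invFun := fun x => ⟨x.1.1, x.1.2, fun h => x.2 (Subtype.ext h)⟩
        left_inv := fun x => rfl
        right_inv := fun x => rfl }
    rw [Nat.card_congr e]
    haveI := Fintype.ofFinite (S : Subgroup H)
    rw [Nat.card_eq_fintype_card, Fintype.card_subtype_compl, ← Nat.card_eq_fintype_card, show Nat.card ((S : Subgroup H)) = 4 from hS]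
    simp
  have hstcard : Nat.card (stabilizer T (t : H)) = 4 := by
    rw [← hS]
    refine Nat.card_congr
      { toFun := fun x => ⟨x.1.1, ?_⟩
        invFun := fun x => ⟨⟨x.1, ?_⟩, ?_⟩
        left_inv := fun x => rfl
        right_inv := fun x => rfl }
    · have h1 := x.2
      rw [mem_stabilizer_iff, hact] at h1
      change (x.1.1 : H) ∈ (S : Subgroup H)
      rw [hcS' t htS ht1']
      exact mul_inv_eq_iff_eq_mul.1 h1
    · exact Subgroup.le_normalizer x.2
    · rw [mem_stabilizer_iff, hact]
      exact mul_inv_eq_iff_eq_mul.2 (hScomm _ x.2 _ htS)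
  have hTcard : Nat.card T = 12 := by
    have := orb_stab (H := T) (t : H)
    rw [hocard, hstcard] at this
    exact this.symm
  have hTi : T.index = 5 := by
    have := Subgroup.card_mul_index T
    rw [h60, hTcard] at this
    omega
  have hcore : T.normalCore = ⊥ := by
    set N := T.normalCore with hN
    have hNle : Nat.card N ∣ 12 := by rw [← hTcard]; exact Subgroup.card_dvd_of_le (Subgroup.normalCore_le T)
    have hNn : N.Normal := Subgroup.normalCore_normal T
    -- no involutions
    have hodd : ¬ 2 ∣ Nat.card N := by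
      intro h2
      obtain ⟨s, hs⟩ := exists_prime_orderOf_dvd_card' 2 h2
      have hs1 : (s : H) ≠ 1 := by
        intro h
        have : s = 1 := Subtype.ext h
        rw [this, orderOf_one] at hs
        omega
      have hss : (s : H) * s = 1 := by
        have := pow_orderOf_eq_one s
        rw [hs, pow_two] at this
        exact congrArg Subtype.val this
      -- all involutions in N
      have hall : ∀ x : H, x * x = 1 → x ∈ N := by
        intro x hx
        by_cases hx1 : x = 1
        · rw [hx1]; exact one_mem _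
        obtain ⟨g, hg⟩ := hconj s x hss hx hs1 hx1
        rw [← hg]
        exact hNn.conj_mem _ s.2 g
      -- number of involutions is 15
      have hact' : ∀ (g : ConjAct H) (x : H), g • x = ConjAct.ofConjAct g * x * (ConjAct.ofConjAct g)⁻¹ := fun g x => ConjAct.smul_def g x
      haveI : Finite (ConjAct H) := ‹Finite H›
      have h1 := orb_stab (H := ConjAct H) (t : H)
      have h2 : Nat.card (stabilizer (ConjAct H) (t : H)) = 4 := by
        rw [← hS]
        refine Nat.card_congr (Equiv.subtypeEquiv ConjAct.ofConjAct.toEquiv (fun x => ?_))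
        rw [mem_stabilizer_iff, hact']
        change _ ↔ ConjAct.ofConjAct x ∈ (S : Subgroup H)
        rw [hcS' t htS ht1']
        exact mul_inv_eq_iff_eq_mul
      rw [h2, show Nat.card (ConjAct H) = Nat.card H from rfl, h60] at h1
      have h3 : Nat.card (orbit (ConjAct H) (t : H)) ≤ Nat.card N := by
        refine Nat.card_le_card_of_injective (fun x : orbit (ConjAct H) (t : H) => (⟨x.1, ?_⟩ : N)) ?_
        · obtain ⟨g, hg⟩ := x.2
          rw [← hg]
          exact hNn.conj_mem _ (hall _ (hSsq _ htS)) (ConjAct.ofConjAct g)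
        · intro x y hxy
          exact Subtype.ext (congrArg (fun z : N => (z : H)) hxy)
      have := Nat.le_of_dvd (by norm_num) hNle
      omega
    have h13 : Nat.card N = 1 ∨ Nat.card N = 3 := by
      have h1 := Nat.le_of_dvd (by norm_num) hNle
      interval_cases h : Nat.card N <;> first | (left; rfl) | (right; rfl) | (exfalso; revert hNle hodd; norm_num)
    rcases h13 with h1 | h3
    · exact Subgroup.card_eq_one.1 h1
    · exfalso
      -- conjugation on N
      have hcyc : IsCyclic N := isCyclic_of_prime_card h3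
      have hcommN : ∀ x ∈ N, ∀ y ∈ N, x * y = y * x := by
        intro x hx y hy
        letI := hcyc.commGroup
        exact congrArg Subtype.val (mul_comm (⟨x, hx⟩ : N) ⟨y, hy⟩)
      obtain ⟨n, hn⟩ := exists_prime_orderOf_dvd_card' (G := N) 3 (by rw [h3])
      -- the product of two commuting involutions inverts/centralises
      have hconjn : ∀ g : H, g * n * g⁻¹ = n ∨ g * n * g⁻¹ = (n : H)⁻¹ := by
        intro g
        have h5 : g * n * g⁻¹ ∈ N := hNn.conj_mem _ n.2 g
        have h6 : (⟨g * n * g⁻¹, h5⟩ : N) ∈ Subgroup.zpowers n := by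
          have : Subgroup.zpowers n = ⊤ := by
            apply Subgroup.eq_top_of_card_eq
            rw [Nat.card_zpowers, hn, h3]
          rw [this]; trivial
        rw [← mem_powers_iff_mem_zpowers, mem_powers_iff_mem_range_orderOf, hn] at h6
        simp only [Finset.mem_image, Finset.mem_range] at h6
        obtain ⟨k, hk, hk'⟩ := h6
        have hk'' : (n : H) ^ k = g * n * g⁻¹ := congrArg Subtype.val hk'
        interval_cases k
        · exfalso
          rw [pow_zero] at hk''
          have : (n : H) = g⁻¹ * (g * n * g⁻¹) * g := by group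
          rw [← hk''] at this
          have h7 : (n : H) = 1 := by rw [this]; group
          have h8 : n = 1 := Subtype.ext h7
          rw [h8, orderOf_one] at hn
          omega
        · left; rw [← hk'', pow_one]
        · right
          rw [← hk'']
          have h9 : n ^ 3 = 1 := by rw [← hn]; exact pow_orderOf_eq_one n
          have h10 : (n : H) ^ 3 = 1 := congrArg Subtype.val h9
          rw [pow_succ] at h10
          exact eq_inv_of_mul_eq_one_left h10
      -- two different involutions of S
      obtain ⟨s, hsS, hs1, hst⟩ : ∃ s : H, s ∈ (S : Subgroup H) ∧ s ≠ 1 ∧ s ≠ t := by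
        by_contra hcon
        push Not at hcon
        haveI := Fintype.ofFinite (S : Subgroup H)
        have h5 : (Finset.univ : Finset (S : Subgroup H)) ⊆ {1, ⟨t, htS⟩} := by
          intro s _
          by_cases hs1 : s = 1
          · simp [hs1]
          · have := hcon s s.2 (fun h => hs1 (Subtype.ext h))
            simp [← this]
        have h6 := Finset.card_le_card h5
        rw [Finset.card_univ, ← Nat.card_eq_fintype_card, show Nat.card ((S : Subgroup H)) = 4 from hS] at h6
        have := Finset.card_le_two (a := (1 : (S : Subgroup H))) (b := ⟨t, htS⟩)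
        omega
      -- some involution of S centralises n
      have hinvo : ∃ r ∈ (S : Subgroup H), r ≠ 1 ∧ r * n = n * r := by
        rcases hconjn t with h5 | h5
        · exact ⟨t, htS, ht1', mul_inv_eq_iff_eq_mul.1 h5⟩
        · rcases hconjn s with h6 | h6
          · exact ⟨s, hsS, hs1, mul_inv_eq_iff_eq_mul.1 h6⟩
          · refine ⟨s * t, mul_mem hsS htS, fun h => ?_, ?_⟩
            · have h7 := hSsq _ htS
              apply hst
              exact mul_right_cancel (h.trans h7.symm)
            · have : (s : H) * t * n * ((s : H) * t)⁻¹ = n := by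
                calc (s : H) * t * n * ((s : H) * t)⁻¹ = s * (t * n * (t : H)⁻¹) * (s : H)⁻¹ := by group
                  _ = s * (n : H)⁻¹ * (s : H)⁻¹ := by rw [h5]
                  _ = (s * n * (s : H)⁻¹)⁻¹ := by group
                  _ = n := by rw [h6, inv_inv]
              exact mul_inv_eq_iff_eq_mul.1 this
      obtain ⟨r, hr, hr1, hrn⟩ := hinvo
      have h5 : (n : H) ∈ (S : Subgroup H) := by
        rw [hcS' r hr hr1]
        exact hrn.symm
      have h6 := hSsq _ h5
      have h7 : n * n = 1 := Subtype.ext h6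
      have h8 : orderOf n ∣ 2 := orderOf_dvd_of_pow_eq_one (by rw [pow_two, h7])
      rw [hn] at h8
      norm_num at h8
  exact Recog.alt_of_core T hTi hcore (by rw [h60]; rfl)

end CfsgH9.Dk
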