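import Cfsg.Agent.H9.Dk4

set_option autoImplicit false

open MulAction

namespace CfsgH9.Dk

section
variable {p : ℕ} {K : Type*} [Field K] {H X : Type*} [Group H] [Finite H] [MulAction H X] [Finite X]

omit [Finite X] in
/-- stabilisers are cyclic if there are no unipotent elements -/
theorem stab_cyclic (hM : Mob p K H X) (x : X) (huni : ∀ h : H, h • x = x → h ∉ uni H X) : IsCyclic (stabilizer H x) := by
  obtain ⟨f, hf⟩ := hM.chi x
  refine isCyclic_of_subgroup_isDomain ((Units.coeHom K).comp f) ?_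
  rw [injective_iff_map_eq_one]
  intro h hh
  have h1 : f h = 1 := Units.ext hh
  by_contra hne
  exact huni h h.2 ⟨x, h.2, ((hf h).1 h1).2 hne⟩

omit [Finite H] [Finite X] in
theorem orb_two {x : X} (hx : Nat.card (orbit H x) = 2) : ∃ y : X, y ≠ x ∧ orbit H x = {x, y} := by
  obtain ⟨a, b, hab, hh⟩ := Nat.card_eq_two_iff.1 hx
  have hs : ∀ z ∈ orbit H x, z = a ∨ z = b := by
    intro z hz
    have : (⟨z, hz⟩ : orbit H x) ∈ ({a, b} : Set (orbit H x)) := by rw [hh]; trivial
    rcases this with h | h
    · left; exact congrArg Subtype.val h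
    · right; exact congrArg Subtype.val h
  rcases hs x (mem_orbit_self x) with h | h
  · refine ⟨b, fun e => hab (Subtype.ext (h.symm.trans e.symm)), ?_⟩
    ext z
    constructor
    · intro hz
      rcases hs z hz with h' | h'
      · left; exact h'.trans h.symm
      · right; exact h'
    · rintro (rfl | rfl)
      · exact mem_orbit_self _
      · exact b.2
  · refine ⟨a, fun e => hab (Subtype.ext (e.trans h)), ?_⟩
    ext z
    constructor
    · intro hz
      rcases hs z hz with h' | h'
      · right; exact h'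
      · left; exact h'.trans h.symm
    · rintro (rfl | rfl)
      · exact mem_orbit_self _
      · exact a.2

omit [Finite X] in
theorem dihedral_case (hM : Mob p K H X) {x : X} (hx : Nat.card (orbit H x) = 2) (hcyc : IsCyclic (stabilizer H x)) :
    Nonempty (H ≃* DihedralGroup (Nat.card (stabilizer H x))) := by
  obtain ⟨y, hyx, ho⟩ := orb_two hx
  obtain ⟨w, hw⟩ : ∃ w : H, w • x = y := by
    have : y ∈ orbit H x := by rw [ho]; simp
    exact this
  have hmem : ∀ (h : H) (z : X), z = x ∨ z = y → h • z = x ∨ h • z = y := by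
    intro h z hz
    have h1 : z ∈ orbit H x := by rw [ho]; exact hz
    have h2 : h • z ∈ orbit H x := (mem_orbit_of_mem_orbit h h1)
    rw [ho] at h2
    exact h2
  have hwy : w • y = x := by
    rcases hmem w y (Or.inr rfl) with h | h
    · exact h
    · exact absurd (MulAction.injective w (h.trans hw.symm)) hyx
  have hww : w * w = 1 := hM.swap w x y hyx.symm hw hwy
  have hcard := orb_stab (H := H) x
  rw [hx] at hcard
  refine Dih.dihedral_of_cyclic (stabilizer H x) hcyc rfl hcard.symm (w := w) hww ?_ ?_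
  · intro c hc
    rw [mem_stabilizer_iff] at hc
    have hcy : c • y = y := by
      rcases hmem c y (Or.inr rfl) with h | h
      · exact absurd (MulAction.injective c (h.trans hc.symm)) hyx
      · exact h
    have h1 := hM.swap (w * c) x y hyx.symm (by rw [mul_smul, hc, hw]) (by rw [mul_smul, hcy, hwy])
    rw [← mul_assoc] at h1
    exact eq_inv_of_mul_eq_one_left h1
  · intro h
    rcases hmem h x (Or.inl rfl) with h1 | h1
    · left; exact h1
    · right
      rw [mem_stabilizer_iff, mul_smul, h1, hwy]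

theorem no_cyc (hM : Mob p K H X) (n : H) (hn : n ≠ 1) (hN : ∀ h : H, h * n * h⁻¹ ∈ Subgroup.zpowers n) :
    ∃ x : X, Nat.card (orbit H x) ≤ 2 := by
  obtain ⟨x, hx⟩ := hM.fixpt n
  -- fixed points of n
  have hfix : ∃ y : X, ∀ z : X, n • z = z → z = x ∨ z = y := by
    by_cases h : ∃ y, y ≠ x ∧ n • y = y
    · obtain ⟨y, hy1, hy2⟩ := h
      refine ⟨y, fun z hz => ?_⟩
      by_contra hcon
      rw [not_or] at hcon
      exact hn (hM.three n x y z (Ne.symm hy1) (Ne.symm hcon.1) (Ne.symm hcon.2) hx hy2 hz)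
    · push Not at h
      refine ⟨x, fun z hz => ?_⟩
      by_contra hcon
      exact h z (fun e => hcon (Or.inl e)) hz
  obtain ⟨y, hy⟩ := hfix
  refine ⟨x, ?_⟩
  have hzp : ∀ m ∈ Subgroup.zpowers n, ∀ z : X, n • z = z → m • z = z := by
    intro m hm z hz
    have h1 : n ∈ stabilizer H z := hz
    exact (Subgroup.zpowers_le.2 h1) hm
  have hsub : orbit H x ⊆ {x, y} := by
    rintro z ⟨h, rfl⟩
    -- h n⁻¹... `h⁻¹`-conjugate
    have h1 := hN h⁻¹
    rw [inv_inv] at h1
    have h2 : (h⁻¹ * n * h) • x = x := hzp _ h1 x hx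
    have h3 : n • (h • x) = h • x := by
      have := congrArg (fun z => h • z) h2
      simp only [← mul_smul] at this
      rw [← mul_smul]
      convert this using 2
      group
    exact hy _ h3
  calc Nat.card (orbit H x) ≤ Nat.card ({x, y} : Set X) := Nat.card_mono (Set.toFinite _) hsub
    _ ≤ 2 := by
        rw [Nat.card_coe_set_eq]
        exact Set.ncard_insert_le x {y} |>.trans (by rw [Set.ncard_singleton])

theorem S4_case (hM : Mob p K H X) (h24 : Nat.card H = 24)
    (hst : ∀ x : X, Nat.card (stabilizer H x) = 1 ∨ Nat.card (stabilizer H x) = 2 ∨ Nat.card (stabilizer H x) = 3 ∨ Nat.card (stabilizer H x) = 4) :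
    Nonempty (H ≃* Equiv.Perm (Fin 4)) := by
  classical
  haveI : Fact (Nat.Prime 3) := ⟨Nat.prime_three⟩
  haveI : Fact (Nat.Prime 2) := ⟨Nat.prime_two⟩
  have hno : ∀ n : H, n ≠ 1 → ¬ ∀ h : H, h * n * h⁻¹ ∈ Subgroup.zpowers n := by
    intro n hn hN
    obtain ⟨x, hx⟩ := no_cyc hM n hn hN
    have h1 := orb_stab (H := H) x
    rw [h24] at h1
    have h2 := hst x
    have h3 : Nat.card (stabilizer H x) ≤ 4 := by omega
    have : Nat.card (orbit H x) * Nat.card (stabilizer H x) ≤ 2 * 4 := Nat.mul_le_mul hx h3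
    omega
  obtain ⟨S⟩ : Nonempty (Sylow 3 H) := inferInstance
  have hS : Nat.card (S : Subgroup H) = 3 := by
    have := Sylow.card_eq_multiplicity S
    rw [h24] at this
    rw [this]
    have h60' : (24 : ℕ) = 3 ^ 1 * 8 := by norm_num
    rw [h60', Nat.factorization_mul (by norm_num) (by norm_num)]
    simp only [Finsupp.coe_add, Pi.add_apply, Nat.Prime.factorization_pow Nat.prime_three, Finsupp.single_eq_same,
      Nat.factorization_eq_zero_of_not_dvd (show ¬ 3 ∣ 8 by norm_num)]
    norm_num
  set T : Subgroup H := Subgroup.normalizer ((S : Subgroup H) : Set H) with hT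
  have hidx : T.index = Nat.card (Sylow 3 H) := (Sylow.card_eq_index_normalizer S).symm
  -- order three elements of T generate S
  have hTn : ∀ n ∈ T, orderOf n = 3 → Subgroup.zpowers n = S := by
    intro n hn h3
    have h1 : IsPGroup 3 (Subgroup.zpowers n) := by
      apply IsPGroup.of_card (n := 1)
      rw [Nat.card_zpowers, h3, pow_one]
    have h2 := IsPGroup.inf_normalizer_sylow h1 S
    have h3' : Subgroup.zpowers n ≤ S := by
      have h4 : Subgroup.zpowers n ≤ Subgroup.zpowers n ⊓ Subgroup.normalizer ((S : Subgroup H) : Set H) :=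
        le_inf le_rfl (Subgroup.zpowers_le.2 hn)
      have h2' : Subgroup.zpowers n ⊓ Subgroup.normalizer ((S : Subgroup H) : Set H) = Subgroup.zpowers n ⊓ (S : Subgroup H) := h2
      rw [h2'] at h4
      exact h4.trans inf_le_right
    apply Subgroup.eq_of_le_of_card_ge h3'
    rw [hS, Nat.card_zpowers, h3]
  have hSnotn : ¬ ∃ n : H, orderOf n = 3 ∧ ∀ h : H, h * n * h⁻¹ ∈ T := by
    rintro ⟨n, hn, hall⟩
    have hn1 : n ≠ 1 := by rintro rfl; rw [orderOf_one] at hn; omega
    apply hno n hn1
    intro h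
    have h1 : orderOf (h * n * h⁻¹) = 3 := by
      rw [← hn]
      exact orderOf_injective (MulAut.conj h).toMonoidHom (MulAut.conj h).injective n
    have h2 := hTn _ (hall h) h1
    have h3 := hTn n (by have := hall 1; simpa using this) hn
    rw [h3, ← h2]
    exact Subgroup.mem_zpowers _
  have hn4 : T.index = 4 := by
    have h1 : Nat.card (Sylow 3 H) ≡ 1 [MOD 3] := card_sylow_modEq_one 3 H
    rw [← hidx] at h1
    have h2 : T.index ∣ 8 := by
      have h3 : T.index ∣ (S : Subgroup H).index := Subgroup.index_dvd_of_le Subgroup.le_normalizer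
      have h4 := Subgroup.card_mul_index (S : Subgroup H)
      rw [hS, h24] at h4
      have h5 : (S : Subgroup H).index = 8 := by omega
      rwa [h5] at h3
    have h3 := Nat.le_of_dvd (by norm_num) h2
    have h4 : T.index ≠ 1 := by
      intro h
      apply hSnotn
      obtain ⟨n, hn⟩ := exists_prime_orderOf_dvd_card' (G := H) 3 (by rw [h24]; norm_num)
      refine ⟨n, hn, fun h' => ?_⟩
      rw [Subgroup.index_eq_one.1 h]
      trivial
    unfold Nat.ModEq at h1
    interval_cases h : T.index <;> omega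
  have hTc : Nat.card T = 6 := by
    have := Subgroup.card_mul_index T
    rw [hn4, h24] at this
    omega
  refine Recog.perm_of_core T hn4 ?_ (by rw [h24]; rfl)
  set N := T.normalCore with hN
  have hNT : N ≤ T := Subgroup.normalCore_le T
  have hNn : N.Normal := Subgroup.normalCore_normal T
  have hNd : Nat.card N ∣ 6 := by rw [← hTc]; exact Subgroup.card_dvd_of_le hNT
  have h3 : ¬ 3 ∣ Nat.card N := by
    intro h3
    obtain ⟨n, hn⟩ := exists_prime_orderOf_dvd_card' (G := N) 3 h3
    apply hSnotn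
    refine ⟨n, by rw [← hn]; exact Subgroup.orderOf_coe n, fun h => hNT (hNn.conj_mem _ n.2 h)⟩
  have h2 : Nat.card N ≠ 2 := by
    intro h2
    obtain ⟨n, hn⟩ := exists_prime_orderOf_dvd_card' (G := N) 2 (by rw [h2])
    apply hno (n : H)
    · intro h
      have : n = 1 := Subtype.ext h
      rw [this, orderOf_one] at hn
      omega
    · intro h
      have h1 : h * n * h⁻¹ ∈ N := hNn.conj_mem _ n.2 h
      have h3 : Subgroup.zpowers (n : H) = N := by
        apply Subgroup.eq_of_le_of_card_ge
        · exact Subgroup.zpowers_le.2 n.2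
        · rw [h2, Nat.card_zpowers, Subgroup.orderOf_coe, hn]
      rw [h3]; exact h1
  have h1 : Nat.card N = 1 := by
    have h1 := Nat.le_of_dvd (by norm_num) hNd
    have h0 : 0 < Nat.card N := Nat.card_pos
    interval_cases h : Nat.card N <;> first | rfl | (exfalso; revert hNd h3 h2; norm_num)
  exact Subgroup.card_eq_one.1 h1

/-- involution centralisers -/
theorem cen_le (hM : Mob p K H X) {t : H} (ht1 : t ≠ 1) {x : X} (hx : t • x = x) {m : ℕ}
    (hm : ∀ y : X, y ≠ x → t • y = y → Nat.card (stabilizer H x ⊓ stabilizer H y : Subgroup H) ≤ m) (hu : ∃ y : X, y ≠ x ∧ t • y = y) :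
    Nat.card (Subgroup.centralizer ({t} : Set H)) ≤ 2 * m := by
  obtain ⟨y, hyx, hy⟩ := hu
  set C := Subgroup.centralizer ({t} : Set H) with hC
  have hfix : ∀ z : X, t • z = z → z = x ∨ z = y := by
    intro z hz
    by_contra hcon
    rw [not_or] at hcon
    exact ht1 (hM.three t x y z (Ne.symm hyx) (Ne.symm hcon.1) (Ne.symm hcon.2) hx hy hz)
  have hCfix : ∀ c ∈ C, ∀ z : X, t • z = z → t • (c • z) = c • z := by
    intro c hc z hz
    rw [hC, Subgroup.mem_centralizer_singleton_iff] at hc
    rw [← mul_smul, ← hc, mul_smul, hz]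
  have horb : orbit C x ⊆ {x, y} := by
    rintro z ⟨c, rfl⟩
    exact hfix _ (hCfix c c.2 x hx)
  have h1 : Nat.card (orbit C x) ≤ 2 := by
    calc Nat.card (orbit C x) ≤ Nat.card ({x, y} : Set X) := Nat.card_mono (Set.toFinite _) horb
      _ ≤ 2 := by
          rw [Nat.card_coe_set_eq]
          exact Set.ncard_insert_le x {y} |>.trans (by rw [Set.ncard_singleton])
  have h2 : Nat.card (stabilizer C x) ≤ m := by
    refine le_trans ?_ (hm y hyx hy)
    refine Nat.card_le_card_of_injective (fun c => (⟨c.1.1, ?_, ?_⟩ : (stabilizer H x ⊓ stabilizer H y : Subgroup H))) ?_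
    · exact c.2
    · have hc : (c.1.1 : H) • x = x := c.2
      rcases hfix _ (hCfix c.1.1 c.1.2 y hy) with h | h
      · exact absurd (MulAction.injective _ (h.trans hc.symm)) hyx
      · exact h
    · intro a b hab
      exact Subtype.ext (Subtype.ext (congrArg (fun z : (stabilizer H x ⊓ stabilizer H y : Subgroup H) => (z : H)) hab))
  have h3 := orb_stab (H := C) x
  rw [← h3]
  exact Nat.mul_le_mul h1 h2

theorem A5_case (hM : Mob p K H X) (huni : uni H X = ∅) (h60 : Nat.card H = 60)
    (hst : ∀ x : X, Nat.card (stabilizer H x) = 1 ∨ Nat.card (stabilizer H x) = 2 ∨ Nat.card (stabilizer H x) = 3 ∨ Nat.card (stabilizer H x) = 5)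
    (hor : ∀ x y : X, Nat.card (stabilizer H x) = 2 → Nat.card (stabilizer H y) = 2 → x ∈ orbit H y) :
    Nonempty (H ≃* alternatingGroup (Fin 5)) := by
  have hinv : ∀ t : H, t * t = 1 → t ≠ 1 → ∀ x : X, t • x = x → Nat.card (stabilizer H x) = 2 := by
    intro t ht ht1 x hx
    have h1 : orderOf t = 2 := by
      rw [orderOf_eq_prime_iff]
      exact ⟨by rw [pow_two, ht], ht1⟩
    have h2 : orderOf (⟨t, hx⟩ : stabilizer H x) = 2 := by rw [← h1]; exact (Subgroup.orderOf_mk t hx)
    have h3 : 2 ∣ Nat.card (stabilizer H x) := by rw [← h2]; exact orderOf_dvd_natCard _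
    have := hst x
    omega
  have hord : ∀ (t : H) (x : X), t • x = x → t ^ Nat.card (stabilizer H x) = 1 := by
    intro t x hx
    have : (⟨t, hx⟩ : stabilizer H x) ^ Nat.card (stabilizer H x) = 1 := pow_card_eq_one'
    exact congrArg Subtype.val this
  refine A5_rec h60 ?_ ?_ ?_
  · intro s t hs ht hs1 ht1
    obtain ⟨x, hx⟩ := hM.fixpt s
    obtain ⟨y, hy⟩ := hM.fixpt t
    have h1 := hinv s hs hs1 x hx
    have h2 := hinv t ht ht1 y hy
    obtain ⟨g, hg⟩ := hor y x h2 h1
    have hg' : g • x = y := hg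
    refine ⟨g, ?_⟩
    have h3 : (g * s * g⁻¹) • y = y := by
      rw [← hg', mul_smul, mul_smul, inv_smul_smul, hx]
    obtain ⟨a, b, hab, hh⟩ := Nat.card_eq_two_iff.1 h2
    -- group of order two
    have h4 : ∀ u : stabilizer H y, u ≠ 1 → ∀ v : stabilizer H y, v ≠ 1 → u = v := by
      intro u hu v hv
      have hu' : u ∈ ({a, b} : Set (stabilizer H y)) := by rw [hh]; trivial
      have hv' : v ∈ ({a, b} : Set (stabilizer H y)) := by rw [hh]; trivial
      have h1' : (1 : stabilizer H y) ∈ ({a, b} : Set (stabilizer H y)) := by rw [hh]; trivial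
      simp only [Set.mem_insert_iff, Set.mem_singleton_iff] at hu' hv' h1'
      rcases h1' with h1' | h1' <;> rcases hu' with hu' | hu' <;> rcases hv' with hv' | hv'
      all_goals first
        | (exact hu'.trans hv'.symm)
        | (exact absurd (hu'.trans h1'.symm) hu)
        | (exact absurd (hv'.trans h1'.symm) hv)
    have h5 := h4 ⟨g * s * g⁻¹, h3⟩ (fun h => hs1 (by
        have h6 : g * s * g⁻¹ = 1 := congrArg Subtype.val h
        exact conj_eq_one_iff.1 h6)) ⟨t, hy⟩ (fun h => ht1 (congrArg Subtype.val h))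
    exact congrArg Subtype.val h5
  · intro t ht ht1
    obtain ⟨x, hx⟩ := hM.fixpt t
    have h1 := hinv t ht ht1 x hx
    have h2 : ∃ y : X, y ≠ x ∧ t • y = y := by
      by_contra hcon
      push Not at hcon
      have : t ∈ uni H X := ⟨x, hx, fun y hy => by by_contra h; exact hcon y h hy⟩
      rw [huni] at this
      exact this
    refine cen_le hM ht1 hx (m := 2) ?_ h2
    intro y _ _
    rw [← h1]
    exact Nat.card_le_card_of_injective _ (Subgroup.inclusion_injective inf_le_left)
  · intro x hx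
    obtain ⟨a, ha⟩ := hM.fixpt x
    have h1 := hord x a ha
    have h2 : orderOf x ∣ 4 := orderOf_dvd_of_pow_eq_one hx
    have h3 : orderOf x ∣ Nat.card (stabilizer H a) := orderOf_dvd_of_pow_eq_one h1
    have h4 : orderOf x ∣ 2 := by
      have h5 := Nat.dvd_gcd h2 h3
      rcases hst a with h | h | h | h <;> rw [h] at h5
      · exact h5.trans (by norm_num)
      · exact h5.trans (by norm_num)
      · exact h5.trans (by norm_num)
      · exact h5.trans (by norm_num)
    rw [← pow_two]
    exact orderOf_dvd_iff_pow_eq_one.1 h4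

/-- the tame case of Dickson's theorem -/
theorem tame (hM : Mob p K H X) (hX : 2 ≤ Nat.card X) (huni : uni H X = ∅) :
    (IsCyclic H ∧ ∃ x : X, ∀ h : H, h • x = x) ∨
    (∃ x : X, Nat.card (orbit H x) = 2 ∧ IsCyclic (stabilizer H x) ∧ Nonempty (H ≃* DihedralGroup (Nat.card (stabilizer H x)))) ∨
    Nonempty (H ≃* alternatingGroup (Fin 4)) ∨ Nonempty (H ≃* Equiv.Perm (Fin 4)) ∨ Nonempty (H ≃* alternatingGroup (Fin 5)) := by
  have hcyc : ∀ x : X, IsCyclic (stabilizer H x) := fun x => stab_cyclic hM x (fun h _ => by rw [huni]; simp)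
  have hfixed : ∀ x : X, (∀ h : H, h • x = x) → IsCyclic H := by
    intro x hx
    have h1 := hcyc x
    have h2 : stabilizer H x = ⊤ := by
      rw [eq_top_iff]; intro h _; exact hx h
    rw [h2] at h1
    exact (MulEquiv.isCyclic Subgroup.topEquiv).1 h1
  rcases Nat.lt_or_ge (Nat.card H) 2 with hn | hn
  · left
    have h1 : Nat.card H = 1 := by
      have : 0 < Nat.card H := Nat.card_pos
      omega
    haveI : Subsingleton H := (Nat.card_eq_one_iff_unique.1 h1).1
    obtain ⟨x, hx⟩ := hM.fixpt 1
    refine ⟨inferInstance, x, fun h => ?_⟩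
    rw [Subsingleton.elim h 1, hx]
  rcases tame_cases hM hX huni hn with ⟨x, hx⟩ | ⟨x, hx⟩ | ⟨h12, x, hx⟩ | ⟨h24, hst⟩ | ⟨h60, hst, hor⟩
  · exact Or.inl ⟨hfixed x hx, x, hx⟩
  · exact Or.inr (Or.inl ⟨x, hx, hcyc x, dihedral_case hM hx (hcyc x)⟩)
  · right; right; left
    refine Recog.alt_of_faithful (α := orbit H x) hx ?_ (by rw [h12]; rfl)
    intro g hg
    have hgz : ∀ z ∈ orbit H x, g • z = z := fun z hz => congrArg Subtype.val (hg ⟨z, hz⟩)
    -- three different points
    have h3 : 2 < (orbit H x).ncard := by rw [← Nat.card_coe_set_eq, hx]; norm_num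
    obtain ⟨a, ha, b, hb, c, hc, hab, hac, hbc⟩ := (Set.two_lt_ncard (Set.toFinite _)).1 h3
    exact hM.three g a b c hab hac hbc (hgz a ha) (hgz b hb) (hgz c hc)
  · exact Or.inr (Or.inr (Or.inr (Or.inl (S4_case hM h24 hst))))
  · exact Or.inr (Or.inr (Or.inr (Or.inr (A5_case hM huni h60 hst hor))))

end

end CfsgH9.Dk
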