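import Cfsg.Agent.H9.Dk5

set_option autoImplicit false

open MulAction

namespace CfsgH9.Dk

section
variable {K : Type*} [Field K]

theorem chi_ex (g : stabilizer (PG K) (OnePoint.infty : PL K)) : ∃ a : Kˣ, ∃ b : K, (g : PG K) = aff a b := stab_infty g.2

/-- the multiplier at `∞` -/
noncomputable def chiInf : stabilizer (PG K) (OnePoint.infty : PL K) →* Kˣ := MonoidHom.mk' (fun g => (chi_ex g).choose) (by
  intro g h
  obtain ⟨b, hb⟩ := (chi_ex g).choose_spec
  obtain ⟨b', hb'⟩ := (chi_ex h).choose_spec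
  obtain ⟨b'', hb''⟩ := (chi_ex (g * h)).choose_spec
  have h1 : ((g * h : stabilizer (PG K) (OnePoint.infty : PL K)) : PG K) = (g : PG K) * h := rfl
  have h2 := h1.symm.trans hb''
  have h3 : (g : PG K) * h = aff ((chi_ex g).choose * (chi_ex h).choose) ((chi_ex g).choose * b' + b) := by
    rw [← aff_mul, ← hb, ← hb']
  exact (aff_inj (h2.symm.trans h3)).1)

theorem chiInf_eq {g : stabilizer (PG K) (OnePoint.infty : PL K)} {a : Kˣ} {b : K} (h : (g : PG K) = aff a b) : chiInf g = a := by
  obtain ⟨b', hb⟩ := (chi_ex g).choose_spec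
  exact (aff_inj (hb.symm.trans h)).1

theorem aff_pow (b : K) (n : ℕ) : aff (1 : Kˣ) b ^ n = aff 1 (n * b) := by
  induction n with
  | zero => rw [pow_zero, Nat.cast_zero, zero_mul, aff_one]
  | succ n ih => rw [pow_succ, ih, aff_mul, one_mul]; congr 1; push_cast; ring

theorem trans_fix {b : K} (hb : b ≠ 0) {y : PL K} (hy : aff (1 : Kˣ) b • y = y) : y = OnePoint.infty := by
  induction y using OnePoint.rec with
  | infty => rfl
  | coe k =>
    exfalso
    rw [aff_coe, OnePoint.coe_eq_coe] at hy
    apply hb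
    simpa using hy

theorem exists_to_infty_hom (p : ℕ) [CharP K p] (x : PL K) : ∃ f : stabilizer (PG K) x →* Kˣ, ∀ h : stabilizer (PG K) x,
    (f h = 1 → (h : PG K) ^ p = 1 ∧ (h ≠ 1 → ∀ y : PL K, (h : PG K) • y = y → y = x)) ∧ (f h ≠ 1 → ∃ y : PL K, y ≠ x ∧ (h : PG K) • y = y) := by
  obtain ⟨g, hg⟩ := to_infty x
  have hmem : ∀ h : stabilizer (PG K) x, g * h * g⁻¹ ∈ stabilizer (PG K) (OnePoint.infty : PL K) := by
    intro h
    rw [mem_stabilizer_iff, ← hg, mul_smul, mul_smul, inv_smul_smul, h.2]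
  let c : stabilizer (PG K) x →* stabilizer (PG K) (OnePoint.infty : PL K) :=
    MonoidHom.mk' (fun h => ⟨g * h * g⁻¹, hmem h⟩) (by
      intro a b
      apply Subtype.ext
      change g * ((a : PG K) * b) * g⁻¹ = g * a * g⁻¹ * (g * b * g⁻¹)
      group)
  refine ⟨chiInf.comp c, fun h => ?_⟩
  obtain ⟨a, b, hab⟩ := chi_ex (c h)
  have hc : chiInf (c h) = a := chiInf_eq hab
  have hab' : g * h * g⁻¹ = aff a b := hab
  have hh : (h : PG K) = g⁻¹ * aff a b * g := by rw [← hab']; group
  have hfix : ∀ y : PL K, (h : PG K) • y = y → aff a b • (g • y) = g • y := by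
    intro y hy
    rw [← hab', mul_smul, mul_smul, inv_smul_smul, hy]
  rw [MonoidHom.comp_apply, hc]
  constructor
  · intro ha
    subst ha
    constructor
    · have : (h : PG K) ^ p = g⁻¹ * aff 1 b ^ p * g := by
        rw [hh]
        have := conj_pow (i := p) (a := g⁻¹) (b := aff (1 : Kˣ) b)
        rw [inv_inv] at this
        exact this
      rw [this, aff_pow, CharP.cast_eq_zero, zero_mul, aff_one]; group
    · intro h1 y hy
      have hb : b ≠ 0 := by
        rintro rfl
        apply h1
        apply Subtype.ext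
        rw [hh, aff_one]
        change _ = (1 : PG K)
        group
      have h2 := trans_fix hb (hfix y hy)
      exact MulAction.injective g (h2.trans hg.symm)
  · intro ha
    have ha' : (1 : K) - a ≠ 0 := fun h => ha (Units.ext (sub_eq_zero.1 h).symm)
    refine ⟨g⁻¹ • ((b / (1 - a) : K) : PL K), ?_, ?_⟩
    · intro h
      have := congrArg (fun z => g • z) h
      simp only [smul_inv_smul] at this
      rw [hg] at this
      exact OnePoint.coe_ne_infty _ this
    · rw [hh, mul_smul, mul_smul, smul_inv_smul, aff_coe]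
      congr 2
      field_simp
      ring

/-- subgroups of `PGL₂` all whose elements have fixed points -/
theorem mob_of (p : ℕ) [CharP K p] (H : Subgroup (PG K)) (hH : ∀ h ∈ H, ∃ x : PL K, h • x = x) : Mob p K H (PL K) where
  three h x y z hxy hxz hyz hx hy hz := Subtype.ext (three_fix hxy hxz hyz hx hy hz)
  fixpt h := hH h h.2
  swap h x y hxy hx hy := Subtype.ext (swap_sq hxy hx hy)
  chi x := by
    obtain ⟨f, hf⟩ := exists_to_infty_hom (K := K) p x
    let i : stabilizer H x →* stabilizer (PG K) x :=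
      MonoidHom.mk' (fun h => ⟨(h : H), h.2⟩) (fun a b => rfl)
    refine ⟨f.comp i, fun h => ?_⟩
    have h1 := hf (i h)
    refine ⟨fun h2 => ?_, fun h2 => ?_⟩
    · obtain ⟨h3, h4⟩ := h1.1 h2
      refine ⟨Subtype.ext h3, fun hne y hy => h4 ?_ y hy⟩
      intro h5
      apply hne
      apply Subtype.ext
      apply Subtype.ext
      have h6 : ((i h : stabilizer (PG K) x) : PG K) = (1 : stabilizer (PG K) x) := congrArg (fun z : stabilizer (PG K) x => (z : PG K)) h5
      exact h6
    · exact h1.2 h2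

end

end CfsgH9.Dk
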