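import Cfsg.Agent.H9.Dk6

set_option autoImplicit false

open MulAction

namespace CfsgH9.Dk

section
variable {p : ℕ} [hp : Fact p.Prime] {K : Type*} [Field K] [CharP K p] {H X : Type*} [Group H] [Finite H] [MulAction H X] [Finite X]

/-- elements with `x` as only fixed point -/
def US (H : Type*) {X : Type*} [Group H] [MulAction H X] (x : X) : Set H := {h | h • x = x ∧ ∀ y : X, h • y = y → y = x}

omit [Finite X] in
theorem ppow (hM : Mob p K H X) {x : X} {h : H} (hx : h • x = x) {k : ℕ} (hk : h ^ p ^ k = 1) (h1 : h ≠ 1) : h ∈ US H x := by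
  obtain ⟨f, hf⟩ := hM.chi x
  have h2 : (⟨h, hx⟩ : stabilizer H x) ^ p ^ k = 1 := Subtype.ext hk
  have h3 : f ⟨h, hx⟩ ^ p ^ k = 1 := by rw [← map_pow, h2, map_one]
  have h4 : f ⟨h, hx⟩ = 1 := by
    have h5 : ((f ⟨h, hx⟩ : Kˣ) : K) ^ (p ^ k * 1) = 1 := by rw [mul_one, ← Units.val_pow_eq_pow_val, h3, Units.val_one]
    haveI : ExpChar K p := ExpChar.prime hp.out
    rw [ExpChar.pow_prime_pow_mul_eq_one_iff, pow_one] at h5
    exact Units.ext h5
  exact ⟨hx, ((hf _).1 h4).2 (fun e => h1 (congrArg Subtype.val e))⟩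

omit hp [CharP K p] [Finite H] [Finite X] in
theorem US_pow (hM : Mob p K H X) {x : X} {h : H} (hx : h ∈ US H x) : h ^ p = 1 := by
  obtain ⟨f, hf⟩ := hM.chi x
  by_cases h1 : f ⟨h, hx.1⟩ = 1
  · exact ((hf _).1 h1).1
  · obtain ⟨y, hy, hy'⟩ := (hf _).2 h1
    exact absurd (hx.2 y hy') hy

omit [Finite H] [Finite X] [CharP K p] hp in
theorem US_ne (hX : 2 ≤ Nat.card X) {x : X} {h : H} (hx : h ∈ US H x) : h ≠ 1 := by
  rintro rfl
  have h1 : ∀ y : X, y = x := fun y => hx.2 y (one_smul _ _)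
  have h2 : Nat.card X ≤ 1 := by
    haveI : Subsingleton X := ⟨fun a b => (h1 a).trans (h1 b).symm⟩
    exact Finite.card_le_one_iff_subsingleton.2 inferInstance
  omega

omit [Finite X] in
theorem sylow_fix (hM : Mob p K H X) (hX : 2 ≤ Nat.card X) {x : X} {u : H} (hu : u ∈ US H x) :
    ∃ S : Sylow p H, u ∈ S ∧ ∀ s ∈ S, s • x = x ∧ (s ≠ 1 → s ∈ US H x) := by
  have hu1 : u ≠ 1 := US_ne hX hu
  have hup := US_pow hM hu
  have h1 : IsPGroup p (Subgroup.zpowers u) := by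
    intro g
    refine ⟨1, ?_⟩
    obtain ⟨k, hk⟩ := g.2
    apply Subtype.ext
    change (g : H) ^ p ^ 1 = 1
    have hk' : u ^ k = (g : H) := hk
    rw [pow_one, ← hk', ← zpow_natCast, ← zpow_mul, mul_comm, zpow_mul, zpow_natCast, hup, one_zpow]
  obtain ⟨S, hS⟩ := h1.exists_le_sylow
  have huS : u ∈ S := hS (Subgroup.mem_zpowers u)
  have hSp : ∀ s ∈ S, ∃ k, s ^ p ^ k = 1 := by
    intro s hs
    obtain ⟨k, hk⟩ := S.2 ⟨s, hs⟩
    exact ⟨k, congrArg Subtype.val hk⟩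
  haveI : Nontrivial (S : Subgroup H) := ⟨⟨u, huS⟩, 1, fun e => hu1 (congrArg Subtype.val e)⟩
  haveI := S.2.center_nontrivial
  obtain ⟨z, hz⟩ := exists_ne (1 : Subgroup.center (S : Subgroup H))
  have hz1 : ((z : (S : Subgroup H)) : H) ≠ 1 := fun e => hz (Subtype.ext (Subtype.ext e))
  have hzc : ∀ s ∈ S, s * ((z : (S : Subgroup H)) : H) = ((z : (S : Subgroup H)) : H) * s := by
    intro s hs
    have := Subgroup.mem_center_iff.1 z.2 ⟨s, hs⟩
    exact congrArg Subtype.val this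
  have hzx : ((z : (S : Subgroup H)) : H) • x = x := by
    apply hu.2
    rw [← mul_smul, hzc u huS, mul_smul, hu.1]
  obtain ⟨k, hk⟩ := hSp _ (z : (S : Subgroup H)).2
  have hzU := ppow hM hzx hk hz1
  refine ⟨S, huS, fun s hs => ?_⟩
  have hsx : s • x = x := by
    apply hzU.2
    rw [← mul_smul, ← hzc s hs, mul_smul, hzx]
  obtain ⟨k, hk⟩ := hSp s hs
  exact ⟨hsx, fun hs1 => ppow hM hsx hk hs1⟩

omit [Finite H] [Finite X] in
theorem US_conj {x : X} {u : H} (g : H) (hu : u ∈ US H x) : g * u * g⁻¹ ∈ US H (g • x) := by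
  refine ⟨by rw [mul_smul, mul_smul, inv_smul_smul, hu.1], fun y hy => ?_⟩
  have h1 : u • (g⁻¹ • y) = g⁻¹ • y := by
    have := congrArg (fun z => g⁻¹ • z) hy
    simp only [mul_smul, inv_smul_smul] at this
    exact this
  rw [← hu.2 _ h1, smul_inv_smul]

theorem US_orbit (hM : Mob p K H X) (hX : 2 ≤ Nat.card X) {x y : X} {u v : H} (hu : u ∈ US H x) (hv : v ∈ US H y) : y ∈ orbit H x := by
  obtain ⟨S, huS, hS⟩ := sylow_fix hM hX hu
  obtain ⟨T, hvT, hT⟩ := sylow_fix hM hX hv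
  obtain ⟨g, hg⟩ := exists_smul_eq H S T
  have h1 : g * u * g⁻¹ ∈ T := by
    rw [← hg]
    change _ ∈ g • S
    exact Subgroup.smul_mem_pointwise_smul u (MulAut.conj g) S huS
  have h2 : g * u * g⁻¹ ≠ 1 := fun h => US_ne hX hu (conj_eq_one_iff.1 h)
  have h3 := (hT _ h1).2 h2
  have h4 := US_conj g hu
  exact ⟨g, (h3.2 _ h4.1)⟩

/-- counting unipotents -/
theorem card_uni (hM : Mob p K H X) (hX : 2 ≤ Nat.card X) {x : X} {u : H} (hu : u ∈ US H x) :
    Nat.card (uni H X) = Nat.card (orbit H x) * Nat.card (US H x) := by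
  have e : uni H X ≃ Σ y : orbit H x, US H (y : X) :=
    { toFun := fun h => ⟨⟨h.2.choose, US_orbit hM hX hu (v := (h : H)) (y := h.2.choose) h.2.choose_spec⟩, ⟨h.1, h.2.choose_spec⟩⟩
      invFun := fun z => ⟨z.2.1, ⟨z.1.1, z.2.2⟩⟩
      left_inv := fun h => rfl
      right_inv := by
        rintro ⟨⟨y, hy⟩, ⟨v, hv⟩⟩
        have h1 : (⟨y, hv⟩ : ∃ x : X, v • x = x ∧ ∀ y : X, v • y = y → y = x).choose = y :=
          hv.2 _ (⟨y, hv⟩ : ∃ x : X, v • x = x ∧ ∀ y : X, v • y = y → y = x).choose_spec.1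
        have key : ∀ (y' : orbit H x) (hv' : v ∈ US H (y' : X)), y' = ⟨y, hy⟩ → (⟨y', ⟨v, hv'⟩⟩ : Σ y : orbit H x, US H (y : X)) = ⟨⟨y, hy⟩, ⟨v, hv⟩⟩ := by
          intro y' hv' e
          subst e
          rfl
        exact key _ _ (Subtype.ext h1) }
  rw [Nat.card_congr e]
  haveI : Finite (orbit H x) := Finite.finite_mulAction_orbit x
  haveI := Fintype.ofFinite (orbit H x)
  rw [Nat.card_sigma]
  have : ∀ y : orbit H x, Nat.card (US H (y : X)) = Nat.card (US H x) := by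
    rintro ⟨_, g, rfl⟩
    refine Nat.card_congr ⟨fun v => ⟨g⁻¹ * v * g, ?_⟩, fun v => ⟨g * v * g⁻¹, US_conj g v.2⟩, fun v => ?_, fun v => ?_⟩
    · have := US_conj g⁻¹ v.2
      simp only [inv_inv, inv_smul_smul] at this
      exact this
    · apply Subtype.ext; change g * (g⁻¹ * v * g) * g⁻¹ = v; group
    · apply Subtype.ext; change g⁻¹ * (g * v * g⁻¹) * g = v; group
  rw [Finset.sum_congr rfl (fun y _ => this y), Finset.sum_const, Finset.card_univ, smul_eq_mul,
    Nat.card_eq_fintype_card (α := orbit H x)]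

/-- a free action has cardinality divisible by the order -/
theorem free_dvd {G Y : Type*} [Group G] [Finite G] [Finite Y] [MulAction G Y] (hf : ∀ (g : G) (y : Y), g • y = y → g = 1) :
    Nat.card G ∣ Nat.card Y := by
  classical
  cases nonempty_fintype Y
  letI : Fintype (orbitRel.Quotient G Y) := Fintype.ofFinite _
  rw [Nat.card_congr (selfEquivSigmaOrbits' G Y), Nat.card_sigma]
  apply Finset.dvd_sum
  intro ω _
  induction ω using Quotient.inductionOn' with | h y =>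
  change _ ∣ Nat.card (orbit G y)
  have h1 := orb_stab (H := G) y
  have h2 : Nat.card (stabilizer G y) = 1 := by
    rw [Subgroup.card_eq_one, eq_bot_iff]
    intro g hg
    exact hf g y hg
  rw [h2, mul_one] at h1
  rw [h1]

end

end CfsgH9.Dk
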