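import Cfsg.Agent.H9.Dk7

set_option autoImplicit false

open MulAction

namespace CfsgH9.Dk

section
variable {K : Type*} [Field K]

/-- translations in `H` -/
noncomputable def AA (H : Subgroup (PG K)) : AddSubgroup K where
  carrier := {b | aff 1 b ∈ H}
  zero_mem' := by
    change aff 1 0 ∈ H
    rw [aff_one]; exact one_mem _
  add_mem' := by
    intro a b ha hb
    change aff 1 (a + b) ∈ H
    have := mul_mem (show aff 1 b ∈ H from hb) (show aff 1 a ∈ H from ha)
    rw [aff_mul] at this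
    simpa using this
  neg_mem' := by
    intro a ha
    change aff 1 (-a) ∈ H
    have h1 := inv_mem (show aff 1 a ∈ H from ha)
    have h2 : aff (1 : Kˣ) (-a) = (aff 1 a)⁻¹ := by
      rw [eq_inv_iff_mul_eq_one, aff_mul, ← aff_one]
      congr 1
      · rw [mul_one]
      · simp
    rw [h2]; exact h1

theorem mem_AA {H : Subgroup (PG K)} {b : K} : b ∈ AA H ↔ aff 1 b ∈ H := Iff.rfl

/-- multipliers in `H` -/
noncomputable def LL (H : Subgroup (PG K)) : Subgroup Kˣ where
  carrier := {a | ∃ b, aff a b ∈ H}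
  one_mem' := ⟨0, by rw [aff_one]; exact one_mem _⟩
  mul_mem' := by
    rintro a a' ⟨b, hb⟩ ⟨b', hb'⟩
    refine ⟨a * b' + b, ?_⟩
    rw [← aff_mul]; exact mul_mem hb hb'
  inv_mem' := by
    rintro a ⟨b, hb⟩
    refine ⟨-((a⁻¹ : Kˣ) * b), ?_⟩
    have h2 : aff (a⁻¹ : Kˣ) (-((a⁻¹ : Kˣ) * b)) = (aff a b)⁻¹ := by
      rw [eq_inv_iff_mul_eq_one, aff_mul, ← aff_one]
      congr 1
      · simp
      · ring
    rw [h2]; exact inv_mem hb

theorem mem_LL {H : Subgroup (PG K)} {a : Kˣ} : a ∈ LL H ↔ ∃ b, aff a b ∈ H := Iff.rfl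

theorem LL_AA {H : Subgroup (PG K)} {a : Kˣ} (ha : a ∈ LL H) {b : K} (hb : b ∈ AA H) : (a : K) * b ∈ AA H := by
  obtain ⟨b', hb'⟩ := ha
  rw [mem_AA] at hb ⊢
  have h1 : aff 1 ((a : K) * b) = aff a b' * aff 1 b * (aff a b')⁻¹ := by
    rw [eq_mul_inv_iff_mul_eq, aff_mul, aff_mul]
    congr 1
    · rw [mul_comm]
    · rw [Units.val_one]; ring
  rw [h1]
  exact mul_mem (mul_mem hb' hb) (inv_mem hb')

theorem card_stab (H : Subgroup (PG K)) : Nat.card (stabilizer H (OnePoint.infty : PL K)) = Nat.card (AA H) * Nat.card (LL H) := by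
  let i : stabilizer H (OnePoint.infty : PL K) →* stabilizer (PG K) (OnePoint.infty : PL K) :=
    MonoidHom.mk' (fun h => ⟨(h : H), h.2⟩) (fun a b => rfl)
  let φ := (chiInf (K := K)).comp i
  have h1 := Subgroup.card_mul_index φ.ker
  rw [Subgroup.index_ker] at h1
  rw [← h1]
  congr 1
  · refine Nat.card_congr (Equiv.ofBijective (fun b : AA H => (⟨⟨⟨aff 1 b, b.2⟩, aff_infty _ _⟩, ?_⟩ : φ.ker)) ⟨?_, ?_⟩).symm
    · rw [MonoidHom.mem_ker]
      exact chiInf_eq (b := b) rfl
    · intro b b' hbb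
      have h2 : aff (1 : Kˣ) (b : K) = aff 1 (b' : K) := congrArg (fun z : φ.ker => (((z : stabilizer H (OnePoint.infty : PL K)) : H) : PG K)) hbb
      exact Subtype.ext (aff_inj h2).2
    · rintro ⟨h, hh⟩
      rw [MonoidHom.mem_ker] at hh
      obtain ⟨a, b, hab⟩ := chi_ex (i h)
      have h2 : chiInf (i h) = a := chiInf_eq hab
      have h3 : a = 1 := h2.symm.trans hh
      subst h3
      have hab' : ((h : H) : PG K) = aff 1 b := hab
      refine ⟨⟨b, ?_⟩, ?_⟩
      · rw [mem_AA, ← hab']; exact (h : H).2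
      · apply Subtype.ext
        apply Subtype.ext
        apply Subtype.ext
        exact hab'.symm
  · have : φ.range = LL H := by
      ext a
      rw [MonoidHom.mem_range, mem_LL]
      constructor
      · rintro ⟨h, rfl⟩
        obtain ⟨a, b, hab⟩ := chi_ex (i h)
        have h2 : φ h = a := chiInf_eq hab
        refine ⟨b, ?_⟩
        rw [h2, ← hab]
        exact (h : H).2
      · rintro ⟨b, hb⟩
        refine ⟨⟨⟨aff a b, hb⟩, aff_infty _ _⟩, ?_⟩
        exact chiInf_eq (b := b) rfl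
    rw [this]

theorem card_US [Finite K] (H : Subgroup (PG K)) : Nat.card (US H (OnePoint.infty : PL K)) + 1 = Nat.card (AA H) := by
  classical
  have e : US H (OnePoint.infty : PL K) ≃ {b : AA H // b ≠ 0} := by
    refine (Equiv.ofBijective (fun b : {b : AA H // b ≠ 0} => (⟨⟨aff 1 b.1, b.1.2⟩, aff_infty _ _, ?_⟩ : US H (OnePoint.infty : PL K))) ⟨?_, ?_⟩).symm
    · intro y hy
      exact trans_fix (fun h => b.2 (Subtype.ext h)) hy
    · intro b b' hbb
      have h2 : aff (1 : Kˣ) (b.1 : K) = aff 1 (b'.1 : K) := congrArg (fun z : US H (OnePoint.infty : PL K) => ((z : H) : PG K)) hbb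
      exact Subtype.ext (Subtype.ext (aff_inj h2).2)
    · rintro ⟨⟨h, hH⟩, hh⟩
      obtain ⟨a, b, hab⟩ := stab_infty hh.1
      have hab' : h = aff a b := hab
      subst hab'
      have ha : a = 1 := by
        by_contra ha
        have ha' : (1 : K) - a ≠ 0 := fun h => ha (Units.ext (sub_eq_zero.1 h).symm)
        have h3 := hh.2 ((b / (1 - a) : K) : PL K) (by
          change aff a b • ((b / (1 - a) : K) : PL K) = ((b / (1 - a) : K) : PL K)
          rw [aff_coe, OnePoint.coe_eq_coe]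
          field_simp
          ring)
        exact OnePoint.coe_ne_infty _ h3
      subst ha
      have hb : b ≠ 0 := by
        rintro rfl
        have h3 := hh.2 ((0 : K) : PL K) (by
          change aff (1 : Kˣ) (0 : K) • ((0 : K) : PL K) = ((0 : K) : PL K)
          rw [aff_one, one_smul])
        exact OnePoint.coe_ne_infty _ h3
      exact ⟨⟨⟨b, hH⟩, fun h => hb (congrArg Subtype.val h)⟩, rfl⟩
  rw [Nat.card_congr e]
  haveI := Fintype.ofFinite (AA H)
  rw [Nat.card_eq_fintype_card, Fintype.card_subtype_compl, Fintype.card_subtype_eq, Nat.card_eq_fintype_card]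
  have : 0 < Fintype.card (AA H) := Fintype.card_pos
  omega

theorem LL_dvd [Finite K] (H : Subgroup (PG K)) : Nat.card (LL H) ∣ Nat.card (AA H) - 1 := by
  classical
  letI : MulAction (LL H) {b : AA H // b ≠ 0} :=
    { smul := fun a b => ⟨⟨(a : Kˣ) * (b.1 : K), LL_AA a.2 b.1.2⟩, fun h => b.2 (Subtype.ext (by
        have h1 : ((a : Kˣ) : K) * (b.1 : K) = 0 := congrArg Subtype.val h
        exact (mul_eq_zero.1 h1).resolve_left (a : Kˣ).ne_zero))⟩
      one_smul := fun b => Subtype.ext (Subtype.ext (one_mul _))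
      mul_smul := fun a a' b => Subtype.ext (Subtype.ext (mul_assoc _ _ _)) }
  have h1 := free_dvd (G := LL H) (Y := {b : AA H // b ≠ 0}) (by
    intro a b hab
    have h2 : ((a : Kˣ) : K) * (b.1 : K) = b.1 := congrArg (fun z : {b : AA H // b ≠ 0} => (z.1 : K)) hab
    have h3 : (b.1 : K) ≠ 0 := fun h => b.2 (Subtype.ext h)
    apply Subtype.ext
    apply Units.ext
    exact mul_right_cancel₀ h3 (h2.trans (one_mul _).symm))
  haveI := Fintype.ofFinite (AA H)
  rw [Nat.card_eq_fintype_card (α := {b : AA H // b ≠ 0}), Fintype.card_subtype_compl, Fintype.card_subtype_eq,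
    ← Nat.card_eq_fintype_card] at h1
  exact h1

theorem AA_dvd [Finite K] (H : Subgroup (PG K)) : ∃ m, Nat.card (orbit H (OnePoint.infty : PL K)) = 1 + Nat.card (AA H) * m := by
  classical
  let Y := {y : orbit H (OnePoint.infty : PL K) // y ≠ ⟨OnePoint.infty, mem_orbit_self _⟩}
  haveI : Finite (AA H) := inferInstance
  haveI : Finite (Multiplicative (AA H)) := ‹Finite (AA H)›
  haveI : Finite (PL K) := inferInstanceAs (Finite (Option K))
  haveI : Finite Y := Subtype.finite
  letI : MulAction (Multiplicative (AA H)) Y :=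
    { smul := fun a y => ⟨⟨aff 1 (a.toAdd : K) • (y.1 : PL K), (by
        obtain ⟨g, hg⟩ := y.1.2
        exact ⟨⟨aff 1 (a.toAdd : K), mem_AA.1 a.toAdd.2⟩ * g, (mul_smul _ _ _).trans (congrArg (fun z => aff 1 (a.toAdd : K) • z) hg)⟩)⟩, fun h => y.2 (Subtype.ext (by
        have h1 : aff 1 (a.toAdd : K) • (y.1 : PL K) = OnePoint.infty := congrArg Subtype.val h
        exact MulAction.injective _ (h1.trans (aff_infty 1 (a.toAdd : K)).symm)))⟩
      one_smul := fun y => Subtype.ext (Subtype.ext (by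
        change aff 1 ((0 : AA H) : K) • (y.1 : PL K) = y.1
        rw [ZeroMemClass.coe_zero, aff_one, one_smul]))
      mul_smul := fun a a' y => Subtype.ext (Subtype.ext (by
        change aff 1 ((a.toAdd + a'.toAdd : AA H) : K) • (y.1 : PL K) = aff 1 (a.toAdd : K) • aff 1 (a'.toAdd : K) • (y.1 : PL K)
        rw [← mul_smul, aff_mul, AddMemClass.coe_add, one_mul, Units.val_one, one_mul, add_comm])) }
  have h1 := free_dvd (G := Multiplicative (AA H)) (Y := Y) (by
    intro a y hay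
    by_contra ha
    have h2 : aff 1 (a.toAdd : K) • (y.1 : PL K) = y.1 := congrArg (fun z : Y => (z.1 : PL K)) hay
    have h3 : (a.toAdd : K) ≠ 0 := fun h => ha (by
      have : a.toAdd = 0 := Subtype.ext h
      exact this)
    exact y.2 (Subtype.ext (trans_fix h3 h2)))
  haveI : Finite (PL K) := inferInstanceAs (Finite (Option K))
  haveI : Finite (orbit H (OnePoint.infty : PL K)) := Set.toFinite _
  haveI := Fintype.ofFinite (orbit H (OnePoint.infty : PL K))
  obtain ⟨m, hm⟩ := h1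
  refine ⟨m, ?_⟩
  change Nat.card Y = Nat.card (AA H) * m at hm
  rw [← hm, Nat.card_eq_fintype_card (α := Y), Fintype.card_subtype_compl, Fintype.card_subtype_eq,
    ← Nat.card_eq_fintype_card]
  haveI : Nonempty (orbit H (OnePoint.infty : PL K)) := ⟨⟨_, mem_orbit_self _⟩⟩
  have : 0 < Nat.card (orbit H (OnePoint.infty : PL K)) := Nat.card_pos
  omega

theorem wild_num {Q m c N d sz r : ℕ} (hr : Q = r + 2) (hc0 : 0 < c) (hc : c ∣ Q - 1) (hN : N = (1 + Q * m) * (Q * c)) (hm : 1 ≤ m)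
    (hd : sz * d = N) (hsz : sz = 2 + (1 + Q * m) * (Q - 2)) :
    (Q = 2 ∧ sz = 2) ∨ (m = 1 ∧ (c = Q - 1 ∨ 2 * c = Q - 1)) ∨ (Q = 3 ∧ m = 3 ∧ c = 2 ∧ d = 5) := by
  subst hr
  have e1 : r + 2 - 1 = r + 1 := by omega
  have e2 : r + 2 - 2 = r := by omega
  rw [e1] at hc ⊢
  rw [e2] at hsz
  have h1 : sz = (r + 2) * (1 + m * r) := by rw [hsz]; ring
  have h2 : (1 + m * r) * d = (1 + (r + 2) * m) * c := by
    have : (r + 2) * ((1 + m * r) * d) = (r + 2) * ((1 + (r + 2) * m) * c) := by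
      calc (r + 2) * ((1 + m * r) * d) = sz * d := by rw [h1]; ring
        _ = N := hd
        _ = _ := by rw [hN]; ring
    exact Nat.eq_of_mul_eq_mul_left (by omega) this
  have h3 : (1 + m * r) ∣ 2 * c * m := by
    have h4 : (1 + m * r) ∣ (1 + (r + 2) * m) * c := ⟨d, h2.symm⟩
    have h5 : (1 + (r + 2) * m) * c = (1 + m * r) * c + 2 * c * m := by ring
    rw [h5] at h4
    exact (Nat.dvd_add_right (Dvd.intro _ rfl)).1 h4
  have h4 : (1 + m * r) ∣ 2 * c := by
    apply Nat.Coprime.dvd_of_dvd_mul_right _ h3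
    have : Nat.Coprime (1 + m * r) m := by
      rw [Nat.coprime_add_mul_left_left]
      exact Nat.coprime_one_left m
    exact this
  have h5 : c ≤ r + 1 := Nat.le_of_dvd (by omega) hc
  have h6 : 1 + m * r ≤ 2 * c := Nat.le_of_dvd (by omega) h4
  rcases Nat.eq_zero_or_pos r with hr0 | hr0
  · left
    subst hr0
    exact ⟨rfl, by rw [h1]; simp⟩
  right
  have h7 : m ≤ 3 := by
    by_contra h
    have : 4 * r ≤ m * r := Nat.mul_le_mul_right _ (by omega)
    omega
  interval_cases m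
  · left
    refine ⟨rfl, ?_⟩
    obtain ⟨t, ht⟩ := h4
    obtain ⟨s, hs⟩ := hc
    have ht2 : t ≤ 2 := by
      by_contra h
      have : (1 + 1 * r) * 3 ≤ (1 + 1 * r) * t := Nat.mul_le_mul_left _ (by omega)
      omega
    interval_cases t <;> omega
  · exfalso
    have h8 : (1 + 2 * r) ∣ c := by
      apply Nat.Coprime.dvd_of_dvd_mul_left _ h4
      rw [Nat.coprime_comm, Nat.coprime_add_mul_left_right]
      exact Nat.coprime_one_right 2
    have := Nat.le_of_dvd hc0 h8
    omega
  · have hr1 : r = 1 := by omega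
    subst hr1
    right
    have h9 : c ≤ 2 := h5
    interval_cases c
    · exfalso; norm_num at h4
    · refine ⟨rfl, rfl, rfl, ?_⟩
      omega

end

section

open scoped Classical in
theorem wild_cases (p : ℕ) [hp : Fact p.Prime] {K : Type*} [Field K] [Finite K] [CharP K p] (H : Subgroup (PG K)) (hH : ∀ h ∈ H, ∃ x : PL K, h • x = x) {u : H} (hu : u ∈ US H (OnePoint.infty : PL K)) :
    ∃ m, Nat.card (orbit H (OnePoint.infty : PL K)) = 1 + Nat.card (AA H) * m ∧
      Nat.card H = (1 + Nat.card (AA H) * m) * (Nat.card (AA H) * Nat.card (LL H)) ∧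
      (m = 0 ∨ (Nat.card (AA H) = 2 ∧ ∃ y : PL K, y ∉ orbit H (OnePoint.infty : PL K) ∧ Nat.card (orbit H y) = 2) ∨
        (m = 1 ∧ (Nat.card (LL H) = Nat.card (AA H) - 1 ∨ 2 * Nat.card (LL H) = Nat.card (AA H) - 1)) ∨
        (Nat.card (AA H) = 3 ∧ m = 3 ∧ Nat.card (LL H) = 2 ∧
          ∀ y : PL K, y ∉ orbit H (OnePoint.infty : PL K) → Nat.card (stabilizer H y) = 1 ∨ Nat.card (stabilizer H y) = 5)) := by
  haveI : Finite (PL K) := inferInstanceAs (Finite (Option K))
  haveI : Finite (PG K) := Finite.of_surjective _ Matrix.ProjGenLinGroup.mk_surjective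
  have hM := mob_of p H hH
  have hX : 2 ≤ Nat.card (PL K) := by
    cases nonempty_fintype K
    change 2 ≤ Nat.card (Option K)
    rw [Nat.card_eq_fintype_card, Fintype.card_option]
    have : 1 < Fintype.card K := Fintype.one_lt_card
    omega
  obtain ⟨m, hm⟩ := AA_dvd H
  refine ⟨m, hm, ?_⟩
  have hst := orb_stab (H := H) (OnePoint.infty : PL K)
  rw [hm, card_stab] at hst
  refine ⟨hst.symm, ?_⟩
  by_cases hm0 : m = 0
  · exact Or.inl hm0
  right
  have hUS := card_US H
  have hU0 : 0 < Nat.card (US H (OnePoint.infty : PL K)) := by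
    haveI : Nonempty (US H (OnePoint.infty : PL K)) := ⟨⟨u, hu⟩⟩
    exact Nat.card_pos
  have huni := card_uni hM hX hu
  rw [hm] at huni
  have hdv := LL_dvd H
  set Q := Nat.card (AA H) with hQ
  set c := Nat.card (LL H) with hc
  set N := Nat.card H with hN
  have hU : Nat.card (US H (OnePoint.infty : PL K)) = Q - 1 := by omega
  rw [hU] at huni
  cases nonempty_fintype (PL K)
  letI : Fintype (orbitRel.Quotient H (PL K)) := Fintype.ofFinite _
  have hf := formula hM hX
  rw [huni, ← hN] at hf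
  set ω₁ : orbitRel.Quotient H (PL K) := Quotient.mk'' OnePoint.infty with hω₁
  have hsz1 : sz ω₁ = 1 + Q * m := hm
  have hpos : ∀ x : PL K, 1 ≤ Nat.card (orbit H x) := by
    intro x
    haveI : Nonempty (orbit H x) := ⟨⟨x, mem_orbit_self x⟩⟩
    exact Nat.card_pos
  have hsplit : (N - sz ω₁) + ∑ ω ∈ Finset.univ.erase ω₁, (N - sz ω) = ∑ ω, (N - sz ω) :=
    Finset.add_sum_erase Finset.univ (fun ω => N - sz ω) (Finset.mem_univ ω₁)
  set T := (Finset.univ.erase ω₁).filter (fun ω : orbitRel.Quotient H (PL K) => sz ω < N) with hT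
  have hmem : ∀ ω : orbitRel.Quotient H (PL K), ω ∈ T ↔ ω ≠ ω₁ ∧ sz ω < N := fun ω => by rw [hT]; simp
  have hsumT : ∑ ω ∈ Finset.univ.erase ω₁, (N - sz ω) = ∑ ω ∈ T, (N - sz ω) := by
    rw [hT, Finset.sum_filter]
    refine Finset.sum_congr rfl (fun ω _ => ?_)
    split_ifs with h
    · rfl
    · omega
  have hc0 : 0 < c := by rw [hc]; exact Nat.card_pos
  have hQ2 : 2 ≤ Q := by omega
  have hle1 : 1 + Q * m ≤ N := by
    rw [← hst]
    exact Nat.le_mul_of_pos_right _ (Nat.mul_pos (by omega) hc0)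
  -- main identity
  have hid : ∑ ω ∈ T, (N - sz ω) + (2 + (1 + Q * m) * (Q - 2)) = N := by
    have h1 : (1 + Q * m) * (Q - 1) = (1 + Q * m) * (Q - 2) + (1 + Q * m) := by
      have : Q - 1 = (Q - 2) + 1 := by omega
      rw [this, mul_add, mul_one]
    rw [← hsplit, hsumT, hsz1, h1] at hf
    omega
  have hdat : ∀ x : PL K, (Quotient.mk'' x : orbitRel.Quotient H (PL K)) ∈ T → Nat.card (orbit H x) * Nat.card (stabilizer H x) = N ∧
      2 ≤ Nat.card (stabilizer H x) := by
    intro x hx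
    rw [hmem, sz_mk] at hx
    have h1 := orb_stab (H := H) x
    refine ⟨h1, ?_⟩
    by_contra h
    have h3 : 0 < Nat.card (stabilizer H x) := Nat.card_pos
    have h4 : Nat.card (stabilizer H x) = 1 := by omega
    rw [h4, mul_one] at h1
    omega
  have hhalf : ∀ ω ∈ T, N ≤ 2 * (N - sz ω) := by
    intro ω hω
    induction ω using Quotient.inductionOn' with | h x =>
    obtain ⟨h1, h2⟩ := hdat x hω
    rw [sz_mk]
    have : Nat.card (orbit H x) * 2 ≤ N := by rw [← h1]; exact Nat.mul_le_mul_left _ h2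
    omega
  have hcard1 : T.card * N ≤ 2 * (∑ ω ∈ T, (N - sz ω)) := by
    rw [Finset.mul_sum, ← smul_eq_mul, ← Finset.sum_const]
    exact Finset.sum_le_sum (fun ω hω => hhalf ω hω)
  have hT1 : T.card ≤ 1 := by
    by_contra h
    have : 2 * N ≤ T.card * N := Nat.mul_le_mul_right _ (by omega)
    omega
  have hm1 : 1 ≤ m := Nat.one_le_iff_ne_zero.2 hm0
  rcases Nat.eq_zero_or_pos T.card with hT0 | hT0
  · -- impossible
    exfalso
    rw [Finset.card_eq_zero.1 hT0, Finset.sum_empty, zero_add] at hid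
    have h1 : (1 + Q * m) ∣ 2 := by
      have h2 : (1 + Q * m) ∣ 2 + (1 + Q * m) * (Q - 2) := by
        rw [hid, ← hst]; exact Dvd.intro _ rfl
      exact (Nat.dvd_add_left (Dvd.intro _ rfl)).1 h2
    have h2 := Nat.le_of_dvd (by norm_num) h1
    have h3 : 2 * 1 ≤ Q * m := Nat.mul_le_mul hQ2 hm1
    omega
  · obtain ⟨ω₂, hω₂⟩ := Finset.card_eq_one.1 (show T.card = 1 by omega)
    obtain ⟨y, rfl⟩ := Quotient.mk''_surjective ω₂
    have hyT : (Quotient.mk'' y : orbitRel.Quotient H (PL K)) ∈ T := by rw [hω₂]; simp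
    obtain ⟨h1, h2⟩ := hdat y hyT
    rw [hω₂, Finset.sum_singleton, sz_mk] at hid
    have h3 : Nat.card (orbit H y) = 2 + (1 + Q * m) * (Q - 2) := by
      have h5 := ((hmem _).1 hyT).2
      rw [sz_mk] at h5
      omega
    have hynot : y ∉ orbit H (OnePoint.infty : PL K) := by
      intro h
      exact ((hmem _).1 hyT).1 (Quotient.eq''.2 h)
    obtain ⟨r, hr⟩ : ∃ r, Q = r + 2 := ⟨Q - 2, by omega⟩
    rcases wild_num hr hc0 hdv hst.symm hm1 h1 h3 with ⟨h4, h5⟩ | ⟨h4, h5⟩ | ⟨h4, h5, h6, h7⟩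
    · exact Or.inl ⟨h4, y, hynot, h5⟩
    · exact Or.inr (Or.inl ⟨h4, h5⟩)
    · refine Or.inr (Or.inr ⟨h4, h5, h6, fun z hz => ?_⟩)
      by_cases hz1 : Nat.card (stabilizer H z) = 1
      · exact Or.inl hz1
      right
      have hzT : (Quotient.mk'' z : orbitRel.Quotient H (PL K)) ∈ T := by
        rw [hmem, sz_mk]
        refine ⟨fun h => hz (Quotient.eq''.1 h), ?_⟩
        have h8 := orb_stab (H := H) z
        have h9 : 0 < Nat.card (stabilizer H z) := Nat.card_pos
        have h10 : 2 ≤ Nat.card (stabilizer H z) := by omega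
        have h11 : Nat.card (orbit H z) * 2 ≤ N := by rw [hN, ← h8]; exact Nat.mul_le_mul_left _ h10
        have := hpos z
        omega
      rw [hω₂, Finset.mem_singleton] at hzT
      have h8 := orb_stab (H := H) z
      rw [← sz_mk, hzT, sz_mk, ← hN, ← h1] at h8
      have := Nat.eq_of_mul_eq_mul_left (hpos y) h8
      rw [this, h7]

end

end CfsgH9.Dk
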