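import Cfsg.Agent.H9.Dk8
import Cfsg.Agent.H9.SLt3
import Cfsg.Agent.S0265

set_option autoImplicit false

open MulAction Matrix

namespace CfsgH9.Dk

theorem card_PG {F : Type*} [Field F] [Fintype F] : Nat.card (PG F) = Fintype.card F * (Fintype.card F - 1) * (Fintype.card F + 1) := by
  classical
  rw [Cfsg.Agent.S0265.result, SLt.card_SL2]

theorem map_injective {k K : Type*} [Field k] [Field K] (f : k →+* K) : Function.Injective (ProjGenLinGroup.map f : PG k →* PG K) := by
  rw [injective_iff_map_eq_one]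
  intro g hg
  induction g using ProjGenLinGroup.induction_on with | mk g =>
  rw [ProjGenLinGroup.map_mk, ← ProjGenLinGroup.mk_one, eq_comm] at hg
  rw [ProjGenLinGroup.mk_eq_mk_iff] at hg
  obtain ⟨u, hu⟩ := hg
  have hent : ∀ i j, f (g i j) = ((1 : GL (Fin 2) K) * GeneralLinearGroup.scalar (Fin 2) u : GL (Fin 2) K) i j := by
    intro i j
    rw [hu]
    rfl
  have h01 : g 0 1 = 0 := by
    apply f.injective
    rw [hent]
    simp
  have h10 : g 1 0 = 0 := by
    apply f.injective
    rw [hent]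
    simp
  have h00 : f (g 0 0) = u := by
    rw [hent]
    simp
  have h11 : f (g 1 1) = u := by
    rw [hent]
    simp
  have h2 : g 0 0 = g 1 1 := f.injective (h00.trans h11.symm)
  have hd := gl_det_ne g
  rw [h01, zero_mul, sub_zero] at hd
  rw [← ProjGenLinGroup.mk_one]
  symm
  refine mk_eq_of_smul (c := g 0 0) (left_ne_zero_of_mul hd) ?_ ?_ ?_ ?_
  · simp
  · simp [h01]
  · simp [h10]
  · simp [h2]

/-- an index two subgroup of `PGL₂` in odd characteristic -/
theorem index_two {F : Type*} [Field F] [Fintype F] (h2 : (2 : F) ≠ 0) (M : Subgroup (PG F)) (hM : M.index = 2) :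
    Nonempty (M ≃* ProjectiveSpecialLinearGroup (Fin 2) F) := by
  classical
  haveI : Finite (PG F) := Finite.of_surjective _ ProjGenLinGroup.mk_surjective
  let ι : SpecialLinearGroup (Fin 2) F →* PG F := ProjGenLinGroup.mk.comp SpecialLinearGroup.toGL
  have hle : (ProjectiveSpecialLinearGroup.toPGL : ProjectiveSpecialLinearGroup (Fin 2) F →* PG F).range ≤ M := by
    rintro _ ⟨x, rfl⟩
    obtain ⟨x, rfl⟩ := QuotientGroup.mk_surjective x
    rw [ProjectiveSpecialLinearGroup.toPGL_mk]
    refine SL2.transvection_induction (fun x => ι x ∈ M) ?_ ?_ x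
    · intro i j hij c
      have h3 : SpecialLinearGroup.transvection hij c = SpecialLinearGroup.transvection hij (c / 2) * SpecialLinearGroup.transvection hij (c / 2) := by
        rw [← SpecialLinearGroup.transvection_add]
        congr 1
        field_simp
        ring
      rw [h3, map_mul, ← pow_two]
      exact Subgroup.sq_mem_of_index_two hM _
    · intro A B hA hB
      change ι (A * B) ∈ M
      rw [map_mul]
      exact mul_mem hA hB
  have heq : (ProjectiveSpecialLinearGroup.toPGL : ProjectiveSpecialLinearGroup (Fin 2) F →* PG F).range = M := by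
    apply Subgroup.eq_of_le_of_card_ge hle
    have h4 : Nat.card (ProjectiveSpecialLinearGroup.toPGL : ProjectiveSpecialLinearGroup (Fin 2) F →* PG F).range =
        Nat.card (ProjectiveSpecialLinearGroup (Fin 2) F) := Nat.card_congr (MonoidHom.ofInjective ProjectiveSpecialLinearGroup.toPGL_injective).symm.toEquiv
    have h5 : 2 * Nat.card (ProjectiveSpecialLinearGroup (Fin 2) F) = Nat.card (SpecialLinearGroup (Fin 2) F) := SLt.card_PSL2 h2
    have h6 := Subgroup.card_mul_index M
    rw [hM, Cfsg.Agent.S0265.result] at h6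
    rw [h4]
    have h8 : Nat.card M = Nat.card (ProjectiveSpecialLinearGroup (Fin 2) F) := by omega
    exact h8.le
  rw [← heq]
  exact ⟨(MonoidHom.ofInjective ProjectiveSpecialLinearGroup.toPGL_injective).symm⟩

section ident

variable {K : Type*} [Field K] [Finite K]

/-- multipliers of the translation group -/
noncomputable def KF (A : AddSubgroup K) : Subfield K where
  carrier := {x | ∀ y ∈ A, x * y ∈ A}
  mul_mem' := fun {a b} ha hb y hy => by rw [mul_assoc]; exact ha _ (hb _ hy)
  one_mem' := fun y hy => by rw [one_mul]; exact hy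
  add_mem' := fun {a b} ha hb y hy => by rw [add_mul]; exact A.add_mem (ha _ hy) (hb _ hy)
  zero_mem' := fun y hy => by rw [zero_mul]; exact A.zero_mem
  neg_mem' := fun {a} ha y hy => by rw [neg_mul]; exact A.neg_mem (ha _ hy)
  inv_mem' := fun x hx y hy => by
    by_cases h0 : x = 0
    · rw [h0, _root_.inv_zero, zero_mul]; exact A.zero_mem
    have hinj : Function.Injective (fun z : A => (⟨x * z, hx z z.2⟩ : A)) := by
      intro a b hab
      apply Subtype.ext
      exact mul_left_cancel₀ h0 (congrArg Subtype.val hab)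
    obtain ⟨z, hz⟩ := (Finite.injective_iff_surjective.1 hinj) ⟨y, hy⟩
    have hz' : x * (z : K) = y := congrArg Subtype.val hz
    rw [← hz', ← mul_assoc, inv_mul_cancel₀ h0, one_mul]
    exact z.2

theorem mem_KF {A : AddSubgroup K} {x : K} : x ∈ KF A ↔ ∀ y ∈ A, x * y ∈ A := Iff.rfl

theorem KF_eq {A : AddSubgroup K} {L : Subgroup Kˣ} (h1 : (1 : K) ∈ A) (hL : ∀ a ∈ L, ∀ b ∈ A, ((a : Kˣ) : K) * b ∈ A)
    (hc : Nat.card A < 2 * (Nat.card L + 1)) (x : K) : x ∈ KF A ↔ x ∈ A := by
  have hle : (KF A).toAddSubgroup ≤ A := by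
    intro x hx
    have := (mem_KF.1 hx) 1 h1
    rwa [mul_one] at this
  have hcard : Nat.card L + 1 ≤ Nat.card (KF A).toAddSubgroup := by
    have h2 : Nat.card (Option L) ≤ Nat.card (KF A).toAddSubgroup := by
      refine Nat.card_le_card_of_injective (fun o : Option L => (match o with
        | none => ⟨0, (KF A).zero_mem⟩
        | some a => ⟨((a : Kˣ) : K), fun y hy => hL a a.2 y hy⟩ : (KF A).toAddSubgroup)) ?_
      rintro (_ | a) (_ | b) hab
      · rfl
      · exfalso
        exact (b : Kˣ).ne_zero (congrArg Subtype.val hab).symm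
      · exfalso
        exact (a : Kˣ).ne_zero (congrArg Subtype.val hab)
      · congr 1
        apply Subtype.ext
        apply Units.ext
        exact congrArg (fun z : (KF A).toAddSubgroup => (z : K)) hab
    rwa [Finite.card_option] at h2
  have heq : (KF A).toAddSubgroup = A := by
    apply SetLike.coe_injective
    apply Set.eq_of_subset_of_ncard_le hle _ (Set.toFinite _)
    have h3 := AddSubgroup.card_dvd_of_le hle
    obtain ⟨t, ht⟩ := h3
    have h4 : t = 1 := by
      have h5 : 0 < Nat.card A := Nat.card_pos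
      by_contra h
      rcases Nat.eq_zero_or_pos t with h0 | h0
      · rw [h0] at ht; omega
      · have : Nat.card (KF A).toAddSubgroup * 2 ≤ Nat.card (KF A).toAddSubgroup * t := Nat.mul_le_mul_left _ (by omega)
        omega
    rw [h4, mul_one] at ht
    change Set.ncard (A : Set K) ≤ Set.ncard ((KF A).toAddSubgroup : Set K)
    rw [← Nat.card_coe_set_eq, ← Nat.card_coe_set_eq]
    exact le_of_eq ht
  constructor
  · intro hx; exact hle hx
  · intro hx
    have : x ∈ (KF A).toAddSubgroup := by rw [heq]; exact hx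
    exact this

/-- the identification theorem -/
theorem ident (H : Subgroup (PG K)) (h1 : aff 1 1 ∈ H) (h0 : ((0 : K) : PL K) ∈ orbit H (OnePoint.infty : PL K))
    (horb : Nat.card (orbit H (OnePoint.infty : PL K)) = 1 + Nat.card (AA H))
    (hc : Nat.card (LL H) = Nat.card (AA H) - 1 ∨ 2 * Nat.card (LL H) = Nat.card (AA H) - 1) :
    Nat.card (KF (AA H)) = Nat.card (AA H) ∧ H ≤ (ProjGenLinGroup.map (KF (AA H)).subtype : PG (KF (AA H)) →* PG K).range := by
  classical
  haveI : Finite (PL K) := inferInstanceAs (Finite (Option K))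
  have hA1 : (1 : K) ∈ AA H := h1
  have hApos : 2 ≤ Nat.card (AA H) := by
    have : 1 < Nat.card (AA H) := by
      rw [Finite.one_lt_card_iff_nontrivial]
      exact ⟨⟨1, hA1⟩, 0, fun h => one_ne_zero (congrArg Subtype.val h)⟩
    omega
  have hKF : ∀ x : K, x ∈ KF (AA H) ↔ x ∈ AA H := KF_eq hA1 (fun a ha b hb => LL_AA ha hb) (by omega)
  have hcardKF : Nat.card (KF (AA H)) = Nat.card (AA H) := Nat.card_congr (Equiv.subtypeEquivRight hKF)
  refine ⟨hcardKF, ?_⟩
  -- the orbit
  have hsub : ∀ k : K, k ∈ AA H → (k : PL K) ∈ orbit H (OnePoint.infty : PL K) := by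
    intro k hk
    obtain ⟨g, hg⟩ := h0
    refine ⟨⟨aff 1 k, hk⟩ * g, ?_⟩
    have hg' : g • (OnePoint.infty : PL K) = ((0 : K) : PL K) := hg
    change (⟨aff 1 k, hk⟩ * g : H) • (OnePoint.infty : PL K) = (k : PL K)
    rw [mul_smul, hg']
    change aff 1 k • ((0 : K) : PL K) = _
    rw [aff_coe, mul_zero, zero_add]
  have hset : orbit H (OnePoint.infty : PL K) = insert OnePoint.infty ((fun k : K => (k : PL K)) '' (AA H : Set K)) := by
    symm
    apply Set.eq_of_subset_of_ncard_le _ _ (Set.toFinite _)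
    · intro z hz
      rcases hz with rfl | ⟨k, hk, rfl⟩
      · exact mem_orbit_self _
      · exact hsub k hk
    · rw [← Nat.card_coe_set_eq, horb, Set.ncard_insert_of_notMem _ (Set.toFinite _),
        Set.ncard_image_of_injective _ (fun a b h => OnePoint.coe_injective h), ← Nat.card_coe_set_eq]
      · exact le_of_eq (add_comm _ _)
      · rintro ⟨k, -, hk⟩
        exact OnePoint.coe_ne_infty _ hk
  have hmemO : ∀ k : K, (k : PL K) ∈ orbit H (OnePoint.infty : PL K) → k ∈ AA H := by
    intro k hk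
    rw [hset] at hk
    rcases hk with hk | ⟨k', hk', h⟩
    · exact absurd hk (OnePoint.coe_ne_infty _)
    · rw [← OnePoint.coe_injective h]; exact hk'
  -- the involution
  have hw : ∃ w ∈ H, w • (OnePoint.infty : PL K) = ((0 : K) : PL K) ∧ w • ((0 : K) : PL K) = OnePoint.infty := by
    obtain ⟨h, hh⟩ := h0
    have hh' : (h : PG K) • (OnePoint.infty : PL K) = ((0 : K) : PL K) := hh
    have e1 : (h : PG K)⁻¹ • ((0 : K) : PL K) = OnePoint.infty := by rw [← hh', inv_smul_smul]
    have e2 : (h : PG K)⁻¹ • (OnePoint.infty : PL K) ≠ OnePoint.infty := by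
      intro e
      have : (OnePoint.infty : PL K) = ((0 : K) : PL K) := by rw [← hh', ← e, smul_inv_smul, e]
      exact OnePoint.infty_ne_coe _ this
    obtain ⟨b, hb⟩ := OnePoint.ne_infty_iff_exists.1 e2
    have hbA : b ∈ AA H := by
      apply hmemO
      rw [hb]
      exact ⟨h⁻¹, rfl⟩
    refine ⟨(h : PG K) * aff 1 b * (h : PG K)⁻¹ * h, mul_mem (mul_mem (mul_mem h.2 hbA) (inv_mem h.2)) h.2, ?_, ?_⟩
    · rw [mul_smul, hh', mul_smul, mul_smul, e1, aff_infty, hh']
    · rw [inv_mul_cancel_right, mul_smul, aff_coe, mul_zero, zero_add, hb, smul_inv_smul]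
  obtain ⟨w, hwH, hw1, hw2⟩ := hw
  -- elements of the range
  set φ := (ProjGenLinGroup.map (KF (AA H)).subtype : PG (KF (AA H)) →* PG K) with hφ
  have haffr : ∀ (a : Kˣ) (b : K), (a : K) ∈ KF (AA H) → b ∈ KF (AA H) → aff a b ∈ φ.range := by
    intro a b ha hb
    have ha0 : (⟨(a : K), ha⟩ : KF (AA H)) ≠ 0 := fun h => a.ne_zero (congrArg Subtype.val h)
    refine ⟨aff (Units.mk0 ⟨(a : K), ha⟩ ha0) ⟨b, hb⟩, ?_⟩
    rw [aff, aff, hφ, ProjGenLinGroup.map_mk]
    congr 1
    ext i j
    fin_cases i <;> fin_cases j <;> simp [affGL, GeneralLinearGroup.mkOfDetNeZero]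
  have hwr : w ∈ φ.range := by
    have hw3 : w • ((1 : K) : PL K) ∈ orbit H (OnePoint.infty : PL K) := by
      obtain ⟨g, hg⟩ := hsub 1 hA1
      have hg' : (g : PG K) • (OnePoint.infty : PL K) = ((1 : K) : PL K) := hg
      refine ⟨⟨w, hwH⟩ * g, ?_⟩
      change (w * (g : PG K)) • (OnePoint.infty : PL K) = _
      rw [mul_smul, hg']
    induction w using ProjGenLinGroup.induction_on with | mk g =>
    rw [mk_infty] at hw1
    rw [mk_coe] at hw2 hw3
    have h10 : g 1 0 ≠ 0 := by
      intro h0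
      rw [if_pos h0] at hw1
      exact OnePoint.infty_ne_coe _ hw1
    rw [if_neg h10, OnePoint.coe_eq_coe, div_eq_zero_iff] at hw1
    have h00 : g 0 0 = 0 := hw1.resolve_right h10
    have h11 : g 1 1 = 0 := by
      by_contra h0
      rw [mul_zero, zero_add, if_neg h0] at hw2
      exact OnePoint.coe_ne_infty _ hw2
    rw [h11, add_zero, mul_one, if_neg h10, h00, zero_mul, zero_add] at hw3
    have hμ : g 0 1 / g 1 0 ∈ KF (AA H) := (hKF _).2 (hmemO _ hw3)
    have hd := gl_det_ne g
    rw [h00, h11, mul_zero, zero_sub, neg_ne_zero] at hd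
    have h01 : g 0 1 ≠ 0 := left_ne_zero_of_mul hd
    have hμ0 : (⟨g 0 1 / g 1 0, hμ⟩ : KF (AA H)) ≠ 0 := fun h => div_ne_zero h01 h10 (congrArg Subtype.val h)
    refine ⟨ProjGenLinGroup.mk (GeneralLinearGroup.mkOfDetNeZero !![(0 : KF (AA H)), ⟨g 0 1 / g 1 0, hμ⟩; 1, 0] (by
      rw [Matrix.det_fin_two_of]; simpa using hμ0)), ?_⟩
    rw [hφ, ProjGenLinGroup.map_mk]
    refine mk_eq_of_smul (c := g 1 0) h10 ?_ ?_ ?_ ?_
    · simp [GeneralLinearGroup.mkOfDetNeZero, h00]
    · simp [GeneralLinearGroup.mkOfDetNeZero]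
      field_simp
    · simp [GeneralLinearGroup.mkOfDetNeZero]
    · simp [GeneralLinearGroup.mkOfDetNeZero, h11]
  -- elements fixing infinity
  have hfix : ∀ h ∈ H, h • (OnePoint.infty : PL K) = OnePoint.infty → h ∈ φ.range := by
    intro h hh hi
    obtain ⟨a, b, rfl⟩ := stab_infty hi
    have ha : (a : K) ∈ AA H := by
      have := LL_AA (H := H) ⟨b, hh⟩ hA1
      rwa [mul_one] at this
    have hb : b ∈ AA H := by
      apply hmemO
      obtain ⟨g, hg⟩ := h0
      have hg' : (g : PG K) • (OnePoint.infty : PL K) = ((0 : K) : PL K) := hg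
      refine ⟨⟨aff a b, hh⟩ * g, ?_⟩
      change (aff a b * (g : PG K)) • (OnePoint.infty : PL K) = _
      rw [mul_smul, hg', aff_coe, mul_zero, zero_add]
    exact haffr a b ((hKF _).2 ha) ((hKF _).2 hb)
  intro h hh
  by_cases hi : h • (OnePoint.infty : PL K) = OnePoint.infty
  · exact hfix h hh hi
  obtain ⟨k, hk⟩ := OnePoint.ne_infty_iff_exists.1 hi
  have hkA : k ∈ AA H := hmemO k ⟨⟨h, hh⟩, hk.symm⟩
  have h3 : w⁻¹ * aff 1 (-k) * h ∈ φ.range := by
    apply hfix
    · exact mul_mem (mul_mem (inv_mem hwH) ((AA H).neg_mem hkA)) hh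
    · rw [mul_smul, ← hk, mul_smul, aff_coe, Units.val_one, one_mul, add_neg_cancel, ← hw1, inv_smul_smul]
  have h4 : h = (aff 1 (-k))⁻¹ * w * (w⁻¹ * aff 1 (-k) * h) := by group
  rw [h4]
  exact mul_mem (mul_mem (inv_mem (haffr 1 (-k) (one_mem _) ((hKF _).2 ((AA H).neg_mem hkA)))) hwr) h3

end ident

end CfsgH9.Dk
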