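import Mathlib
import Cfsg.Prelude.Def_GeometricClasses

set_option autoImplicit false

/-! Normalisers of fields of matrices of composite degree. -/

namespace CfsgH9.FieldNorm

open Cfsg Cfsg.Geo Matrix

variable {n : ℕ} {F : Type*} [Field F] [Fintype F]

/-- elements from the cyclic multiplicative group -/
theorem exists_gen {K : Type*} [Field K] [Fintype K] [Algebra F K] {r l : ℕ} (hr : Module.finrank F K = r) (hl : 1 < l) (hlr : l ∣ r) (hlt : l < r) :
    (∃ k : K, k ^ (Fintype.card F ^ l) ≠ k) ∧ ∃ y : K, y ^ (Fintype.card F ^ l) = y ∧ ∀ c : F, y ≠ algebraMap F K c := by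
  classical
  set q := Fintype.card F with hq
  have hq1 : 1 < q := Fintype.one_lt_card
  have hcard : Fintype.card K = q ^ r := by rw [Module.card_eq_pow_finrank (K := F) (V := K), hr]
  obtain ⟨g, hg⟩ := IsCyclic.exists_generator (α := Kˣ)
  have hord : orderOf g = q ^ r - 1 := by
    rw [orderOf_eq_card_of_forall_mem_zpowers hg, Nat.card_eq_fintype_card, Fintype.card_units, hcard]
  have hlr' : q ^ l < q ^ r := Nat.pow_lt_pow_right hq1 hlt
  have h1l : 1 < q ^ l := Nat.one_lt_pow (by omega) hq1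
  constructor
  · refine ⟨(g : K), ?_⟩
    intro h
    have h1 : g ^ (q ^ l - 1) = 1 := by
      have h2 : g ^ (q ^ l) = g := Units.ext (by rw [Units.val_pow_eq_pow_val]; exact h)
      have h3 : g ^ (q ^ l - 1) * g = g := by rw [← pow_succ, Nat.sub_add_cancel h1l.le]; exact h2
      exact mul_eq_right.1 h3
    have h2 := orderOf_dvd_of_pow_eq_one h1
    rw [hord] at h2
    have := Nat.le_of_dvd (by omega) h2
    omega
  · obtain ⟨s, rfl⟩ := hlr
    have hdvd : q ^ l - 1 ∣ q ^ (l * s) - 1 := by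
      rw [pow_mul]
      exact Nat.sub_one_dvd_pow_sub_one _ _
    obtain ⟨m, hm⟩ := hdvd
    have hm0 : 0 < m := by
      rcases Nat.eq_zero_or_pos m with h | h
      · rw [h, mul_zero] at hm; omega
      · exact h
    have h1 : (g ^ m) ^ (q ^ l - 1) = 1 := by
      rw [← pow_mul, mul_comm, ← hm, ← hord, pow_orderOf_eq_one]
    refine ⟨((g ^ m : Kˣ) : K), ?_, ?_⟩
    · have h2 : (g ^ m) ^ (q ^ l) = g ^ m := by
        rw [← Nat.sub_add_cancel h1l.le, pow_succ, h1, one_mul]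
      rw [← Units.val_pow_eq_pow_val, h2]
    · intro c hc
      have hc0 : c ≠ 0 := by
        rintro rfl
        rw [map_zero] at hc
        exact (g ^ m).ne_zero hc
      have h2 : (g ^ m) ^ (q - 1) = 1 := by
        apply Units.ext
        rw [Units.val_pow_eq_pow_val, hc, ← map_pow, hq, FiniteField.pow_card_sub_one_eq_one c hc0, map_one, Units.val_one]
      rw [← pow_mul] at h2
      have h3 := orderOf_dvd_of_pow_eq_one h2
      rw [hord, hm, mul_comm m] at h3
      have h4 := Nat.dvd_of_mul_dvd_mul_right hm0 h3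
      have h5 := Nat.le_of_dvd (by omega) h4
      have h6 : q ^ 1 < q ^ l := Nat.pow_lt_pow_right hq1 hl
      rw [pow_one] at h6
      omega

/-- the intermediate subfield -/
def LL (q : ℕ) (l : ℕ) (K : Subalgebra F (Matrix (Fin n) (Fin n) F)) (hq : q = Fintype.card F) (hn : 0 < n)
    (hK : ∀ x ∈ K, ∀ y ∈ K, x * y = y * x) : Subalgebra F (Matrix (Fin n) (Fin n) F) where
  carrier := {x | x ∈ K ∧ x ^ (q ^ l) = x}
  mul_mem' {x y} hx hy := by
    refine ⟨K.mul_mem hx.1 hy.1, ?_⟩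
    have hc : Commute x y := hK x hx.1 y hy.1
    rw [hc.mul_pow, hx.2, hy.2]
  add_mem' {x y} hx hy := by
    refine ⟨K.add_mem hx.1 hy.1, ?_⟩
    have hc : Commute x y := hK x hx.1 y hy.1
    haveI : Nonempty (Fin n) := ⟨⟨0, hn⟩⟩
    obtain ⟨p, hp⟩ := CharP.exists F
    haveI := hp
    haveI : Fact p.Prime := ⟨CharP.char_is_prime F p⟩
    obtain ⟨k, -, hk⟩ := FiniteField.card F p
    have h1 : q ^ l = p ^ ((k : ℕ) * l) := by rw [hq, hk, pow_mul]
    haveI : ExpChar (Matrix (Fin n) (Fin n) F) p := ExpChar.prime Fact.out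
    have h2 := add_pow_expChar_pow_of_commute p ((k : ℕ) * l) hc
    rw [h1] at hx hy ⊢
    rw [h2, hx.2, hy.2]
  algebraMap_mem' c := by
    refine ⟨K.algebraMap_mem c, ?_⟩
    rw [← map_pow]
    congr 1
    rw [hq]
    exact FiniteField.pow_card_pow l c

lemma kill {K : Subalgebra F (Matrix (Fin n) (Fin n) F)} (hc : ∀ x ∈ K, ∀ y ∈ K, x * y = y * x) (hi : ∀ x ∈ K, x ≠ 0 → ∃ y ∈ K, x * y = 1)
    {x : Matrix (Fin n) (Fin n) F} (hx : x ∈ K) {v : Fin n → F} (hv : v ≠ 0) (h : x *ᵥ v = 0) : x = 0 := by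
  by_contra h0
  obtain ⟨y, hy, hxy⟩ := hi x hx h0
  apply hv
  rw [← one_mulVec v, ← hxy, hc x hx y hy, ← mulVec_mulVec, h, mulVec_zero]

theorem exists_moveL {K L : Subalgebra F (Matrix (Fin n) (Fin n) F)} (hn : 3 ≤ n) (hc : ∀ x ∈ K, ∀ y ∈ K, x * y = y * x)
    (hi : ∀ x ∈ K, x ≠ 0 → ∃ y ∈ K, x * y = 1) (hLK : L ≤ K) {y : Matrix (Fin n) (Fin n) F} (hy : y ∈ L)
    (hys : ∀ c : F, y ≠ algebraMap F _ c) : ∃ t : GL (Fin n) F, t ∈ specialLinear (Fin n) F ∧ t ∉ subalgebraNormalizer L := by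
  by_contra hcon
  push Not at hcon
  have key : ∀ i j : Fin n, i ≠ j → Commute (Matrix.single i j (1 : F)) y := by
    intro i j hij
    obtain ⟨S, hS⟩ : ∃ S, S = Matrix.single i j (1 : F) := ⟨_, rfl⟩
    have hSS : S * S = 0 := by rw [hS, Matrix.single_mul_single_of_ne]; exact hij.symm
    have hSv : ∀ v : Fin n → F, v j = 0 → S *ᵥ v = 0 := by
      intro v hv
      rw [hS, Matrix.single_mulVec, hv]
      simp
    let t : GL (Fin n) F := ⟨1 + S, 1 - S, by rw [mul_sub, add_mul, add_mul, hSS]; simp, by rw [sub_mul, mul_add, mul_add, hSS]; simp⟩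
    have htS : t ∈ specialLinear (Fin n) F := by
      show Matrix.GeneralLinearGroup.det t = 1
      apply Units.ext
      show (1 + S).det = 1
      rw [hS]
      exact Matrix.det_transvection_of_ne i j hij 1
    have h1 := (hcon t htS y).1 hy
    have h2 : (1 + S) * y * (1 - S) ∈ L := h1
    have h3 : (1 + S) * y * (1 - S) - y ∈ K := K.sub_mem (hLK h2) (hLK hy)
    let φ : (Fin n → F) →ₗ[F] (F × F) := (LinearMap.proj j).prod ((LinearMap.proj j).comp (Matrix.toLin' y))
    have hk : LinearMap.ker φ ≠ ⊥ := by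
      apply LinearMap.ker_ne_bot_of_finrank_lt
      rw [Module.finrank_prod, Module.finrank_self, Module.finrank_fintype_fun_eq_card, Fintype.card_fin]
      omega
    obtain ⟨v, hv, hv0⟩ := (Submodule.ne_bot_iff _).1 hk
    have h4 : φ v = 0 := hv
    have e1 : v j = 0 := congrArg Prod.fst h4
    have e2 : (y *ᵥ v) j = 0 := congrArg Prod.snd h4
    have h5 : ((1 + S) * y * (1 - S) - y) *ᵥ v = 0 := by
      rw [sub_mulVec, ← mulVec_mulVec, ← mulVec_mulVec, sub_mulVec, hSv v e1, one_mulVec, sub_zero, add_mulVec, hSv _ e2, one_mulVec, add_zero, sub_self]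
    have h6 := sub_eq_zero.1 (kill hc hi h3 hv0 h5)
    have h7 : (1 + S) * y = y * (1 + S) := by
      have h8 := congrArg (fun z => z * (1 + S)) h6
      rw [mul_assoc, show (1 - S) * (1 + S) = 1 from by rw [sub_mul, mul_add, mul_add, hSS]; simp, mul_one] at h8
      exact h8
    rw [add_mul, mul_add, one_mul, mul_one] at h7
    rw [← hS]
    exact add_left_cancel h7
  obtain ⟨c, hc'⟩ := Matrix.mem_range_scalar_of_commute_single (fun i j hij => key i j hij)
  exact hys c hc'.symm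

lemma dual_exists {E V : Type*} [Field E] [AddCommGroup V] [Module E V] {w v0 : V} (h : v0 ∉ Submodule.span E {w}) :
    ∃ Ψ : V →ₗ[E] E, Ψ v0 = 1 ∧ Ψ w = 0 := by
  obtain ⟨ψ, hψ, hW⟩ := Submodule.exists_dual_map_eq_bot_of_notMem h inferInstance
  have hψw : ψ w = 0 := by
    have : ψ w ∈ (Submodule.span E {w}).map ψ := ⟨w, Submodule.mem_span_singleton_self w, rfl⟩
    rwa [hW, Submodule.mem_bot] at this
  refine ⟨(ψ v0)⁻¹ • ψ, ?_, ?_⟩
  · rw [LinearMap.smul_apply, smul_eq_mul, inv_mul_cancel₀ hψ]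
  · rw [LinearMap.smul_apply, hψw, smul_zero]

/-- a functional over the subfield -/
theorem exists_phi {L : Subalgebra F (Matrix (Fin n) (Fin n) F)} (hn : 0 < n) (hc : ∀ x ∈ L, ∀ y ∈ L, x * y = y * x)
    (hi : ∀ x ∈ L, x ≠ 0 → ∃ y ∈ L, x * y = 1) {w v0 : Fin n → F} (hw : ∀ x ∈ L, x *ᵥ w ≠ v0) :
    ∃ Φ : (Fin n → F) →ₗ[F] L, (∀ x ∈ L, ∀ v, (Φ (x *ᵥ v) : Matrix (Fin n) (Fin n) F) = x * (Φ v : Matrix (Fin n) (Fin n) F)) ∧ Φ v0 = 1 ∧ Φ w = 0 := by
  haveI : Nonempty (Fin n) := ⟨⟨0, hn⟩⟩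
  have hfield : IsField L :=
    { exists_pair_ne := ⟨0, 1, fun h => by
        have := congrArg Subtype.val h
        exact zero_ne_one this⟩
      mul_comm := fun x y => Subtype.ext (hc x x.2 y y.2)
      mul_inv_cancel := fun {x} hx => by
        obtain ⟨y, hy, hxy⟩ := hi x x.2 (fun h => hx (Subtype.ext h))
        exact ⟨⟨y, hy⟩, Subtype.ext hxy⟩ }
  letI : Field L := hfield.toField
  letI : Module L (Fin n → F) :=
    { smul := fun x v => (x : Matrix (Fin n) (Fin n) F) *ᵥ v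
      one_smul := fun v => one_mulVec v
      mul_smul := fun x y v => (mulVec_mulVec v (x : Matrix (Fin n) (Fin n) F) (y : Matrix (Fin n) (Fin n) F)).symm
      smul_zero := fun x => mulVec_zero _
      smul_add := fun x v w => mulVec_add _ _ _
      add_smul := fun x y v => add_mulVec _ _ _
      zero_smul := fun v => zero_mulVec _ }
  have hsm : ∀ (x : L) (v : Fin n → F), x • v = (x : Matrix (Fin n) (Fin n) F) *ᵥ v := fun x v => rfl
  have hn' : v0 ∉ Submodule.span L {w} := by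
    intro h
    obtain ⟨x, hx⟩ := Submodule.mem_span_singleton.1 h
    exact hw x x.2 hx
  obtain ⟨Ψ, hΨ0, hΨw⟩ := dual_exists hn'
  refine ⟨{ toFun := fun v => Ψ v, map_add' := fun v w => map_add Ψ v w, map_smul' := ?_ }, ?_, hΨ0, hΨw⟩
  · intro c v
    have h1 : c • v = (algebraMap F L c : L) • v := by
      rw [hsm]
      have : ((algebraMap F L c : L) : Matrix (Fin n) (Fin n) F) = algebraMap F _ c := rfl
      rw [this, Matrix.algebraMap_eq_diagonal]
      funext i
      rw [mulVec_diagonal]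
      rfl
    have h2 : Ψ (c • v) = (algebraMap F L c : L) * Ψ v := by
      rw [h1]
      exact map_smul Ψ _ v
    rw [RingHom.id_apply]
    show Ψ (c • v) = c • Ψ v
    rw [h2]
    apply Subtype.ext
    show ((algebraMap F L c : L) : Matrix (Fin n) (Fin n) F) * _ = c • _
    have : ((algebraMap F L c : L) : Matrix (Fin n) (Fin n) F) = algebraMap F _ c := rfl
    rw [this, ← Algebra.smul_def]
  · intro x hx v
    have h2 : Ψ ((⟨x, hx⟩ : L) • v) = (⟨x, hx⟩ : L) * Ψ v := map_smul Ψ _ v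
    exact congrArg Subtype.val h2

theorem exists_g {K L : Subalgebra F (Matrix (Fin n) (Fin n) F)} {r : ℕ} (hr0 : 0 < r) (hn : 2 * r ≤ n) (hc : ∀ x ∈ K, ∀ y ∈ K, x * y = y * x)
    (hi : ∀ x ∈ K, x ≠ 0 → ∃ y ∈ K, x * y = 1) (hLK : L ≤ K) (hr : Module.finrank F K = r)
    (hiL : ∀ x ∈ L, x ≠ 0 → ∃ y ∈ L, x * y = 1) {k : Matrix (Fin n) (Fin n) F} (hk : k ∈ K) (hkL : k ∉ L) :
    ∃ g : GL (Fin n) F, g ∈ specialLinear (Fin n) F ∧ g ∈ subalgebraNormalizer L ∧ g ∉ subalgebraNormalizer K := by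
  have hcL : ∀ x ∈ L, ∀ y ∈ L, x * y = y * x := fun x hx y hy => hc x (hLK hx) y (hLK hy)
  have hlt : Module.finrank F L < r := by
    rw [← hr]
    have h1 : Subalgebra.toSubmodule L < Subalgebra.toSubmodule K := by
      refine lt_of_le_of_ne hLK ?_
      intro h
      apply hkL
      have : k ∈ Subalgebra.toSubmodule L := by rw [h]; exact hk
      exact this
    exact Submodule.finrank_lt_finrank_of_lt h1
  obtain ⟨w, hw0⟩ : ∃ w : Fin n → F, w ≠ 0 := ⟨Pi.single ⟨0, by omega⟩ 1, by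
    intro h
    have := congrFun h ⟨0, by omega⟩
    rw [Pi.single_eq_same, Pi.zero_apply] at this
    exact one_ne_zero this⟩
  obtain ⟨v0, hv0⟩ : ∃ v0 : Fin n → F, ∀ x ∈ L, x *ᵥ w ≠ v0 := by
    by_contra hcon
    push Not at hcon
    let τ : L →ₗ[F] (Fin n → F) :=
      { toFun := fun x => (x : Matrix (Fin n) (Fin n) F) *ᵥ w
        map_add' := fun x y => add_mulVec _ _ _
        map_smul' := fun c x => smul_mulVec _ _ _ }
    have hs : Function.Surjective τ := by
      intro v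
      obtain ⟨x, hx, hxv⟩ := hcon v
      exact ⟨⟨x, hx⟩, hxv⟩
    have h1 := LinearMap.finrank_range_le τ
    rw [LinearMap.range_eq_top.2 hs, finrank_top, Module.finrank_fintype_fun_eq_card, Fintype.card_fin] at h1
    omega
  obtain ⟨Φ, hΦ, hΦ0, hΦw⟩ := exists_phi (by omega) hcL hiL hv0
  -- the nilpotent map
  let Nl : (Fin n → F) →ₗ[F] (Fin n → F) :=
    { toFun := fun v => (Φ v : Matrix (Fin n) (Fin n) F) *ᵥ w
      map_add' := fun x y => by rw [map_add]; exact add_mulVec _ _ _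
      map_smul' := fun c x => by rw [map_smul]; exact smul_mulVec _ _ _ }
  obtain ⟨N, hN⟩ : ∃ N, N = LinearMap.toMatrix' Nl := ⟨_, rfl⟩
  have hNv : ∀ v, N *ᵥ v = (Φ v : Matrix (Fin n) (Fin n) F) *ᵥ w := by
    intro v
    rw [hN, LinearMap.toMatrix'_mulVec]; rfl
  have hNN : N * N = 0 := by
    apply Matrix.ext_of_mulVec_single
    intro i
    rw [← mulVec_mulVec, hNv (Pi.single i 1), hNv, hΦ _ (Φ _).2, hΦw, zero_mulVec]
    show ((Φ (Pi.single i 1) : Matrix (Fin n) (Fin n) F) * (0 : Matrix (Fin n) (Fin n) F)) *ᵥ w = 0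
    rw [mul_zero, zero_mulVec]
  have hNL : ∀ x ∈ L, N * x = x * N := by
    intro x hx
    apply Matrix.ext_of_mulVec_single
    intro i
    rw [← mulVec_mulVec, ← mulVec_mulVec, hNv, hNv, hΦ x hx, mulVec_mulVec]
  let g : GL (Fin n) F := ⟨1 + N, 1 - N, by rw [mul_sub, add_mul, add_mul, hNN]; simp, by rw [sub_mul, mul_add, mul_add, hNN]; simp⟩
  have hgi : ((g⁻¹ : GL (Fin n) F) : Matrix (Fin n) (Fin n) F) = 1 - N := rfl
  have hgv : (g : Matrix (Fin n) (Fin n) F) = 1 + N := rfl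
  have hcomm : ∀ x ∈ L, (1 + N) * x * (1 - N) = x := by
    intro x hx
    have : (1 + N) * x = x * (1 + N) := by rw [add_mul, mul_add, hNL x hx]; simp
    rw [this, mul_assoc, show (1 + N) * (1 - N) = 1 from g.val_inv, mul_one]
  refine ⟨g, ?_, ?_, ?_⟩
  · show Matrix.GeneralLinearGroup.det g = 1
    apply Units.ext
    show (1 + N).det = 1
    obtain ⟨p, hp⟩ := CharP.exists F
    haveI := hp
    haveI : Fact p.Prime := ⟨CharP.char_is_prime F p⟩
    have hpow : ∀ m : ℕ, (1 + N) ^ m = 1 + (m : Matrix (Fin n) (Fin n) F) * N := by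
      intro m
      induction m with
      | zero => simp
      | succ m ih =>
        rw [pow_succ, ih, mul_add, mul_one, add_mul, one_mul, mul_assoc, hNN, mul_zero, add_zero, Nat.cast_succ, add_mul, one_mul]
        abel
    have h1 := congrArg Matrix.det (hpow p)
    have h2 : ((p : ℕ) : Matrix (Fin n) (Fin n) F) = 0 := by
      haveI : Nonempty (Fin n) := ⟨⟨0, by omega⟩⟩
      exact CharP.cast_eq_zero _ p
    rw [h2, zero_mul, add_zero, det_one, det_pow] at h1
    have h3 : ((1 + N).det - 1) ^ p = 0 := by rw [sub_pow_char, h1, one_pow, sub_self]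
    exact sub_eq_zero.1 (pow_eq_zero_iff (Fact.out : p.Prime).ne_zero |>.1 h3)
  · intro x
    rw [hgv, hgi]
    constructor
    · intro hx
      rw [hcomm x hx]; exact hx
    · intro hx
      have h1 := hcomm _ hx
      have h2 : (1 - N) * ((1 + N) * x * (1 - N)) * (1 + N) = x := by
        have e1 : (1 - N) * (1 + N) = 1 := g.inv_val
        calc (1 - N) * ((1 + N) * x * (1 - N)) * (1 + N) = ((1 - N) * (1 + N)) * x * ((1 - N) * (1 + N)) := by noncomm_ring
          _ = x := by rw [e1, one_mul, mul_one]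
      have h3 : (1 - N) * ((1 + N) * x * (1 - N)) * (1 + N) = (1 + N) * x * (1 - N) := by
        have e1 : (1 - N) * (1 + N) = 1 := g.inv_val
        conv_lhs => rw [← h1]
        calc (1 - N) * ((1 + N) * ((1 + N) * x * (1 - N)) * (1 - N)) * (1 + N)
            = ((1 - N) * (1 + N)) * ((1 + N) * x * (1 - N)) * ((1 - N) * (1 + N)) := by noncomm_ring
          _ = _ := by rw [e1, one_mul, mul_one]
      rw [← h2, h3]; exact hx
  · intro hg
    have hk' := (hg k).1 hk
    rw [hgv, hgi] at hk'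
    obtain ⟨k', hk'e⟩ : ∃ k', k' = (1 + N) * k * (1 - N) := ⟨_, rfl⟩
    rw [← hk'e] at hk'
    have hgk : k' * (1 + N) = (1 + N) * k := by
      rw [hk'e, mul_assoc, show (1 - N) * (1 + N) = 1 from g.inv_val, mul_one]
    let φ : (Fin n → F) →ₗ[F] (L × L) := Φ.prod (Φ.comp (Matrix.toLin' k))
    have hker : LinearMap.ker φ ≠ ⊥ := by
      apply LinearMap.ker_ne_bot_of_finrank_lt
      rw [Module.finrank_prod, Module.finrank_fintype_fun_eq_card, Fintype.card_fin]
      omega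
    obtain ⟨v, hv, hv1⟩ := (Submodule.ne_bot_iff _).1 hker
    have h4 : φ v = 0 := hv
    have e1 : Φ v = 0 := congrArg Prod.fst h4
    have e2 : Φ (k *ᵥ v) = 0 := congrArg Prod.snd h4
    have e3 : (k' - k) *ᵥ v = 0 := by
      have h5 := congrArg (fun M => M *ᵥ v) hgk
      simp only [← mulVec_mulVec, add_mulVec, one_mulVec, hNv, e1, e2] at h5
      have h6 : ((0 : L) : Matrix (Fin n) (Fin n) F) = 0 := rfl
      rw [h6, zero_mulVec, add_zero, add_zero] at h5
      rw [sub_mulVec, h5, sub_self]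
    have h5 : k' = k := sub_eq_zero.1 (kill hc hi (K.sub_mem hk' hk) hv1 e3)
    rw [h5] at hgk
    have h6 := congrArg (fun M => M *ᵥ v0) hgk
    simp only [← mulVec_mulVec, add_mulVec, one_mulVec, hNv, hΦ0, mulVec_add] at h6
    have h7 : ((1 : L) : Matrix (Fin n) (Fin n) F) = 1 := rfl
    rw [h7, one_mulVec] at h6
    have h8 := add_left_cancel h6
    have h9 : (k - (Φ (k *ᵥ v0) : Matrix (Fin n) (Fin n) F)) *ᵥ w = 0 := by rw [sub_mulVec, h8, sub_self]
    have h10 := sub_eq_zero.1 (kill hc hi (K.sub_mem hk (hLK (Φ (k *ᵥ v0)).2)) hw0 h9)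
    apply hkL
    rw [h10]
    exact (Φ (k *ᵥ v0)).2

theorem main {r : ℕ} (hr1 : 1 < r) (hrp : ¬ r.Prime) (hrn : r ∣ n) (hlt : r < n)
    (K : Subalgebra F (Matrix (Fin n) (Fin n) F)) (hK : IsFieldSubalgebra r K) :
    ¬ IsCoatom (subalgebraNormalizer K) ∧
      ¬ IsMaximalIn (specialLinear (Fin n) F) (subalgebraNormalizer K ⊓ specialLinear (Fin n) F) := by
  classical
  obtain ⟨l, hl⟩ : ∃ l, l = r.minFac := ⟨_, rfl⟩
  have hlp : l.Prime := by rw [hl]; exact Nat.minFac_prime (by omega)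
  have hlr : l ∣ r := by rw [hl]; exact Nat.minFac_dvd r
  have hllt : l < r := by
    refine lt_of_le_of_ne (Nat.le_of_dvd (by omega) hlr) ?_
    intro h
    rw [h] at hlp
    exact hrp hlp
  have h2r : 2 * r ≤ n := by
    obtain ⟨m, rfl⟩ := hrn
    rcases Nat.lt_or_ge m 2 with h | h
    · interval_cases m <;> omega
    · rw [mul_comm]; exact Nat.mul_le_mul_left r h
  haveI : Nonempty (Fin n) := ⟨⟨0, by omega⟩⟩
  have hfield : IsField K :=
    { exists_pair_ne := ⟨0, 1, fun h => by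
        have := congrArg Subtype.val h
        exact zero_ne_one this⟩
      mul_comm := fun x y => Subtype.ext (hK.comm x x.2 y y.2)
      mul_inv_cancel := fun {x} hx => by
        obtain ⟨y, hy, hxy⟩ := hK.inv x x.2 (fun h => hx (Subtype.ext h))
        exact ⟨⟨y, hy⟩, Subtype.ext hxy⟩ }
  have hgen : (∃ k : K, k ^ (Fintype.card F ^ l) ≠ k) ∧ ∃ y : K, y ^ (Fintype.card F ^ l) = y ∧ ∀ c : F, y ≠ algebraMap F K c :=
    @exists_gen F _ _ K hfield.toField (Fintype.ofFinite K) (Subalgebra.algebra K) r l hK.finrank_eq hlp.one_lt hlr hllt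
  obtain ⟨⟨k, hk⟩, y, hy, hyc⟩ := hgen
  obtain ⟨L, hL⟩ : ∃ L, L = LL (Fintype.card F) l K rfl (by omega) hK.comm := ⟨_, rfl⟩
  have hmem : ∀ x, x ∈ L ↔ x ∈ K ∧ x ^ (Fintype.card F ^ l) = x := by
    intro x
    rw [hL]; exact Iff.rfl
  have hLK : L ≤ K := fun x hx => ((hmem x).1 hx).1
  have hkL : (k : Matrix (Fin n) (Fin n) F) ∉ L := by
    intro h
    apply hk
    apply Subtype.ext
    exact ((hmem _).1 h).2
  have hyL : (y : Matrix (Fin n) (Fin n) F) ∈ L := (hmem _).2 ⟨y.2, congrArg Subtype.val hy⟩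
  have hiL : ∀ x ∈ L, x ≠ 0 → ∃ y ∈ L, x * y = 1 := by
    intro x hx hx0
    obtain ⟨hxK, hxq⟩ := (hmem x).1 hx
    obtain ⟨z, hz, hxz⟩ := hK.inv x hxK hx0
    refine ⟨z, (hmem z).2 ⟨hz, ?_⟩, hxz⟩
    have hc : Commute x z := hK.comm x hxK z hz
    have h1 : (x * z) ^ (Fintype.card F ^ l) = 1 := by rw [hxz, one_pow]
    rw [hc.mul_pow, hxq] at h1
    have hzx : z * x = 1 := by rw [hK.comm z hz x hxK]; exact hxz
    calc z ^ (Fintype.card F ^ l) = (z * x) * z ^ (Fintype.card F ^ l) := by rw [hzx, one_mul]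
      _ = z * (x * z ^ (Fintype.card F ^ l)) := by rw [mul_assoc]
      _ = z := by rw [h1, mul_one]
  have hNN : subalgebraNormalizer K ≤ subalgebraNormalizer L := by
    intro g hg x
    rw [hmem, hmem, ← (hg x)]
    refine and_congr_right (fun _ => ?_)
    have h1 : ((g : Matrix (Fin n) (Fin n) F) * x * ((g⁻¹ : GL (Fin n) F) : Matrix (Fin n) (Fin n) F)) ^ (Fintype.card F ^ l) =
        (g : Matrix (Fin n) (Fin n) F) * x ^ (Fintype.card F ^ l) * ((g⁻¹ : GL (Fin n) F) : Matrix (Fin n) (Fin n) F) :=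
      Units.conj_pow g x _
    rw [h1]
    constructor
    · intro h; rw [h]
    · intro h
      have h2 := congrArg (fun M => ((g⁻¹ : GL (Fin n) F) : Matrix (Fin n) (Fin n) F) * M * (g : Matrix (Fin n) (Fin n) F)) h
      have e1 : ((g⁻¹ : GL (Fin n) F) : Matrix (Fin n) (Fin n) F) * (g : Matrix (Fin n) (Fin n) F) = 1 := by
        rw [← Units.val_mul, inv_mul_cancel, Units.val_one]
      have e2 : ∀ M : Matrix (Fin n) (Fin n) F, ((g⁻¹ : GL (Fin n) F) : Matrix (Fin n) (Fin n) F) *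
          ((g : Matrix (Fin n) (Fin n) F) * M * ((g⁻¹ : GL (Fin n) F) : Matrix (Fin n) (Fin n) F)) * (g : Matrix (Fin n) (Fin n) F) = M := by
        intro M
        rw [mul_assoc, mul_assoc, mul_assoc, e1, mul_one, ← mul_assoc, e1, one_mul]
      simpa only [e2] using h2
  obtain ⟨g, hgS, hgL, hgK⟩ := exists_g (by omega) h2r hK.comm hK.inv hLK hK.finrank_eq hiL k.2 hkL
  obtain ⟨t, htS, htL⟩ := exists_moveL (by omega) hK.comm hK.inv hLK hyL (fun c h => hyc c (Subtype.ext h))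
  constructor
  · intro hco
    have h1 := hco.2 (subalgebraNormalizer L) (lt_of_le_of_ne hNN (fun h => hgK (by rw [h]; exact hgL)))
    apply htL
    rw [h1]; trivial
  · rintro ⟨-, hmax⟩
    rcases hmax (subalgebraNormalizer L ⊓ specialLinear (Fin n) F) (inf_le_inf_right _ hNN) inf_le_right with h | h
    · have : g ∈ subalgebraNormalizer L ⊓ specialLinear (Fin n) F := ⟨hgL, hgS⟩
      rw [h] at this
      exact hgK this.1
    · have h3 := htS
      rw [← h] at h3
      exact htL h3.1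

end CfsgH9.FieldNorm
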