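import Mathlib

set_option autoImplicit false

/-! Iwasawa's lemma in terms of a maximal subgroup. -/

namespace CfsgH9.IwaCos

open scoped commutatorElement

variable {G : Type*} [Group G]

/-- Iwasawa's lemma: `H` maximal, `A` an abelian subgroup normalised by `H`, whose conjugates generate the perfect group `G`. -/
theorem normal_cases {H A : Subgroup G} (hH : IsCoatom H) (hA : ∀ a ∈ A, ∀ b ∈ A, a * b = b * a)
    (hAH : ∀ h ∈ H, ∀ a ∈ A, h * a * h⁻¹ ∈ A) (hgen : Subgroup.normalClosure (A : Set G) = ⊤)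
    (N : Subgroup G) [hN : N.Normal] : N ≤ H ∨ commutator G ≤ N := by
  by_cases h : N ≤ H
  · exact Or.inl h
  right
  have h1 : N ⊔ H = ⊤ := by
    rw [sup_comm]
    exact hH.2 _ (lt_of_le_of_ne le_sup_left (fun h2 => h (by rw [h2]; exact le_sup_right)))
  have hnorm : (N ⊔ A).Normal := by
    refine ⟨fun n hn g => ?_⟩
    have hg : g ∈ N ⊔ H := by rw [h1]; trivial
    rw [Subgroup.mem_sup_of_normal_left] at hg hn
    obtain ⟨k, hk, x, hx, rfl⟩ := hg
    obtain ⟨k', hk', a, ha, rfl⟩ := hn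
    have h2 : x * a * x⁻¹ ∈ A := hAH x hx a ha
    have h3 : (k * x) * (k' * a) * (k * x)⁻¹ = k * ((x * k' * x⁻¹) * (x * a * x⁻¹)) * k⁻¹ := by group
    rw [h3]
    refine (N ⊔ A).mul_mem ((N ⊔ A).mul_mem (Subgroup.mem_sup_left hk) ((N ⊔ A).mul_mem
      (Subgroup.mem_sup_left (hN.conj_mem k' hk' x)) (Subgroup.mem_sup_right h2))) (Subgroup.mem_sup_left (N.inv_mem hk))
  have hsup : N ⊔ A = ⊤ := by
    rw [eq_top_iff, ← hgen]
    exact Subgroup.normalClosure_le_normal (le_sup_right : A ≤ N ⊔ A)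
  rw [commutator_def, Subgroup.commutator_le]
  intro x _ y _
  have hx : x ∈ N ⊔ A := by rw [hsup]; trivial
  have hy : y ∈ N ⊔ A := by rw [hsup]; trivial
  rw [Subgroup.mem_sup_of_normal_left] at hx hy
  obtain ⟨k, hk, a, ha, rfl⟩ := hx
  obtain ⟨l, hl, b, hb, rfl⟩ := hy
  have h4 : ((QuotientGroup.mk' N) ⁅k * a, l * b⁆) = 1 := by
    have hk1 : (QuotientGroup.mk' N) k = 1 := (QuotientGroup.eq_one_iff k).2 hk
    have hl1 : (QuotientGroup.mk' N) l = 1 := (QuotientGroup.eq_one_iff l).2 hl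
    have hab : (QuotientGroup.mk' N) a * (QuotientGroup.mk' N) b = (QuotientGroup.mk' N) b * (QuotientGroup.mk' N) a := by
      rw [← map_mul, hA a ha b hb, map_mul]
    rw [commutatorElement_def, map_mul, map_mul, map_mul, map_inv, map_inv, map_mul, map_mul, hk1, hl1, one_mul, one_mul,
      hab]
    group
  exact (QuotientGroup.eq_one_iff _).1 h4

theorem simple {H A : Subgroup G} (hH : IsCoatom H) (hA : ∀ a ∈ A, ∀ b ∈ A, a * b = b * a)
    (hAH : ∀ h ∈ H, ∀ a ∈ A, h * a * h⁻¹ ∈ A) (hgen : Subgroup.normalClosure (A : Set G) = ⊤)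
    (hperf : commutator G = ⊤) (hcore : ∀ g : G, (∀ x : G, x * g * x⁻¹ ∈ H) → g ∈ Subgroup.center G)
    [Nontrivial G] : IsSimpleGroup (G ⧸ Subgroup.center G) := by
  have hnt : Subgroup.center G ≠ ⊤ := by
    intro h
    have h1 : commutator G = ⊥ := by
      rw [eq_bot_iff, commutator_def, Subgroup.commutator_le]
      intro x _ y _
      have hx : x ∈ Subgroup.center G := by rw [h]; trivial
      rw [Subgroup.mem_center_iff] at hx
      rw [Subgroup.mem_bot, commutatorElement_eq_one_iff_mul_comm]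
      exact (hx y).symm
    rw [hperf] at h1
    exact (bot_ne_top (α := Subgroup G)) h1.symm
  have hnt' : Nontrivial (G ⧸ Subgroup.center G) := by
    by_contra hc
    rw [not_nontrivial_iff_subsingleton] at hc
    exact hnt (QuotientGroup.subgroup_eq_top_of_subsingleton _ hc)
  refine ⟨fun N hN => ?_⟩
  have hM : (N.comap (QuotientGroup.mk' (Subgroup.center G))).Normal := hN.comap _
  rcases normal_cases hH hA hAH hgen (N.comap (QuotientGroup.mk' (Subgroup.center G))) with h | h
  · left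
    rw [eq_bot_iff]
    intro x hx
    obtain ⟨g, rfl⟩ := QuotientGroup.mk'_surjective _ x
    have h1 : g ∈ Subgroup.center G := hcore g (fun x => h (hM.conj_mem g hx x))
    rw [Subgroup.mem_bot]
    exact (QuotientGroup.eq_one_iff g).2 h1
  · right
    rw [hperf] at h
    rw [eq_top_iff]
    intro x _
    obtain ⟨g, rfl⟩ := QuotientGroup.mk'_surjective _ x
    exact h (Subgroup.mem_top g)

end CfsgH9.IwaCos
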