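import Mathlib

set_option autoImplicit false

namespace CfsgH9.Singer

section defs
variable (F K : Type*) [Field F] [Field K] [Algebra F K]

/-- the Singer homomorphism -/
def sg : Kˣ →* (Module.End F K)ˣ := Units.map ((Algebra.lmul F K : K →ₐ[F] Module.End F K) : K →* Module.End F K)

end defs

section basic
variable {F K : Type*} [Field F] [Field K] [Algebra F K]

theorem sg_apply (k : Kˣ) (x : K) : ((sg F K k : (Module.End F K)ˣ) : Module.End F K) x = k * x := rfl

theorem sg_injective : Function.Injective (sg F K) := by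
  intro a b h
  have h1 := congrArg (fun g : (Module.End F K)ˣ => (g : Module.End F K) 1) h
  simp only [sg_apply, mul_one] at h1
  exact Units.ext h1

theorem unit_inv_apply (g : (Module.End F K)ˣ) (x : K) : ((g⁻¹ : (Module.End F K)ˣ) : Module.End F K) ((g : Module.End F K) x) = x := by
  rw [← Module.End.mul_apply, Units.inv_mul]; rfl

theorem unit_apply_inv (g : (Module.End F K)ˣ) (x : K) : (g : Module.End F K) (((g⁻¹ : (Module.End F K)ˣ) : Module.End F K) x) = x := by
  rw [← Module.End.mul_apply, Units.mul_inv]; rfl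

theorem unit_ne_zero (g : (Module.End F K)ˣ) {x : K} (hx : x ≠ 0) : (g : Module.End F K) x ≠ 0 := by
  intro h
  have := unit_inv_apply g x
  rw [h, map_zero] at this
  exact hx this.symm

theorem mem_range_iff (g : (Module.End F K)ˣ) : g ∈ (sg F K).range ↔ ∃ k : K, ∀ x, (g : Module.End F K) x = k * x := by
  constructor
  · rintro ⟨k, rfl⟩; exact ⟨k, fun x => rfl⟩
  · rintro ⟨k, hk⟩
    have hk0 : k ≠ 0 := by
      rintro rfl
      have := unit_ne_zero g (one_ne_zero (α := K))
      rw [hk, zero_mul] at this; exact this rfl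
    exact ⟨Units.mk0 k hk0, Units.ext (LinearMap.ext fun x => (hk x).symm)⟩

theorem centralizer_eq : Subgroup.centralizer ((sg F K).range : Set (Module.End F K)ˣ) = (sg F K).range := by
  apply le_antisymm
  · intro g hg
    rw [mem_range_iff]
    refine ⟨(g : Module.End F K) 1, fun x => ?_⟩
    by_cases hx : x = 0
    · rw [hx, map_zero, mul_zero]
    · have h1 := Subgroup.mem_centralizer_iff.1 hg (sg F K (Units.mk0 x hx)) ⟨_, rfl⟩
      have h2 := congrArg (fun g : (Module.End F K)ˣ => (g : Module.End F K) 1) h1
      simp only [Units.val_mul, Module.End.mul_apply, sg_apply, Units.val_mk0, mul_one] at h2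
      rw [← h2, mul_comm]
  · rintro _ ⟨k, rfl⟩
    rw [Subgroup.mem_centralizer_iff]
    rintro _ ⟨l, rfl⟩
    rw [← map_mul, ← map_mul, mul_comm]

/-- galois automorphisms as units -/
def gal (σ : K ≃ₐ[F] K) : (Module.End F K)ˣ :=
  ⟨σ.toLinearMap, σ.symm.toLinearMap, LinearMap.ext fun x => σ.apply_symm_apply x, LinearMap.ext fun x => σ.symm_apply_apply x⟩

theorem gal_apply (σ : K ≃ₐ[F] K) (x : K) : (gal σ : Module.End F K) x = σ x := rfl

theorem mem_normalizer (g : (Module.End F K)ˣ) :
    g ∈ Subgroup.normalizer ((sg F K).range : Set (Module.End F K)ˣ) ↔ ∃ (k : Kˣ) (σ : K ≃ₐ[F] K), g = sg F K k * gal σ := by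
  constructor
  · intro hg
    rw [Subgroup.mem_normalizer_iff] at hg
    have h1 : (g : Module.End F K) 1 ≠ 0 := unit_ne_zero g one_ne_zero
    set c := Units.mk0 _ h1 with hc
    set h := (sg F K c)⁻¹ * g with hh
    have hh1 : (h : Module.End F K) 1 = 1 := by
      rw [hh, ← map_inv, Units.val_mul, Module.End.mul_apply, sg_apply]
      have h9 : (g : Module.End F K) 1 = (c : K) := rfl
      rw [h9, Units.inv_mul]
    have hmul : ∀ x y : K, (h : Module.End F K) (x * y) = (h : Module.End F K) x * (h : Module.End F K) y := by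
      intro x y
      by_cases hx : x = 0
      · rw [hx, zero_mul, map_zero, zero_mul]
      · have h2 : g * sg F K (Units.mk0 x hx) * g⁻¹ ∈ (sg F K).range := (hg _).1 ⟨_, rfl⟩
        obtain ⟨z, hz⟩ := h2
        have h3 : h * sg F K (Units.mk0 x hx) = sg F K z * h := by
          have h4 : g * sg F K (Units.mk0 x hx) = sg F K z * g := by
            rw [hz]; group
          rw [hh, mul_assoc, h4, ← mul_assoc, ← mul_assoc, ← map_inv, ← map_mul, ← map_mul, mul_comm]
        have h5 : ∀ y, (h : Module.End F K) (x * y) = z * (h : Module.End F K) y := by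
          intro y
          have := congrArg (fun g : (Module.End F K)ˣ => (g : Module.End F K) y) h3
          simpa [Units.val_mul, Module.End.mul_apply, sg_apply] using this
        have h6 := h5 1
        rw [mul_one, hh1, mul_one] at h6
        rw [h5, h6]
    let σ0 : K →ₐ[F] K := AlgHom.ofLinearMap (h : Module.End F K) hh1 hmul
    have hb : Function.Bijective σ0 := by
      constructor
      · intro a b hab
        have := congrArg ((h⁻¹ : (Module.End F K)ˣ) : Module.End F K) (show (h : Module.End F K) a = (h : Module.End F K) b from hab)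
        rwa [unit_inv_apply, unit_inv_apply] at this
      · intro b; exact ⟨_, unit_apply_inv h b⟩
    refine ⟨c, AlgEquiv.ofBijective σ0 hb, ?_⟩
    have : gal (AlgEquiv.ofBijective σ0 hb) = h := Units.ext (LinearMap.ext fun x => rfl)
    rw [this, hh, mul_inv_cancel_left]
  · rintro ⟨k, σ, rfl⟩
    apply Subgroup.mul_mem
    · exact Subgroup.le_normalizer ⟨k, rfl⟩
    · have key : ∀ (τ : K ≃ₐ[F] K) (x : (Module.End F K)ˣ), x ∈ (sg F K).range → gal τ * x * (gal τ)⁻¹ ∈ (sg F K).range := by
        rintro τ _ ⟨z, rfl⟩
        refine ⟨Units.map (τ : K →* K) z, ?_⟩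
        rw [eq_mul_inv_iff_mul_eq]
        apply Units.ext
        apply LinearMap.ext
        intro x
        rw [Units.val_mul, Units.val_mul, Module.End.mul_apply, Module.End.mul_apply, sg_apply, sg_apply, gal_apply, gal_apply, map_mul]
        rfl
      rw [Subgroup.mem_normalizer_iff]
      intro x
      refine ⟨key σ x, fun h => ?_⟩
      have h2 := key σ.symm _ h
      have h3 : gal σ.symm = (gal σ)⁻¹ := rfl
      rw [h3] at h2
      convert h2 using 1
      group

end basic

section fin
variable {F K : Type*} [Field F] [Fintype F] [Field K] [Fintype K] [Algebra F K]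

instance instFinUnits : Finite (Module.End F K)ˣ :=
  Finite.of_injective (fun g : (Module.End F K)ˣ => ((g : Module.End F K) : K → K)) (fun a b h =>
    Units.ext (LinearMap.ext fun x => congrFun h x))

theorem card_sg : Nat.card (sg F K).range = Fintype.card K - 1 := by
  rw [← Nat.card_congr (MonoidHom.ofInjective (sg_injective (F := F) (K := K))).toEquiv, Nat.card_units,
    Nat.card_eq_fintype_card]

theorem card_norm : Nat.card (Subgroup.normalizer ((sg F K).range : Set (Module.End F K)ˣ)) =
    Module.finrank F K * (Fintype.card K - 1) := by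
  have h1 : Nat.card (Kˣ × (K ≃ₐ[F] K)) = Nat.card (Subgroup.normalizer ((sg F K).range : Set (Module.End F K)ˣ)) := by
    refine Nat.card_congr (Equiv.ofBijective (fun p => ⟨sg F K p.1 * gal p.2, (mem_normalizer _).2 ⟨p.1, p.2, rfl⟩⟩) ⟨?_, ?_⟩)
    · rintro ⟨k, σ⟩ ⟨l, τ⟩ h
      have h2 : ∀ x : K, (k : K) * σ x = l * τ x := fun x =>
        congrArg (fun g : (Module.End F K)ˣ => (g : Module.End F K) x) (Subtype.ext_iff.1 h)
      have h3 := h2 1
      rw [map_one, map_one, mul_one, mul_one] at h3
      have h4 : k = l := Units.ext h3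
      subst h4
      congr 1
      ext x
      exact mul_left_cancel₀ k.ne_zero (h2 x)
    · rintro ⟨g, hg⟩
      obtain ⟨k, σ, rfl⟩ := (mem_normalizer g).1 hg
      exact ⟨(k, σ), rfl⟩
  rw [← h1, Nat.card_prod, Nat.card_units, Nat.card_eq_fintype_card, mul_comm, IsGalois.card_aut_eq_finrank]

/-- the intersection of two Singer groups -/
theorem inter (g : (Module.End F K)ˣ) (hg : (sg F K).range.map (MulAut.conj g).toMonoidHom ≠ (sg F K).range) :
    ∃ r : ℕ, 1 ≤ r ∧ r ∣ Module.finrank F K ∧ r < Module.finrank F K ∧
      Nat.card ↥((sg F K).range.map (MulAut.conj g).toMonoidHom ⊓ (sg F K).range) ∣ Fintype.card F ^ r - 1 := by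
  classical
  -- the subalgebra of those k with g⁻¹ m_k g a multiplication
  let S : Subalgebra F K :=
    { carrier := {k | ∃ l : K, ∀ x, k * (g : Module.End F K) x = (g : Module.End F K) (l * x)}
      mul_mem' := by
        rintro a b ⟨l, hl⟩ ⟨m, hm⟩
        refine ⟨l * m, fun x => ?_⟩
        rw [mul_assoc, hm, hl, mul_assoc]
      add_mem' := by
        rintro a b ⟨l, hl⟩ ⟨m, hm⟩
        refine ⟨l + m, fun x => ?_⟩
        rw [add_mul, add_mul, hm, hl, map_add]
      algebraMap_mem' := by
        intro r
        refine ⟨algebraMap F K r, fun x => ?_⟩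
        rw [← Algebra.smul_def, ← Algebra.smul_def, map_smul] }
  let L : IntermediateField F K := subalgebraEquivIntermediateField S
  have hL : ∀ k : K, k ∈ L ↔ ∃ l : K, ∀ x, k * (g : Module.End F K) x = (g : Module.End F K) (l * x) := by
    intro k
    exact mem_subalgebraEquivIntermediateField
  have hfin : Module.finrank F L * Module.finrank L K = Module.finrank F K := Module.finrank_mul_finrank F L K
  have hlt : Module.finrank F L < Module.finrank F K := by
    rcases lt_or_eq_of_le (Nat.le_of_dvd Module.finrank_pos ⟨_, hfin.symm⟩) with h | h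
    · exact h
    · exfalso
      apply hg
      have htop : L = ⊤ := IntermediateField.eq_of_le_of_finrank_eq le_top (by
        rw [h, IntermediateField.finrank_top'])
      have hle : (sg F K).range ≤ (sg F K).range.map (MulAut.conj g).toMonoidHom := by
        rintro _ ⟨k, rfl⟩
        obtain ⟨l, hl⟩ := (hL k).1 (by rw [htop]; trivial)
        have hl0 : l ≠ 0 := by
          rintro rfl
          have h1 := hl 1
          rw [zero_mul, map_zero] at h1
          exact mul_ne_zero k.ne_zero (unit_ne_zero g one_ne_zero) h1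
        refine ⟨sg F K (Units.mk0 l hl0), ⟨_, rfl⟩, ?_⟩
        change g * sg F K (Units.mk0 l hl0) * g⁻¹ = _
        rw [mul_inv_eq_iff_eq_mul]
        apply Units.ext
        apply LinearMap.ext
        intro x
        exact (hl x).symm
      symm
      apply Subgroup.eq_of_le_of_card_ge hle
      exact (Nat.card_congr (Subgroup.equivMapOfInjective _ _ (MulAut.conj g).injective).symm.toEquiv).le
  refine ⟨Module.finrank F L, Module.finrank_pos, ⟨_, hfin.symm⟩, hlt, ?_⟩
  have hcard : Nat.card L = Fintype.card F ^ Module.finrank F L := by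
    rw [Module.natCard_eq_pow_finrank (K := F) (V := L), Nat.card_eq_fintype_card]
  let J : Subgroup Kˣ := (Units.map (L.val : L →* K)).range
  have hJ : Nat.card J = Fintype.card F ^ Module.finrank F L - 1 := by
    have : Function.Injective (Units.map (L.val : L →* K)) := Units.map_injective L.val.injective
    rw [← Nat.card_congr (MonoidHom.ofInjective this).toEquiv, Nat.card_units, hcard]
  have hle : (sg F K).range.map (MulAut.conj g).toMonoidHom ⊓ (sg F K).range ≤ J.map (sg F K) := by
    rintro _ ⟨⟨_, ⟨l, rfl⟩, hl⟩, ⟨k, rfl⟩⟩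
    have hl' : g * sg F K l * g⁻¹ = sg F K k := hl
    have hk : (k : K) ∈ L := by
      rw [hL]
      refine ⟨l, fun x => ?_⟩
      rw [mul_inv_eq_iff_eq_mul] at hl'
      exact (congrArg (fun g : (Module.End F K)ˣ => (g : Module.End F K) x) hl').symm
    refine ⟨k, ?_, rfl⟩
    refine ⟨Units.mk0 ⟨k, hk⟩ (fun h => k.ne_zero (congrArg Subtype.val h)), Units.ext rfl⟩
  have h2 := Subgroup.card_dvd_of_le hle
  rw [Nat.card_congr (Subgroup.equivMapOfInjective J (sg F K) sg_injective).symm.toEquiv, hJ] at h2
  exact h2

end fin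

end CfsgH9.Singer
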