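import Cfsg.Agent.H9.SymIdx

set_option autoImplicit false

open Equiv Equiv.Perm Nat

namespace CfsgH9.SymIdx

section
variable {Ω : Type*} [Fintype Ω] [DecidableEq Ω]

/-- automorphism exchanging the two classes -/
def Exotic (e : Perm Ω ≃* Perm Ω) : Prop := ∀ τ : Perm Ω, τ.IsSwap → (e τ).cycleType = {2, 2, 2}

theorem not_swap_of_222 {σ : Perm Ω} (h : σ.cycleType = {2, 2, 2}) : ¬ σ.IsSwap := by
  intro hs
  rw [isSwap_iff_cycleType, h] at hs
  have := congrArg Multiset.card hs
  simp at this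

theorem Exotic.symm' {e : Perm Ω ≃* Perm Ω} (he : Exotic e) : Exotic e.symm := by
  intro τ hτ
  rcases aut_swap e.symm hτ with h | h
  · have h1 := he _ h
    rw [e.apply_symm_apply] at h1
    exact absurd hτ (not_swap_of_222 h1)
  · exact h.2

theorem exotic_or (e : Perm Ω ≃* Perm Ω) : Exotic e ∨ ∀ τ : Perm Ω, τ.IsSwap ↔ (e τ).IsSwap := by
  by_cases h : ∃ τ : Perm Ω, τ.IsSwap ∧ (e τ).IsSwap
  · right
    obtain ⟨τ, h1, h2⟩ := h
    intro σ
    refine ⟨fun hσ => aut_swap_all e h1 h2 σ hσ, fun hσ => ?_⟩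
    have h3 := aut_swap_all e.symm (τ := e τ) h2 (by rwa [e.symm_apply_apply]) (e σ) hσ
    rwa [e.symm_apply_apply] at h3
  · left
    push Not at h
    intro τ hτ
    rcases aut_swap e hτ with h1 | h1
    · exact absurd h1 (h τ hτ)
    · exact h1.2

theorem exotic_comp {e e' : Perm Ω ≃* Perm Ω} (he : Exotic e) (he' : Exotic e') {τ : Perm Ω} (hτ : τ.IsSwap) :
    (e' (e.symm τ)).IsSwap := by
  have h1 := he.symm' τ hτ
  have h2 := he'.symm' τ hτ
  have h3 : IsConj (e.symm τ) (e'.symm τ) := by rw [isConj_iff_cycleType_eq, h1, h2]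
  have h4 := e'.toMonoidHom.map_isConj h3
  change IsConj (e' (e.symm τ)) (e' (e'.symm τ)) at h4
  rw [e'.apply_symm_apply, isConj_iff_cycleType_eq] at h4
  rw [isSwap_iff_cycleType, h4, ← isSwap_iff_cycleType]
  exact hτ

/-- all exotic subgroups come from one exotic automorphism -/
theorem comap_exotic (hn : 3 ≤ Nat.card Ω) {e e' : Perm Ω ≃* Perm Ω} (he : Exotic e) (he' : Exotic e') (ω : Ω) :
    ∃ z : Ω, (MulAction.stabilizer (Perm Ω) ω).comap e'.toMonoidHom =
      (MulAction.stabilizer (Perm Ω) z).comap e.toMonoidHom := by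
  have hs : ∀ τ : Perm Ω, τ.IsSwap ↔ ((e.symm.trans e') τ).IsSwap := by
    intro τ
    refine ⟨fun hτ => exotic_comp he he' hτ, fun hτ => ?_⟩
    have h1 := exotic_comp he' he hτ
    rwa [show e (e'.symm ((e.symm.trans e') τ)) = τ by simp] at h1
  obtain ⟨z, hz⟩ := comap_stab hn (e.symm.trans e') hs ω
  refine ⟨z, ?_⟩
  rw [← hz, Subgroup.comap_comap]
  congr 1
  ext x : 1
  simp

theorem exotic_not_stab (h6 : Nat.card Ω = 6) {e : Perm Ω ≃* Perm Ω} (he : Exotic e) (ω z : Ω) :
    (MulAction.stabilizer (Perm Ω) ω).comap e.toMonoidHom ≠ MulAction.stabilizer (Perm Ω) z := by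
  intro h
  obtain ⟨a, ha⟩ : ∃ a, a ≠ z := by
    have : Nontrivial Ω := Finite.one_lt_card_iff_nontrivial.1 (by omega)
    exact exists_ne z
  obtain ⟨b, hb⟩ : ∃ b, b ∉ ({a, z} : Finset Ω) := by
    by_contra hcon
    push Not at hcon
    have h1 : (Finset.univ : Finset Ω) ⊆ {a, z} := fun x _ => hcon x
    have h2 := Finset.card_le_card h1
    rw [Finset.card_univ, ← Nat.card_eq_fintype_card, h6] at h2
    have := Finset.card_le_two (a := a) (b := z)
    omega
  rw [Finset.mem_insert, Finset.mem_singleton, not_or] at hb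
  have h1 : swap a b ∈ MulAction.stabilizer (Perm Ω) z := by
    rw [MulAction.mem_stabilizer_iff, Perm.smul_def]
    exact swap_apply_of_ne_of_ne ha.symm (Ne.symm hb.2)
  rw [← h] at h1
  have h2 : e (swap a b) ω = ω := h1
  have h3 := he (swap a b) ⟨a, b, Ne.symm hb.1, rfl⟩
  have h4 : (e (swap a b)).support.card = 6 := by
    rw [← sum_cycleType, h3]; rfl
  have h5 : (e (swap a b)).support = Finset.univ := by
    apply Finset.eq_univ_of_card
    rw [h4, ← Nat.card_eq_fintype_card, h6]
  have h6' : ω ∈ (e (swap a b)).support := by rw [h5]; exact Finset.mem_univ _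
  rw [mem_support] at h6'
  exact h6' h2

theorem core_bot_of_index {H : Subgroup (Perm Ω)} (h5 : 5 ≤ Nat.card Ω) (hi : H.index = Nat.card Ω) :
    H.normalCore = ⊥ := by
  apply core_bot h5
  intro hle
  rcases eq_of_alt_le hle with h | h
  · have : Nontrivial Ω := Finite.one_lt_card_iff_nontrivial.1 (by omega)
    rw [h, alternatingGroup.index_eq_two] at hi
    omega
  · rw [h, Subgroup.index_top] at hi; omega

/-- classification of the subgroups of index six -/
theorem index_six (h6 : Nat.card Ω = 6) {H : Subgroup (Perm Ω)} (hi : H.index = 6) :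
    (∃ z : Ω, H = MulAction.stabilizer (Perm Ω) z) ∨
    ∃ (e : Perm Ω ≃* Perm Ω) (ω : Ω), Exotic e ∧ H = (MulAction.stabilizer (Perm Ω) ω).comap e.toMonoidHom := by
  obtain ⟨e, ω, he⟩ := exists_aut H (by rw [hi, h6]) (core_bot_of_index (by omega) (by rw [hi, h6]))
  rcases exotic_or e with h | h
  · exact Or.inr ⟨e, ω, h, he⟩
  · left
    rw [he]
    exact comap_stab (by omega) e h ω

end

theorem card_sylow5 : Nat.card (Sylow 5 (Perm (Fin 5))) = 6 := by
  haveI : Fact (Nat.Prime 5) := ⟨by norm_num⟩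
  have hG : Nat.card (Perm (Fin 5)) = 120 := by rw [Nat.card_perm, Nat.card_fin]; rfl
  obtain ⟨P⟩ : Nonempty (Sylow 5 (Perm (Fin 5))) := inferInstance
  obtain ⟨k, hk⟩ := IsPGroup.iff_card.1 P.isPGroup'
  have hmul := Subgroup.card_mul_index (P : Subgroup (Perm (Fin 5)))
  have hnd := P.not_dvd_index
  rw [hG, hk] at hmul
  have hk1 : k = 1 := by
    rcases k with _ | _ | k
    · exfalso
      rw [pow_zero, one_mul] at hmul
      rw [hmul] at hnd
      exact hnd (by norm_num)
    · rfl
    · exfalso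
      have : 25 ∣ 120 := ⟨5 ^ k * (P : Subgroup (Perm (Fin 5))).index, by rw [← hmul]; ring⟩
      norm_num at this
  subst hk1
  have hidx : (P : Subgroup (Perm (Fin 5))).index = 24 := by omega
  have h1 : Nat.card (Sylow 5 (Perm (Fin 5))) ∣ 24 := by
    rw [← hidx]; exact P.card_dvd_index
  have h2 := card_sylow_modEq_one 5 (Perm (Fin 5))
  have h3 := Nat.le_of_dvd (by norm_num) h1
  have h4 : Nat.card (Sylow 5 (Perm (Fin 5))) ≠ 1 := by
    intro h5
    haveI : Subsingleton (Sylow 5 (Perm (Fin 5))) := (Finite.card_le_one_iff_subsingleton).1 h5.le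
    haveI : (P : Subgroup (Perm (Fin 5))).Normal := Sylow.normal_of_subsingleton P
    have hnt : Nontrivial (P : Subgroup (Perm (Fin 5))) := by
      apply Finite.one_lt_card_iff_nontrivial.1
      rw [hk]; norm_num
    have h6 := alternatingGroup_le_of_normal (α := Fin 5) (by rw [Nat.card_fin]) hnt
    have h7 := Subgroup.card_le_of_le h6
    have h8 : 2 * Nat.card (alternatingGroup (Fin 5)) = Nat.card (Perm (Fin 5)) := two_mul_nat_card_alternatingGroup
    rw [hk] at h7
    omega
  have h0 : Nat.card (Sylow 5 (Perm (Fin 5))) ≠ 0 := Finite.card_pos.ne'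
  unfold Nat.ModEq at h2
  generalize Nat.card (Sylow 5 (Perm (Fin 5))) = n at *
  interval_cases n <;> omega

theorem exists_exotic {Ω : Type*} [Fintype Ω] [DecidableEq Ω] (h6 : Nat.card Ω = 6) :
    ∃ e : Perm Ω ≃* Perm Ω, Exotic e := by
  classical
  haveI : Fact (Nat.Prime 5) := ⟨by norm_num⟩
  let X := Sylow 5 (Perm (Fin 5))
  have hX : Nat.card X = 6 := card_sylow5
  let f : X ≃ Ω := (Finite.equivFin _).trans ((finCongr (hX.trans h6.symm)).trans (Finite.equivFin _).symm)
  let ψ : Perm (Fin 5) →* Perm Ω := (f.permCongrHom.toMonoidHom).comp (MulAction.toPermHom (Perm (Fin 5)) X)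
  obtain ⟨P⟩ : Nonempty X := inferInstance
  have hker : (MulAction.toPermHom (Perm (Fin 5)) X).ker = ⊥ := by
    by_contra hne
    have hnt : Nontrivial (MulAction.toPermHom (Perm (Fin 5)) X).ker := (Subgroup.nontrivial_iff_ne_bot _).2 hne
    have h1 := alternatingGroup_le_of_normal (α := Fin 5) (by rw [Nat.card_fin]) hnt
    have h2 : (MulAction.toPermHom (Perm (Fin 5)) X).ker ≤ MulAction.stabilizer (Perm (Fin 5)) P := by
      intro g hg
      rw [MulAction.mem_stabilizer_iff]
      exact DFunLike.congr_fun (MonoidHom.mem_ker.1 hg) P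
    have h3 := Subgroup.index_dvd_of_le (h1.trans h2)
    rw [alternatingGroup.index_eq_two] at h3
    have h4 : (MulAction.stabilizer (Perm (Fin 5)) P).index = 6 := by
      rw [MulAction.index_stabilizer_of_transitive, hX]
    rw [h4] at h3
    norm_num at h3
  have hψ : Function.Injective ψ := f.permCongrHom.injective.comp ((MonoidHom.ker_eq_bot_iff _).1 hker)
  have hcard : Nat.card ψ.range = 120 := by
    rw [← Nat.card_congr (MonoidHom.ofInjective hψ).toEquiv, Nat.card_perm, Nat.card_fin]; rfl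
  have hidx : ψ.range.index = 6 := by
    have := Subgroup.card_mul_index ψ.range
    rw [hcard, Nat.card_perm, h6] at this
    have h7 : (6 : ℕ)! = 720 := rfl
    omega
  rcases index_six h6 hidx with ⟨z, hz⟩ | ⟨e, ω, he, -⟩
  · exfalso
    -- transitive
    have h1 : Nontrivial Ω := Finite.one_lt_card_iff_nontrivial.1 (by omega)
    obtain ⟨w, hw⟩ := exists_ne z
    obtain ⟨g, hg⟩ := MulAction.exists_smul_eq (Perm (Fin 5)) (f.symm z) (f.symm w)
    have h2 : ψ g ∈ MulAction.stabilizer (Perm Ω) z := by rw [← hz]; exact ⟨g, rfl⟩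
    have h3 : ψ g z = z := h2
    have h4 : ψ g z = w := by
      change f.permCongrHom (MulAction.toPermHom (Perm (Fin 5)) X g) z = w
      have : f (g • f.symm z) = w := by rw [hg, f.apply_symm_apply]
      rw [← this]; rfl
    exact hw (h4.symm.trans h3)
  · exact ⟨e, he⟩

end CfsgH9.SymIdx
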