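import Mathlib

set_option autoImplicit false

open Equiv Equiv.Perm Nat

namespace CfsgH9.SymIdx

section
variable {Ω : Type*} [Fintype Ω] [DecidableEq Ω]

theorem card_perm_dvd_of_core {G : Type*} [Group G] [Finite G] (H : Subgroup G) (h : H.normalCore = ⊥) :
    Nat.card G ∣ (H.index)! := by
  have h1 : (MulAction.toPermHom G (G ⧸ H)).ker = ⊥ := by rw [← Subgroup.normalCore_eq_ker, h]
  have h2 := Subgroup.card_range_dvd (MulAction.toPermHom G (G ⧸ H)) |> fun _ => Subgroup.card_subgroup_dvd_card (MulAction.toPermHom G (G ⧸ H)).range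
  rw [Nat.card_perm] at h2
  rw [Subgroup.index]
  refine dvd_trans (dvd_of_eq ?_) h2
  exact Nat.card_congr (MonoidHom.ofInjective ((MonoidHom.ker_eq_bot_iff _).1 h1)).toEquiv

theorem core_bot (h5 : 5 ≤ Nat.card Ω) {H : Subgroup (Perm Ω)} (h2 : ¬ alternatingGroup Ω ≤ H) :
    H.normalCore = ⊥ := by
  by_contra hn
  apply h2
  have : Nontrivial H.normalCore := (Subgroup.nontrivial_iff_ne_bot _).2 hn
  exact (alternatingGroup_le_of_normal h5 this).trans H.normalCore_le

theorem index_ge_of_not_le (h5 : 5 ≤ Nat.card Ω) (H : Subgroup (Perm Ω)) (h2 : ¬ alternatingGroup Ω ≤ H) :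
    Nat.card Ω ≤ H.index := by
  have h := card_perm_dvd_of_core H (core_bot h5 h2)
  rw [Nat.card_perm] at h
  have h3 := Nat.le_of_dvd (Nat.factorial_pos _) h
  by_contra hn
  push Not at hn
  have hpos : 0 < H.index := Nat.pos_of_ne_zero Subgroup.index_ne_zero_of_finite
  have := (Nat.factorial_lt hpos).2 hn
  omega

theorem eq_of_alt_le {H : Subgroup (Perm Ω)} (h : alternatingGroup Ω ≤ H) :
    H = alternatingGroup Ω ∨ H = ⊤ := by
  rcases subsingleton_or_nontrivial Ω with hs | hnt
  · right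
    rw [eq_top_iff]
    intro x _
    have : x = 1 := Subsingleton.elim _ _
    rw [this]; exact H.one_mem
  · have h1 := Subgroup.relIndex_mul_index h
    rw [alternatingGroup.index_eq_two] at h1
    have h3 : H.index = 1 ∨ H.index = 2 := by
      have : H.index ∣ 2 := ⟨_, by rw [← h1, mul_comm]⟩
      exact (Nat.dvd_prime Nat.prime_two).1 this
    rcases h3 with h3 | h3
    · right; exact Subgroup.index_eq_one.1 h3
    · left; exact eq_alternatingGroup_of_index_eq_two h3

theorem index_ge (h4 : Nat.card Ω ≠ 4) (H : Subgroup (Perm Ω)) (hH : H ≠ ⊤)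
    (hA : H ≠ alternatingGroup Ω) : Nat.card Ω ≤ H.index := by
  have h1 : H.index ≠ 1 := fun h => hH (Subgroup.index_eq_one.1 h)
  have h2 : H.index ≠ 2 := fun h => hA (eq_alternatingGroup_of_index_eq_two h)
  have h0 : H.index ≠ 0 := Subgroup.index_ne_zero_of_finite
  by_cases h5 : 5 ≤ Nat.card Ω
  · apply index_ge_of_not_le h5
    intro h
    rcases eq_of_alt_le h with h | h
    · exact hA h
    · exact hH h
  · omega

theorem card_centralizer_swap {τ : Perm Ω} (hτ : τ.IsSwap) :
    Nat.card (Subgroup.centralizer {τ}) = (Nat.card Ω - 2)! * 2 := by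
  rw [nat_card_centralizer, isSwap_iff_cycleType.1 hτ, Nat.card_eq_fintype_card]
  simp

theorem card_centralizer_inv {σ : Perm Ω} {k : ℕ} (hk : k ≠ 0) (h : σ.cycleType = Multiset.replicate k 2) :
    Nat.card (Subgroup.centralizer {σ}) = (Nat.card Ω - 2 * k)! * 2 ^ k * k ! := by
  rw [nat_card_centralizer, h, Nat.card_eq_fintype_card]
  have h1 : (Multiset.replicate k 2).toFinset = {2} := by
    ext x; simp [Multiset.mem_replicate, hk]
  rw [h1]
  simp [mul_comm k 2]

theorem arith {n k : ℕ} (hk : 2 ≤ k) (hkn : 2 * k ≤ n) (h : (n - 2 * k)! * 2 ^ k * k ! = (n - 2)! * 2) :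
    n = 6 ∧ k = 3 := by
  obtain ⟨m, rfl⟩ := Nat.exists_eq_add_of_le hkn
  obtain ⟨j, rfl⟩ := Nat.exists_eq_add_of_le hk
  have e1 : 2 * (2 + j) + m - 2 * (2 + j) = m := by omega
  have e2 : 2 * (2 + j) + m - 2 = m + (2 * j + 2) := by omega
  rw [e1, e2] at h
  have h2 : m ! * (2 ^ (1 + j) * (2 + j)!) = (m + (2 * j + 2))! := by
    have : (2:ℕ) ^ (2 + j) = 2 ^ (1 + j) * 2 := by ring
    rw [this] at h
    nlinarith
  rcases j with _ | _ | j
  · exfalso
    simp only [Nat.mul_zero, Nat.zero_add, Nat.add_zero] at h2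
    have h3 : (m + 2)! = (m + 2) * ((m + 1) * m !) := by
      rw [Nat.factorial_succ, Nat.factorial_succ]
    rw [h3] at h2
    have hm := Nat.factorial_pos m
    have h4 : (2 ^ 1 * 2 ! : ℕ) = 4 := by norm_num [Nat.factorial]
    have h5 : (m + 2) * (m + 1) = 4 := by
      apply Nat.eq_of_mul_eq_mul_right hm
      rw [h4] at h2
      linarith
    have : m < 2 := by nlinarith
    interval_cases m <;> omega
  · have h3 : (m + (2 * 1 + 2))! = (m + 4) * ((m + 3) * ((m + 2) * ((m + 1) * m !))) := by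
      rw [show m + (2 * 1 + 2) = m + 4 from rfl, Nat.factorial_succ, Nat.factorial_succ, Nat.factorial_succ, Nat.factorial_succ]
    simp only [Nat.zero_add] at h2
    rw [h3] at h2
    have hm := Nat.factorial_pos m
    have h4 : (2 ^ (1 + 1) * (2 + 1)! : ℕ) = 24 := by norm_num [Nat.factorial]
    have h5 : (m + 4) * ((m + 3) * ((m + 2) * (m + 1))) = 24 := by
      apply Nat.eq_of_mul_eq_mul_right hm
      rw [h4] at h2
      linarith
    have hm0 : m = 0 := by
      by_contra hne
      have h1 : 1 ≤ m := Nat.one_le_iff_ne_zero.2 hne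
      have : 24 < (m + 4) * ((m + 3) * ((m + 2) * (m + 1))) := by
        calc 24 < 5 * (4 * (3 * 2)) := by norm_num
          _ ≤ _ := by gcongr <;> omega
      omega
    subst hm0
    exact ⟨rfl, rfl⟩
  · exfalso
    have key : ∀ j : ℕ, 2 ^ (1 + (j + 2)) * (2 + (j + 2))! < (2 * (j + 2) + 2)! := by
      intro j
      induction j with
      | zero => norm_num [Nat.factorial]
      | succ j ih =>
        have a1 : 2 * (j + 1 + 2) + 2 = 2 * (j + 2) + 2 + 1 + 1 := by ring
        have a2 : 2 + (j + 1 + 2) = 2 + (j + 2) + 1 := by ring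
        rw [a1, a2, Nat.factorial_succ (2 * (j + 2) + 2 + 1), Nat.factorial_succ (2 * (j + 2) + 2), Nat.factorial_succ (2 + (j + 2))]
        have a3 : (2:ℕ) ^ (1 + (j + 1 + 2)) = 2 * 2 ^ (1 + (j + 2)) := by ring
        rw [a3]
        have a4 : 2 * (2 + (j + 2) + 1) ≤ (2 * (j + 2) + 2 + 1 + 1) * (2 * (j + 2) + 2 + 1) := by nlinarith
        calc 2 * 2 ^ (1 + (j + 2)) * ((2 + (j + 2) + 1) * (2 + (j + 2))!)
            = (2 * (2 + (j + 2) + 1)) * (2 ^ (1 + (j + 2)) * (2 + (j + 2))!) := by ring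
          _ < (2 * (2 + (j + 2) + 1)) * (2 * (j + 2) + 2)! := Nat.mul_lt_mul_of_pos_left ih (by omega)
          _ ≤ ((2 * (j + 2) + 2 + 1 + 1) * (2 * (j + 2) + 2 + 1)) * (2 * (j + 2) + 2)! := Nat.mul_le_mul_right _ a4
          _ = _ := by ring
    have h3 := key j
    have h4 : m ! * (2 * (j + 2) + 2)! ≤ (m + (2 * (j + 2) + 2))! :=
      Nat.le_of_dvd (Nat.factorial_pos _) (Nat.factorial_mul_factorial_dvd_factorial_add _ _)
    have hm := Nat.factorial_pos m
    have h5 : m ! * (2 ^ (1 + (j + 2)) * (2 + (j + 2))!) < m ! * (2 * (j + 2) + 2)! := Nat.mul_lt_mul_of_pos_left h3 hm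
    have h6 : j + 1 + 1 = j + 2 := rfl
    rw [h6] at h2
    omega

/-- an involution of `Sym` with centraliser as large as that of a swap -/
theorem swap_or {σ : Perm Ω} (h2 : orderOf σ = 2)
    (hc : Nat.card (Subgroup.centralizer {σ}) = (Nat.card Ω - 2)! * 2) :
    σ.IsSwap ∨ (Nat.card Ω = 6 ∧ σ.cycleType = {2, 2, 2}) := by
  obtain ⟨n, hn⟩ := cycleType_prime_order (σ := σ) (by rw [h2]; exact Nat.prime_two)
  rw [h2] at hn
  have hsum : 2 * (n + 1) ≤ Nat.card Ω := by
    have h3 := sum_cycleType_le σ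
    rw [hn, Multiset.sum_replicate, smul_eq_mul] at h3
    rw [Nat.card_eq_fintype_card]; omega
  rcases Nat.eq_zero_or_pos n with rfl | hpos
  · left
    rw [isSwap_iff_cycleType, hn]; rfl
  · right
    rw [card_centralizer_inv (by omega) hn] at hc
    obtain ⟨h3, h4⟩ := arith (by omega) hsum hc
    refine ⟨h3, ?_⟩
    rw [hn, h4]; rfl

theorem card_centralizer_map (e : Perm Ω ≃* Perm Ω) (σ : Perm Ω) :
    Nat.card (Subgroup.centralizer {e σ}) = Nat.card (Subgroup.centralizer {σ}) := by
  symm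
  apply Nat.card_congr
  refine (e.toEquiv.subtypeEquiv ?_)
  intro a
  simp only [Subgroup.mem_centralizer_iff, Set.mem_singleton_iff, forall_eq, MulEquiv.toEquiv_eq_coe,
    MulEquiv.coe_toEquiv]
  rw [← map_mul, ← map_mul, e.injective.eq_iff]

theorem aut_swap (e : Perm Ω ≃* Perm Ω) {τ : Perm Ω} (hτ : τ.IsSwap) :
    (e τ).IsSwap ∨ (Nat.card Ω = 6 ∧ (e τ).cycleType = {2, 2, 2}) := by
  apply swap_or
  · rw [MulEquiv.orderOf_eq, hτ.orderOf]
  · rw [card_centralizer_map, card_centralizer_swap hτ]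

/-- conjugate elements map to conjugate elements -/
theorem aut_swap_all (e : Perm Ω ≃* Perm Ω) {τ : Perm Ω} (hτ : τ.IsSwap) (h : (e τ).IsSwap)
    (σ : Perm Ω) (hσ : σ.IsSwap) : (e σ).IsSwap := by
  have h1 : IsConj τ σ := by
    rw [isConj_iff_cycleType_eq, isSwap_iff_cycleType.1 hτ, isSwap_iff_cycleType.1 hσ]
  have h2 : IsConj (e τ) (e σ) := e.toMonoidHom.map_isConj h1
  rw [isConj_iff_cycleType_eq, isSwap_iff_cycleType.1 h] at h2
  rw [isSwap_iff_cycleType, ← h2]

theorem swap_eq_iff {a b x y : Ω} (hab : a ≠ b) (hxy : x ≠ y) :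
    swap x y = swap a b ↔ (x = a ∧ y = b) ∨ (x = b ∧ y = a) := by
  constructor
  · intro h
    have h1 : swap x y a = b := by rw [h, swap_apply_left]
    have h2 : swap x y b = a := by rw [h, swap_apply_right]
    by_cases hax : a = x
    · subst hax
      rw [swap_apply_left] at h1
      exact Or.inl ⟨rfl, h1⟩
    · by_cases hay : a = y
      · subst hay
        rw [swap_apply_right] at h1
        exact Or.inr ⟨h1, rfl⟩
      · rw [swap_apply_of_ne_of_ne hax hay] at h1
        exact absurd h1 hab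
  · rintro (⟨rfl, rfl⟩ | ⟨rfl, rfl⟩)
    · rfl
    · rw [swap_comm]

open Classical in
/-- ordered pairs whose swap lies in `K` -/
noncomputable def prs (K : Subgroup (Perm Ω)) : Finset (Ω × Ω) :=
  Finset.univ.filter (fun p => p.1 ≠ p.2 ∧ swap p.1 p.2 ∈ K)

open Classical in
noncomputable def sws (K : Subgroup (Perm Ω)) : Finset (Perm Ω) :=
  Finset.univ.filter (fun g => g.IsSwap ∧ g ∈ K)

theorem card_prs (K : Subgroup (Perm Ω)) : (prs K).card = 2 * (sws K).card := by
  classical
  have h := Finset.card_eq_sum_card_fiberwise (f := fun p : Ω × Ω => swap p.1 p.2) (s := prs K) (t := sws K) (by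
    intro p hp
    have hp' := (Finset.mem_filter.1 hp).2
    exact Finset.mem_filter.2 ⟨Finset.mem_univ _, ⟨p.1, p.2, hp'.1, rfl⟩, hp'.2⟩)
  rw [h, Finset.sum_const_nat (m := 2), mul_comm]
  intro g hg
  obtain ⟨-, ⟨a, b, hab, rfl⟩, hgK⟩ := Finset.mem_filter.1 hg
  have : (prs K).filter (fun p => swap p.1 p.2 = swap a b) = {(a, b), (b, a)} := by
    ext ⟨x, y⟩
    simp only [Finset.mem_filter, prs, Finset.mem_univ, true_and, Finset.mem_insert, Finset.mem_singleton,
      Prod.mk.injEq]
    constructor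
    · rintro ⟨⟨h1, h2⟩, h3⟩
      exact (swap_eq_iff hab h1).1 h3
    · rintro (⟨rfl, rfl⟩ | ⟨rfl, rfl⟩)
      · exact ⟨⟨hab, hgK⟩, rfl⟩
      · exact ⟨⟨hab.symm, by rw [swap_comm]; exact hgK⟩, swap_comm _ _⟩
  rw [this, Finset.card_pair]
  intro h
  exact hab (Prod.ext_iff.1 h).1

theorem card_prs_stab (ω : Ω) :
    (prs (MulAction.stabilizer (Perm Ω) ω)).card = (Nat.card Ω - 1) * (Nat.card Ω - 2) := by
  classical
  have h : prs (MulAction.stabilizer (Perm Ω) ω) = (Finset.univ.erase ω).offDiag := by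
    ext ⟨x, y⟩
    simp only [prs, Finset.mem_filter, Finset.mem_univ, true_and, Finset.mem_offDiag, Finset.mem_erase,
      and_true, MulAction.mem_stabilizer_iff, Perm.smul_def]
    constructor
    · rintro ⟨h1, h2⟩
      refine ⟨?_, ?_, h1⟩
      · rintro rfl; rw [swap_apply_left] at h2; exact h1 h2.symm
      · rintro rfl; rw [swap_apply_right] at h2; exact h1 h2
    · rintro ⟨h1, h2, h3⟩
      exact ⟨h3, swap_apply_of_ne_of_ne h1.symm h2.symm⟩
  rw [h, Finset.offDiag_card, Finset.card_erase_of_mem (Finset.mem_univ _), Finset.card_univ,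
    Nat.card_eq_fintype_card]
  set n := Fintype.card Ω
  rcases n with _ | _ | n
  · rfl
  · rfl
  · have : n + 1 + 1 - 1 = n + 1 := rfl
    rw [this]
    have h2 : n + 1 + 1 - 2 = n := rfl
    rw [h2, Nat.mul_succ, Nat.add_sub_cancel]

theorem card_sws_comap (e : Perm Ω ≃* Perm Ω) (hs : ∀ τ : Perm Ω, τ.IsSwap ↔ (e τ).IsSwap)
    (K : Subgroup (Perm Ω)) : (sws (K.comap e.toMonoidHom)).card = (sws K).card := by
  classical
  apply Finset.card_bij (fun g _ => e g)
  · intro g hg
    obtain ⟨-, h1, h2⟩ := Finset.mem_filter.1 hg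
    exact Finset.mem_filter.2 ⟨Finset.mem_univ _, (hs g).1 h1, h2⟩
  · intro a _ b _ h; exact e.injective h
  · intro g hg
    obtain ⟨-, h1, h2⟩ := Finset.mem_filter.1 hg
    refine ⟨e.symm g, Finset.mem_filter.2 ⟨Finset.mem_univ _, ?_, ?_⟩, e.apply_symm_apply g⟩
    · rw [hs, e.apply_symm_apply]; exact h1
    · change e (e.symm g) ∈ K
      rw [e.apply_symm_apply]; exact h2

/-- a subgroup with `(n-1)(n-2)` pairs is contained in a point stabiliser -/
theorem le_stab_of_prs {H : Subgroup (Perm Ω)} (hn : 3 ≤ Nat.card Ω)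
    (hc : (prs H).card = (Nat.card Ω - 1) * (Nat.card Ω - 2)) :
    ∃ z : Ω, H ≤ MulAction.stabilizer (Perm Ω) z := by
  classical
  let c : Ω → Finset Ω := fun x => Finset.univ.filter (fun y => x = y ∨ swap x y ∈ H)
  have hcs : ∀ x y, y ∈ c x ↔ (x = y ∨ swap x y ∈ H) := by
    intro x y; simp [c]
  have hself : ∀ x, x ∈ c x := fun x => (hcs x x).2 (Or.inl rfl)
  have hsymm : ∀ x y, y ∈ c x → x ∈ c y := by
    intro x y h
    rw [hcs] at h ⊢
    rcases h with h | h
    · exact Or.inl h.symm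
    · right; rw [swap_comm]; exact h
  have htrans : ∀ x y z, y ∈ c x → z ∈ c y → z ∈ c x := by
    intro x y z h1 h2
    rw [hcs] at h1 h2 ⊢
    rcases h1 with rfl | h1
    · exact h2
    · rcases h2 with rfl | h2
      · exact Or.inr h1
      · by_cases hxz : x = z
        · exact Or.inl hxz
        · right
          by_cases hxy : x = y
          · subst hxy; exact h2
          · have h3 : swap x z = swap y z * swap x y * swap y z := by
              rw [swap_mul_swap_mul_swap hxy hxz, swap_comm]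
            rw [h3]; exact H.mul_mem (H.mul_mem h2 h1) h2
  have hequiv : ∀ h ∈ H, ∀ x y, y ∈ c x → h y ∈ c (h x) := by
    intro h hh x y hy
    rw [hcs] at hy ⊢
    rcases hy with rfl | hy
    · exact Or.inl rfl
    · right
      have : swap (h x) (h y) = h * swap x y * h⁻¹ := by
        rw [← Equiv.swap_apply_apply]
      rw [this]; exact H.mul_mem (H.mul_mem hh hy) (H.inv_mem hh)
  have hcount : (prs H).card = ∑ x : Ω, ((c x).card - 1) := by
    have h1 : prs H = (Finset.univ.sigma (fun x => (c x).erase x)).map ⟨fun p => (p.1, p.2), fun a b h => by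
      rcases a with ⟨a1, a2⟩; rcases b with ⟨b1, b2⟩
      simp only [Prod.mk.injEq] at h
      obtain ⟨rfl, rfl⟩ := h; rfl⟩ := by
      ext ⟨x, y⟩
      rw [Finset.mem_map]
      constructor
      · intro h
        obtain ⟨-, h1, h2⟩ := Finset.mem_filter.1 h
        exact ⟨⟨x, y⟩, Finset.mem_sigma.2 ⟨Finset.mem_univ _, Finset.mem_erase.2 ⟨Ne.symm h1, (hcs _ _).2 (Or.inr h2)⟩⟩, rfl⟩
      · rintro ⟨⟨a, b⟩, h, hab⟩
        have h' := Finset.mem_erase.1 (Finset.mem_sigma.1 h).2
        simp only [Function.Embedding.coeFn_mk, Prod.mk.injEq] at hab h'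
        obtain ⟨rfl, rfl⟩ := hab
        exact Finset.mem_filter.2 ⟨Finset.mem_univ _, Ne.symm h'.1, ((hcs _ _).1 h'.2).resolve_left (Ne.symm h'.1)⟩
    rw [h1, Finset.card_map, Finset.card_sigma]
    apply Finset.sum_congr rfl
    intro x _
    rw [Finset.card_erase_of_mem (hself x)]
  have hle : ∀ x, (c x).card ≤ Nat.card Ω := fun x => by
    rw [Nat.card_eq_fintype_card]; exact Finset.card_le_univ _
  obtain ⟨x, hx⟩ : ∃ x, Nat.card Ω - 1 ≤ (c x).card := by
    by_contra hcon
    push Not at hcon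
    have h1 : ∑ x : Ω, ((c x).card - 1) ≤ ∑ x : Ω, (Nat.card Ω - 3) := by
      apply Finset.sum_le_sum
      intro x _
      have := hcon x
      omega
    rw [← hcount, hc, Finset.sum_const, Finset.card_univ, ← Nat.card_eq_fintype_card, smul_eq_mul] at h1
    obtain ⟨m, hm⟩ := Nat.exists_eq_add_of_le hn
    rw [hm] at h1
    have e1 : 3 + m - 1 = m + 2 := by omega
    have e2 : 3 + m - 2 = m + 1 := by omega
    have e3 : 3 + m - 3 = m := by omega
    rw [e1, e2, e3] at h1
    nlinarith
  -- full class impossible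
  have hxlt : (c x).card ≠ Nat.card Ω := by
    intro heq
    have h1 : c x = Finset.univ := by
      apply Finset.eq_univ_of_card
      rw [heq, Nat.card_eq_fintype_card]
    have h2 : ∀ y, (c y).card = Nat.card Ω := by
      intro y
      have : c y = Finset.univ := by
        rw [Finset.eq_univ_iff_forall]
        intro z
        exact htrans y x z (hsymm _ _ (by rw [h1]; exact Finset.mem_univ _)) (by rw [h1]; exact Finset.mem_univ _)
      rw [this, Finset.card_univ, Nat.card_eq_fintype_card]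
    rw [hcount] at hc
    simp only [h2] at hc
    rw [Finset.sum_const, Finset.card_univ, ← Nat.card_eq_fintype_card, smul_eq_mul] at hc
    obtain ⟨m, hm⟩ := Nat.exists_eq_add_of_le hn
    rw [hm] at hc
    have e1 : 3 + m - 1 = m + 2 := by omega
    have e2 : 3 + m - 2 = m + 1 := by omega
    rw [e1, e2] at hc
    nlinarith
  have hxc : (c x).card = Nat.card Ω - 1 := by
    have := hle x
    omega
  have hcompl : (c x)ᶜ.card = 1 := by
    rw [Finset.card_compl, hxc, ← Nat.card_eq_fintype_card]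
    omega
  obtain ⟨z, hz⟩ := Finset.card_eq_one.1 hcompl
  have hmem : ∀ y, y ∈ c x ↔ y ≠ z := by
    intro y
    have : y ∈ (c x)ᶜ ↔ y = z := by rw [hz, Finset.mem_singleton]
    rw [Finset.mem_compl] at this
    constructor
    · intro h1 h2; exact this.2 h2 h1
    · intro h1; by_contra h2; exact h1 (this.1 h2)
  refine ⟨z, fun h hh => ?_⟩
  rw [MulAction.mem_stabilizer_iff, Perm.smul_def]
  by_contra hne
  -- h z ∈ c x
  have h1 : h z ∈ c x := (hmem _).2 hne
  -- choose y ≠ z with h y ≠ z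
  obtain ⟨y, hy1, hy2⟩ : ∃ y, y ≠ z ∧ h y ≠ z := by
    by_contra hcon
    push Not at hcon
    have h3 : ∀ y, y ≠ z → y = h.symm z := fun y hy => by rw [← hcon y hy, symm_apply_apply]
    have h4 : (Finset.univ : Finset Ω) ⊆ {z, h.symm z} := by
      intro y _
      rw [Finset.mem_insert, Finset.mem_singleton]
      by_cases hyz : y = z
      · exact Or.inl hyz
      · exact Or.inr (h3 y hyz)
    have h5 := Finset.card_le_card h4
    rw [Finset.card_univ, ← Nat.card_eq_fintype_card] at h5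
    have h6 := Finset.card_le_two (a := z) (b := h.symm z)
    omega
  have h2 : h y ∈ c x := (hmem _).2 hy2
  -- h y ~ h z so y ~ z
  have h3 : h z ∈ c (h y) := htrans _ _ _ (hsymm _ _ h2) h1
  have h4 := hequiv h⁻¹ (H.inv_mem hh) _ _ h3
  rw [show h⁻¹ (h z) = z from h.symm_apply_apply z, show h⁻¹ (h y) = y from h.symm_apply_apply y] at h4
  have h5 : z ∈ c x := htrans _ _ _ ((hmem y).2 hy1) h4
  exact (hmem z).1 h5 rfl

theorem index_stab [Nonempty Ω] (ω : Ω) : (MulAction.stabilizer (Perm Ω) ω).index = Nat.card Ω := by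
  haveI : MulAction.IsPretransitive (Perm Ω) Ω := inferInstance
  exact MulAction.index_stabilizer_of_transitive (Perm Ω) ω

/-- pull back of a point stabiliser under a swap preserving automorphism -/
theorem comap_stab (hn : 3 ≤ Nat.card Ω) (e : Perm Ω ≃* Perm Ω) (hs : ∀ τ : Perm Ω, τ.IsSwap ↔ (e τ).IsSwap)
    (ω : Ω) : ∃ z : Ω, (MulAction.stabilizer (Perm Ω) ω).comap e.toMonoidHom = MulAction.stabilizer (Perm Ω) z := by
  haveI : Nonempty Ω := ⟨ω⟩
  obtain ⟨z, hz⟩ := le_stab_of_prs (H := (MulAction.stabilizer (Perm Ω) ω).comap e.toMonoidHom) hn (by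
    rw [card_prs, card_sws_comap e hs, ← card_prs, card_prs_stab])
  refine ⟨z, ?_⟩
  apply Subgroup.eq_of_le_of_card_ge hz
  have h1 : ((MulAction.stabilizer (Perm Ω) ω).comap e.toMonoidHom).index = (MulAction.stabilizer (Perm Ω) z).index := by
    rw [Subgroup.index_comap_of_surjective _ e.surjective, index_stab, index_stab]
  have h2 := Subgroup.card_mul_index ((MulAction.stabilizer (Perm Ω) ω).comap e.toMonoidHom)
  have h3 := Subgroup.card_mul_index (MulAction.stabilizer (Perm Ω) z)
  rw [h1, ← h3] at h2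
  have h4 : 0 < (MulAction.stabilizer (Perm Ω) z).index := Nat.pos_of_ne_zero Subgroup.index_ne_zero_of_finite
  exact (Nat.eq_of_mul_eq_mul_right h4 h2).ge

/-- a subgroup of index `n` with trivial core is the pull back of a point stabiliser -/
theorem exists_aut (H : Subgroup (Perm Ω)) (hi : H.index = Nat.card Ω) (hc : H.normalCore = ⊥) :
    ∃ (e : Perm Ω ≃* Perm Ω) (ω : Ω), H = (MulAction.stabilizer (Perm Ω) ω).comap e.toMonoidHom := by
  classical
  have h1 : (MulAction.toPermHom (Perm Ω) (Perm Ω ⧸ H)).ker = ⊥ := by rw [← Subgroup.normalCore_eq_ker, hc]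
  have hinj := (MonoidHom.ker_eq_bot_iff _).1 h1
  have hcard : Nat.card (Perm Ω ⧸ H) = Nat.card Ω := hi
  haveI : Finite (Perm Ω ⧸ H) := inferInstance
  let f : (Perm Ω ⧸ H) ≃ Ω := (Finite.equivFin _).trans ((finCongr hcard).trans (Finite.equivFin _).symm)
  let ψ : Perm Ω →* Perm Ω := (f.permCongrHom.toMonoidHom).comp (MulAction.toPermHom (Perm Ω) (Perm Ω ⧸ H))
  have hψ : Function.Injective ψ := f.permCongrHom.injective.comp hinj
  let e : Perm Ω ≃* Perm Ω := MulEquiv.ofBijective ψ (Finite.injective_iff_bijective.1 hψ)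
  refine ⟨e, f (QuotientGroup.mk 1), ?_⟩
  ext g
  rw [Subgroup.mem_comap, MulAction.mem_stabilizer_iff]
  have h2 : (e.toMonoidHom g) • f (QuotientGroup.mk 1) = f (g • (QuotientGroup.mk 1 : Perm Ω ⧸ H)) := by
    change f.permCongrHom (MulAction.toPermHom (Perm Ω) (Perm Ω ⧸ H) g) (f (QuotientGroup.mk 1)) = _
    simp [Equiv.permCongrHom, Equiv.permCongr_apply]
  rw [h2, f.injective.eq_iff]
  rw [← MulAction.mem_stabilizer_iff, MulAction.stabilizer_quotient]

theorem eq_stab_of_le {H : Subgroup (Perm Ω)} (hi : H.index = Nat.card Ω) {z : Ω}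
    (hz : H ≤ MulAction.stabilizer (Perm Ω) z) : H = MulAction.stabilizer (Perm Ω) z := by
  haveI : Nonempty Ω := ⟨z⟩
  apply Subgroup.eq_of_le_of_card_ge hz
  have h1 : H.index = (MulAction.stabilizer (Perm Ω) z).index := by
    rw [hi, index_stab]
  have h2 := Subgroup.card_mul_index H
  have h3 := Subgroup.card_mul_index (MulAction.stabilizer (Perm Ω) z)
  rw [h1, ← h3] at h2
  have h4 : 0 < (MulAction.stabilizer (Perm Ω) z).index := Nat.pos_of_ne_zero Subgroup.index_ne_zero_of_finite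
  exact (Nat.eq_of_mul_eq_mul_right h4 h2).ge

theorem small_fix {H : Subgroup (Perm Ω)} (hi : H.index = Nat.card Ω) (h5 : Nat.card Ω < 5) :
    ∃ z : Ω, H ≤ MulAction.stabilizer (Perm Ω) z := by
  classical
  have hcm := Subgroup.card_mul_index H
  rw [hi, Nat.card_perm] at hcm
  have h0 : Nat.card Ω ≠ 0 := by rw [← hi]; exact Subgroup.index_ne_zero_of_finite
  haveI : Nonempty Ω := by
    rw [← Finite.card_pos_iff]; omega
  have hcases : Nat.card Ω = 1 ∨ Nat.card Ω = 2 ∨ Nat.card Ω = 3 ∨ Nat.card Ω = 4 := by omega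
  rcases hcases with h | h | h | h
  · have : Subsingleton Ω := Finite.card_le_one_iff_subsingleton.1 h.le
    obtain ⟨z⟩ := ‹Nonempty Ω›
    exact ⟨z, fun g _ => Subsingleton.elim _ _⟩
  · rw [h] at hcm
    have h1 : Nat.card H = 1 := by
      have : (2 : ℕ)! = 2 := rfl
      omega
    have h2 : H = ⊥ := Subgroup.card_eq_one.1 h1
    obtain ⟨z⟩ := ‹Nonempty Ω›
    exact ⟨z, by rw [h2]; exact bot_le⟩
  · rw [h] at hcm
    have h1 : Nat.card H = 2 := by
      have : (3 : ℕ)! = 6 := rfl
      omega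
    haveI : Fact (Nat.Prime 2) := ⟨Nat.prime_two⟩
    have hP : IsPGroup 2 H := IsPGroup.of_card (n := 1) (by rw [h1, pow_one])
    obtain ⟨z, hz⟩ := hP.nonempty_fixed_point_of_prime_not_dvd_card Ω (by rw [h]; decide)
    exact ⟨z, fun g hg => hz ⟨g, hg⟩⟩
  · rw [h] at hcm
    have h1 : Nat.card H = 6 := by
      have : (4 : ℕ)! = 24 := rfl
      omega
    haveI : Fact (Nat.Prime 3) := ⟨Nat.prime_three⟩
    obtain ⟨c, hc⟩ := exists_prime_orderOf_dvd_card' (G := H) 3 (by rw [h1]; norm_num)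
    have hC : Nat.card (Subgroup.zpowers c) = 3 := by rw [Nat.card_zpowers, hc]
    have hP : IsPGroup 3 (Subgroup.zpowers c) := IsPGroup.of_card (n := 1) (by rw [hC, pow_one])
    obtain ⟨z, hz⟩ := hP.nonempty_fixed_point_of_prime_not_dvd_card Ω (by rw [h]; decide)
    have hCn : (Subgroup.zpowers c).Normal := by
      apply Subgroup.normal_of_index_eq_two
      have := Subgroup.card_mul_index (Subgroup.zpowers c)
      rw [hC, h1] at this
      omega
    have hcz : (c : Perm Ω) z = z := hz ⟨c, Subgroup.mem_zpowers c⟩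
    -- uniqueness
    have huniq : ∀ y : Ω, (c : Perm Ω) y = y → y = z := by
      intro y hy
      by_contra hne
      have ho : orderOf (c : Perm Ω) = 3 := by rw [Subgroup.orderOf_coe, hc]
      obtain ⟨n, hn⟩ := cycleType_prime_order (σ := (c : Perm Ω)) (by rw [ho]; exact Nat.prime_three)
      have h2 : (c : Perm Ω).support.card = 3 * (n + 1) := by
        rw [← sum_cycleType, hn, Multiset.sum_replicate, ho, smul_eq_mul, mul_comm]
      have h3 : (c : Perm Ω).support ⊆ ({y, z} : Finset Ω)ᶜ := by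
        intro w hw
        rw [mem_support] at hw
        rw [Finset.mem_compl, Finset.mem_insert, Finset.mem_singleton]
        rintro (rfl | rfl)
        · exact hw hy
        · exact hw hcz
      have h4 := Finset.card_le_card h3
      rw [Finset.card_compl, Finset.card_pair hne, ← Nat.card_eq_fintype_card, h, h2] at h4
      omega
    refine ⟨z, fun g hg => ?_⟩
    rw [MulAction.mem_stabilizer_iff, Perm.smul_def]
    apply huniq
    have h2 := hCn.conj_mem c (Subgroup.mem_zpowers c) (⟨g, hg⟩ : H)⁻¹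
    rw [inv_inv] at h2
    have h3 : ((⟨g, hg⟩ : H)⁻¹ * c * ⟨g, hg⟩ : H) • z = z := hz ⟨_, h2⟩
    have h4 : g⁻¹ ((c : Perm Ω) (g z)) = z := h3
    rw [Perm.inv_eq_iff_eq] at h4
    exact h4.symm ▸ rfl

theorem index_eq (h6 : Nat.card Ω ≠ 6) {H : Subgroup (Perm Ω)} (hi : H.index = Nat.card Ω) :
    ∃ z : Ω, H = MulAction.stabilizer (Perm Ω) z := by
  classical
  by_cases h5 : Nat.card Ω < 5
  · obtain ⟨z, hz⟩ := small_fix hi h5
    exact ⟨z, eq_stab_of_le hi hz⟩
  · push Not at h5
    have hc : H.normalCore = ⊥ := by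
      apply core_bot h5
      intro hle
      rcases eq_of_alt_le hle with h | h
      · have : Nontrivial Ω := Finite.one_lt_card_iff_nontrivial.1 (by omega)
        rw [h, alternatingGroup.index_eq_two] at hi
        omega
      · rw [h, Subgroup.index_top] at hi; omega
    obtain ⟨e, ω, he⟩ := exists_aut H hi hc
    have hs : ∀ τ : Perm Ω, τ.IsSwap ↔ (e τ).IsSwap := by
      intro τ
      constructor
      · intro hτ
        rcases aut_swap e hτ with h | h
        · exact h
        · exact absurd h.1 h6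
      · intro hτ
        rcases aut_swap e.symm hτ with h | h
        · rwa [e.symm_apply_apply] at h
        · exact absurd h.1 h6
    rw [he]
    exact comap_stab (by omega) e hs ω

end

end CfsgH9.SymIdx
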