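import Cfsg.Agent.H9.Dih
import Cfsg.Agent.S0282

set_option autoImplicit false

open Matrix Cfsg

namespace CfsgH9.U32

section
variable {F : Type*} [Field F]

theorem exists_w [Fintype F] (hF : Fintype.card F = 4) : ∃ w : F, w ^ 2 + w + 1 = 0 ∧ (2 : F) = 0 := by
  classical
  have h2 : (2 : F) = 0 := by
    have h4 : ((4 : ℕ) : F) = 0 := by rw [← hF]; exact Nat.cast_card_eq_zero F
    have h5 : (2 : F) * 2 = 0 := by
      have : ((4 : ℕ) : F) = 2 * 2 := by norm_num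
      rw [← this]; exact h4
    exact mul_self_eq_zero.1 h5
  obtain ⟨w, hw⟩ : ∃ w : F, w ∉ ({0, 1} : Finset F) := by
    by_contra h
    push Not at h
    have h1 : (Finset.univ : Finset F) ⊆ {0, 1} := fun x _ => h x
    have h3 := Finset.card_le_card h1
    rw [Finset.card_univ, hF] at h3
    have h4 : ({0, 1} : Finset F).card ≤ 2 := Finset.card_le_two
    omega
  simp only [Finset.mem_insert, Finset.mem_singleton, not_or] at hw
  refine ⟨w, ?_, h2⟩
  have h3 : w ^ 3 = 1 := by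
    have := FiniteField.pow_card_sub_one_eq_one w hw.1
    rwa [hF] at this
  have h4 : (w - 1) * (w ^ 2 + w + 1) = 0 := by linear_combination h3
  exact (mul_eq_zero.1 h4).resolve_left (sub_ne_zero.2 hw.2)

/-- element of `SU` from a matrix -/
def mkU (M : Matrix (Fin 3) (Fin 3) F) (hd : M.det = 1) (hM : ∀ u v, hermForm 3 F 2 (M *ᵥ u) (M *ᵥ v) = hermForm 3 F 2 u v) : SU 3 F 2 :=
  ⟨⟨M, hd⟩, hM⟩

theorem mkU_mul {M N K : Matrix (Fin 3) (Fin 3) F} {h1 h2 h3 h4 h5 h6} (h : M * N = K) :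
    (mkU M h1 h2 : SU 3 F 2) * mkU N h3 h4 = mkU K h5 h6 := by
  apply Subtype.ext
  apply Subtype.ext
  exact h

theorem mkU_inj {M N : Matrix (Fin 3) (Fin 3) F} {h1 h2 h3 h4} (h : (mkU M h1 h2 : SU 3 F 2) = mkU N h3 h4) : M = N :=
  congrArg (fun x : SU 3 F 2 => (x : SpecialLinearGroup (Fin 3) F).1) h

def mA (w : F) : Matrix (Fin 3) (Fin 3) F := !![1, 1, 1; 1, w, w ^ 2; 1, w ^ 2, w]
def mB (w : F) : Matrix (Fin 3) (Fin 3) F := !![1, 1, w ^ 2; 1, w, w; w, 1, w]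
def mC : Matrix (Fin 3) (Fin 3) F := !![0, 0, 1; 1, 0, 0; 0, 1, 0]
def mD (w : F) : Matrix (Fin 3) (Fin 3) F := !![1, 0, 0; 0, w, 0; 0, 0, w ^ 2]
def mZ (w : F) : Matrix (Fin 3) (Fin 3) F := !![w, 0, 0; 0, w, 0; 0, 0, w]

variable (w : F) (hw : w ^ 2 + w + 1 = 0) (h2 : (2 : F) = 0)
include hw h2

theorem dA : (mA w).det = 1 := by
  simp [mA, Matrix.det_fin_three]; grind
theorem dB : (mB w).det = 1 := by
  simp [mB, Matrix.det_fin_three]; grind
omit hw h2 in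
theorem dC : (mC : Matrix (Fin 3) (Fin 3) F).det = 1 := by
  simp [mC, Matrix.det_fin_three]
theorem dD : (mD w).det = 1 := by
  simp [mD, Matrix.det_fin_three]; grind
theorem dZ : (mZ w).det = 1 := by
  simp [mZ, Matrix.det_fin_three]; grind

theorem uA (u v : Fin 3 → F) : hermForm 3 F 2 (mA w *ᵥ u) (mA w *ᵥ v) = hermForm 3 F 2 u v := by
  simp [mA, hermForm, Matrix.mulVec, dotProduct, Fin.sum_univ_three]; grind
theorem uB (u v : Fin 3 → F) : hermForm 3 F 2 (mB w *ᵥ u) (mB w *ᵥ v) = hermForm 3 F 2 u v := by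
  simp [mB, hermForm, Matrix.mulVec, dotProduct, Fin.sum_univ_three]; grind
omit hw h2 in
theorem uC (u v : Fin 3 → F) : hermForm 3 F 2 (mC *ᵥ u) (mC *ᵥ v) = hermForm 3 F 2 u v := by
  simp [mC, hermForm, Matrix.mulVec, dotProduct, Fin.sum_univ_three]; ring
theorem uD (u v : Fin 3 → F) : hermForm 3 F 2 (mD w *ᵥ u) (mD w *ᵥ v) = hermForm 3 F 2 u v := by
  simp [mD, hermForm, Matrix.mulVec, dotProduct, Fin.sum_univ_three]; grind
theorem uZ (u v : Fin 3 → F) : hermForm 3 F 2 (mZ w *ᵥ u) (mZ w *ᵥ v) = hermForm 3 F 2 u v := by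
  simp [mZ, hermForm, Matrix.mulVec, dotProduct, Fin.sum_univ_three]; grind

end

end CfsgH9.U32
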