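import Cfsg.Agent.H9.U32

set_option autoImplicit false

open Matrix Cfsg

namespace CfsgH9.U32

section
variable {G : Type*} [Group G] [Finite G]

theorem q8_equiv {Q : Type*} [Group Q] [Finite Q] (h8 : Nat.card Q = 8) {a b : Q} (ha : a ^ 4 = 1) (hb : b * b = a * a) (hab : a * b * a = b)
    (hnc : a * b ≠ b * a) : Nonempty (Q ≃* QuaternionGroup 2) := by
  have hcc : ∀ i : ZMod 4, Dih.cc a i * b = b * Dih.cc a (-i) := by
    intro i
    rw [Dih.cc_neg ha]
    have h1 : ∀ n : ℕ, a ^ n * b = b * (a ^ n)⁻¹ := by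
      intro n
      rw [eq_mul_inv_iff_mul_eq]
      induction n with
      | zero => simp
      | succ n ih =>
        calc a ^ (n + 1) * b * a ^ (n + 1) = (a ^ n * a) * b * (a * a ^ n) := by
              rw [← pow_succ, ← pow_succ']
          _ = a ^ n * (a * b * a) * a ^ n := by simp only [mul_assoc]
          _ = b := by rw [hab, ih]
    exact h1 _
  let φ : QuaternionGroup 2 →* Q :=
    { toFun := fun x => match x with
        | QuaternionGroup.a i => Dih.cc a i
        | QuaternionGroup.xa i => b * Dih.cc a i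
      map_one' := Dih.cc_zero a
      map_mul' := by
        rintro (i | i) (j | j)
        · rw [QuaternionGroup.a_mul_a]; exact Dih.cc_add ha i j
        · rw [QuaternionGroup.a_mul_xa]
          change b * Dih.cc a (j - i) = Dih.cc a i * (b * Dih.cc a j)
          rw [← mul_assoc, hcc, mul_assoc, ← Dih.cc_add ha, sub_eq_neg_add]
        · rw [QuaternionGroup.xa_mul_a]
          change b * Dih.cc a (i + j) = b * Dih.cc a i * Dih.cc a j
          rw [mul_assoc, ← Dih.cc_add ha]
        · rw [QuaternionGroup.xa_mul_xa]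
          change Dih.cc a ((2 : ℕ) + j - i : ZMod 4) = b * Dih.cc a i * (b * Dih.cc a j)
          have e1 : b * Dih.cc a i * (b * Dih.cc a j) = b * (Dih.cc a i * b) * Dih.cc a j := by group
          rw [e1, hcc, ← mul_assoc, hb, mul_assoc, ← Dih.cc_add ha]
          have e2 : a * a = Dih.cc a (2 : ZMod 4) := by
            rw [← pow_two]; rfl
          rw [e2, ← Dih.cc_add ha]
          congr 1
          push_cast
          ring }
  have ha2 : a * a ≠ 1 := by
    intro h
    apply hnc
    have h1 : a⁻¹ = a := inv_eq_of_mul_eq_one_left h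
    calc a * b = a * b * a * a⁻¹ := by group
      _ = b * a := by rw [hab, h1]
  have hinj : Function.Injective φ := by
    rw [injective_iff_map_eq_one]
    have key : ∀ x : QuaternionGroup 2, x = 1 ∨ x = QuaternionGroup.a 2 ∨ x * x = QuaternionGroup.a 2 := by decide
    have h2 : φ (QuaternionGroup.a 2) = a * a := (rfl : φ (QuaternionGroup.a 2) = a ^ 2).trans (pow_two a)
    intro x hx
    rcases key x with h | h | h
    · exact h
    · rw [h, h2] at hx; exact absurd hx ha2
    · exfalso
      apply ha2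
      rw [← h2, ← h, map_mul, hx, mul_one]
  have hbij : Function.Bijective φ := by
    haveI : Fintype Q := Fintype.ofFinite Q
    rw [Fintype.bijective_iff_injective_and_card]
    refine ⟨hinj, ?_⟩
    rw [← Nat.card_eq_fintype_card (α := Q), h8, QuaternionGroup.card]
  exact ⟨(MulEquiv.ofBijective φ hbij).symm⟩

theorem q8_struct (hG : Nat.card G = 72) (a b c d : G) (hc : c ^ 3 = 1) (hd : d ^ 3 = 1) (hcd : c * d = d * c) (hdc : d ∉ Subgroup.zpowers c)
    (hc1 : c ≠ 1) (h1 : a * c = d * a) (h2 : c * a * d = a) (h3 : b * c = d * c * d * b) (h4 : b * d = d * d * c * c * b) (h5 : a ^ 4 = 1)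
    (h6 : b * b = d * d * (a * a)) (h7 : a * b * a = d * d * b) :
    ∃ (N : Subgroup G) (_ : N.Normal), Nat.card N = 9 ∧ (∀ x ∈ N, x ^ 3 = 1) ∧ Nonempty (G ⧸ N ≃* QuaternionGroup 2) := by
  classical
  have hcomm : Commute c d := hcd
  let N : Subgroup G :=
    { carrier := {x | ∃ i j : ℕ, x = c ^ i * d ^ j}
      one_mem' := ⟨0, 0, by simp⟩
      mul_mem' := by
        rintro _ _ ⟨i, j, rfl⟩ ⟨k, l, rfl⟩
        refine ⟨i + k, j + l, ?_⟩
        have : d ^ j * c ^ k = c ^ k * d ^ j := ((hcomm.pow_pow k j).symm).eq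
        calc c ^ i * d ^ j * (c ^ k * d ^ l) = c ^ i * (d ^ j * c ^ k) * d ^ l := by group
          _ = c ^ i * (c ^ k * d ^ j) * d ^ l := by rw [this]
          _ = _ := by rw [pow_add, pow_add]; group
      inv_mem' := by
        rintro _ ⟨i, j, rfl⟩
        refine ⟨2 * i, 2 * j, ?_⟩
        have e1 : (c ^ i)⁻¹ = c ^ (2 * i) := by
          rw [inv_eq_iff_mul_eq_one, ← pow_add]
          have : i + 2 * i = 3 * i := by ring
          rw [this, pow_mul, hc, one_pow]
        have e2 : (d ^ j)⁻¹ = d ^ (2 * j) := by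
          rw [inv_eq_iff_mul_eq_one, ← pow_add]
          have : j + 2 * j = 3 * j := by ring
          rw [this, pow_mul, hd, one_pow]
        rw [_root_.mul_inv_rev, e1, e2]
        exact ((hcomm.pow_pow (2 * i) (2 * j)).symm).eq }
  have hcN : c ∈ N := ⟨1, 0, by simp⟩
  have hdN : d ∈ N := ⟨0, 1, by simp⟩
  have hN3 : ∀ x ∈ N, x ^ 3 = 1 := by
    rintro _ ⟨i, j, rfl⟩
    rw [(hcomm.pow_pow i j).mul_pow, ← pow_mul, ← pow_mul, mul_comm i 3, mul_comm j 3, pow_mul, pow_mul, hc, hd, one_pow, one_pow, one_mul]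
  haveI : Fact (Nat.Prime 3) := ⟨Nat.prime_three⟩
  have hNc : Nat.card N = 9 := by
    have hpN : IsPGroup 3 N := fun x => ⟨1, Subtype.ext (hN3 x x.2)⟩
    obtain ⟨m, hm⟩ := IsPGroup.iff_card.1 hpN
    have h8 : Nat.card N ∣ 72 := by rw [← hG]; exact Subgroup.card_subgroup_dvd_card N
    rw [hm] at h8
    have hm2 : m ≤ 2 := by
      by_contra h
      have h9 : 3 ^ 3 ∣ 72 := (pow_dvd_pow 3 (by omega : 3 ≤ m)).trans h8
      norm_num at h9
    have hlt : Subgroup.zpowers c < N := by
      refine lt_of_le_of_ne (by rw [Subgroup.zpowers_le]; exact hcN) (fun h => hdc (by rw [h]; exact hdN))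
    have h10 : Nat.card (Subgroup.zpowers c) = 3 := by rw [Nat.card_zpowers]; exact orderOf_eq_prime hc hc1
    have h11 : Nat.card (Subgroup.zpowers c) < Nat.card N := by
      by_contra hcon
      exact hlt.ne (Subgroup.eq_of_le_of_card_ge hlt.le (not_lt.1 hcon))
    rw [h10, hm] at h11
    rw [hm]
    interval_cases m
    · norm_num at h11
    · norm_num at h11
    · norm_num
  -- actions
  have ac : a * c * a⁻¹ = d := by rw [h1]; group
  have ad : a * d * a⁻¹ = c⁻¹ := by
    have : a * d = c⁻¹ * a := by rw [eq_inv_mul_iff_mul_eq, ← mul_assoc]; exact h2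
    rw [this]; group
  have bc : b * c * b⁻¹ = d * c * d := by rw [h3]; group
  have bd : b * d * b⁻¹ = d * d * c * c := by rw [h4]; group
  have hgen : ∀ g : G, g * c * g⁻¹ ∈ N → g * d * g⁻¹ ∈ N → g ∈ Subgroup.normalizer (N : Set G) := by
    intro g hg1 hg2
    haveI : Finite (N : Set G) := inferInstanceAs (Finite N)
    apply Subgroup.mem_normalizer_fintype
    rintro _ ⟨i, j, rfl⟩
    have : g * (c ^ i * d ^ j) * g⁻¹ = (g * c * g⁻¹) ^ i * (g * d * g⁻¹) ^ j := by
      rw [conj_pow, conj_pow]; group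
    rw [this]
    exact N.mul_mem (N.pow_mem hg1 i) (N.pow_mem hg2 j)
  have haM : a ∈ Subgroup.normalizer (N : Set G) := hgen a (by rw [ac]; exact hdN) (by rw [ad]; exact N.inv_mem hcN)
  have hbM : b ∈ Subgroup.normalizer (N : Set G) := hgen b (by rw [bc]; exact N.mul_mem (N.mul_mem hdN hcN) hdN)
    (by rw [bd]; exact N.mul_mem (N.mul_mem (N.mul_mem hdN hdN) hcN) hcN)
  have hNab : ∀ x ∈ N, x * c = c * x := by
    rintro _ ⟨i, j, rfl⟩
    have : d ^ j * c = c * d ^ j := ((hcomm.pow_right j).symm).eq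
    rw [mul_assoc, this, ← mul_assoc, ← mul_assoc, ← pow_succ, ← pow_succ']
  have hnN : a * b * (b * a)⁻¹ ∉ N := by
    intro h
    have h8 := hNab _ h
    -- act on c
    have e1 : (b * a) * c * (b * a)⁻¹ = d * d * c * c := by
      have : (b * a) * c * (b * a)⁻¹ = b * (a * c * a⁻¹) * b⁻¹ := by group
      rw [this, ac, bd]
    have e2 : (a * b) * c * (a * b)⁻¹ = c⁻¹ * d * c⁻¹ := by
      have : (a * b) * c * (a * b)⁻¹ = a * (b * c * b⁻¹) * a⁻¹ := by group
      rw [this, bc]
      have : a * (d * c * d) * a⁻¹ = (a * d * a⁻¹) * (a * c * a⁻¹) * (a * d * a⁻¹) := by group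
      rw [this, ad, ac]
    -- n := a b (b a)⁻¹ commutes with everything in N
    have hNab2 : ∀ x ∈ N, ∀ y ∈ N, x * y = y * x := by
      rintro _ ⟨i, j, rfl⟩ _ ⟨k, l, rfl⟩
      have e3 : Commute (c ^ i * d ^ j) (c ^ k * d ^ l) := by
        apply Commute.mul_left
        · exact ((Commute.refl c).pow_pow i k).mul_right (hcomm.pow_pow i l)
        · exact (hcomm.symm.pow_pow j k).mul_right ((Commute.refl d).pow_pow j l)
      exact e3.eq
    have h9 : (a * b) * c * (a * b)⁻¹ = (b * a) * c * (b * a)⁻¹ := by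
      have hmem : (b * a) * c * (b * a)⁻¹ ∈ N := by
        rw [e1]; exact N.mul_mem (N.mul_mem (N.mul_mem hdN hdN) hcN) hcN
      have h10 := hNab2 _ h _ hmem
      have h11 : (a * b) * c * (a * b)⁻¹ = (a * b * (b * a)⁻¹) * ((b * a) * c * (b * a)⁻¹) * (a * b * (b * a)⁻¹)⁻¹ := by group
      rw [h11, h10]; group
    rw [e1, e2] at h9
    have hc3 : c * c * c = 1 := by rw [← hc, pow_succ, pow_two]
    have hc2 : c⁻¹ = c * c := inv_eq_of_mul_eq_one_left hc3
    apply hdc
    have e5 : c⁻¹ * d * c⁻¹ = d * c := by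
      rw [hc2]
      calc c * c * d * (c * c) = c * c * (d * c) * c := by simp only [mul_assoc]
        _ = c * c * (c * d) * c := by rw [hcd]
        _ = c * c * c * (d * c) := by simp only [mul_assoc]
        _ = d * c := by rw [hc3, one_mul]
    rw [e5] at h9
    have e6 : d * c = d * (d * c * c) := h9.trans (by simp only [mul_assoc])
    have e7 : c = d * c * c := mul_left_cancel e6
    have e8 : d * c = 1 := by
      have e9 : 1 * c = (d * c) * c := by rw [one_mul]; exact e7
      exact (mul_right_cancel e9).symm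
    have e9 : d = c⁻¹ := eq_inv_of_mul_eq_one_left e8
    rw [e9]
    exact Subgroup.inv_mem _ (Subgroup.mem_zpowers c)
  -- the normaliser is everything
  set M := Subgroup.normalizer (N : Set G) with hM
  have hNM : N ≤ M := Subgroup.le_normalizer
  have hMtop : M = ⊤ := by
    haveI : (N.subgroupOf M).Normal := Subgroup.normal_in_normalizer
    have e1 : Nat.card M = Nat.card (M ⧸ N.subgroupOf M) * 9 := by
      rw [Subgroup.card_eq_card_quotient_mul_card_subgroup (N.subgroupOf M), Nat.card_congr (Subgroup.subgroupOfEquivOfLe hNM).toEquiv, hNc]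
    have e2 : Nat.card (M ⧸ N.subgroupOf M) ∣ 8 := by
      have e3 : Nat.card M ∣ 72 := by rw [← hG]; exact Subgroup.card_subgroup_dvd_card M
      rw [e1] at e3
      exact Nat.dvd_of_mul_dvd_mul_right (by norm_num) e3
    have e4 : ¬ ∀ x y : M ⧸ N.subgroupOf M, x * y = y * x := by
      intro h
      have h8 := h (QuotientGroup.mk ⟨a, haM⟩) (QuotientGroup.mk ⟨b, hbM⟩)
      have h9 : (QuotientGroup.mk (⟨a, haM⟩ * ⟨b, hbM⟩ * (⟨b, hbM⟩ * ⟨a, haM⟩)⁻¹) : M ⧸ N.subgroupOf M) = 1 := by
        rw [QuotientGroup.mk_mul, QuotientGroup.mk_inv, QuotientGroup.mk_mul, QuotientGroup.mk_mul, h8, mul_inv_cancel]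
      rw [QuotientGroup.eq_one_iff, Subgroup.mem_subgroupOf] at h9
      exact hnN h9
    have e5 : Nat.card (M ⧸ N.subgroupOf M) = 8 := by
      haveI : Fact (Nat.Prime 2) := ⟨Nat.prime_two⟩
      obtain ⟨m, hm, hm'⟩ := (Nat.dvd_prime_pow Nat.prime_two (m := 3)).1 (by norm_num; exact e2)
      interval_cases m
      · exfalso
        apply e4
        have := (Nat.card_eq_one_iff_unique.1 (by rw [hm']; norm_num : Nat.card (M ⧸ N.subgroupOf M) = 1)).1
        intro x y; exact Subsingleton.elim _ _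
      · exfalso
        apply e4
        have h8 : IsCyclic (M ⧸ N.subgroupOf M) := isCyclic_of_prime_card (p := 2) (by rw [hm']; norm_num)
        letI : CommGroup (M ⧸ N.subgroupOf M) := IsCyclic.commGroup
        intro x y; exact mul_comm x y
      · exfalso
        apply e4
        letI : CommGroup (M ⧸ N.subgroupOf M) := IsPGroup.commGroupOfCardEqPrimeSq (p := 2) (by rw [hm'])
        intro x y; exact mul_comm x y
      · rw [hm']; norm_num
    apply Subgroup.eq_top_of_card_eq
    rw [e1, e5, hG]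
  have hnorm : N.Normal := Subgroup.normalizer_eq_top_iff.1 hMtop
  refine ⟨N, hnorm, hNc, hN3, ?_⟩
  refine q8_equiv (a := QuotientGroup.mk a) (b := QuotientGroup.mk b) ?_ ?_ ?_ ?_ ?_
  · have := Subgroup.card_eq_card_quotient_mul_card_subgroup N
    rw [hG, hNc] at this
    omega
  · rw [← QuotientGroup.mk_pow, h5, QuotientGroup.mk_one]
  · rw [← QuotientGroup.mk_mul, ← QuotientGroup.mk_mul, h6, QuotientGroup.mk_mul]
    rw [(QuotientGroup.eq_one_iff (d * d)).2 (N.mul_mem hdN hdN), one_mul]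
  · rw [← QuotientGroup.mk_mul, ← QuotientGroup.mk_mul, h7, QuotientGroup.mk_mul]
    rw [(QuotientGroup.eq_one_iff (d * d)).2 (N.mul_mem hdN hdN), one_mul]
  · intro h
    apply hnN
    rw [← QuotientGroup.eq_one_iff, QuotientGroup.mk_mul, QuotientGroup.mk_inv, QuotientGroup.mk_mul, QuotientGroup.mk_mul, h, mul_inv_cancel]

end

end CfsgH9.U32
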