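import Mathlib
import Cfsg.Agent.H9.UnMax

set_option autoImplicit false

/-! Unitary transvections are commutators in SU. -/

namespace CfsgH9.Un

open Matrix CfsgH9.Tv CfsgH9.SpGen CfsgH9.Witt Cfsg Cfsg.Geo
open CfsgH9.MaxSymp (inv_mulVec mulVec_inv two_nonzero)

variable {ι : Type} [Fintype ι] [DecidableEq ι] {F : Type*} [Field F]
variable {σ : F →+* F} {f : (ι → F) → (ι → F) → F}

lemma IsR.inv' (hf : Hm σ f) {g : GL ι F} {u : ι → F} {a : F} (hu : f u u = 0) (hg : IsR f g u a) : IsR f g⁻¹ u (-a) := by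
  intro x
  have h1 : (g : Matrix ι ι F) *ᵥ (x + (-a * f x u) • u) = x := by
    rw [hg, hf.add_left, hf.smul_left, hu]
    module
  conv_lhs => rw [← h1]
  exact inv_mulVec g _

lemma exists_isotropic [Finite F] (hf : Hm σ f) {W : Submodule F (ι → F)}
    (hdim : 2 * Module.finrank F W + 2 ≤ Fintype.card ι) : ∃ u ∈ perp hf W, f u u = 0 ∧ u ∉ W := by
  have h0 := finrank_perp_ge hf W
  have h1 : ¬ perp hf W ≤ W := by
    intro h
    have := Submodule.finrank_mono h
    omega
  obtain ⟨e1, he1, he11, he10⟩ := exists_in_perp hf h1 (b := 1) (map_one σ)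
  have he10 := he10 one_ne_zero
  set W' := W ⊔ Submodule.span F {e1} with hW'
  have h2 := finrank_perp_ge hf W'
  have h3 : Module.finrank F W' ≤ Module.finrank F W + 1 := by
    have := Submodule.finrank_add_le_finrank_add_finrank W (Submodule.span F {e1})
    rwa [finrank_span_singleton he10] at this
  have h4 : ¬ perp hf W' ≤ W' := by
    intro h
    have h5 : perp hf W' ≤ W := by
      intro x hx
      obtain ⟨w, hw, a, rfl⟩ := mem_sup_span.1 (h hx)
      have h6 := hx e1 (Submodule.mem_sup_right (Submodule.mem_span_singleton_self e1))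
      rw [hf.add_left, hf.swap (he1 w hw), hf.smul_left, he11, zero_add, mul_one] at h6
      rw [h6, zero_smul, add_zero]; exact hw
    have := Submodule.finrank_mono h5
    omega
  obtain ⟨e2, he2, he22, -⟩ := exists_in_perp hf h4 (b := -1) (by rw [map_neg, map_one])
  have h21 : f e2 e1 = 0 := he2 e1 (Submodule.mem_sup_right (Submodule.mem_span_singleton_self e1))
  refine ⟨e1 + e2, ?_, ?_, ?_⟩
  · exact (perp hf W).add_mem he1 (fun w hw => he2 w (Submodule.mem_sup_left hw))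
  · rw [hf.add_left, hf.add_right, hf.add_right, he11, he22, h21, hf.swap h21]; ring
  · intro h
    have := he1 _ h
    rw [hf.add_right, he11, hf.swap h21, add_zero] at this
    exact one_ne_zero this

/-- Siegel elements -/
def IsS (σ : F →+* F) (f : (ι → F) → (ι → F) → F) (g : GL ι F) (u v : ι → F) (l : F) : Prop :=
  ∀ x, (g : Matrix ι ι F) *ᵥ x = x + (l * f x u) • v - (σ l * f x v) • u

lemma exists_S (hf : Hm σ f) {u v : ι → F} (hu : f u u = 0) (hv : f v v = 0) (huv : f u v = 0) (l : F) :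
    ∃ g ∈ Tg σ f, IsS σ f g u v l := by
  obtain ⟨k, hk0, hk⟩ := hf.kappa
  have hkk : k + σ k = 0 := by rw [hk]; ring
  have hvu := hf.swap huv
  set α := σ (l * k⁻¹) with hα
  have hl : k * σ α = l := by rw [hα, hf.inv, mul_comm l, mul_inv_cancel_left₀ hk0]
  have hw : f (α • u + v) (α • u + v) = 0 := by
    rw [hf.add_left, hf.add_right, hf.add_right, hf.smul_left, hf.smul_left, hf.smul_right, hf.smul_right, hu, hv, huv, hvu]; ring
  have hk2 : -(k * α * σ α) + σ (-(k * α * σ α)) = 0 := by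
    rw [map_neg, map_mul, map_mul, hf.inv, hk]; ring
  have hk3 : -k + σ (-k) = 0 := by rw [map_neg, hk]; ring
  obtain ⟨g1, hg1⟩ := exists_R hf (Cd_of (f := f) hw hkk)
  obtain ⟨g2, hg2⟩ := exists_R hf (Cd_of (f := f) hu hk2)
  obtain ⟨g3, hg3⟩ := exists_R hf (Cd_of (f := f) hv hk3)
  refine ⟨g1 * g2 * g3, Subgroup.mul_mem _ (Subgroup.mul_mem _ (tv_mem hw hkk hg1) (tv_mem hu hk2 hg2)) (tv_mem hv hk3 hg3), ?_⟩
  intro x
  have hσl : σ l = -(k * α) := by rw [← hl, map_mul, hf.inv, hk]; ring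
  rw [Units.val_mul, Units.val_mul, ← mulVec_mulVec, ← mulVec_mulVec, hg3, hg2, hg1, hσl, ← hl]
  simp only [hf.add_left, hf.add_right, hf.smul_left, hf.smul_right, hu, hv, huv, hvu]
  module

lemma not_perp_le (hf : Hm σ f) {W : Submodule F (ι → F)} (h : 2 * Module.finrank F W < Fintype.card ι) :
    ¬ perp hf W ≤ W := by
  intro h1
  have h0 := finrank_perp_ge hf W
  have := Submodule.finrank_mono h1
  omega

lemma comm_one [Finite F] (hf : Hm σ f) (hn : 3 ≤ Fintype.card ι) {b : F} (hb0 : b ≠ 0) (hb : b * σ b ≠ 1) {v : ι → F}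
    (hv0 : v ≠ 0) (hv : f v v = 0) {c : F} (hc : c + σ c = 0) : ∃ g h : GL ι F, Iso f g ∧ Iso f h ∧
      (g : Matrix ι ι F).det = 1 ∧ (h : Matrix ι ι F).det = 1 ∧ IsR f (g * h * g⁻¹ * h⁻¹) v c := by
  have hspan : ∀ u ∈ Submodule.span F {v}, ∀ w ∈ Submodule.span F {v}, f u w = 0 := by
    intro u hu w hw
    obtain ⟨a, rfl⟩ := Submodule.mem_span_singleton.1 hu
    obtain ⟨d, rfl⟩ := Submodule.mem_span_singleton.1 hw
    rw [hf.smul_left, hf.smul_right, hv]; ring
  have hσb : σ b ≠ 0 := by rw [Ne, map_eq_zero]; exact hb0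
  obtain ⟨g0, hg0, hg0v⟩ := witt_GL hf (W := Submodule.span F {v}) (φ := b • LinearMap.id)
    (fun u hu w hw => by
      rw [hspan u hu w hw]
      exact hspan _ (Submodule.smul_mem _ _ hu) _ (Submodule.smul_mem _ _ hw))
    (fun u _ h => (smul_eq_zero.1 (show b • u = 0 from h)).resolve_left hb0)
  obtain ⟨g, hg, hgd, hgv⟩ := adjust hf (W := Submodule.span F {v}) (not_perp_le hf (by
    rw [finrank_span_singleton hv0]; omega)) hg0
  have hgv1 : (g : Matrix ι ι F) *ᵥ v = b • v := by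
    rw [hgv v (Submodule.mem_span_singleton_self v), hg0v v (Submodule.mem_span_singleton_self v)]; rfl
  set c' := c * (b * σ b - 1)⁻¹ with hc'
  have hbb : b * σ b - 1 ≠ 0 := sub_ne_zero.2 hb
  have hc'0 : c' + σ c' = 0 := by
    have h1 : σ c = - c := by linear_combination hc
    rw [hc', map_mul, map_inv₀, map_sub, map_mul, hf.inv, map_one, h1, mul_comm (σ b) b]
    ring
  obtain ⟨h, hh⟩ := exists_R hf (Cd_of (f := f) hv hc'0)
  refine ⟨g, h, hg, hh.iso hf (Cd_of hv hc'0), hgd, by rw [hh.det hf, hv, mul_zero, add_zero], ?_⟩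
  have h1 := hh.conj hf hg
  rw [hgv1] at h1
  have h2 := (h1.smul hf).mul hf (hh.inv' hf hv)
  rw [hv] at h2
  have h3 : c' * σ b * b + -c' + c' * σ b * b * -c' * 0 = c := by
    have : c' * σ b * b + -c' + c' * σ b * b * -c' * 0 = c' * (b * σ b - 1) := by ring
    rw [this, hc', mul_assoc, inv_mul_cancel₀ hbb, mul_one]
  rwa [h3] at h2

lemma comm_two [Finite F] (hf : Hm σ f) (hn : 4 ≤ Fintype.card ι) {v : ι → F}
    (hv0 : v ≠ 0) (hv : f v v = 0) {c : F} (hc : c + σ c = 0) : ∃ g h : GL ι F, g ∈ Tg σ f ∧ h ∈ Tg σ f ∧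
      IsR f (g * h * g⁻¹ * h⁻¹) v c := by
  obtain ⟨u, hu, huu, huv⟩ := exists_isotropic hf (W := Submodule.span F {v}) (by rw [finrank_span_singleton hv0]; omega)
  have huv0 := (mem_perp_one hf).1 hu
  obtain ⟨a0, ha0, ha0u⟩ := exists_perp hf huv
  have ha0v := (mem_perp_one hf).1 ha0
  obtain ⟨t, ht⟩ := exists_iso_add hf huu (z := a0) (by rw [ha0u]; exact one_ne_zero)
  set a := a0 + t • u with ha
  have hav : f a v = 0 := by rw [ha, hf.add_left, hf.smul_left, ha0v, huv0]; ring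
  have hau : f a u = 1 := by rw [ha, hf.add_left, hf.smul_left, ha0u, huu]; ring
  have hua : f u a = 1 := by rw [hf.symm, hau, map_one]
  have hva := hf.swap hav
  have hvu := hf.swap huv0
  obtain ⟨θ, hθ⟩ := hf.trace (b := 1) (map_one σ)
  obtain ⟨g, hg, hgS⟩ := exists_S hf ht hv hav 1
  obtain ⟨h, hh, hhS⟩ := exists_S hf huu hv huv0 (c * θ)
  refine ⟨g, h, hg, hh, ?_⟩
  have hσc : σ c = -c := by linear_combination hc
  -- g h = T h g
  obtain ⟨T, hT⟩ := exists_R hf (Cd_of (f := f) hv hc)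
  have h1 : g * h = T * (h * g) := by
    apply ext_mulVec
    intro x
    rw [Units.val_mul, Units.val_mul, Units.val_mul, ← mulVec_mulVec, ← mulVec_mulVec, ← mulVec_mulVec, hhS, hgS, hgS, hhS, hT]
    simp only [hf.add_left, hf.sub_left, hf.smul_left, hv, huu, ht, hav, hau, hua, hva, huv0, hvu, map_mul, map_one, hσc]
    have hθ' : σ θ = 1 - θ := by linear_combination hθ
    rw [hθ']
    module
  have h2 : g * h * g⁻¹ * h⁻¹ = T := by rw [h1]; group
  rw [h2]; exact hT

end CfsgH9.Un
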