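import Mathlib
import Cfsg.Agent.H9.UnComm
import Cfsg.Agent.H9.IwaCos

set_option autoImplicit false

/-! Simplicity of PSU. -/

namespace CfsgH9.Un

open Matrix CfsgH9.Tv CfsgH9.SpGen CfsgH9.Witt Cfsg Cfsg.Geo
open CfsgH9.MaxSymp (inv_mulVec mulVec_inv two_nonzero)
open CfsgH9.MaxRedSL (mem_stab_of mem_stab_iff)
open scoped commutatorElement

variable {ι : Type} [Fintype ι] [DecidableEq ι] {F : Type*} [Field F]
variable {σ : F →+* F} {f : (ι → F) → (ι → F) → F}

lemma exists_iso_vec [Finite F] (hf : Hm σ f) (hn : 3 ≤ Fintype.card ι) : ∃ v : ι → F, v ≠ 0 ∧ f v v = 0 := by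
  obtain ⟨u, -, h1, h2⟩ := exists_isotropic hf (W := (⊥ : Submodule F (ι → F))) (by rw [finrank_bot]; omega)
  exact ⟨u, fun h => h2 (by rw [h]; exact Submodule.zero_mem _), h1⟩

/-- transitivity of SU on isotropic vectors -/
lemma trans_iso [Finite F] (hf : Hm σ f) (hn : 3 ≤ Fintype.card ι) {u v : ι → F} (hu0 : u ≠ 0) (hv0 : v ≠ 0)
    (hu : f u u = 0) (hv : f v v = 0) : ∃ g : GL ι F, Iso f g ∧ (g : Matrix ι ι F).det = 1 ∧ (g : Matrix ι ι F) *ᵥ u = v := by
  have hP : Pres (toS hf) (fun x => f x x) (⊥ : Submodule F (ι → F)) LinearMap.id :=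
    ⟨fun _ _ _ _ => rfl, fun _ _ => rfl, fun _ _ h => h⟩
  obtain ⟨g0, hg0, -, hg0u⟩ := extend_one hf (W := (⊥ : Submodule F (ι → F))) (φ := LinearMap.id) (w := u) (w' := v)
    (fun _ _ _ _ => rfl) (fun _ _ h => h) (by simpa using hu0) (by
      intro x hx
      rw [Submodule.mem_bot] at hx
      rw [hx, map_zero]; exact hv0.symm) (by
      intro x hx
      rw [Submodule.mem_bot] at hx
      rw [hx, map_zero, hf.zero_left, hf.zero_left]) (by rw [hu, hv])
  obtain ⟨g, hg, hgd, hgv⟩ := adjust hf (W := Submodule.span F {u}) (not_perp_le hf (by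
    rw [finrank_span_singleton hu0]; omega)) hg0
  exact ⟨g, hg, hgd, by rw [hgv u (Submodule.mem_span_singleton_self u), hg0u]⟩

/-- an isometry which fixes all isotropic points commutes with transvections -/
lemma commutes [Finite F] (hf : Hm σ f) {g : GL ι F} (hg : Iso f g)
    (h : ∀ u, u ≠ 0 → f u u = 0 → ∃ c : F, (g : Matrix ι ι F) *ᵥ u = c • u) {t : GL ι F} (ht : t ∈ Tg σ f) :
    t * g = g * t := by
  obtain ⟨k, hk0, hk⟩ := hf.kappa
  induction ht using Subgroup.closure_induction with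
  | mem t ht =>
    obtain ⟨u, a, hu, ha, hr⟩ := ht
    by_cases hu0 : u = 0
    · have : t = 1 := ext_mulVec fun x => by rw [hr, hu0, Units.val_one, one_mulVec]; simp
      rw [this, one_mul, mul_one]
    obtain ⟨w, huw, hww⟩ : ∃ w, f u w = 1 ∧ f w w = 0 := by
      obtain ⟨z, hz⟩ := hf.nondeg u hu0
      obtain ⟨s, hs⟩ := exists_iso_add hf hu (hf.swap_ne hz)
      have huw0 : f u (z + s • u) ≠ 0 := by
        rw [hf.add_right, hf.smul_right, hu, mul_zero, add_zero]; exact hz
      refine ⟨(σ (f u (z + s • u)))⁻¹ • (z + s • u), ?_, ?_⟩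
      · rw [hf.smul_right, map_inv₀, hf.inv, inv_mul_cancel₀ huw0]
      · rw [hf.smul_left, hf.smul_right, hs]; ring
    have hwu : f w u = 1 := by rw [hf.symm, huw, map_one]
    have hw00 : w ≠ 0 := by
      intro h0
      rw [h0, hf.zero_right] at huw
      exact zero_ne_one huw
    have hk1 : f (u + k • w) (u + k • w) = 0 := by
      rw [hf.add_left, hf.add_right, hf.add_right, hf.smul_left, hf.smul_left, hf.smul_right, hf.smul_right, hu, hww, huw,
        hwu, hk]
      ring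
    have hk10 : u + k • w ≠ 0 := by
      intro h0
      have := congrArg (fun x => f x w) h0
      simp only [hf.add_left, hf.smul_left, huw, hww, hf.zero_left] at this
      simp at this
    obtain ⟨c1, hc1⟩ := h u hu0 hu
    obtain ⟨c2, hc2⟩ := h w hw00 hww
    obtain ⟨c3, hc3⟩ := h _ hk10 hk1
    rw [mulVec_add, mulVec_smul, hc1, hc2] at hc3
    have h1 : c1 = c3 := by
      have := congrArg (fun x => f x w) hc3
      simp only [hf.add_left, hf.smul_left, huw, hww] at this
      linear_combination this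
    have h2 : c2 = c3 := by
      have := congrArg (fun x => f x u) hc3
      simp only [hf.add_left, hf.smul_left, hu, hwu] at this
      have h3 : k * (c2 - c3) = 0 := by linear_combination this
      exact sub_eq_zero.1 ((mul_eq_zero.1 h3).resolve_left hk0)
    have h3 : c1 * σ c1 = 1 := by
      have := hg u w
      rw [hc1, hc2, hf.smul_left, hf.smul_right, huw, h2, ← h1] at this
      linear_combination this
    have h4 := hr.conj hf hg
    rw [hc1] at h4
    have h5 := h4.smul hf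
    have h6 : a * σ c1 * c1 = a := by linear_combination a * h3
    rw [h6] at h5
    have h7 := h5.unique hr
    rw [mul_inv_eq_iff_eq_mul] at h7
    exact h7.symm
  | one => rw [one_mul, mul_one]
  | mul s t _ _ hs ht => rw [mul_assoc, ht, ← mul_assoc, hs, mul_assoc]
  | inv t _ ht => rw [inv_mul_eq_iff_eq_mul, ← mul_assoc, ht, mul_assoc, mul_inv_cancel, mul_one]

section grp

variable {G : Type*} [Group G] (φ : G →* GL ι F)

/-- `G` is the special unitary group -/
structure IsSU (f : (ι → F) → (ι → F) → F) (φ : G →* GL ι F) : Prop where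
  inj : Function.Injective φ
  iso : ∀ g, Iso f (φ g)
  det : ∀ g, ((φ g : GL ι F) : Matrix ι ι F).det = 1
  surj : ∀ g : GL ι F, Iso f g → (g : Matrix ι ι F).det = 1 → ∃ x, φ x = g

variable {φ}

lemma IsSU.isK (h : IsSU f φ) : IsK f φ.range := by
  intro g
  constructor
  · rintro ⟨x, rfl⟩
    exact ⟨h.iso x, h.det x⟩
  · rintro ⟨h1, h2⟩
    exact h.surj g h1 h2

variable [Finite F]

lemma IsSU.top_of (hf : Hm σ f) (hn : 3 ≤ Fintype.card ι)
    (hn' : 4 ≤ Fintype.card ι ∨ ∃ b : F, b ≠ 0 ∧ b * σ b ≠ 1) (h : IsSU f φ) {P : Subgroup G}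
    (hP : ∀ g u a, u ≠ 0 → f u u = 0 → a + σ a = 0 → IsR f (φ g) u a → g ∈ P) : P = ⊤ := by
  rw [eq_top_iff]
  intro x _
  have h1 := gen_SU hf hn hn' (h.iso x) (h.det x)
  have h2 : Tg σ f ≤ P.map φ := by
    rw [Tg, Subgroup.closure_le]
    rintro g ⟨u, a, hu, ha, hg⟩
    by_cases hu0 : u = 0
    · have : g = 1 := ext_mulVec fun x => by rw [hg, hu0, Units.val_one, one_mulVec]; simp
      rw [this]; exact Subgroup.one_mem _
    · obtain ⟨x, rfl⟩ := h.surj g (hg.iso hf (Cd_of hu ha)) (by rw [hg.det hf, hu, mul_zero, add_zero])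
      exact ⟨x, hP x u a hu0 hu ha hg, rfl⟩
  obtain ⟨y, hy, hyx⟩ := h2 h1
  rwa [← h.inj hyx]

theorem IsSU.perfect (hf : Hm σ f) (hn : 3 ≤ Fintype.card ι)
    (hn' : 4 ≤ Fintype.card ι ∨ ∃ b : F, b ≠ 0 ∧ b * σ b ≠ 1) (h : IsSU f φ) : commutator G = ⊤ := by
  apply h.top_of hf hn hn'
  intro g u a hu0 hu ha hg
  have key : ∃ x y : GL ι F, Iso f x ∧ Iso f y ∧ (x : Matrix ι ι F).det = 1 ∧ (y : Matrix ι ι F).det = 1 ∧
      IsR f (x * y * x⁻¹ * y⁻¹) u a := by
    rcases hn' with hn' | ⟨b, hb0, hb⟩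
    · obtain ⟨x, y, hx, hy, hr⟩ := comm_two hf hn' hu0 hu ha
      exact ⟨x, y, Tg_iso hf hx, Tg_iso hf hy, Tg_det hf hx, Tg_det hf hy, hr⟩
    · exact comm_one hf hn hb0 hb hu0 hu ha
  obtain ⟨x, y, hx, hy, hxd, hyd, hr⟩ := key
  obtain ⟨x, rfl⟩ := h.surj x hx hxd
  obtain ⟨y, rfl⟩ := h.surj y hy hyd
  have h1 : g = ⁅x, y⁆ := by
    apply h.inj
    rw [commutatorElement_def, map_mul, map_mul, map_mul, map_inv, map_inv]
    exact hg.unique hr
  rw [h1]
  exact Subgroup.commutator_mem_commutator (Subgroup.mem_top _) (Subgroup.mem_top _)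

/-- root subgroup -/
def XG (hf : Hm σ f) (φ : G →* GL ι F) {v : ι → F} (hv : f v v = 0) : Subgroup G where
  carrier := {g | ∃ a, a + σ a = 0 ∧ IsR f (φ g) v a}
  one_mem' := ⟨0, by simp, by intro x; rw [map_one, Units.val_one, one_mulVec]; simp⟩
  mul_mem' := by
    rintro x y ⟨a, ha, hx⟩ ⟨b, hb, hy⟩
    refine ⟨a + b, by rw [map_add]; linear_combination ha + hb, ?_⟩
    have := hx.mul hf hy
    rw [hv, mul_zero, add_zero, ← map_mul] at this
    exact this
  inv_mem' := by
    rintro x ⟨a, ha, hx⟩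
    refine ⟨-a, by rw [map_neg]; linear_combination -ha, ?_⟩
    have := hx.inv' hf hv
    rwa [← map_inv] at this

theorem IsSU.simple (hf : Hm σ f) (hn : 3 ≤ Fintype.card ι)
    (hn' : 4 ≤ Fintype.card ι ∨ ∃ b : F, b ≠ 0 ∧ b * σ b ≠ 1) (h : IsSU f φ) : IsSimpleGroup (G ⧸ Subgroup.center G) := by
  obtain ⟨v, hv0, hv⟩ := exists_iso_vec hf hn
  obtain ⟨k, hk0, hk⟩ := hf.kappa
  have hkk : k + σ k = 0 := by rw [hk]; ring
  set W := Submodule.span F {v} with hW
  have hvW : v ∈ W := Submodule.mem_span_singleton_self v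
  have hWts : IsTotallySingularFor f W := by
    intro u hu w hw
    obtain ⟨a, rfl⟩ := Submodule.mem_span_singleton.1 hu
    obtain ⟨d, rfl⟩ := Submodule.mem_span_singleton.1 hw
    rw [hf.smul_left, hf.smul_right, hv]; ring
  have hmax := par_max hf hn hn' h.isK W (fun h0 => hv0 (by rw [h0, Submodule.mem_bot] at hvW; exact hvW)) hWts
  have hmemH : ∀ g : G, g ∈ (subspaceStabilizer W).comap φ → ∃ c : F, c ≠ 0 ∧ ((φ g : GL ι F) : Matrix ι ι F) *ᵥ v = c • v := by
    intro g hg
    have h1 : ((φ g : GL ι F) : Matrix ι ι F) *ᵥ v ∈ W := (hg v).1 hvW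
    obtain ⟨c, hc⟩ := Submodule.mem_span_singleton.1 h1
    refine ⟨c, ?_, hc.symm⟩
    rintro rfl
    rw [zero_smul] at hc
    have h2 := inv_mulVec (φ g) v
    rw [← hc, mulVec_zero] at h2
    exact hv0 h2.symm
  have hcoatom : IsCoatom ((subspaceStabilizer W).comap φ) := by
    constructor
    · intro htop
      apply hmax.1.ne
      rw [inf_eq_right]
      rintro _ ⟨x, rfl⟩
      have : x ∈ (subspaceStabilizer W).comap φ := by rw [htop]; trivial
      exact this
    · intro M hM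
      rcases hmax.2 (M.map φ) (by
        rintro _ ⟨h1, x, rfl⟩
        exact ⟨x, hM.le h1, rfl⟩) (by
        rintro _ ⟨x, -, rfl⟩
        exact ⟨x, rfl⟩) with h1 | h1
      · exfalso
        apply not_le_of_gt hM
        intro x hx
        have h2 : φ x ∈ M.map φ := ⟨x, hx, rfl⟩
        rw [h1] at h2
        exact h2.1
      · rw [eq_top_iff]
        intro x _
        have h2 : φ x ∈ M.map φ := by rw [h1]; exact ⟨x, rfl⟩
        obtain ⟨y, hy, hyx⟩ := h2
        rwa [← h.inj hyx]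
  haveI : Nontrivial G := by
    obtain ⟨g, hg⟩ := exists_R hf (Cd_of (f := f) hv hkk)
    obtain ⟨x, rfl⟩ := h.surj g (hg.iso hf (Cd_of hv hkk)) (by rw [hg.det hf, hv, mul_zero, add_zero])
    refine ⟨x, 1, ?_⟩
    rintro rfl
    obtain ⟨w, hw⟩ := hf.nondeg v hv0
    have h1 := hg w
    rw [map_one, Units.val_one, one_mulVec] at h1
    have h2 : (k * f w v) • v = 0 := by
      have := add_left_cancel (a := w) (b := 0) (c := (k * f w v) • v) (by rw [add_zero]; exact h1)
      exact this.symm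
    rcases smul_eq_zero.1 h2 with h3 | h3
    · exact mul_ne_zero hk0 (hf.swap_ne hw) h3
    · exact hv0 h3
  refine IwaCos.simple hcoatom (A := XG hf φ hv) ?_ ?_ ?_ (h.perfect hf hn hn') ?_
  · rintro a ⟨s, hs, ha⟩ b ⟨t, ht, hb⟩
    apply h.inj
    rw [map_mul, map_mul]
    have h1 := ha.mul hf hb
    have h2 := hb.mul hf ha
    rw [hv] at h1 h2
    have h3 : s + t + s * t * 0 = t + s + t * s * 0 := by ring
    rw [h3] at h1
    exact h1.unique h2
  · rintro x hx a ⟨s, hs, ha⟩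
    obtain ⟨c, hc0, hc⟩ := hmemH x hx
    have h1 := ha.conj hf (h.iso x)
    rw [hc] at h1
    have h2 := h1.smul hf
    refine ⟨s * σ c * c, ?_, ?_⟩
    · rw [map_mul, map_mul, hf.inv]; linear_combination c * σ c * hs
    · rw [map_mul, map_mul, map_inv]; exact h2
  · apply h.top_of hf hn hn'
    intro g u a hu0 hu ha hg
    obtain ⟨t, ht, htd, htv⟩ := trans_iso hf hn hv0 hu0 hv hu
    obtain ⟨t, rfl⟩ := h.surj t ht htd
    have h1 : t⁻¹ * g * t ∈ XG hf φ hv := by
      refine ⟨a, ha, ?_⟩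
      have := hg.conj hf ht.inv
      rw [← htv, inv_mulVec, inv_inv] at this
      rw [map_mul, map_mul, map_inv]; exact this
    have h2 : g = t * (t⁻¹ * g * t) * t⁻¹ := by group
    rw [h2]
    exact Subgroup.normalClosure_normal.conj_mem _ (Subgroup.subset_normalClosure h1) t
  · intro g hg
    rw [Subgroup.mem_center_iff]
    intro x
    apply h.inj
    rw [map_mul, map_mul]
    refine commutes hf (h.iso g) ?_ (gen_SU hf hn hn' (h.iso x) (h.det x))
    intro u hu0 hu
    obtain ⟨t, ht, htd, htv⟩ := trans_iso hf hn hv0 hu0 hv hu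
    obtain ⟨t, rfl⟩ := h.surj t ht htd
    obtain ⟨c, hc0, hc⟩ := hmemH _ (hg t⁻¹)
    refine ⟨c, ?_⟩
    rw [inv_inv, map_mul, map_mul, Units.val_mul, Units.val_mul, ← mulVec_mulVec, ← mulVec_mulVec, htv, map_inv] at hc
    have h3 := congrArg (fun x => ((φ t : GL ι F) : Matrix ι ι F) *ᵥ x) hc
    simp only [mulVec_inv, mulVec_smul, htv] at h3
    exact h3

end grp

end CfsgH9.Un
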