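import Cfsg.Statements.S5896
set_option autoImplicit false

namespace CfsgH9.WrLen

open scoped commutatorElement

variable {D Q : Type} [Group D] [Group Q]

/-- evaluation at `x` for a group mapping into the base. -/
def ev {K : Type} [Group K] (φ : K →* D ≀ᵣ Q) (h1 : ∀ k, (φ k).right = 1) (x : Q) : K →* D where
  toFun k := (φ k).left x
  map_one' := by simp
  map_mul' a b := by
    rw [map_mul, RegularWreathProduct.mul_left]
    simp [h1]

theorem solvable_base {K : Type} [Group K] (φ : K →* D ≀ᵣ Q) (hφ : Function.Injective φ)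
    (h1 : ∀ k, (φ k).right = 1) [hD : Group.IsSolvable D] : Group.IsSolvable K := by
  obtain ⟨n, hn⟩ := hD
  refine ⟨n, ?_⟩
  rw [eq_bot_iff]
  intro k hk
  rw [Subgroup.mem_bot]
  apply hφ
  rw [map_one]
  have h2 : ∀ x, (φ k).left x = 1 := by
    intro x
    have := map_derivedSeries_le_derivedSeries (ev φ h1 x) n (Subgroup.mem_map_of_mem _ hk)
    rw [hn, Subgroup.mem_bot] at this
    exact this
  ext x
  · rw [h2 x]; rfl
  · rw [h1 k]; rfl

theorem comm_left [DecidableEq Q] (s : D) (r : D ≀ᵣ Q) (hr : r.right ≠ 1) :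
    (⁅(⟨Pi.mulSingle 1 s, 1⟩ : D ≀ᵣ Q), r⁆).right = 1 ∧
      (⁅(⟨Pi.mulSingle 1 s, 1⟩ : D ≀ᵣ Q), r⁆).left 1 = s := by
  constructor
  · simp [commutatorElement_def]
  · rw [commutatorElement_def]
    simp [RegularWreathProduct.mul_left, RegularWreathProduct.inv_left, Pi.mulSingle_apply, hr]

theorem shift {W : Type} [Group W] (n : ℕ) :
    (derivedSeries (commutator W) n).map (commutator W).subtype ≤ derivedSeries W (n + 1) := by
  induction n with
  | zero =>
    rw [derivedSeries_zero, ← MonoidHom.range_eq_map, Subgroup.range_subtype, derivedSeries_one]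
  | succ n ih =>
    rw [derivedSeries_succ _ n, derivedSeries_succ _ (n + 1), Subgroup.map_commutator]
    exact Subgroup.commutator_mono ih ih

theorem ne_bot_of_surj {X Y : Type} [Group X] [Group Y] (f : X →* Y) (hf : Function.Surjective f)
    (n : ℕ) (h : derivedSeries Y n ≠ ⊥) : derivedSeries X n ≠ ⊥ := by
  intro h2
  apply h
  rw [← map_derivedSeries_eq hf n, h2, Subgroup.map_bot]

theorem ne_bot_of_inj {X Y : Type} [Group X] [Group Y] (f : X →* Y) (hf : Function.Injective f)
    (n : ℕ) (h : derivedSeries X n ≠ ⊥) : derivedSeries Y n ≠ ⊥ := by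
  intro h2
  apply h
  have := map_derivedSeries_le_derivedSeries f n
  rw [h2, le_bot_iff, Subgroup.map_eq_bot_iff_of_injective _ hf] at this
  exact this

end CfsgH9.WrLen
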